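import Mathlib

/-!
Classes of a quotient by the centre.
-/

set_option autoImplicit false
set_option linter.unusedSectionVars false

namespace CfsgLib.CharDegrees.ClassCount

open scoped Classical

universe u

variable {G : Type u} [Group G]

theorem isConj_central_mul {z : G} (hz : z ∈ Subgroup.center G) {g h : G} (hgh : IsConj g h) :
    IsConj (z * g) (z * h) := by
  obtain ⟨c, hc⟩ := isConj_iff.1 hgh
  refine isConj_iff.2 ⟨c, ?_⟩
  rw [← mul_assoc, Subgroup.mem_center_iff.1 hz c, ← hc]
  simp only [mul_assoc]

/-- Multiplication of classes by the centre. -/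
@[reducible] def centralAction (G : Type u) [Group G] : MulAction (Subgroup.center G) (ConjClasses G) where
  smul z C := Quotient.map (fun g => (z : G) * g) (fun _ _ h => isConj_central_mul z.2 h) C
  one_smul C := Quotient.inductionOn C fun g => congrArg ConjClasses.mk (one_mul g)
  mul_smul z w C := Quotient.inductionOn C fun g => congrArg ConjClasses.mk (mul_assoc (z : G) w g)

variable [Fintype G] {Q : Type*} [Group Q] [Finite Q] (π : G →* Q)

/-- A class of the quotient has at most `|Z|` preimages. -/
theorem card_classes_le_center_mul (hπ : Function.Surjective π) (hker : π.ker ≤ Subgroup.center G) :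
    Nat.card (ConjClasses G) ≤ Nat.card (Subgroup.center G) * Nat.card (ConjClasses Q) := by
  rw [← Nat.card_prod]
  let sec : ConjClasses Q → G := fun c => Function.surjInv hπ (Quotient.out c)
  refine Nat.card_le_card_of_surjective (fun p => ConjClasses.mk ((p.1 : G) * sec p.2)) fun C => ?_
  obtain ⟨g, rfl⟩ := ConjClasses.mk_surjective C
  set c := ConjClasses.mk (π g) with hc
  have h1 : IsConj (Quotient.out c) (π g) := ConjClasses.mk_eq_mk_iff_isConj.1 (Quotient.out_eq c)
  obtain ⟨x, hx⟩ := isConj_iff.1 h1
  obtain ⟨y, rfl⟩ := hπ x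
  have hk : g * (y * sec c * y⁻¹)⁻¹ ∈ π.ker := by
    rw [MonoidHom.mem_ker, map_mul, map_inv, map_mul, map_mul, map_inv, Function.surjInv_eq hπ, hx, mul_inv_cancel]
  refine ⟨⟨⟨_, hker hk⟩, c⟩, ConjClasses.mk_eq_mk_iff_isConj.2 ?_⟩
  show IsConj (g * (y * sec c * y⁻¹)⁻¹ * sec c) g
  have h2 : IsConj (g * (y * sec c * y⁻¹)⁻¹ * sec c) (g * (y * sec c * y⁻¹)⁻¹ * (y * sec c * y⁻¹)) :=
    isConj_central_mul (hker hk) (isConj_iff.2 ⟨y, rfl⟩)
  rwa [inv_mul_cancel_right] at h2

/-- Burnside's count of the classes of the quotient. -/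
theorem center_mul_card_classes_le_sum (hπ : Function.Surjective π) (hker : Subgroup.center G ≤ π.ker) :
    Nat.card (Subgroup.center G) * Nat.card (ConjClasses Q) ≤
      ∑ z : Subgroup.center G, (Finset.univ.filter fun C : ConjClasses G =>
        ConjClasses.mk ((z : G) * Quotient.out C) = C).card := by
  letI := centralAction G
  have key := MulAction.sum_card_fixedBy_eq_card_orbits_mul_card_group (Subgroup.center G) (ConjClasses G)
  have hfix : ∀ z : Subgroup.center G, Fintype.card (MulAction.fixedBy (ConjClasses G) z) =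
      (Finset.univ.filter fun C : ConjClasses G => ConjClasses.mk ((z : G) * Quotient.out C) = C).card := by
    intro z
    rw [← Fintype.card_subtype]
    refine Fintype.card_congr (Equiv.subtypeEquivRight fun C => ?_)
    rw [MulAction.mem_fixedBy]
    conv_lhs => arg 1; rw [← Quotient.out_eq C]
    rfl
  simp only [hfix] at key
  rw [key, Nat.card_eq_fintype_card, mul_comm]
  refine Nat.mul_le_mul_right _ ?_
  rw [← Nat.card_eq_fintype_card]
  have hwd : ∀ C D : ConjClasses G, (MulAction.orbitRel (Subgroup.center G) (ConjClasses G)) C D →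
      ConjClasses.map π C = ConjClasses.map π D := by
    intro C D h
    obtain ⟨z, rfl⟩ := MulAction.orbitRel_apply.1 h
    obtain ⟨g, rfl⟩ := ConjClasses.mk_surjective D
    show ConjClasses.mk (π ((z : G) * g)) = ConjClasses.mk (π g)
    rw [map_mul, MonoidHom.mem_ker.1 (hker z.2), one_mul]
  refine Nat.card_le_card_of_surjective (Quotient.lift (ConjClasses.map π) hwd) fun c => ?_
  obtain ⟨x, rfl⟩ := ConjClasses.mk_surjective c
  obtain ⟨g, rfl⟩ := hπ x
  exact ⟨Quotient.mk'' (ConjClasses.mk g), rfl⟩

end CfsgLib.CharDegrees.ClassCount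

namespace CfsgLib.CharDegrees.ClassCount

universe v

open scoped Classical

/-- Burnside's count, with the fixed classes bounded through an injection of the centre. -/
theorem center_mul_card_classes_le {G : Type v} [Group G] [Finite G] {Q : Type*} [Group Q] [Finite Q] (π : G →* Q)
    (hπ : Function.Surjective π) (hker : Subgroup.center G ≤ π.ker) {α : Type*} (S : Finset α)
    (ρ : Subgroup.center G → α) (hρ : Function.Injective ρ) (hS : ∀ z, ρ z ∈ S) (h : α → ℕ)
    (hle : ∀ z : Subgroup.center G, Nat.card {C : ConjClasses G // ConjClasses.mk ((z : G) * Quotient.out C) = C} ≤ h (ρ z)) :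
    Nat.card (Subgroup.center G) * Nat.card (ConjClasses Q) ≤ ∑ a ∈ S, h a := by
  haveI := Fintype.ofFinite G
  refine (center_mul_card_classes_le_sum π hπ hker).trans ?_
  refine le_trans (Finset.sum_le_sum fun z _ => ?_) ((Finset.sum_image (f := h) fun a _ b _ e => hρ e).symm.le.trans
    (Finset.sum_le_sum_of_subset fun a ha => ?_))
  · refine le_trans (le_of_eq ?_) (hle z)
    rw [Nat.card_eq_fintype_card, Fintype.card_subtype]
  · obtain ⟨z, -, rfl⟩ := Finset.mem_image.1 ha
    exact hS z

end CfsgLib.CharDegrees.ClassCount
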