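import Cfsg.Agent.Lib.CharDegrees.ClassCount.Classes
import Cfsg.Agent.Lib.CharDegrees.ClassCount.Central
import Cfsg.Agent.Lib.ClassicalLinear.Card

/-!
The final inequalities for the class numbers of `SL n q` and `PSL n q`.
-/

set_option autoImplicit false
set_option linter.unusedSectionVars false

namespace CfsgLib.CharDegrees.ClassCount

open Finset

/-- The bound for `k (SL n q)`. -/
def slSum (q n : ℕ) : ℕ := ∑ d ∈ (Nat.gcd n (q - 1)).divisors, Nat.totient d * slTerm q n d

/-- The bound for classes fixed by a central element of order `e`. -/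
def fixSum (q n e : ℕ) : ℕ := ∑ d ∈ (Nat.gcd n (q - 1)).divisors, Nat.totient d * fixTerm q n e d

theorem slTerm_le_pow {q : ℕ} (hq : 1 ≤ q) {n d : ℕ} (hd : d ≤ q - 1) (hm : 0 < n / d) :
    slTerm q n d ≤ q ^ (n / d) := by
  obtain ⟨l, hl⟩ : ∃ l, n / d = l + 1 := ⟨n / d - 1, by omega⟩
  rw [slTerm, hl, Nat.add_sub_cancel]
  refine le_trans ?_ (M_le_pow hq (l + 1) (l + 1))
  rw [M_one_eq hq]
  exact Nat.add_le_add_left (Nat.mul_le_mul_right _ hd) _

theorem slTerm_two (q : ℕ) : slTerm q 2 1 = (q - 1) + q := by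
  simp [slTerm, M_succ, M_base, U_succ, U_zero, M_zero, Finset.sum_range_succ, aC_zero, aC_succ]

theorem slTerm_three (q : ℕ) : slTerm q 3 1 = (q - 1) + (q * q + (q - 1)) := by
  simp [slTerm, M_succ, M_base, U_succ, U_zero, M_zero, Finset.sum_range_succ, aC_zero, aC_succ]

theorem slTerm_four (q : ℕ) :
    slTerm q 4 1 = ((q - 1) * q + (q - 1)) + (q * (q * q + (q - 1)) + (q - 1)) := by
  simp [slTerm, M_succ, M_base, U_succ, U_zero, M_zero, Finset.sum_range_succ, aC_zero, aC_succ]
  ring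

theorem slTerm_self (q : ℕ) {n : ℕ} (hn : 0 < n) : slTerm q n n = n := by
  simp [slTerm, Nat.div_self hn, M_base, U_zero, M_zero]

theorem sum_totient_erase_one {g : ℕ} (hg : 0 < g) : ∑ d ∈ g.divisors.erase 1, Nat.totient d = g - 1 := by
  have := add_sum_erase g.divisors Nat.totient (Nat.one_mem_divisors.2 hg.ne')
  rw [Nat.totient_one, Nat.sum_totient] at this
  omega

theorem gcd_pos' {q : ℕ} (hq : 2 ≤ q) (n : ℕ) : 0 < Nat.gcd n (q - 1) :=
  Nat.gcd_pos_of_pos_right _ (by omega)

theorem gcd_le' {q : ℕ} (hq : 2 ≤ q) (n : ℕ) : Nat.gcd n (q - 1) ≤ q - 1 :=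
  Nat.le_of_dvd (by omega) (Nat.gcd_dvd_right _ _)

theorem slSum_tail {q : ℕ} (hq : 2 ≤ q) {n : ℕ} (hn : 5 ≤ n) :
    ∑ d ∈ (Nat.gcd n (q - 1)).divisors.erase 1, Nat.totient d * slTerm q n d ≤ q ^ (n - 2) := by
  have hg := gcd_le' hq n
  calc _ ≤ ∑ d ∈ (Nat.gcd n (q - 1)).divisors.erase 1, Nat.totient d * q ^ (n / 2) := by
        refine sum_le_sum fun d hd => Nat.mul_le_mul_left _ ?_
        rw [mem_erase] at hd
        have hdn : d ∣ n := (Nat.dvd_of_mem_divisors hd.2).trans (Nat.gcd_dvd_left _ _)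
        have hd0 : 0 < d := Nat.pos_of_mem_divisors hd.2
        refine (slTerm_le_pow (by omega) ((Nat.divisor_le hd.2).trans hg)
          (Nat.div_pos (Nat.le_of_dvd (by omega) hdn) hd0)).trans ?_
        exact Nat.pow_le_pow_right (by omega) (Nat.div_le_div_left (by omega) (by norm_num))
    _ = (Nat.gcd n (q - 1) - 1) * q ^ (n / 2) := by rw [← sum_mul, sum_totient_erase_one (gcd_pos' hq n)]
    _ ≤ q * q ^ (n / 2) := Nat.mul_le_mul_right _ (by omega)
    _ = q ^ (n / 2 + 1) := (pow_succ' q _).symm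
    _ ≤ q ^ (n - 2) := Nat.pow_le_pow_right (by omega) (by omega)

theorem slSum_split {q : ℕ} (hq : 2 ≤ q) (n : ℕ) :
    slSum q n = slTerm q n 1 + ∑ d ∈ (Nat.gcd n (q - 1)).divisors.erase 1, Nat.totient d * slTerm q n d := by
  rw [slSum, ← add_sum_erase _ _ (Nat.one_mem_divisors.2 (gcd_pos' hq n).ne'), Nat.totient_one, one_mul]

theorem slSum_le {q : ℕ} (hq : 2 ≤ q) {n : ℕ} (hn : 3 ≤ n) : slSum q n ≤ q ^ (n - 1) + 3 * q ^ (n - 2) := by
  rcases (show q = 2 ∨ 3 ≤ q by omega) with rfl | hq3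
  · have h := slTerm_le_pow (q := 2) (n := n) (d := 1) (by norm_num) le_rfl (by rw [Nat.div_one]; omega)
    rw [Nat.div_one] at h
    rw [slSum, show Nat.gcd n (2 - 1) = 1 from Nat.gcd_one_right n, Nat.divisors_one, sum_singleton,
      Nat.totient_one, one_mul]
    refine h.trans ?_
    obtain ⟨m, rfl⟩ : ∃ m, n = m + 2 := ⟨n - 2, by omega⟩
    rw [show m + 2 - 1 = m + 1 by omega, Nat.add_sub_cancel, pow_succ, pow_succ]
    have : 0 ≤ (2 : ℕ) ^ m := Nat.zero_le _
    omega
  obtain ⟨r, rfl⟩ : ∃ r, q = r + 1 := ⟨q - 1, by omega⟩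
  rcases (show n = 3 ∨ n = 4 ∨ 5 ≤ n by omega) with rfl | rfl | h5
  · have hdv : Nat.gcd 3 (r + 1 - 1) = 1 ∨ Nat.gcd 3 (r + 1 - 1) = 3 :=
      (Nat.dvd_prime Nat.prime_three).1 (Nat.gcd_dvd_left 3 (r + 1 - 1))
    rcases hdv with h | h
    · rw [slSum, h, Nat.divisors_one, sum_singleton, Nat.totient_one, one_mul, slTerm_three,
        Nat.add_sub_cancel]
      norm_num
      nlinarith
    · have h3 : 3 ∣ r := by
        have := Nat.gcd_dvd_right 3 (r + 1 - 1)
        rwa [h, Nat.add_sub_cancel] at this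
      have : 3 ≤ r := Nat.le_of_dvd (by omega) h3
      rw [slSum, h, Nat.prime_three.divisors, sum_pair (by norm_num), slTerm_three, slTerm_self _ (by norm_num),
        Nat.totient_one, Nat.totient_prime Nat.prime_three, Nat.add_sub_cancel]
      norm_num
      nlinarith
  · have hdv : Nat.gcd 4 (r + 1 - 1) = 1 ∨ Nat.gcd 4 (r + 1 - 1) = 2 ∨ Nat.gcd 4 (r + 1 - 1) = 4 := by
      have h1 := Nat.gcd_dvd_left 4 (r + 1 - 1)
      have h2 := Nat.le_of_dvd (by norm_num) h1
      interval_cases h3 : Nat.gcd 4 (r + 1 - 1) <;> simp_all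
    have hr : 2 ≤ r := by omega
    have h4 : slTerm (r + 1) 4 2 ≤ (r + 1) - 1 + 2 * (r + 1) := by
      simp [slTerm, M_succ, M_base, U_succ, U_zero, M_zero, Finset.sum_range_succ, aC_zero, aC_succ]
    rcases hdv with h | h | h
    · rw [slSum, h, Nat.divisors_one, sum_singleton, Nat.totient_one, one_mul, slTerm_four, Nat.add_sub_cancel]
      norm_num
      nlinarith
    · rw [slSum, h, Nat.prime_two.divisors, sum_pair (by norm_num), slTerm_four, Nat.totient_one,
        Nat.totient_two, Nat.add_sub_cancel]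
      norm_num at h4 ⊢
      nlinarith
    · have h4r := Nat.gcd_dvd_right 4 (r + 1 - 1)
      rw [h, Nat.add_sub_cancel] at h4r
      have : 4 ≤ r := Nat.le_of_dvd (by omega) h4r
      rw [slSum, h, show (4 : ℕ).divisors = {1, 2, 4} from by decide, sum_insert (by decide),
        sum_pair (by norm_num), slTerm_four, slTerm_self _ (by norm_num), Nat.totient_one, Nat.totient_two,
        show Nat.totient 4 = 2 from by decide, Nat.add_sub_cancel]
      norm_num at h4 ⊢
      nlinarith
  · rw [slSum_split hq]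
    have hD := slSum_tail hq h5
    obtain ⟨m, rfl⟩ : ∃ m, n = m + 2 := ⟨n - 2, by omega⟩
    set A := slTerm (r + 1) (m + 2) 1 with hA
    have hA1 : r * A ≤ (r + 1) ^ (m + 2) + (r - 1) * (r + 1) ^ m := by
      have h1 := M_one_eq (show 1 ≤ r + 1 by omega) (m + 1) (m + 1)
      have h2 := M_le_pow (show 1 ≤ r + 1 by omega) (m + 1 + 1) (m + 1 + 1)
      have h3 := M_high_le hq3 (m + 2) (by omega) (m + 1) 2 le_rfl
      rw [Nat.add_sub_cancel] at h3 h1
      rw [show m + 1 + 1 = m + 2 from rfl] at h1 h2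
      rw [hA, slTerm, Nat.div_one, show m + 2 - 1 = m + 1 from rfl, one_mul, mul_add]
      have h4 : r * M (r + 1) (m + 1) 2 (m + 2) =
          M (r + 1) (m + 1) 2 (m + 2) + (r - 1) * M (r + 1) (m + 1) 2 (m + 2) := by
        obtain ⟨r', hr'⟩ : ∃ r', r = r' + 1 := ⟨r - 1, by omega⟩
        subst hr'
        rw [Nat.add_sub_cancel]; ring
      have h5 := Nat.mul_le_mul_left (r - 1) h3
      omega
    rw [show m + 2 - 1 = m + 1 from rfl]
    simp only [Nat.add_sub_cancel] at hD ⊢
    obtain ⟨s, rfl⟩ : ∃ s, r = s + 2 := ⟨r - 2, by omega⟩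
    rw [show s + 2 - 1 = s + 1 from rfl] at hA1
    refine Nat.le_of_mul_le_mul_left ?_ (show 0 < s + 2 by omega)
    rw [mul_add, mul_add]
    refine (Nat.add_le_add hA1 (Nat.mul_le_mul_left _ hD)).trans (le_of_eq ?_)
    simp only [pow_succ]
    ring

theorem two_mul_slSum_two {q : ℕ} (hq : 2 ≤ q) : 2 * slSum q 2 ≤ 5 * q := by
  rcases (Nat.dvd_prime Nat.prime_two).1 (Nat.gcd_dvd_left 2 (q - 1)) with h | h
  · rw [slSum, h, Nat.divisors_one, sum_singleton, Nat.totient_one, slTerm_two]; omega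
  · have : 2 ≤ q - 1 := Nat.le_of_dvd (by omega) (by simpa [h] using Nat.gcd_dvd_right 2 (q - 1))
    rw [slSum, h, Nat.prime_two.divisors, sum_pair (by norm_num), slTerm_two, slTerm_self _ (by norm_num),
      Nat.totient_one, Nat.totient_two]
    omega

theorem fixSum_le {q : ℕ} (hq : 2 ≤ q) {n : ℕ} (hn : 3 ≤ n) :
    ∑ e ∈ (Nat.gcd n (q - 1)).divisors.erase 1, Nat.totient e * fixSum q n e ≤ 2 * q ^ (n - 2) := by
  have hg1 := gcd_le' hq n
  rcases (show n = 3 ∨ n = 4 ∨ 5 ≤ n by omega) with rfl | rfl | h5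
  · rcases (Nat.dvd_prime Nat.prime_three).1 (Nat.gcd_dvd_left 3 (q - 1)) with h | h
    · simp [h]
    · simp [fixSum, fixTerm, h, Nat.prime_three.divisors, Nat.totient_prime Nat.prime_three]
  · have h1 := Nat.gcd_dvd_left 4 (q - 1)
    rcases (show Nat.gcd 4 (q - 1) = 1 ∨ Nat.gcd 4 (q - 1) = 2 ∨ Nat.gcd 4 (q - 1) = 4 by
      have h2 := Nat.le_of_dvd (by norm_num) h1
      interval_cases h3 : Nat.gcd 4 (q - 1) <;> simp_all) with h | h | h
    · simp [h]
    · simp [fixSum, fixTerm, h, Nat.prime_two.divisors]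
      nlinarith
    · rw [h] at hg1
      simp [fixSum, fixTerm, h, show (4 : ℕ).divisors = {1, 2, 4} from by decide,
        show Nat.totient 4 = 2 from by decide]
      have h5 : 5 * q ≤ q * q := Nat.mul_le_mul_right q (by omega)
      rw [pow_two]
      omega
  · set g := Nat.gcd n (q - 1) with hg
    have hgpos : 0 < g := gcd_pos' hq n
    have hterm : ∀ e ∈ g.divisors.erase 1, fixSum q n e ≤ q ^ (n / 2) + (g - 1) * q ^ (n / 4) := by
      intro e he
      rw [mem_erase] at he
      have he2 : 2 ≤ e := by have := Nat.pos_of_mem_divisors he.2; omega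
      rw [fixSum, ← hg, ← add_sum_erase _ _ (Nat.one_mem_divisors.2 hgpos.ne'), Nat.totient_one, one_mul]
      refine Nat.add_le_add ?_ ?_
      · rw [fixTerm]
        split_ifs
        · exact Nat.pow_le_pow_right (by omega) (Nat.div_le_div_left (by omega) (by norm_num))
        · exact Nat.zero_le _
      · rw [← sum_totient_erase_one hgpos, sum_mul]
        refine sum_le_sum fun d hd => Nat.mul_le_mul_left _ ?_
        rw [mem_erase] at hd
        have hd2 : 2 ≤ d := by have := Nat.pos_of_mem_divisors hd.2; omega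
        rw [fixTerm]
        split_ifs
        · have : 2 * 2 ≤ d * e := Nat.mul_le_mul hd2 he2
          exact Nat.pow_le_pow_right (by omega) (Nat.div_le_div_left (by omega) (by norm_num))
        · exact Nat.zero_le _
    calc _ ≤ ∑ e ∈ g.divisors.erase 1, Nat.totient e * (q ^ (n / 2) + (g - 1) * q ^ (n / 4)) :=
          sum_le_sum fun e he => Nat.mul_le_mul_left _ (hterm e he)
      _ = (g - 1) * (q ^ (n / 2) + (g - 1) * q ^ (n / 4)) := by rw [← sum_mul, sum_totient_erase_one hgpos]
      _ ≤ q * (q ^ (n / 2) + q * q ^ (n / 4)) :=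
          Nat.mul_le_mul (by omega) (Nat.add_le_add_left (Nat.mul_le_mul_right _ (by omega)) _)
      _ = q ^ (n / 2 + 1) + q ^ (n / 4 + 2) := by ring
      _ ≤ q ^ (n - 2) + q ^ (n - 2) :=
          Nat.add_le_add (Nat.pow_le_pow_right (by omega) (by omega)) (Nat.pow_le_pow_right (by omega) (by omega))
      _ = _ := (two_mul _).symm

section PSL

open Polynomial Matrix

universe u

variable {F : Type u} [Field F] [Fintype F] [DecidableEq F] {n : ℕ}

theorem card_orderOf_le (e : ℕ) (he : 0 < e) (S : Finset F) :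
    (S.filter fun r => orderOf r = e).card ≤ Nat.totient e := by
  rcases (S.filter fun r => orderOf r = e).eq_empty_or_nonempty with h | ⟨ζ, hζ⟩
  · simp [h]
  · have hp : IsPrimitiveRoot ζ e := (mem_filter.1 hζ).2 ▸ IsPrimitiveRoot.orderOf ζ
    rw [← IsPrimitiveRoot.card_primitiveRoots hp]
    exact card_le_card fun r hr => (mem_primitiveRoots he).2 ((mem_filter.1 hr).2 ▸ IsPrimitiveRoot.orderOf r)

open scoped Classical in
theorem card_fixed_classes_le (hn : 0 < n) (z : Matrix.SpecialLinearGroup (Fin n) F)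
    (r : F) (hr : r ^ n = 1) (hz : (z : Matrix (Fin n) (Fin n) F) = r • 1) :
    Nat.card {C : ConjClasses (Matrix.SpecialLinearGroup (Fin n) F) //
        ConjClasses.mk (z * Quotient.out C) = C} ≤
      ∑ t ∈ (sgoods F n).filter (fun t => ∀ j, (t j).scaleRoots r = t j), wt n t := by
  have hr0 : r ≠ 0 := fun h => by rw [h, zero_pow (by omega)] at hr; exact zero_ne_one hr
  rw [Nat.card_eq_fintype_card, Fintype.card_subtype]
  refine le_trans (card_le_card fun C hC => ?_) (card_classes_SL_sub_le _)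
  rw [mem_filter] at hC ⊢
  refine ⟨hC.1, fun j => ?_⟩
  have h1 : IsConj (z * Quotient.out C) (Quotient.out C) :=
    ConjClasses.mk_eq_mk_iff_isConj.1 (hC.2.trans (Quotient.out_eq C).symm)
  obtain ⟨c, hc⟩ := isConj_iff.1 h1
  set g := (Quotient.out C : Matrix.SpecialLinearGroup (Fin n) F) with hg
  have hc' := congrArg (fun x : Matrix.SpecialLinearGroup (Fin n) F => (x : Matrix (Fin n) (Fin n) F))
    (mul_inv_eq_iff_eq_mul.1 hc)
  simp only [Matrix.SpecialLinearGroup.coe_mul, hz, Matrix.smul_mul, Matrix.one_mul] at hc'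
  have hm := mt_conj (A := r • (g : Matrix (Fin n) (Fin n) F)) (B := (g : Matrix (Fin n) (Fin n) F))
    (Matrix.SpecialLinearGroup.toGL c) hc'
  rw [← mt_smul hr0]
  exact congrFun hm j

set_option maxHeartbeats 1000000 in
open scoped Classical in
/-- The classes of `PSL n q`. -/
theorem psl_bound (hn : 0 < n) (sl : ℕ)
    (hsl : ∑ t ∈ sgoods F n, wt n t ≤ sl) (fix : ℕ → ℕ)
    (hfix : ∀ r : F, 1 < orderOf r → orderOf r ∣ n →
      ∑ t ∈ (sgoods F n).filter (fun t => ∀ j, (t j).scaleRoots r = t j), wt n t ≤ fix (orderOf r)) :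
    Nat.gcd n (Fintype.card F - 1) * Nat.card (ConjClasses (Matrix.ProjectiveSpecialLinearGroup (Fin n) F)) ≤
      sl + ∑ e ∈ (Nat.gcd n (Fintype.card F - 1)).divisors.erase 1, Nat.totient e * fix e := by
  classical
  haveI : Nonempty (Fin n) := ⟨⟨0, hn⟩⟩
  set G := Matrix.SpecialLinearGroup (Fin n) F
  set g := Nat.gcd n (Fintype.card F - 1) with hgdef
  have hgpos : 0 < g := Nat.gcd_pos_of_pos_right _ (by have := Fintype.one_lt_card (α := F); omega)
  have hc : Nat.card (Subgroup.center G) = g := by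
    rw [ClassicalLinear.card_center_SL, Fintype.card_fin]
  have hsc : ∀ z : Subgroup.center G, ∃ r : F, r ^ n = 1 ∧ ((z : G) : Matrix (Fin n) (Fin n) F) = r • 1 := by
    intro z
    obtain ⟨r, h1, h2⟩ := Matrix.SpecialLinearGroup.mem_center_iff.1 z.2
    rw [Fintype.card_fin] at h1
    exact ⟨r, h1, by rw [← h2, Matrix.scalar_apply, Matrix.smul_one_eq_diagonal]⟩
  choose ρ hρ1 hρ2 using hsc
  have hρ : Function.Injective ρ := fun a b h =>
    Subtype.ext (Subtype.ext ((hρ2 a).trans (h ▸ (hρ2 b).symm)))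
  let H : ℕ → ℕ := fun e => if e = 1 then sl else fix e
  have hord : ∀ z, orderOf (ρ z) ∈ g.divisors := fun z => by
    refine Nat.mem_divisors.2 ⟨Nat.dvd_gcd (orderOf_dvd_of_pow_eq_one (hρ1 z))
      (orderOf_dvd_of_pow_eq_one (FiniteField.pow_card_sub_one_eq_one _ fun h => ?_)), hgpos.ne'⟩
    have := hρ1 z
    rw [h, zero_pow (by omega)] at this
    exact zero_ne_one this
  have hle : ∀ z : Subgroup.center G,
      Nat.card {C : ConjClasses G // ConjClasses.mk ((z : G) * Quotient.out C) = C} ≤ H (orderOf (ρ z)) := by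
    intro z
    refine (card_fixed_classes_le hn (z : G) (ρ z) (hρ1 z) (hρ2 z)).trans ?_
    simp only [H]
    split_ifs with h1
    · exact (sum_le_sum_of_subset (filter_subset _ _)).trans hsl
    · refine hfix _ ?_ (orderOf_dvd_of_pow_eq_one (hρ1 z))
      have := Nat.pos_of_mem_divisors (hord z)
      omega
  have hB := center_mul_card_classes_le (QuotientGroup.mk' (Subgroup.center G))
    (QuotientGroup.mk'_surjective _) (by rw [QuotientGroup.ker_mk'])
    (Finset.univ.filter fun r : F => orderOf r ∈ g.divisors) ρ hρ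
    (fun z => mem_filter.2 ⟨mem_univ _, hord z⟩) (fun r => H (orderOf r)) hle
  rw [hc] at hB
  refine hB.trans ?_
  rw [← sum_fiberwise_of_maps_to (t := g.divisors) (g := fun r : F => orderOf r) (fun r hr => (mem_filter.1 hr).2)]
  rw [← add_sum_erase _ _ (Nat.one_mem_divisors.2 hgpos.ne')]
  have step : ∀ e ∈ g.divisors, ∑ r ∈ (univ.filter fun r : F => orderOf r ∈ g.divisors).filter (fun r => orderOf r = e), H (orderOf r) ≤
      Nat.totient e * H e := by
    intro e he
    rw [sum_congr rfl fun r hr => by rw [(mem_filter.1 hr).2], sum_const, smul_eq_mul]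
    exact Nat.mul_le_mul_right _ (card_orderOf_le e (Nat.pos_of_mem_divisors he) _)
  refine Nat.add_le_add ?_ (sum_le_sum fun e he => ?_)
  · refine (step 1 (Nat.one_mem_divisors.2 hgpos.ne')).trans ?_
    simp [H]
  · refine (step e (mem_of_mem_erase he)).trans ?_
    simp only [H]
    rw [if_neg (ne_of_mem_erase he)]

theorem hord_of_orderOf {r : F} : ∀ i : ℕ, r ^ i = 1 → orderOf r ∣ i := fun _ h => orderOf_dvd_of_pow_eq_one h

/-- The determinant one families in rank two. -/
theorem card_sgoods_two : (sgoods F 2).card ≤ Fintype.card F + 2 := by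
  classical
  let A : Finset (F[X] × F[X]) := ((mon F (1 + 1)).filter fun f => (zOf f * 1) ^ 1 = 1) ×ˢ {1}
  let B : Finset (F[X] × F[X]) := {1} ×ˢ ((mon F (0 + 1)).filter fun f => (zOf f * 1) ^ 2 = 1)
  have hA := card_det_heads (F := F) one_pos 1 1
  have hB := card_det_heads (F := F) (d := 2) (by norm_num) 0 1
  refine le_trans (card_le_card_of_injOn (t := A ∪ B) (fun t => (t 1, t 2)) (fun t ht => ?_) (fun a ha b hb h => ?_))
    ((card_union_le _ _).trans ?_)
  · obtain ⟨hg, hz⟩ := mem_sgoods.1 ht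
    have hw := hg.weight
    simp only [zT, show Icc 1 2 = ({1, 2} : Finset ℕ) from rfl, sum_pair (show (1 : ℕ) ≠ 2 by norm_num),
      prod_pair (show (1 : ℕ) ≠ 2 by norm_num)] at hw hz
    rw [mem_coe, mem_union]
    rcases (show (t 2).natDegree = 0 ∨ (t 1).natDegree = 0 by omega) with h | h
    · have e := eq_one_of_monic_natDegree_zero (hg.monic 2) h
      left
      rw [e, zOf_one, one_pow, mul_one] at hz
      simp only [A, mem_product, mem_singleton, mem_filter, mem_mon, mul_one, pow_one]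
      exact ⟨⟨⟨hg.monic 1, by omega, hg.coeff 1⟩, by simpa using hz⟩, e⟩
    · have e := eq_one_of_monic_natDegree_zero (hg.monic 1) h
      right
      rw [e, zOf_one, one_pow, one_mul] at hz
      simp only [B, mem_product, mem_singleton, mem_filter, mem_mon, mul_one]
      exact ⟨e, ⟨hg.monic 2, by omega, hg.coeff 2⟩, hz⟩
  · rw [mem_coe, mem_sgoods] at ha hb
    funext j
    rw [Prod.mk.injEq] at h
    rcases (show j = 1 ∨ j = 2 ∨ (j = 0 ∨ 2 < j) by omega) with rfl | rfl | hj
    · exact h.1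
    · exact h.2
    · rw [ha.1.out j hj, hb.1.out j hj]
  · simp only [A, B, card_product, card_singleton, mul_one, one_mul] at hA hB ⊢
    simp only [pow_one, pow_zero, one_mul, mul_one] at hA hB ⊢
    omega

theorem sum_wt_two : ∑ t ∈ sgoods F 2, wt 2 t ≤ Fintype.card F + 2 + (if Nat.gcd 2 (Fintype.card F - 1) = 1 then 0 else 2) := by
  classical
  rw [sum_wt_eq _ fun t ht => (mem_sgoods.1 ht).1]
  have h1 := (card_filter_le (sgoods F 2) (fun t => SuppDvd 1 t)).trans card_sgoods_two
  rcases (Nat.dvd_prime Nat.prime_two).1 (Nat.gcd_dvd_left 2 (Fintype.card F - 1)) with h | h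
  · rw [if_pos h, h, Nat.divisors_one, sum_singleton, Nat.totient_one, one_mul]; omega
  · have h2 : ((sgoods F 2).filter fun t => SuppDvd 2 t).card ≤ 2 := by
      refine le_trans (card_le_card fun t ht => ?_) ((card_supp_det (F := F) (d := 2) (by norm_num) (l := 0) rfl).trans ?_)
      · simp only [sgoods, mem_filter] at ht ⊢; tauto
      · simp [M_base, U_zero, M_zero]
    rw [if_neg (by omega), h, Nat.prime_two.divisors, sum_pair (by norm_num), Nat.totient_one, Nat.totient_two]
    omega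

open scoped Classical in
theorem sum_fixed_two {r : F} (hr : orderOf r = 2) :
    ∑ t ∈ (sgoods F 2).filter (fun t => ∀ j, (t j).scaleRoots r = t j), wt 2 t ≤ 1 := by
  classical
  have key : ∀ t ∈ (sgoods F 2).filter (fun t => ∀ j, (t j).scaleRoots r = t j),
      t 1 = Polynomial.X ^ 2 + 1 ∧ t 2 = 1 := by
    intro t ht
    obtain ⟨hs, hinv⟩ := mem_filter.1 ht
    obtain ⟨hg, hz⟩ := mem_sgoods.1 hs
    have ev : ∀ j, ∃ Q : F[X], t j = Polynomial.expand F 2 Q ∧ Q.Monic ∧ Q.coeff 0 ≠ 0 ∧
        (t j).natDegree = 2 * Q.natDegree := fun j =>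
      exists_expand_of_scaleRoots (by norm_num) (hr ▸ hord_of_orderOf) (hg.monic j) (hg.coeff j) (hinv j)
    obtain ⟨Q1, e1, m1, -, d1⟩ := ev 1
    obtain ⟨Q2, -, -, -, d2⟩ := ev 2
    have hw := hg.weight
    simp only [zT, show Icc 1 2 = ({1, 2} : Finset ℕ) from rfl, sum_pair (show (1 : ℕ) ≠ 2 by norm_num),
      prod_pair (show (1 : ℕ) ≠ 2 by norm_num)] at hw hz
    have h2 : t 2 = 1 := eq_one_of_monic_natDegree_zero (hg.monic 2) (by omega)
    refine ⟨?_, h2⟩
    rw [h2, zOf_one, one_pow, mul_one, pow_one, zOf, show (t 1).natDegree = 2 by omega, neg_one_sq, one_mul,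
      e1, coeff_expand (by norm_num : (0 : ℕ) < 2), if_pos (dvd_zero 2), Nat.zero_div] at hz
    rw [e1, m1.eq_X_add_C (show Q1.natDegree = 1 by omega), hz]
    simp
  have hcard : ((sgoods F 2).filter fun t => ∀ j, (t j).scaleRoots r = t j).card ≤ 1 := by
    refine card_le_one.2 fun a ha b hb => ?_
    funext j
    rcases (show j = 1 ∨ j = 2 ∨ (j = 0 ∨ 2 < j) by omega) with rfl | rfl | hj
    · rw [(key a ha).1, (key b hb).1]
    · rw [(key a ha).2, (key b hb).2]
    · rw [(mem_sgoods.1 (mem_filter.1 ha).1).1.out j hj, (mem_sgoods.1 (mem_filter.1 hb).1).1.out j hj]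
  refine le_trans (sum_le_sum (g := fun _ => 1) fun t ht => ?_) (by simpa using hcard)
  have h1 : t 1 ≠ 1 := by
    rw [(key t ht).1]
    intro h
    have := congrArg Polynomial.natDegree h
    rw [← C_1, natDegree_X_pow_add_C, natDegree_C] at this
    omega
  have h2 := ((dvd_wt_iff (mem_sgoods.1 (mem_filter.1 ht).1).1 _).1 dvd_rfl).2 1 h1
  exact Nat.le_of_dvd Nat.one_pos h2

theorem card_classes_PSL_le (hn : 2 ≤ n) :
    Nat.gcd n (Fintype.card F - 1) * Nat.card (ConjClasses (Matrix.ProjectiveSpecialLinearGroup (Fin n) F)) ≤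
      Fintype.card F ^ (n - 1) + 5 * Fintype.card F ^ (n - 2) := by
  classical
  have hq : 2 ≤ Fintype.card F := Fintype.one_lt_card
  rcases (show n = 2 ∨ 3 ≤ n by omega) with rfl | h3
  · refine (psl_bound (F := F) (n := 2) (by norm_num) _ sum_wt_two (fun _ => 1) fun r h1 h2 => ?_).trans ?_
    · have := Nat.le_of_dvd (by norm_num) h2
      exact sum_fixed_two (by omega)
    · have hsum : ∑ e ∈ (Nat.gcd 2 (Fintype.card F - 1)).divisors.erase 1, Nat.totient e * 1 =
          Nat.gcd 2 (Fintype.card F - 1) - 1 := by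
        simp only [mul_one]; exact sum_totient_erase_one (gcd_pos' hq 2)
      rw [hsum]
      have := Nat.le_of_dvd (by norm_num) (Nat.gcd_dvd_left 2 (Fintype.card F - 1))
      split_ifs <;> simp <;> omega
  · have hsl : ∑ t ∈ sgoods F n, wt n t ≤ slSum (Fintype.card F) n := by
      rw [sum_wt_eq _ fun t ht => (mem_sgoods.1 ht).1]
      refine sum_le_sum fun d hd => Nat.mul_le_mul_left _ ?_
      have hdn : d ∣ n := (Nat.dvd_of_mem_divisors hd).trans (Nat.gcd_dvd_left _ _)
      have hm : 0 < n / d := Nat.div_pos (Nat.le_of_dvd (by omega) hdn) (Nat.pos_of_mem_divisors hd)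
      have h := card_supp_det (F := F) (n := n) (Nat.pos_of_mem_divisors hd) (l := n / d - 1)
        (by rw [Nat.sub_add_cancel hm, Nat.mul_div_cancel' hdn])
      rw [Nat.sub_add_cancel hm] at h
      refine le_trans (card_le_card fun t ht => ?_) h
      simp only [sgoods, mem_filter] at ht ⊢; tauto
    refine (psl_bound (F := F) (by omega) _ hsl (fixSum (Fintype.card F) n) fun r h1 _ =>
      card_fixed_le (by omega) hord_of_orderOf).trans ?_
    have a := slSum_le hq h3
    have b := fixSum_le hq h3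
    omega

theorem pow_lt_card_classes_SL (hn : 2 ≤ n) :
    Fintype.card F ^ (n - 1) < Nat.card (ConjClasses (Matrix.SpecialLinearGroup (Fin n) F)) := by
  classical
  haveI : Fact (ringChar F).Prime := ⟨CharP.char_is_prime F _⟩
  set p := ringChar F with hp
  have hP := SemisimpleClasses.card_classes_SL (F := F) (p := p) (n := n)
  obtain ⟨m, rfl⟩ : ∃ m, n = m + 1 := ⟨n - 1, by omega⟩
  have h1 : Nat.card {a : F // a = (-1) ^ (m + 1)} = 1 := by simp
  rw [SemisimpleClasses.card_monicWith m (fun a : F => a = (-1) ^ (m + 1)), Nat.card_eq_fintype_card (α := F),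
    h1, one_mul] at hP
  rw [Nat.add_sub_cancel, ← hP]
  let i : Fin (m + 1) := ⟨0, by omega⟩
  let j : Fin (m + 1) := ⟨1, by omega⟩
  have hij : i ≠ j := fun h => by simp [i, j, Fin.ext_iff] at h
  let u : Matrix.SpecialLinearGroup (Fin (m + 1)) F := ⟨Matrix.transvection i j 1, Matrix.det_transvection_of_ne i j hij 1⟩
  have hu : u ^ p = 1 := by
    have h : ∀ k : ℕ, ((u ^ k : Matrix.SpecialLinearGroup (Fin (m + 1)) F) : Matrix (Fin (m + 1)) (Fin (m + 1)) F) =
        Matrix.transvection i j (k : F) := by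
      intro k
      induction k with
      | zero => simp
      | succ k ih =>
        rw [pow_succ, Matrix.SpecialLinearGroup.coe_mul, ih]
        show _ * Matrix.transvection i j 1 = _
        rw [Matrix.transvection_mul_transvection_same i j hij, Nat.cast_succ]
    refine Subtype.ext ?_
    rw [h, CharP.cast_eq_zero]
    simp
  have hu1 : u ≠ 1 := fun h => by
    have := congrFun (congrFun (congrArg Subtype.val h) i) j
    simp [u, Matrix.transvection, hij] at this
  have ho : orderOf u = p := orderOf_eq_prime hu hu1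
  let f : SemisimpleClasses.PClasses (Matrix.SpecialLinearGroup (Fin (m + 1)) F) p →
      ConjClasses (Matrix.SpecialLinearGroup (Fin (m + 1)) F) := Subtype.val
  haveI := Fintype.ofFinite (SemisimpleClasses.PClasses (Matrix.SpecialLinearGroup (Fin (m + 1)) F) p)
  rw [Nat.card_eq_fintype_card, Nat.card_eq_fintype_card]
  refine Fintype.card_lt_of_injective_of_notMem f Subtype.val_injective (b := ConjClasses.mk u) ?_
  rintro ⟨⟨c, g, hg, hgo⟩, rfl⟩
  obtain ⟨w, hw⟩ := isConj_iff.1 (ConjClasses.mk_eq_mk_iff_isConj.1 hg)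
  have : orderOf u = orderOf g := by
    rw [← hw]
    exact orderOf_injective (MulAut.conj w).toMonoidHom (MulAut.conj w).injective g
  rw [ho] at this
  rw [← this, Nat.coprime_self] at hgo
  exact (Fact.out : p.Prime).ne_one hgo

theorem card_classes_GL_ge (hn : 1 ≤ n) :
    (Fintype.card F - 1) * Fintype.card F ^ (n - 1) ≤ Nat.card (ConjClasses (GL (Fin n) F)) := by
  haveI : Fact (ringChar F).Prime := ⟨CharP.char_is_prime F _⟩
  have hP := SemisimpleClasses.card_classes_GL (F := F) (p := ringChar F) (n := n)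
  obtain ⟨m, rfl⟩ : ∃ m, n = m + 1 := ⟨n - 1, by omega⟩
  have h1 : Nat.card {a : F // a ≠ 0} = Fintype.card F - 1 := by
    rw [Nat.card_eq_fintype_card, Fintype.card_subtype_compl, Fintype.card_subtype_eq]
  rw [SemisimpleClasses.card_monicWith m (fun a : F => a ≠ 0), Nat.card_eq_fintype_card (α := F), h1] at hP
  rw [Nat.add_sub_cancel, ← hP]
  exact Nat.card_le_card_of_injective Subtype.val Subtype.val_injective

end PSL

end CfsgLib.CharDegrees.ClassCount
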