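import Cfsg.Agent.Lib.CharDegrees.ClassCount.Tuples

/-!
Bounds on the numbers of conjugacy classes by sums over admissible families.
-/

set_option autoImplicit false
set_option linter.unusedSectionVars false

namespace CfsgLib.CharDegrees.ClassCount

open Polynomial Matrix Finset

universe u

variable {F : Type u} [Field F] [Fintype F] [DecidableEq F] {n : ℕ}

/-- The family of a matrix. -/
noncomputable def mt (A : Matrix (Fin n) (Fin n) F) : ℕ → F[X] := tuple (Matrix.toLin' A)

theorem good_mt {A : Matrix (Fin n) (Fin n) F} (hA : A.det ≠ 0) : Good n (mt A) := by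
  have hd : LinearMap.det (Matrix.toLin' A) ≠ 0 := by rwa [LinearMap.det_toLin']
  have hn : Module.finrank F (Fin n → F) = n := Module.finrank_fin_fun F
  refine ⟨fun j => tuple_monic _ j, fun j => tuple_coeff_zero hd j, fun j hj => ?_, ?_⟩
  · rcases hj with rfl | hj
    · exact tuple_zero _
    · unfold mt tuple
      exact Finset.prod_eq_one fun i hi => absurd ((Blocks.e_le _ i).trans hn.le) (by rw [(mem_filter.1 hi).2]; omega)
  · exact (tuple_weight n hn.le).symm.trans hn

theorem zT_mt (A : Matrix (Fin n) (Fin n) F) : zT n (mt A) = A.det := by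
  rw [← LinearMap.det_toLin' A, tuple_det n (Module.finrank_fin_fun F).le]
  rfl

/-- Similar matrices from equal families. -/
theorem exists_conj_of_mt {A B : Matrix (Fin n) (Fin n) F} (h : mt A = mt B) :
    ∃ u : GL (Fin n) F, (u : Matrix (Fin n) (Fin n) F) * A = B * u := by
  obtain ⟨T, hT⟩ := exists_similar_of_tuple (congrFun h)
  have hu : (LinearMap.toMatrix' (T : (Fin n → F) →ₗ[F] _)).det ≠ 0 := by
    rw [LinearMap.det_toMatrix']; exact (LinearEquiv.isUnit_det' T).ne_zero
  refine ⟨Matrix.GeneralLinearGroup.mkOfDetNeZero _ hu, ?_⟩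
  show LinearMap.toMatrix' (T : (Fin n → F) →ₗ[F] _) * A = B * LinearMap.toMatrix' (T : (Fin n → F) →ₗ[F] _)
  apply Matrix.toLin'.injective
  simp only [Matrix.toLin'_mul, Matrix.toLin'_toMatrix']
  exact LinearMap.ext hT

theorem mt_conj {A B : Matrix (Fin n) (Fin n) F} (u : GL (Fin n) F)
    (h : (u : Matrix (Fin n) (Fin n) F) * A = B * u) : mt A = mt B := by
  funext k
  refine tuple_conj ((Matrix.GeneralLinearGroup.toLin u).toLinearEquiv) (fun v => ?_) k
  show Matrix.toLin' (u : Matrix (Fin n) (Fin n) F) (Matrix.toLin' A v) =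
    Matrix.toLin' B (Matrix.toLin' (u : Matrix (Fin n) (Fin n) F) v)
  rw [← LinearMap.comp_apply, ← Matrix.toLin'_mul, h, Matrix.toLin'_mul, LinearMap.comp_apply]

/-- `k (GL n q)` is at most the number of families. -/
theorem card_classes_GL_le : Nat.card (ConjClasses (GL (Fin n) F)) ≤ (goods F n).card := by
  let Φ : ConjClasses (GL (Fin n) F) → {t // t ∈ goods F n} := fun C =>
    ⟨mt ((Quotient.out C : GL (Fin n) F) : Matrix (Fin n) (Fin n) F),
      mem_goods.2 (good_mt (Matrix.GeneralLinearGroup.det_ne_zero _))⟩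
  have hΦ : Function.Injective Φ := fun C D h => by
    obtain ⟨u, hu⟩ := exists_conj_of_mt (congrArg Subtype.val h)
    rw [← Quotient.out_eq C, ← Quotient.out_eq D]
    refine Quotient.sound (isConj_iff.2 ⟨u, mul_inv_eq_iff_eq_mul.2 (Units.ext ?_)⟩)
    exact hu
  refine (Nat.card_le_card_of_injective Φ hΦ).trans ?_
  rw [Nat.card_eq_fintype_card, Fintype.card_coe]

/-- The weight of a family: the number of classes of `SL` over it is at most this. -/
noncomputable def wt (n : ℕ) (t : ℕ → F[X]) : ℕ :=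
  Nat.gcd (((Icc 1 n).filter fun j => t j ≠ 1).gcd id) (Fintype.card F - 1)

theorem dvd_wt_iff {t : ℕ → F[X]} (h : Good n t) (d : ℕ) :
    d ∣ wt n t ↔ d ∣ Fintype.card F - 1 ∧ SuppDvd d t := by
  rw [wt, Nat.dvd_gcd_iff, Finset.dvd_gcd_iff, and_comm]
  refine and_congr_right fun _ => ?_
  simp only [mem_filter, mem_Icc, id, SuppDvd]
  refine ⟨fun h1 j hj => h1 j ⟨?_, hj⟩, fun h1 j hj => h1 j hj.2⟩
  have : ¬ (j = 0 ∨ n < j) := fun hc => hj (h.out j hc)
  omega

theorem wt_pos (n : ℕ) (t : ℕ → F[X]) : 0 < wt n t :=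
  Nat.gcd_pos_of_pos_right _ (by have := Fintype.one_lt_card (α := F); omega)

open scoped Classical in
/-- The classes of `SL` over one family. -/
theorem card_fiber_SL_le (t : ℕ → F[X]) :
    (Finset.univ.filter fun C : ConjClasses (Matrix.SpecialLinearGroup (Fin n) F) =>
      mt ((Quotient.out C : Matrix.SpecialLinearGroup (Fin n) F) : Matrix (Fin n) (Fin n) F) = t).card ≤ wt n t := by
  set S := Finset.univ.filter fun C : ConjClasses (Matrix.SpecialLinearGroup (Fin n) F) =>
    mt ((Quotient.out C : Matrix.SpecialLinearGroup (Fin n) F) : Matrix (Fin n) (Fin n) F) = t with hS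
  rcases S.eq_empty_or_nonempty with h | ⟨C0, hC0⟩
  · simp [h]
  let M0 : Matrix (Fin n) (Fin n) F := ((Quotient.out C0 : Matrix.SpecialLinearGroup (Fin n) F) : Matrix (Fin n) (Fin n) F)
  have ht0 : mt M0 = t := (mem_filter.1 hC0).2
  have hex : ∀ C : {C // C ∈ S}, ∃ u : GL (Fin n) F, (u : Matrix (Fin n) (Fin n) F) * M0 =
      ((Quotient.out C.1 : Matrix.SpecialLinearGroup (Fin n) F) : Matrix (Fin n) (Fin n) F) * u := fun C =>
    exists_conj_of_mt (ht0.trans (mem_filter.1 C.2).2.symm)
  choose u hu using hex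
  let P : Subgroup Fˣ := (powMonoidHom (wt n t) : Fˣ →* Fˣ).range
  let Ψ : {C // C ∈ S} → Fˣ ⧸ P := fun C => QuotientGroup.mk (Matrix.GeneralLinearGroup.det (u C))
  have hΨ : Function.Injective Ψ := by
    intro C D h
    obtain ⟨x, hx⟩ := QuotientGroup.eq.1 h
    rw [powMonoidHom_apply] at hx
    have hexp : expGcd (Matrix.toLin' M0) ∣ wt n t := by
      rw [dvd_wt_iff (n := n) (by rw [← ht0]; exact good_mt (by rw [Matrix.SpecialLinearGroup.det_coe]; exact one_ne_zero))]
      have := (dvd_expGcd_iff (Matrix.toLin' M0) _).1 dvd_rfl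
      exact ⟨this.1, fun j hj => this.2 j (by rw [← ht0] at hj; exact hj)⟩
    obtain ⟨k, hk⟩ := hexp
    obtain ⟨a, ha, had⟩ := expGcd_pow_mem (Matrix.toLin' M0) ((x ^ k)⁻¹)
    have had' : (LinearMap.toMatrix' a).det = ((x ^ wt n t)⁻¹ : Fˣ) := by
      rw [LinearMap.det_toMatrix', had, inv_pow, ← pow_mul, mul_comm k, ← hk]
    set A := LinearMap.toMatrix' a with hA
    have hAM : A * M0 = M0 * A := by
      have := congrArg LinearMap.toMatrix' ha
      rwa [LinearMap.toMatrix'_mul, LinearMap.toMatrix'_mul, LinearMap.toMatrix'_toLin'] at this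
    let w : GL (Fin n) F := u D * Matrix.GeneralLinearGroup.mkOfDetNeZero A (by rw [had']; exact Units.ne_zero _) * (u C)⁻¹
    have hw : (w : Matrix (Fin n) (Fin n) F).det = 1 := by
      have e : Matrix.GeneralLinearGroup.det w =
          Matrix.GeneralLinearGroup.det (u D) * (x ^ wt n t)⁻¹ * (Matrix.GeneralLinearGroup.det (u C))⁻¹ := by
        rw [map_mul, map_mul, map_inv]
        congr 2
        exact Units.ext had'
      have e1 : Matrix.GeneralLinearGroup.det w = 1 := by
        rw [e, hx, _root_.mul_inv_rev, inv_inv, mul_comm ((Matrix.GeneralLinearGroup.det (u D))⁻¹), ← mul_assoc,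
          mul_comm (Matrix.GeneralLinearGroup.det (u D)), mul_inv_cancel_right, mul_inv_cancel]
      have := congrArg Units.val e1
      rwa [Matrix.GeneralLinearGroup.val_det_apply, Units.val_one] at this
    refine Subtype.ext ?_
    rw [← Quotient.out_eq C.1, ← Quotient.out_eq D.1]
    refine Quotient.sound (isConj_iff.2 ⟨⟨w, hw⟩, mul_inv_eq_iff_eq_mul.2 (Subtype.ext ?_)⟩)
    show (w : Matrix (Fin n) (Fin n) F) * _ = _ * (w : Matrix (Fin n) (Fin n) F)
    have hinv : ((u C)⁻¹ : GL (Fin n) F).1 * ((Quotient.out C.1 : Matrix.SpecialLinearGroup (Fin n) F) : Matrix (Fin n) (Fin n) F) =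
        M0 * ((u C)⁻¹ : GL (Fin n) F).1 := by
      rw [← Matrix.one_mul (M0 * _), ← Units.inv_mul (u C), Matrix.mul_assoc, ← Matrix.mul_assoc (u C).1, hu C,
        Matrix.mul_assoc, Units.mul_inv, Matrix.mul_one]
    show (u D).1 * A * ((u C)⁻¹ : GL (Fin n) F).1 * _ = _ * ((u D).1 * A * ((u C)⁻¹ : GL (Fin n) F).1)
    rw [Matrix.mul_assoc, hinv, ← Matrix.mul_assoc, Matrix.mul_assoc (u D).1 A M0, hAM, ← Matrix.mul_assoc, hu D]
    simp only [Matrix.mul_assoc]
  have h1 := Nat.card_le_card_of_injective Ψ hΨ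
  rw [Nat.card_eq_fintype_card (α := {C // C ∈ S}), Fintype.card_coe] at h1
  refine h1.trans (le_of_eq_of_le (?_ : Nat.card (Fˣ ⧸ P) = P.index) ?_)
  · rfl
  · rw [IsCyclic.index_powMonoidHom_range]
    exact Nat.le_of_dvd (wt_pos n t) (Nat.gcd_dvd_right _ _)

open scoped Classical in
/-- The families of determinant one. -/
noncomputable def sgoods (F : Type u) [Field F] [Fintype F] [DecidableEq F] (n : ℕ) : Finset (ℕ → F[X]) :=
  (goods F n).filter fun t => zT n t = 1

theorem mem_sgoods {t : ℕ → F[X]} : t ∈ sgoods F n ↔ Good n t ∧ zT n t = 1 := by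
  classical
  simp [sgoods, mem_goods]

open scoped Classical in
theorem card_classes_SL_sub_le (p : (ℕ → F[X]) → Prop) :
    (Finset.univ.filter fun C : ConjClasses (Matrix.SpecialLinearGroup (Fin n) F) =>
      p (mt ((Quotient.out C : Matrix.SpecialLinearGroup (Fin n) F) : Matrix (Fin n) (Fin n) F))).card ≤
      ∑ t ∈ (sgoods F n).filter p, wt n t := by
  rw [card_eq_sum_card_fiberwise (f := fun C : ConjClasses (Matrix.SpecialLinearGroup (Fin n) F) =>
    mt ((Quotient.out C : Matrix.SpecialLinearGroup (Fin n) F) : Matrix (Fin n) (Fin n) F)) (t := (sgoods F n).filter p)]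
  · exact sum_le_sum fun t _ => (card_le_card (filter_subset_filter _ (subset_univ _))).trans (card_fiber_SL_le t)
  · intro C hC
    rw [mem_coe, mem_filter] at hC
    rw [mem_coe, mem_filter, mem_sgoods, zT_mt, Matrix.SpecialLinearGroup.det_coe]
    exact ⟨⟨good_mt (by rw [Matrix.SpecialLinearGroup.det_coe]; exact one_ne_zero), rfl⟩, hC.2⟩

open scoped Classical in
/-- Expanding the weight by `∑ φ`. -/
theorem sum_wt_eq (S : Finset (ℕ → F[X])) (hS : ∀ t ∈ S, Good n t) :
    ∑ t ∈ S, wt n t = ∑ d ∈ (Nat.gcd n (Fintype.card F - 1)).divisors,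
      Nat.totient d * (S.filter fun t => SuppDvd d t).card := by
  have h0 : Nat.gcd n (Fintype.card F - 1) ≠ 0 :=
    (Nat.gcd_pos_of_pos_right _ (by have := Fintype.one_lt_card (α := F); omega)).ne'
  calc ∑ t ∈ S, wt n t
      = ∑ t ∈ S, ∑ d ∈ (Nat.gcd n (Fintype.card F - 1)).divisors, if SuppDvd d t then Nat.totient d else 0 := by
        refine sum_congr rfl fun t ht => ?_
        rw [← sum_filter]
        conv_lhs => rw [← Nat.sum_totient (wt n t)]
        refine sum_congr ?_ fun _ _ => rfl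
        ext d
        rw [Nat.mem_divisors, mem_filter, Nat.mem_divisors, dvd_wt_iff (hS t ht), Nat.dvd_gcd_iff]
        exact ⟨fun h => ⟨⟨⟨(hS t ht).dvd_of_supp h.1.2, h.1.1⟩, h0⟩, h.1.2⟩,
          fun h => ⟨⟨h.1.1.2, h.2⟩, (wt_pos n t).ne'⟩⟩
    _ = _ := by
        rw [sum_comm]
        refine sum_congr rfl fun d _ => ?_
        rw [← sum_filter, sum_const, smul_eq_mul, mul_comm]

/-- The term of the bound for `SL`. -/
def slTerm (q n d : ℕ) : ℕ := M q (n / d - 1) 2 (n / d) + d * U q (n / d - 1) 2 (n / d - 1)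

/-- `k (SL n q)`. -/
theorem card_classes_SL_le (hn : 0 < n) :
    Nat.card (ConjClasses (Matrix.SpecialLinearGroup (Fin n) F)) ≤
      ∑ d ∈ (Nat.gcd n (Fintype.card F - 1)).divisors, Nat.totient d * slTerm (Fintype.card F) n d := by
  classical
  have h := card_classes_SL_sub_le (F := F) (n := n) (fun _ => True)
  simp only [filter_true] at h
  rw [Nat.card_eq_fintype_card, ← card_univ]
  refine h.trans ?_
  rw [sum_wt_eq _ fun t ht => (mem_sgoods.1 ht).1]
  refine sum_le_sum fun d hd => Nat.mul_le_mul_left _ ?_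
  have hdn : d ∣ n := (Nat.dvd_of_mem_divisors hd).trans (Nat.gcd_dvd_left _ _)
  have hd0 : 0 < d := Nat.pos_of_mem_divisors hd
  have hm : 0 < n / d := Nat.div_pos (Nat.le_of_dvd hn hdn) hd0
  refine le_trans (le_of_eq ?_) (card_supp_det (F := F) hd0 (l := n / d - 1)
    (by rw [Nat.sub_add_cancel hm, Nat.mul_div_cancel' hdn]))|>.trans (le_of_eq ?_)
  · congr 1
    ext t
    simp only [sgoods, mem_filter]
    tauto
  · rw [slTerm, Nat.sub_add_cancel hm]

/-- The term of the bound for classes fixed by a central element of order `e`. -/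
def fixTerm (q n e d : ℕ) : ℕ := if d * e ∣ n then q ^ (n / (d * e)) else 0

open scoped Classical in
/-- Classes of `SL` fixed by a scaling of order `e`. -/
theorem card_fixed_le {s : F} {e : ℕ} (he : 0 < e) (hord : ∀ i : ℕ, s ^ i = 1 → e ∣ i) :
    ∑ t ∈ (sgoods F n).filter (fun t => ∀ j, (t j).scaleRoots s = t j), wt n t ≤
      ∑ d ∈ (Nat.gcd n (Fintype.card F - 1)).divisors, Nat.totient d * fixTerm (Fintype.card F) n e d := by
  rw [sum_wt_eq _ fun t ht => (mem_sgoods.1 (mem_filter.1 ht).1).1]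
  refine sum_le_sum fun d hd => Nat.mul_le_mul_left _ ?_
  rw [filter_filter]
  rcases eq_empty_or_nonempty ((sgoods F n).filter fun t => (∀ j, (t j).scaleRoots s = t j) ∧ SuppDvd d t) with h | ⟨t, ht⟩
  · simp [h]
  rw [mem_filter, mem_sgoods] at ht
  obtain ⟨⟨hg, -⟩, hinv, hsupp⟩ := ht
  have hde : d * e ∣ n := by
    rw [← hg.weight]
    refine dvd_sum fun j _ => ?_
    by_cases hj : t j = 1
    · simp [hj]
    obtain ⟨Q, -, -, -, hQ⟩ := exists_expand_of_scaleRoots he hord (hg.monic j) (hg.coeff j) (hinv j)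
    rw [hQ]
    exact Nat.mul_dvd_mul (hsupp j hj) (dvd_mul_right e _)
  rw [fixTerm, if_pos hde]
  refine le_trans ?_ ((card_goods (F := F) (n / (d * e))).trans (M_le_pow Fintype.card_pos _ _))
  refine le_trans (card_le_card fun t ht => ?_) (card_supp_scaled (F := F) (Nat.pos_of_mem_divisors hd) he hord
    (n := n) (by rw [← mul_assoc, Nat.mul_div_cancel' hde]))
  simp only [sgoods, mem_filter] at ht ⊢
  tauto

theorem mt_smul {c : F} (hc : c ≠ 0) (A : Matrix (Fin n) (Fin n) F) (k : ℕ) :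
    mt (c • A) k = (mt A k).scaleRoots c := by
  rw [mt, map_smul]
  exact tuple_smul hc k

end CfsgLib.CharDegrees.ClassCount
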