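import Mathlib

/-!
Elementary divisors of an endomorphism of a finite dimensional space: existence of a decomposition into
blocks `F[X]/(P^e)`, recovery of the divisors from the kernels of `P(g)^k`, the determinant and the
determinants of commuting automorphisms.
-/

set_option autoImplicit false
set_option linter.unusedSectionVars false

namespace CfsgLib.CharDegrees.ClassCount

open Polynomial Module

universe u v

variable {F : Type u} [Field F]

/-- The model space of a list of blocks. -/
abbrev Space {m : ℕ} (c : Fin m → F[X]) : Type u := ∀ i, AdjoinRoot (c i)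

/-- Multiplication by `X` in every block. -/
noncomputable def shift {m : ℕ} (c : Fin m → F[X]) : Module.End F (Space c) :=
  LinearMap.mulLeft F (fun i => AdjoinRoot.root (c i) : Space c)

theorem aeval_shift {m : ℕ} (c : Fin m → F[X]) (f : F[X]) :
    aeval (shift c) f = LinearMap.mulLeft F (fun i => AdjoinRoot.mk (c i) f : Space c) := by
  induction f using Polynomial.induction_on' with
  | add p q hp hq =>
    rw [map_add, hp, hq]
    refine LinearMap.ext fun z => funext fun i => ?_
    simp [add_mul]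
  | monomial j a =>
    refine LinearMap.ext fun z => funext fun i => ?_
    rw [aeval_monomial]
    simp only [shift, LinearMap.mulLeft_apply, Module.End.mul_apply, Module.algebraMap_end_apply,
      LinearMap.pow_mulLeft, Pi.smul_apply, Pi.mul_apply, Pi.pow_apply, ← C_mul_X_pow_eq_monomial, map_mul,
      map_pow, AdjoinRoot.mk_X, AdjoinRoot.mk_C, Algebra.smul_def, AdjoinRoot.algebraMap_eq, mul_assoc]

/-- A decomposition of `g` into primary blocks. -/
structure Blocks {V : Type v} [AddCommGroup V] [Module F V] (g : Module.End F V) where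
  /-- number of blocks -/
  m : ℕ
  /-- the primes -/
  P : Fin m → F[X]
  /-- the exponents -/
  e : Fin m → ℕ
  irr : ∀ i, Irreducible (P i)
  monic : ∀ i, (P i).Monic
  pos : ∀ i, 0 < e i
  /-- the coordinates -/
  φ : V ≃ₗ[F] Space (fun i => P i ^ e i)
  comm : ∀ v, φ (g v) = shift (fun i => P i ^ e i) (φ v)

theorem exists_blocks {V : Type v} [AddCommGroup V] [Module F V] [FiniteDimensional F V] (g : Module.End F V) :
    Nonempty (Blocks g) := by
  classical
  obtain ⟨ι, _, p, hp, e, ⟨Φ⟩⟩ := Module.equiv_directSum_of_isTorsion (R := F[X]) (M := Module.AEval' g)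
    (Module.AEval.isTorsion_of_finiteDimensional F V g)
  let Φ1 := Φ ≪≫ₗ DirectSum.linearEquivFunOnFintype F[X] ι fun i => F[X] ⧸ F[X] ∙ p i ^ e i
  let σ : Fin (Fintype.card {i // e i ≠ 0}) ≃ {i // e i ≠ 0} := (Fintype.equivFin _).symm
  let P := fun j => normalize (p (σ j).1)
  let E := fun j => e (σ j).1
  have hspan : ∀ j, (F[X] ∙ p (σ j).1 ^ e (σ j).1) = Ideal.span {P j ^ E j} := fun j => by
    change Ideal.span {p (σ j).1 ^ e (σ j).1} = _
    exact Ideal.span_singleton_eq_span_singleton.2 ((normalize_associated _).symm.pow_pow)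
  have sub : ∀ i, e i = 0 → ∀ z : F[X] ⧸ F[X] ∙ p i ^ e i, z = 0 := fun i hi z => by
    obtain ⟨f, rfl⟩ := Submodule.Quotient.mk_surjective _ z
    rw [Submodule.Quotient.mk_eq_zero, hi, pow_zero]
    exact Submodule.mem_span_singleton.2 ⟨f, mul_one f⟩
  let R1 : (∀ i, F[X] ⧸ F[X] ∙ p i ^ e i) →ₗ[F[X]] ∀ j, F[X] ⧸ Ideal.span {P j ^ E j} :=
    LinearMap.pi fun j => (Submodule.quotEquivOfEq _ _ (hspan j)).toLinearMap ∘ₗ LinearMap.proj (σ j).1
  have R1_apply : ∀ w j, R1 w j = Submodule.quotEquivOfEq _ _ (hspan j) (w (σ j).1) := fun w j => rfl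
  have hR1 : Function.Bijective R1 := by
    constructor
    · refine (injective_iff_map_eq_zero R1).2 fun w hw => funext fun i => ?_
      by_cases hi : e i = 0
      · exact sub i hi _
      · obtain ⟨j, hj⟩ := σ.surjective ⟨i, hi⟩
        have := congrFun hw j
        rw [R1_apply, Pi.zero_apply, LinearEquiv.map_eq_zero_iff, hj] at this
        exact this
    · intro z
      let z' : ∀ i : {i // e i ≠ 0}, F[X] ⧸ F[X] ∙ p i.1 ^ e i.1 := fun i =>
        Submodule.quotEquivOfEq _ _ (by rw [Equiv.apply_symm_apply] : (F[X] ∙ p (σ (σ.symm i)).1 ^ e (σ (σ.symm i)).1) = _)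
          ((Submodule.quotEquivOfEq _ _ (hspan _)).symm (z (σ.symm i)))
      refine ⟨fun i => if h : e i ≠ 0 then z' ⟨i, h⟩ else 0, funext fun j => ?_⟩
      rw [R1_apply, dif_pos (σ j).2]
      simp only [z']
      have key : ∀ j' (hj : j' = j) (h : (F[X] ∙ p (σ j').1 ^ e (σ j').1) = F[X] ∙ p (σ j).1 ^ e (σ j).1),
          Submodule.quotEquivOfEq _ _ (hspan j) (Submodule.quotEquivOfEq _ _ h
            ((Submodule.quotEquivOfEq _ _ (hspan j')).symm (z j'))) = z j := by
        rintro j' rfl h
        obtain ⟨f, hf⟩ := Submodule.Quotient.mk_surjective _ (z j')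
        rw [← hf]; rfl
      exact key _ (σ.symm_apply_apply j) _
  let Φ2 := Φ1 ≪≫ₗ LinearEquiv.ofBijective R1 hR1
  let Φ3 : V ≃ₗ[F] ∀ j, F[X] ⧸ Ideal.span {P j ^ E j} :=
    (Module.AEval.of F V g) ≪≫ₗ Φ2.restrictScalars F
  let Φ4 : V ≃ₗ[F] Space (fun j => P j ^ E j) := Φ3 ≪≫ₗ LinearEquiv.piCongrRight fun j => (LinearEquiv.refl F _)
  refine ⟨⟨_, P, E, fun j => ?_, fun j => monic_normalize (hp _).ne_zero, fun j => Nat.pos_of_ne_zero (σ j).2,
    Φ4, fun v => ?_⟩⟩
  · exact (normalize_associated _).symm.irreducible (hp _)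
  · have : Φ2 (Module.AEval.of F V g (g v)) = (X : F[X]) • Φ2 (Module.AEval.of F V g v) := by
      rw [← map_smul, Module.AEval.X_smul_of]; rfl
    exact this

variable {V : Type v} [AddCommGroup V] [Module F V]

theorem finrank_root_space {c : F[X]} (hc : c ≠ 0) : finrank F (AdjoinRoot c) = c.natDegree := by
  rw [(AdjoinRoot.powerBasis hc).finrank, AdjoinRoot.powerBasis_dim]

theorem finite_root_space {c : F[X]} (hc : c ≠ 0) : FiniteDimensional F (AdjoinRoot c) :=
  (AdjoinRoot.powerBasis hc).finite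

/-- The kernel of `Q^k` on one block. -/
theorem finrank_ker_block [DecidableEq F] {P Q : F[X]} (hP : Irreducible P) (hQ : Irreducible Q) (hPm : P.Monic)
    (hQm : Q.Monic) (e k : ℕ) :
    finrank F (LinearMap.ker (LinearMap.mulLeft F (AdjoinRoot.mk (P ^ e) (Q ^ k)))) =
      if P = Q then P.natDegree * min e k else 0 := by
  haveI := finite_root_space (pow_ne_zero e hP.ne_zero)
  split_ifs with h
  · subst h
    rcases Nat.le_total e k with hek | hek
    · have h0 : AdjoinRoot.mk (P ^ e) (P ^ k) = 0 := AdjoinRoot.mk_eq_zero.2 (pow_dvd_pow P hek)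
      rw [h0, LinearMap.mulLeft_zero_eq_zero, LinearMap.ker_zero, finrank_top,
        finrank_root_space (pow_ne_zero e hP.ne_zero), natDegree_pow, Nat.min_eq_left hek, mul_comm]
    · rw [Nat.min_eq_right hek]
      let L : F[X] →ₗ[F] AdjoinRoot (P ^ e) :=
        (AdjoinRoot.mkₐ (P ^ e)).toLinearMap ∘ₗ LinearMap.mulLeft F (P ^ (e - k))
      have hL : ∀ f, L f = AdjoinRoot.mk (P ^ e) (P ^ (e - k) * f) := fun f => rfl
      have hker : LinearMap.range L = LinearMap.ker (LinearMap.mulLeft F (AdjoinRoot.mk (P ^ e) (P ^ k))) := by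
        ext z
        simp only [LinearMap.mem_range, LinearMap.mem_ker, LinearMap.mulLeft_apply, hL]
        constructor
        · rintro ⟨f, rfl⟩
          rw [← map_mul, AdjoinRoot.mk_eq_zero, ← mul_assoc, ← pow_add, Nat.add_sub_cancel' hek]
          exact dvd_mul_right _ _
        · intro hz
          obtain ⟨f, rfl⟩ := AdjoinRoot.mk_surjective z
          rw [← map_mul, AdjoinRoot.mk_eq_zero] at hz
          have hsplit : P ^ e = P ^ k * P ^ (e - k) := by rw [← pow_add, Nat.add_sub_cancel' hek]
          rw [hsplit, mul_dvd_mul_iff_left (pow_ne_zero k hP.ne_zero)] at hz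
          obtain ⟨f', rfl⟩ := hz
          exact ⟨f', rfl⟩
      have hkerL : LinearMap.ker L = LinearMap.ker (AdjoinRoot.mkₐ (P ^ k)).toLinearMap := by
        ext f
        simp only [LinearMap.mem_ker, hL, AlgHom.toLinearMap_apply, AdjoinRoot.coe_mkₐ, AdjoinRoot.mk_eq_zero]
        conv_lhs => rw [show P ^ e = P ^ (e - k) * P ^ k by rw [← pow_add, Nat.sub_add_cancel hek]]
        rw [mul_dvd_mul_iff_left (pow_ne_zero _ hP.ne_zero)]
      rw [← hker, ← L.quotKerEquivRange.finrank_eq, (Submodule.quotEquivOfEq _ _ hkerL).finrank_eq,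
        (LinearMap.quotKerEquivOfSurjective (AdjoinRoot.mkₐ (P ^ k)).toLinearMap
          AdjoinRoot.mk_surjective).finrank_eq,
        finrank_root_space (pow_ne_zero k hP.ne_zero), natDegree_pow, mul_comm]
  · have hcop : IsCoprime P Q := (hP.coprime_iff_not_dvd).2 fun hd =>
      h (eq_of_monic_of_associated hPm hQm (hP.associated_of_dvd hQ hd))
    obtain ⟨a, b, hab⟩ := (hcop.pow (m := e) (n := k))
    rw [Submodule.finrank_eq_zero, LinearMap.ker_eq_bot']
    intro z hz
    rw [LinearMap.mulLeft_apply] at hz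
    have h1 : AdjoinRoot.mk (P ^ e) b * AdjoinRoot.mk (P ^ e) (Q ^ k) = 1 := by
      rw [← map_mul, ← map_one (AdjoinRoot.mk (P ^ e))]
      exact AdjoinRoot.mk_eq_mk.2 ⟨-a, by linear_combination hab⟩
    rw [← one_mul z, ← h1, mul_assoc, hz, mul_zero]

/-- The kernel dimensions of a decomposed endomorphism. -/
theorem Blocks.finrank_ker [DecidableEq F] [FiniteDimensional F V] {g : Module.End F V} (B : Blocks g) {Q : F[X]}
    (hQ : Irreducible Q) (hQm : Q.Monic) (k : ℕ) :
    finrank F (LinearMap.ker (aeval g (Q ^ k))) =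
      ∑ i, if B.P i = Q then (B.P i).natDegree * min (B.e i) k else 0 := by
  have hconj : ∀ (f : F[X]) v, B.φ (aeval g f v) = aeval (shift fun i => B.P i ^ B.e i) f (B.φ v) := by
    intro f
    induction f using Polynomial.induction_on' with
    | add p q hp hq => intro v; simp [hp, hq]
    | monomial j a =>
      intro v
      simp only [aeval_monomial, Module.End.mul_apply, Module.algebraMap_end_apply, map_smul]
      congr 1
      induction j generalizing v with
      | zero => simp
      | succ j ih => rw [pow_succ, pow_succ, Module.End.mul_apply, Module.End.mul_apply, ih, B.comm]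
  haveI : ∀ i, FiniteDimensional F (AdjoinRoot (B.P i ^ B.e i)) := fun i =>
    finite_root_space (pow_ne_zero _ (B.irr i).ne_zero)
  let K := fun i => LinearMap.ker (LinearMap.mulLeft F (AdjoinRoot.mk (B.P i ^ B.e i) (Q ^ k)))
  let ψ : LinearMap.ker (aeval g (Q ^ k)) ≃ₗ[F] ∀ i, K i :=
    { toFun := fun v i => ⟨B.φ v.1 i, by
        have := congrFun (hconj (Q ^ k) v.1) i
        rw [show aeval g (Q ^ k) v.1 = 0 from v.2, map_zero, aeval_shift] at this
        exact this.symm⟩
      map_add' := fun a b => funext fun i => Subtype.ext (by simp)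
      map_smul' := fun t a => funext fun i => Subtype.ext (by simp)
      invFun := fun w => ⟨B.φ.symm fun i => (w i).1, by
        rw [LinearMap.mem_ker, ← B.φ.map_eq_zero_iff, hconj, B.φ.apply_symm_apply, aeval_shift]
        exact funext fun i => (w i).2⟩
      left_inv := fun v => Subtype.ext (B.φ.symm_apply_apply v.1)
      right_inv := fun w => funext fun i => Subtype.ext (congrFun (B.φ.apply_symm_apply _) i) }
  rw [ψ.finrank_eq, finrank_pi_fintype]
  exact Finset.sum_congr rfl fun i _ => finrank_ker_block (B.irr i) hQ (B.monic i) hQm _ k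

/-- The number of blocks `(Q, k)` from the kernel dimensions. -/
theorem Blocks.card_formula [DecidableEq F] [FiniteDimensional F V] {g : Module.End F V} (B : Blocks g) {Q : F[X]}
    (hQ : Irreducible Q) (hQm : Q.Monic) {k : ℕ} (hk : 0 < k) :
    finrank F (LinearMap.ker (aeval g (Q ^ (k - 1)))) +
      finrank F (LinearMap.ker (aeval g (Q ^ (k + 1)))) +
      Q.natDegree * (Finset.univ.filter fun i => (B.P i, B.e i) = (Q, k)).card =
      2 * finrank F (LinearMap.ker (aeval g (Q ^ k))) := by
  rw [B.finrank_ker hQ hQm, B.finrank_ker hQ hQm, B.finrank_ker hQ hQm, Finset.card_filter, Finset.mul_sum,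
    Finset.mul_sum, ← Finset.sum_add_distrib, ← Finset.sum_add_distrib]
  refine Finset.sum_congr rfl fun i _ => ?_
  by_cases hi : B.P i = Q
  · simp only [hi, if_true, Prod.mk.injEq, true_and]
    have hmin : min (B.e i) (k - 1) + min (B.e i) (k + 1) + (if B.e i = k then 1 else 0) = 2 * min (B.e i) k := by
      split_ifs <;> omega
    rw [← mul_add, ← mul_add, hmin]; ring
  · simp [hi]

/-- There are no blocks but monic irreducible ones with positive exponent. -/
theorem Blocks.card_eq_zero [DecidableEq F] {g : Module.End F V} (B : Blocks g) {Q : F[X]} {k : ℕ}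
    (h : ¬ (Irreducible Q ∧ Q.Monic ∧ 0 < k)) :
    (Finset.univ.filter fun i => (B.P i, B.e i) = (Q, k)).card = 0 := by
  rw [Finset.card_eq_zero, Finset.filter_eq_empty_iff]
  intro i _ hi
  rw [Prod.mk.injEq] at hi
  exact h ⟨hi.1 ▸ B.irr i, hi.1 ▸ B.monic i, hi.2 ▸ B.pos i⟩

/-- The divisors are determined by the endomorphism. -/
theorem Blocks.card_fiber_eq [DecidableEq F] [FiniteDimensional F V] {g : Module.End F V} (B B' : Blocks g) (c : F[X] × ℕ) :
    (Finset.univ.filter fun i => (B.P i, B.e i) = c).card =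
      (Finset.univ.filter fun i => (B'.P i, B'.e i) = c).card := by
  obtain ⟨Q, k⟩ := c
  by_cases h : Irreducible Q ∧ Q.Monic ∧ 0 < k
  swap
  · rw [B.card_eq_zero h, B'.card_eq_zero h]
  obtain ⟨hQ, hQm, hk⟩ := h
  have h1 := B.card_formula hQ hQm hk
  have h2 := B'.card_formula hQ hQm hk
  exact Nat.eq_of_mul_eq_mul_left hQ.natDegree_pos (by omega)

/-- Endomorphisms with the same divisors are similar. -/
theorem exists_similar_of_blocks [DecidableEq F] {W : Type*} [AddCommGroup W] [Module F W] {g : Module.End F V}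
    {h : Module.End F W} (B : Blocks g) (B' : Blocks h)
    (hc : ∀ c : F[X] × ℕ, (Finset.univ.filter fun i => (B.P i, B.e i) = c).card =
      (Finset.univ.filter fun i => (B'.P i, B'.e i) = c).card) :
    ∃ T : V ≃ₗ[F] W, ∀ v, T (g v) = h (T v) := by
  classical
  have hcard : ∀ c, Fintype.card {i // (B'.P i, B'.e i) = c} = Fintype.card {i // (B.P i, B.e i) = c} := fun c => by
    rw [Fintype.card_subtype, Fintype.card_subtype, hc]
  let σ : Fin B'.m ≃ Fin B.m := Equiv.ofFiberEquiv fun c => Fintype.equivOfCardEq (hcard c)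
  have hσ : ∀ i, (B.P (σ i), B.e (σ i)) = (B'.P i, B'.e i) := fun i =>
    Equiv.ofFiberEquiv_map (f := fun i => (B'.P i, B'.e i)) (g := fun i => (B.P i, B.e i))
      (fun c => Fintype.equivOfCardEq (hcard c)) i
  have gen : ∀ (c' : Fin B'.m → F[X]), (∀ i, c' i = B.P (σ i) ^ B.e (σ i)) →
      ∃ T : Space (fun i => B.P i ^ B.e i) ≃ₗ[F] Space c', ∀ x, T (shift _ x) = shift c' (T x) := by
    intro c' hc'
    obtain rfl : c' = fun i => B.P (σ i) ^ B.e (σ i) := funext hc'
    exact ⟨LinearEquiv.piCongrLeft' F (fun i => AdjoinRoot (B.P i ^ B.e i)) σ.symm, fun x => funext fun i => rfl⟩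
  obtain ⟨T, hT⟩ := gen (fun i => B'.P i ^ B'.e i) fun i => by
    have := hσ i
    rw [Prod.mk.injEq] at this
    rw [this.1, this.2]
  refine ⟨B.φ ≪≫ₗ T ≪≫ₗ B'.φ.symm, fun v => ?_⟩
  rw [LinearEquiv.trans_apply, LinearEquiv.trans_apply, LinearEquiv.trans_apply, LinearEquiv.trans_apply,
    B.comm, hT, LinearEquiv.symm_apply_eq, B'.comm, LinearEquiv.apply_symm_apply]

end CfsgLib.CharDegrees.ClassCount
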