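import Mathlib

/-!
Classes of a subgroup of index two.
-/

set_option autoImplicit false
set_option linter.unusedSectionVars false

namespace CfsgLib.CharDegrees.ClassCount

open Subgroup

universe u

variable {G : Type u} [Group G] [Finite G]

/-- The classes lying in a conjugation invariant set, counted by centralisers. -/
theorem sum_card_centralizer (P : G → Prop) [DecidablePred P] [Fintype G]
    (hP : ∀ x g, P x → P (g * x * g⁻¹)) :
    ∑ x ∈ Finset.univ.filter P, Nat.card (centralizer ({x} : Set G)) =
      Nat.card {C : ConjClasses G // ∀ x, ConjClasses.mk x = C → P x} * Nat.card G := by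
  classical
  haveI : Fintype (ConjClasses G) := Fintype.ofFinite _
  have hinv : ∀ x y : G, IsConj x y → P x → P y := fun x y h hx => by
    obtain ⟨c, rfl⟩ := isConj_iff.1 h
    exact hP x c hx
  rw [Nat.card_eq_fintype_card, Fintype.card_subtype,
    ← Finset.sum_fiberwise_of_maps_to (g := ConjClasses.mk)
      (t := Finset.univ.filter fun C : ConjClasses G => ∀ x, ConjClasses.mk x = C → P x) fun x hx => ?_]
  · rw [Finset.card_eq_sum_ones, Finset.sum_mul]
    refine Finset.sum_congr rfl fun C hC => ?_
    obtain ⟨a, rfl⟩ := ConjClasses.exists_rep C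
    have hfil : (Finset.univ.filter P).filter (fun x => ConjClasses.mk x = ConjClasses.mk a) =
        Finset.univ.filter fun x => IsConj x a := by
      ext x
      simp only [Finset.mem_filter, Finset.mem_univ, true_and, ConjClasses.mk_eq_mk_iff_isConj]
      exact ⟨fun h => h.2, fun h => ⟨(Finset.mem_filter.1 hC).2 x (ConjClasses.mk_eq_mk_iff_isConj.2 h), h⟩⟩
    rw [hfil, one_mul]
    have hcen : ∀ x, IsConj x a → Nat.card (centralizer ({x} : Set G)) = Nat.card (centralizer ({a} : Set G)) := by
      intro x hx
      obtain ⟨c, rfl⟩ := isConj_iff.1 hx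
      refine Nat.card_congr
        { toFun := fun z => ⟨c * z.1 * c⁻¹, mem_centralizer_singleton_iff.2 ?_⟩
          invFun := fun z => ⟨c⁻¹ * z.1 * c, mem_centralizer_singleton_iff.2 ?_⟩
          left_inv := fun z => Subtype.ext (by group)
          right_inv := fun z => Subtype.ext (by group) }
      · have := mem_centralizer_singleton_iff.1 z.2
        calc c * z.1 * c⁻¹ * (c * x * c⁻¹) = c * (z.1 * x) * c⁻¹ := by group
          _ = c * (x * z.1) * c⁻¹ := by rw [this]
          _ = _ := by group
      · have := mem_centralizer_singleton_iff.1 z.2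
        calc c⁻¹ * z.1 * c * x = c⁻¹ * (z.1 * (c * x * c⁻¹)) * c := by group
          _ = c⁻¹ * ((c * x * c⁻¹) * z.1) * c := by rw [this]
          _ = _ := by group
    rw [Finset.sum_congr rfl fun x hx => hcen x (Finset.mem_filter.1 hx).2, Finset.sum_const, smul_eq_mul]
    have horb : (Finset.univ.filter fun x => IsConj x a).card = Nat.card (MulAction.orbit (ConjAct G) a) := by
      rw [← Fintype.card_subtype, ← Nat.card_eq_fintype_card]
      exact Nat.card_congr (Equiv.subtypeEquivRight fun x => (ConjAct.mem_orbit_conjAct.symm))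
    rw [horb, Subgroup.nat_card_centralizer_nat_card_stabilizer, ← Nat.card_prod]
    exact (Nat.card_congr (MulAction.orbitProdStabilizerEquivGroup (ConjAct G) a)).trans
      (Nat.card_congr ConjAct.toConjAct.toEquiv.symm)
  · simp only [Finset.mem_filter, Finset.mem_univ, true_and] at hx ⊢
    exact fun y hy => hinv x y (ConjClasses.mk_eq_mk_iff_isConj.1 hy.symm) hx

/-- `k(G) = #commuting pairs / |G|`. -/
theorem sum_all_centralizer [Fintype G] :
    ∑ x : G, Nat.card (centralizer ({x} : Set G)) = Nat.card (ConjClasses G) * Nat.card G := by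
  classical
  have h := sum_card_centralizer (fun _ : G => True) fun _ _ _ => trivial
  rw [Finset.filter_true] at h
  rw [h]
  congr 1
  exact Nat.card_congr (Equiv.subtypeUnivEquiv fun C x _ => trivial)

/-- `2 k (H) = k (G) + 3 S` for a subgroup `H` of index two, `S` the number of classes that split. -/
theorem two_mul_card_classes_index_two (H : Subgroup G) (hH : H.index = 2) :
    2 * Nat.card (ConjClasses H) = Nat.card (ConjClasses G) +
      3 * Nat.card {C : ConjClasses G // ∀ x, ConjClasses.mk x = C → (x ∈ H ∧ centralizer ({x} : Set G) ≤ H)} := by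
  classical
  haveI : Fintype G := Fintype.ofFinite G
  haveI : H.Normal := Subgroup.normal_of_index_eq_two hH
  have hGH : Nat.card G = 2 * Nat.card H := by rw [← Subgroup.card_mul_index H, hH, mul_comm]
  let c := fun x : G => Nat.card (centralizer ({x} : Set G))
  let cH := fun x : G => Nat.card ((centralizer ({x} : Set G)) ⊓ H : Subgroup G)
  have hhalf : ∀ x, ¬ centralizer ({x} : Set G) ≤ H → c x = 2 * cH x := by
    intro x hx
    have h1 : H.relIndex (centralizer ({x} : Set G)) = 2 := by
      have hle : H.relIndex (centralizer ({x} : Set G)) ≤ 2 := by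
        rw [← hH]; exact Nat.le_of_dvd (by rw [hH]; norm_num) (Subgroup.relIndex_dvd_index_of_normal H _)
      have hne : H.relIndex (centralizer ({x} : Set G)) ≠ 1 := fun h => hx (Subgroup.relIndex_eq_one.1 h)
      have hpos : H.relIndex (centralizer ({x} : Set G)) ≠ 0 := Subgroup.index_ne_zero_of_finite
      omega
    have h3 := (H.subgroupOf (centralizer ({x} : Set G))).card_mul_index
    rw [← Subgroup.relIndex, h1] at h3
    have e : Nat.card (H.subgroupOf (centralizer ({x} : Set G))) = cH x := by
      refine Nat.card_congr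
        { toFun := fun z => ⟨z.1.1, z.1.2, z.2⟩
          invFun := fun z => ⟨⟨z.1, z.2.1⟩, z.2.2⟩
          left_inv := fun z => rfl
          right_inv := fun z => rfl }
    rw [e] at h3
    show Nat.card (centralizer ({x} : Set G)) = 2 * cH x
    omega
  have hsame : ∀ x, centralizer ({x} : Set G) ≤ H → cH x = c x := fun x hx => by
    show Nat.card ((centralizer ({x} : Set G)) ⊓ H : Subgroup G) = _
    rw [inf_eq_left.2 hx]
  have hout : ∀ x, x ∉ H → c x = 2 * cH x := fun x hx => hhalf x fun h => hx (h (mem_centralizer_singleton_iff.2 rfl))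
  let S : Finset G := Finset.univ.filter fun x => x ∈ H ∧ centralizer ({x} : Set G) ≤ H
  let Hs : Finset G := Finset.univ.filter fun x => x ∈ H
  let Os : Finset G := Finset.univ.filter fun x => x ∉ H
  have hS : ∑ x ∈ S, c x = Nat.card {C : ConjClasses G // ∀ x, ConjClasses.mk x = C → (x ∈ H ∧ centralizer ({x} : Set G) ≤ H)} * Nat.card G := by
    refine sum_card_centralizer _ fun x g hx => ⟨Subgroup.Normal.conj_mem inferInstance x hx.1 g, fun z hz => ?_⟩
    have hz' : g⁻¹ * z * g ∈ centralizer ({x} : Set G) := by
      rw [mem_centralizer_singleton_iff] at hz ⊢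
      calc g⁻¹ * z * g * x = g⁻¹ * (z * (g * x * g⁻¹)) * g := by group
        _ = g⁻¹ * ((g * x * g⁻¹) * z) * g := by rw [hz]
        _ = _ := by group
    have := Subgroup.Normal.conj_mem inferInstance _ (hx.2 hz') g
    simpa [mul_assoc] using this
  have hsplit : ∑ x ∈ Hs, c x + ∑ x ∈ Os, c x = Nat.card (ConjClasses G) * Nat.card G := by
    rw [← sum_all_centralizer]
    exact Finset.sum_filter_add_sum_filter_not _ _ _
  have hHH : ∑ x ∈ Hs, cH x = Nat.card (ConjClasses H) * Nat.card H := by
    rw [← sum_all_centralizer (G := H)]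
    rw [← Finset.sum_subtype Hs (p := fun x => x ∈ H) (fun x => by simp [Hs]) cH |>.symm]
    refine Finset.sum_congr rfl fun x _ => Nat.card_congr
      { toFun := fun z => ⟨⟨z.1, z.2.2⟩, mem_centralizer_singleton_iff.2 (Subtype.ext (mem_centralizer_singleton_iff.1 z.2.1))⟩
        invFun := fun z => ⟨z.1.1, mem_centralizer_singleton_iff.2 (congrArg Subtype.val (mem_centralizer_singleton_iff.1 z.2)), z.1.2⟩
        left_inv := fun z => rfl
        right_inv := fun z => rfl }
  have hcross : ∑ x ∈ Os, cH x = ∑ x ∈ Hs, (c x - cH x) := by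
    have hc : ∀ x, cH x = ∑ y ∈ Hs, if y * x = x * y then 1 else 0 := fun x => by
      rw [← Finset.sum_filter, ← Finset.card_eq_sum_ones, Finset.filter_filter, ← Fintype.card_subtype, ← Nat.card_eq_fintype_card]
      exact Nat.card_congr
        { toFun := fun z => ⟨z.1, z.2.2, mem_centralizer_singleton_iff.1 z.2.1⟩
          invFun := fun z => ⟨z.1, mem_centralizer_singleton_iff.2 z.2.2, z.2.1⟩
          left_inv := fun z => rfl
          right_inv := fun z => rfl }
    have hd : ∀ x, c x - cH x = ∑ y ∈ Os, if y * x = x * y then 1 else 0 := fun x => by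
      have e : c x = cH x + ∑ y ∈ Os, if y * x = x * y then 1 else 0 := by
        rw [hc, Finset.sum_filter_add_sum_filter_not, ← Finset.sum_filter, ← Finset.card_eq_sum_ones, ← Fintype.card_subtype,
          ← Nat.card_eq_fintype_card]
        exact Nat.card_congr (Equiv.subtypeEquivRight fun z => mem_centralizer_singleton_iff)
      omega
    rw [Finset.sum_congr rfl fun x _ => hc x, Finset.sum_congr rfl fun x _ => hd x, Finset.sum_comm]
    exact Finset.sum_congr rfl fun y _ => Finset.sum_congr rfl fun x _ => by simp only [eq_comm]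
  have hO : ∑ x ∈ Os, c x = 2 * ∑ x ∈ Os, cH x := by
    rw [Finset.mul_sum]
    exact Finset.sum_congr rfl fun x hx => hout x (Finset.mem_filter.1 hx).2
  have hH2 : 2 * ∑ x ∈ Hs, cH x = ∑ x ∈ Hs, c x + ∑ x ∈ S, c x := by
    have e : ∑ x ∈ S, c x = ∑ x ∈ Hs, if centralizer ({x} : Set G) ≤ H then c x else 0 := by
      rw [show S = Hs.filter fun x => centralizer ({x} : Set G) ≤ H by simp [S, Hs, Finset.filter_filter]]
      exact Finset.sum_filter _ _
    rw [e, ← Finset.sum_add_distrib, Finset.mul_sum]
    refine Finset.sum_congr rfl fun x _ => ?_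
    split_ifs with h
    · rw [hsame x h]; ring
    · rw [← hhalf x h, add_zero]
  have hD : ∑ x ∈ Hs, (c x - cH x) + ∑ x ∈ Hs, cH x = ∑ x ∈ Hs, c x := by
    rw [← Finset.sum_add_distrib]
    refine Finset.sum_congr rfl fun x _ => Nat.sub_add_cancel ?_
    exact Nat.card_le_card_of_injective (Subgroup.inclusion inf_le_left) (Subgroup.inclusion_injective _)
  rw [hHH] at hH2 hD
  rw [hcross] at hO
  rw [hS] at hH2
  have key : (2 * Nat.card (ConjClasses H)) * Nat.card G =
      (Nat.card (ConjClasses G) + 3 * Nat.card {C : ConjClasses G // ∀ x, ConjClasses.mk x = C → (x ∈ H ∧ centralizer ({x} : Set G) ≤ H)}) * Nat.card G := by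
    rw [add_mul, ← hsplit, mul_assoc 3]
    rw [hGH] at hH2 ⊢
    have e : 2 * Nat.card (ConjClasses H) * (2 * Nat.card H) = 4 * (Nat.card (ConjClasses H) * Nat.card H) := by ring
    rw [e]
    omega
  exact Nat.eq_of_mul_eq_mul_right Nat.card_pos key

/-- `k (G) ≤ 2 k (H)` for a subgroup of index two. -/
theorem card_classes_le_two_mul (H : Subgroup G) (hH : H.index = 2) :
    Nat.card (ConjClasses G) ≤ 2 * Nat.card (ConjClasses H) :=
  (Nat.le_add_right _ _).trans (two_mul_card_classes_index_two H hH).ge

end CfsgLib.CharDegrees.ClassCount
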