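import Cfsg.Agent.Lib.CharDegrees.ClassCount.Decomp

/-!
The family of polynomials attached to an endomorphism, its determinant, and determinants of commuting
automorphisms.
-/

set_option autoImplicit false
set_option linter.unusedSectionVars false

namespace CfsgLib.CharDegrees.ClassCount

open Polynomial Module

universe u v

variable {F : Type u} [Field F] [DecidableEq F] {V : Type v} [AddCommGroup V] [Module F V] [FiniteDimensional F V]

/-- The determinant attached to a monic polynomial. -/
noncomputable def zOf (f : F[X]) : F := (-1) ^ f.natDegree * f.coeff 0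

theorem zOf_one : zOf (1 : F[X]) = 1 := by simp [zOf]

theorem zOf_mul {f g : F[X]} (hf : f.Monic) (hg : g.Monic) : zOf (f * g) = zOf f * zOf g := by
  rw [zOf, zOf, zOf, Polynomial.Monic.natDegree_mul hf hg, mul_coeff_zero, pow_add]; ring

theorem zOf_prod {ι : Type*} (s : Finset ι) (f : ι → F[X]) (hf : ∀ i ∈ s, (f i).Monic) :
    zOf (∏ i ∈ s, f i) = ∏ i ∈ s, zOf (f i) := by
  classical
  induction s using Finset.induction_on with
  | empty => simp [zOf_one]
  | insert a s ha ih =>
    rw [Finset.prod_insert ha, Finset.prod_insert ha, zOf_mul (hf a (Finset.mem_insert_self _ _))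
      (monic_prod_of_monic _ _ fun i hi => hf i (Finset.mem_insert_of_mem hi)),
      ih fun i hi => hf i (Finset.mem_insert_of_mem hi)]

theorem zOf_pow {f : F[X]} (hf : f.Monic) (k : ℕ) : zOf (f ^ k) = zOf f ^ k := by
  rw [← Fin.prod_const, zOf_prod _ _ fun _ _ => hf, Fin.prod_const]

/-- A fixed decomposition. -/
noncomputable def blk (g : Module.End F V) : Blocks g := (exists_blocks g).some

/-- The product of the primes with exponent `k`. -/
noncomputable def tuple (g : Module.End F V) (k : ℕ) : F[X] :=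
  ∏ i ∈ Finset.univ.filter (fun i => (blk g).e i = k), (blk g).P i

theorem tuple_monic (g : Module.End F V) (k : ℕ) : (tuple g k).Monic :=
  monic_prod_of_monic _ _ fun i _ => (blk g).monic i

theorem tuple_zero (g : Module.End F V) : tuple g 0 = 1 :=
  Finset.prod_eq_one fun i hi => absurd (Finset.mem_filter.1 hi).2 ((blk g).pos i).ne'

theorem count_tuple (g : Module.End F V) (Q : F[X]) (k : ℕ) :
    (UniqueFactorizationMonoid.normalizedFactors (tuple g k)).count Q =
      (Finset.univ.filter fun i => ((blk g).P i, (blk g).e i) = (Q, k)).card := by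
  classical
  have hm : UniqueFactorizationMonoid.normalizedFactors (tuple g k) =
      (Finset.univ.filter fun i => (blk g).e i = k).val.map (blk g).P := by
    rw [tuple, Finset.prod_eq_multiset_prod]
    refine (UniqueFactorizationMonoid.normalizedFactors_prod_eq _ fun p hp => ?_).trans ?_
    · obtain ⟨i, -, rfl⟩ := Multiset.mem_map.1 hp
      exact (blk g).irr i
    · rw [Multiset.map_map]
      exact Multiset.map_congr rfl fun i _ => ((blk g).monic i).normalize_eq_self
  rw [hm, Multiset.count_map, ← Finset.filter_val, ← Finset.card_def, Finset.filter_filter]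
  congr 1
  ext i
  simp only [Finset.mem_filter, Finset.mem_univ, true_and, Prod.mk.injEq]
  exact ⟨fun h => ⟨h.2.symm, h.1⟩, fun h => ⟨h.2, h.1.symm⟩⟩

/-- Equal families mean similar endomorphisms. -/
theorem exists_similar_of_tuple {g h : Module.End F V} (heq : ∀ k, tuple g k = tuple h k) :
    ∃ T : V ≃ₗ[F] V, ∀ v, T (g v) = h (T v) :=
  exists_similar_of_blocks (blk g) (blk h) fun c => by rw [← count_tuple, ← count_tuple, heq]

theorem tuple_ext {g h : Module.End F V}
    (hc : ∀ c, (Finset.univ.filter fun i => ((blk g).P i, (blk g).e i) = c).card =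
      (Finset.univ.filter fun i => ((blk h).P i, (blk h).e i) = c).card) (k : ℕ) : tuple g k = tuple h k := by
  classical
  have hfac : UniqueFactorizationMonoid.normalizedFactors (tuple g k) =
      UniqueFactorizationMonoid.normalizedFactors (tuple h k) :=
    Multiset.ext.2 fun Q => by rw [count_tuple, count_tuple, hc]
  have hass := UniqueFactorizationMonoid.prod_normalizedFactors (tuple_monic g k).ne_zero
  rw [hfac] at hass
  exact eq_of_monic_of_associated (tuple_monic g k) (tuple_monic h k)
    (hass.symm.trans (UniqueFactorizationMonoid.prod_normalizedFactors (tuple_monic h k).ne_zero))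

theorem tuple_conj {g h : Module.End F V} (T : V ≃ₗ[F] V) (hT : ∀ v, T (g v) = h (T v)) (k : ℕ) :
    tuple g k = tuple h k := by
  let B : Blocks h :=
    { blk g with
      φ := T.symm ≪≫ₗ (blk g).φ
      comm := fun v => by
        rw [LinearEquiv.trans_apply, LinearEquiv.trans_apply, ← (blk g).comm]
        congr 1
        rw [T.symm_apply_eq, hT, T.apply_symm_apply] }
  exact tuple_ext (fun c => B.card_fiber_eq (blk h) c) k

theorem det_piMap {m : ℕ} : ∀ (A : Fin m → Type u) [∀ i, AddCommGroup (A i)] [∀ i, Module F (A i)]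
    [∀ i, FiniteDimensional F (A i)] (f : ∀ i, Module.End F (A i)),
    LinearMap.det (LinearMap.piMap f) = ∏ i, LinearMap.det (f i) := by
  induction m with
  | zero =>
    intro A _ _ _ f
    rw [Fin.prod_univ_zero, show LinearMap.piMap f = 1 from LinearMap.ext fun z => funext fun i => i.elim0, map_one]
  | succ m ih =>
    intro A _ _ _ f
    let e : (A 0 × ∀ i : Fin m, A i.succ) ≃ₗ[F] ∀ i, A i :=
      { toFun := fun p => Fin.cons p.1 p.2
        map_add' := fun p q => funext fun i => by refine Fin.cases ?_ (fun j => ?_) i <;> simp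
        map_smul' := fun t p => funext fun i => by refine Fin.cases ?_ (fun j => ?_) i <;> simp
        invFun := fun z => (z 0, fun i => z i.succ)
        left_inv := fun p => by simp
        right_inv := fun z => funext fun i => by refine Fin.cases ?_ (fun j => ?_) i <;> simp }
    have hh : LinearMap.piMap f = e.conj (LinearMap.prodMap (f 0) (LinearMap.piMap fun i : Fin m => f i.succ)) := by
      refine LinearMap.ext fun z => funext fun i => ?_
      rw [LinearEquiv.conj_apply_apply]
      refine Fin.cases ?_ (fun j => ?_) i <;> simp [e]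
    rw [hh, LinearEquiv.conj_apply, LinearMap.comp_assoc, LinearMap.det_conj, LinearMap.det_prodMap, ih,
      Fin.prod_univ_succ]

theorem det_mulLeft_space {m : ℕ} {c : Fin m → F[X]} (hc : ∀ i, c i ≠ 0) (y : Space c) :
    LinearMap.det (LinearMap.mulLeft F y) = ∏ i, LinearMap.det (LinearMap.mulLeft F (y i)) := by
  haveI := fun i => finite_root_space (hc i)
  rw [← det_piMap (fun i => AdjoinRoot (c i)) fun i => LinearMap.mulLeft F (y i)]
  congr 1

theorem det_root {c : F[X]} (hc : c.Monic) :
    LinearMap.det (LinearMap.mulLeft F (AdjoinRoot.root c)) = zOf c := by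
  have h := Algebra.PowerBasis.norm_gen_eq_coeff_zero_minpoly (AdjoinRoot.powerBasis hc.ne_zero)
  rw [AdjoinRoot.powerBasis_gen, AdjoinRoot.powerBasis_dim, AdjoinRoot.minpoly_root hc.ne_zero,
    hc.leadingCoeff, inv_one, C_1, mul_one, Algebra.norm_apply] at h
  exact h

/-- The determinant from the family. -/
theorem Blocks.det_eq {g : Module.End F V} (B : Blocks g) : LinearMap.det g = ∏ i, zOf (B.P i) ^ B.e i := by
  have hg : g = B.φ.symm.conj (shift fun i => B.P i ^ B.e i) :=
    LinearMap.ext fun v => by rw [LinearEquiv.conj_apply_apply, B.φ.symm_symm, ← B.comm, B.φ.symm_apply_apply]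
  conv_lhs => rw [hg, LinearEquiv.conj_apply, LinearMap.comp_assoc, LinearMap.det_conj, shift,
    det_mulLeft_space fun i => pow_ne_zero _ (B.irr i).ne_zero]
  exact Finset.prod_congr rfl fun i _ => by rw [det_root ((B.monic i).pow _), zOf_pow (B.monic i)]

theorem Blocks.finrank_eq {g : Module.End F V} (B : Blocks g) :
    finrank F V = ∑ i, B.e i * (B.P i).natDegree := by
  haveI := fun i => finite_root_space (pow_ne_zero (B.e i) (B.irr i).ne_zero)
  rw [B.φ.finrank_eq, finrank_pi_fintype]
  exact Finset.sum_congr rfl fun i _ => by rw [finrank_root_space (pow_ne_zero _ (B.irr i).ne_zero), natDegree_pow]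

theorem Blocks.e_le {g : Module.End F V} (B : Blocks g) (i : Fin B.m) : B.e i ≤ finrank F V := by
  rw [B.finrank_eq]
  refine le_trans ?_ (Finset.single_le_sum (f := fun i => B.e i * (B.P i).natDegree) (fun _ _ => Nat.zero_le _)
    (Finset.mem_univ i))
  exact Nat.le_mul_of_pos_right _ (B.irr i).natDegree_pos

theorem tuple_det {g : Module.End F V} (n : ℕ) (hn : finrank F V ≤ n) :
    LinearMap.det g = ∏ k ∈ Finset.Icc 1 n, zOf (tuple g k) ^ k := by
  rw [(blk g).det_eq, ← Finset.prod_fiberwise_of_maps_to (t := Finset.Icc 1 n) (g := (blk g).e)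
    (fun i _ => Finset.mem_Icc.2 ⟨(blk g).pos i, ((blk g).e_le i).trans hn⟩)]
  refine Finset.prod_congr rfl fun k _ => ?_
  rw [tuple, zOf_prod _ _ fun i _ => (blk g).monic i, ← Finset.prod_pow]
  exact Finset.prod_congr rfl fun i hi => by rw [(Finset.mem_filter.1 hi).2]

theorem tuple_weight {g : Module.End F V} (n : ℕ) (hn : finrank F V ≤ n) :
    finrank F V = ∑ k ∈ Finset.Icc 1 n, k * (tuple g k).natDegree := by
  rw [(blk g).finrank_eq, ← Finset.sum_fiberwise_of_maps_to (t := Finset.Icc 1 n) (g := (blk g).e)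
    (fun i _ => Finset.mem_Icc.2 ⟨(blk g).pos i, ((blk g).e_le i).trans hn⟩)]
  refine Finset.sum_congr rfl fun k _ => ?_
  rw [tuple, natDegree_prod _ _ fun i _ => ((blk g).irr i).ne_zero, Finset.mul_sum]
  exact Finset.sum_congr rfl fun i hi => by rw [(Finset.mem_filter.1 hi).2]

theorem tuple_coeff_zero {g : Module.End F V} (hg : LinearMap.det g ≠ 0) (k : ℕ) : (tuple g k).coeff 0 ≠ 0 := by
  rw [(blk g).det_eq, Finset.prod_ne_zero_iff] at hg
  rw [coeff_zero_eq_eval_zero, tuple, eval_prod, Finset.prod_ne_zero_iff]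
  intro i hi h0
  refine hg i (Finset.mem_univ _) ?_
  rw [zOf, coeff_zero_eq_eval_zero, h0, mul_zero, zero_pow ((blk g).pos i).ne']

theorem det_mk_pow {P : F[X]} (hP : Irreducible P) (f : F[X]) :
    ∀ e, LinearMap.det (LinearMap.mulLeft F (AdjoinRoot.mk (P ^ e) f)) =
      LinearMap.det (LinearMap.mulLeft F (AdjoinRoot.mk P f)) ^ e := by
  intro e
  induction e with
  | zero =>
    haveI := finite_root_space (c := P ^ 0) (by simp)
    haveI : Subsingleton (AdjoinRoot (P ^ 0)) := Module.finrank_zero_iff.1
      (by rw [finrank_root_space (c := P ^ 0) (by simp)]; simp)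
    rw [show LinearMap.mulLeft F (AdjoinRoot.mk (P ^ 0) f) = 1 from
      LinearMap.ext fun z => Subsingleton.elim _ _, map_one, pow_zero]
  | succ e ih =>
    haveI := finite_root_space (c := P ^ (e + 1)) (pow_ne_zero _ hP.ne_zero)
    haveI := finite_root_space (c := P ^ e) (pow_ne_zero _ hP.ne_zero)
    haveI := finite_root_space hP.ne_zero
    let π : AdjoinRoot (P ^ (e + 1)) →ₗ[F] AdjoinRoot (P ^ e) :=
      (Ideal.Quotient.factorₐ F (Ideal.span_singleton_le_span_singleton.2 (pow_dvd_pow P (Nat.le_succ e)))).toLinearMap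
    have hπ : ∀ a, π (AdjoinRoot.mk _ a) = AdjoinRoot.mk _ a := fun a => rfl
    have hπs : Function.Surjective π := fun z => by
      obtain ⟨a, rfl⟩ := AdjoinRoot.mk_surjective z; exact ⟨_, hπ a⟩
    set E := LinearMap.mulLeft F (AdjoinRoot.mk (P ^ (e + 1)) f) with hE
    have hπE : ∀ z, π (E z) = AdjoinRoot.mk (P ^ e) f * π z := fun z => by
      obtain ⟨a, rfl⟩ := AdjoinRoot.mk_surjective z
      rw [hE, LinearMap.mulLeft_apply, ← map_mul, hπ, hπ, map_mul]
    have hW : LinearMap.ker π ≤ (LinearMap.ker π).comap E := fun z hz => by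
      rw [Submodule.mem_comap, LinearMap.mem_ker, hπE, LinearMap.mem_ker.1 hz, mul_zero]
    let L : F[X] →ₗ[F] LinearMap.ker π :=
      LinearMap.codRestrict _ ((AdjoinRoot.mkₐ (P ^ (e + 1))).toLinearMap ∘ₗ LinearMap.mulLeft F (P ^ e))
        fun a => by
          show π (AdjoinRoot.mk _ (P ^ e * a)) = 0
          rw [hπ, AdjoinRoot.mk_eq_zero]; exact dvd_mul_right _ _
    have hLs : Function.Surjective L := fun w => by
      obtain ⟨a, ha⟩ := AdjoinRoot.mk_surjective w.1
      have h0 : π w.1 = 0 := w.2
      rw [← ha, hπ, AdjoinRoot.mk_eq_zero] at h0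
      obtain ⟨b, rfl⟩ := h0
      exact ⟨b, Subtype.ext ha⟩
    have hLk : LinearMap.ker L = LinearMap.ker (AdjoinRoot.mkₐ P).toLinearMap := by
      ext a
      rw [LinearMap.mem_ker, Subtype.ext_iff]
      show AdjoinRoot.mk (P ^ (e + 1)) (P ^ e * a) = 0 ↔ AdjoinRoot.mk P a = 0
      rw [AdjoinRoot.mk_eq_zero, AdjoinRoot.mk_eq_zero, pow_succ, mul_dvd_mul_iff_left (pow_ne_zero _ hP.ne_zero)]
    let ι : AdjoinRoot P ≃ₗ[F] LinearMap.ker π :=
      ((LinearMap.quotKerEquivOfSurjective (AdjoinRoot.mkₐ P).toLinearMap AdjoinRoot.mk_surjective).symm ≪≫ₗ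
        Submodule.quotEquivOfEq _ _ hLk.symm) ≪≫ₗ L.quotKerEquivOfSurjective hLs
    have hι : ∀ a, ι (AdjoinRoot.mk P a) = L a := fun a => by
      have : (LinearMap.quotKerEquivOfSurjective (AdjoinRoot.mkₐ P).toLinearMap AdjoinRoot.mk_surjective).symm
          (AdjoinRoot.mk P a) = Submodule.Quotient.mk a := by
        rw [LinearEquiv.symm_apply_eq]; rfl
      simp only [ι, LinearEquiv.trans_apply, this]
      rfl
    have h1 : E.restrict hW = ι.conj (LinearMap.mulLeft F (AdjoinRoot.mk P f)) := by
      refine LinearMap.ext fun w => ?_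
      obtain ⟨z, rfl⟩ := ι.surjective w
      obtain ⟨a, rfl⟩ := AdjoinRoot.mk_surjective z
      rw [LinearEquiv.conj_apply_apply, LinearEquiv.symm_apply_apply, LinearMap.mulLeft_apply, ← map_mul, hι, hι]
      refine Subtype.ext ?_
      show E (AdjoinRoot.mk _ (P ^ e * a)) = AdjoinRoot.mk _ (P ^ e * (f * a))
      rw [hE, LinearMap.mulLeft_apply, ← map_mul, mul_left_comm]
    let ν := π.quotKerEquivOfSurjective hπs
    have h2 : (LinearMap.ker π).mapQ (LinearMap.ker π) E hW =
        ν.symm.conj (LinearMap.mulLeft F (AdjoinRoot.mk (P ^ e) f)) := by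
      refine LinearMap.ext fun w => ?_
      obtain ⟨z, rfl⟩ := Submodule.Quotient.mk_surjective _ w
      rw [LinearEquiv.conj_apply_apply, LinearEquiv.symm_symm, Submodule.mapQ_apply, LinearEquiv.eq_symm_apply,
        LinearMap.mulLeft_apply]
      exact hπE z
    rw [LinearMap.det_eq_det_mul_det _ E hW, h1, h2, LinearEquiv.conj_apply, LinearMap.comp_assoc,
      LinearMap.det_conj, LinearEquiv.conj_apply, LinearMap.comp_assoc, LinearMap.det_conj, ih, pow_succ']

/-- Determinants of automorphisms commuting with `g`. -/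
def detImage (g : Module.End F V) : Set Fˣ :=
  {d | ∃ a : Module.End F V, a * g = g * a ∧ LinearMap.det a = d}

theorem detImage_mul {g : Module.End F V} {d d' : Fˣ} (h : d ∈ detImage g) (h' : d' ∈ detImage g) :
    d * d' ∈ detImage g := by
  obtain ⟨a, ha, hd⟩ := h
  obtain ⟨a', ha', hd'⟩ := h'
  refine ⟨a * a', ?_, by rw [map_mul, hd, hd', Units.val_mul]⟩
  rw [mul_assoc, ha', ← mul_assoc, ha, mul_assoc]

theorem pow_mem_detImage [Finite F] {g : Module.End F V} (B : Blocks g) (i : Fin B.m) (d : Fˣ) :
    d ^ B.e i ∈ detImage g := by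
  classical
  haveI := fun i => finite_root_space (pow_ne_zero (B.e i) (B.irr i).ne_zero)
  haveI : Fact (Irreducible (B.P i)) := ⟨B.irr i⟩
  haveI := finite_root_space (B.irr i).ne_zero
  haveI : Finite (AdjoinRoot (B.P i)) := Module.finite_of_finite F
  obtain ⟨x, hx⟩ := FiniteField.norm_surjective F (AdjoinRoot (B.P i)) (d : F)
  obtain ⟨f, rfl⟩ := AdjoinRoot.mk_surjective x
  rw [Algebra.norm_apply] at hx
  let y : Space (fun j => B.P j ^ B.e j) := Pi.mulSingle i (AdjoinRoot.mk (B.P i ^ B.e i) f)
  refine ⟨B.φ.symm.conj (LinearMap.mulLeft F y), LinearMap.ext fun v => ?_, ?_⟩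
  · simp only [Module.End.mul_apply, LinearEquiv.conj_apply_apply, LinearEquiv.symm_symm, B.comm]
    apply B.φ.injective
    rw [B.φ.apply_symm_apply, B.comm, B.φ.apply_symm_apply, shift]
    simp only [LinearMap.mulLeft_apply]
    exact mul_left_comm _ _ _
  · rw [LinearEquiv.conj_apply, LinearMap.comp_assoc, LinearMap.det_conj,
      det_mulLeft_space fun j => pow_ne_zero _ (B.irr j).ne_zero, Finset.prod_eq_single i]
    · simp only [y, Pi.mulSingle_eq_same]
      rw [det_mk_pow (B.irr i), Units.val_pow_eq_pow_val]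
      exact congrArg (· ^ B.e i) hx
    · intro j _ hj
      simp only [y, Pi.mulSingle_eq_of_ne hj, LinearMap.mulLeft_one, LinearMap.det_id]
    · simp

/-- The greatest common divisor of the exponents and of `q - 1`. -/
noncomputable def expGcd [Fintype F] (g : Module.End F V) : ℕ :=
  (Finset.univ.image (blk g).e).gcd id |>.gcd (Fintype.card F - 1)

theorem expGcd_pow_mem [Fintype F] (g : Module.End F V) (d : Fˣ) : d ^ expGcd g ∈ detImage g := by
  classical
  let H : Submonoid Fˣ :=
    { carrier := detImage g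
      one_mem' := ⟨1, by rw [one_mul, mul_one], by rw [map_one]; rfl⟩
      mul_mem' := detImage_mul }
  have hz : ∀ (x : Fˣ), x ∈ H → ∀ z : ℤ, x ^ z ∈ H := fun x hx z => by
    obtain ⟨j, hj⟩ := (isOfFinOrder_of_finite x).mem_powers_iff_mem_zpowers.2 ⟨z, rfl⟩
    rw [← show x ^ j = x ^ z from hj]
    exact pow_mem hx j
  have hg : ∀ a b : ℕ, d ^ a ∈ H → d ^ b ∈ H → d ^ Nat.gcd a b ∈ H := fun a b ha hb => by
    rw [← zpow_natCast, Nat.gcd_eq_gcd_ab, zpow_add, zpow_mul, zpow_mul, zpow_natCast, zpow_natCast]
    exact H.mul_mem (hz _ ha _) (hz _ hb _)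
  have hs : ∀ s : Finset ℕ, (∀ a ∈ s, d ^ a ∈ H) → d ^ s.gcd id ∈ H := by
    intro s
    induction s using Finset.induction_on with
    | empty => intro _; simp
    | insert a s _ ih =>
      intro h
      rw [Finset.gcd_insert]
      exact hg _ _ (h a (Finset.mem_insert_self _ _)) (ih fun b hb => h b (Finset.mem_insert_of_mem hb))
  refine hg _ _ (hs _ fun a ha => ?_) ?_
  · obtain ⟨i, -, rfl⟩ := Finset.mem_image.1 ha
    exact pow_mem_detImage (blk g) i d
  · rw [show d ^ (Fintype.card F - 1) = 1 by rw [← Fintype.card_units]; exact pow_card_eq_one]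
    exact H.one_mem

theorem dvd_expGcd_iff [Fintype F] (g : Module.End F V) (d : ℕ) :
    d ∣ expGcd g ↔ d ∣ Fintype.card F - 1 ∧ ∀ k, tuple g k ≠ 1 → d ∣ k := by
  rw [expGcd, Nat.dvd_gcd_iff, Finset.dvd_gcd_iff, and_comm]
  refine and_congr_right fun _ => ?_
  simp only [Finset.mem_image, Finset.mem_univ, true_and, id, forall_exists_index, forall_apply_eq_imp_iff]
  refine ⟨fun h k hk => ?_, fun h i => h _ fun h1 => ?_⟩
  · obtain ⟨i, hi⟩ : ∃ i, (blk g).e i = k := by
      by_contra hcon
      exact hk (Finset.prod_eq_one fun i hi => absurd ⟨i, (Finset.mem_filter.1 hi).2⟩ hcon)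
    exact hi ▸ h i
  · have hle : ((blk g).P i).natDegree ≤ (tuple g ((blk g).e i)).natDegree :=
      natDegree_le_of_dvd (Finset.dvd_prod_of_mem _ (Finset.mem_filter.2 ⟨Finset.mem_univ i, rfl⟩))
        (tuple_monic g _).ne_zero
    rw [h1, natDegree_one] at hle
    exact absurd ((blk g).irr i).natDegree_pos (by omega)

theorem aeval_smul_scaleRoots (g : Module.End F V) (s : F) (Q : F[X]) :
    aeval (s • g) (Q.scaleRoots s) = s ^ Q.natDegree • aeval g Q := by
  rw [aeval_eq_sum_range, aeval_eq_sum_range, natDegree_scaleRoots, Finset.smul_sum]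
  refine Finset.sum_congr rfl fun j hj => ?_
  rw [coeff_scaleRoots, _root_.smul_pow, smul_smul, smul_smul]
  congr 1
  rw [Finset.mem_range] at hj
  conv_rhs => rw [show Q.natDegree = (Q.natDegree - j) + j by omega, pow_add]
  ring

theorem scaleRoots_scaleRoots {s t : F} (h : s * t = 1) (Q : F[X]) : (Q.scaleRoots s).scaleRoots t = Q := by
  rw [← scaleRoots_mul, h, scaleRoots_one]

theorem irreducible_scaleRoots {s : F} (hs : s ≠ 0) {Q : F[X]} (hQ : Irreducible Q) :
    Irreducible (Q.scaleRoots s) := by
  have h0 : ∀ a b : F[X], (a * b).scaleRoots s⁻¹ = a.scaleRoots s⁻¹ * b.scaleRoots s⁻¹ := fun a b =>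
    mul_scaleRoots_of_noZeroDivisors a b s⁻¹
  refine ⟨fun hu => hQ.not_isUnit ?_, fun a b hab => ?_⟩
  · have hd := natDegree_eq_zero_of_isUnit hu
    rw [natDegree_scaleRoots] at hd
    exact absurd hQ.natDegree_pos (by omega)
  · have e : Q = a.scaleRoots s⁻¹ * b.scaleRoots s⁻¹ := by
      rw [← h0, ← hab, scaleRoots_scaleRoots (mul_inv_cancel₀ hs)]
    have hab0 : a * b ≠ 0 := by
      rw [← hab]
      exact scaleRoots_ne_zero hQ.ne_zero s
    rcases hQ.isUnit_or_isUnit e with hu | hu
    · left
      have := natDegree_eq_zero_of_isUnit hu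
      rw [natDegree_scaleRoots] at this
      exact isUnit_iff_degree_eq_zero.2 (by rw [degree_eq_natDegree (left_ne_zero_of_mul hab0), this]; rfl)
    · right
      have := natDegree_eq_zero_of_isUnit hu
      rw [natDegree_scaleRoots] at this
      exact isUnit_iff_degree_eq_zero.2 (by rw [degree_eq_natDegree (right_ne_zero_of_mul hab0), this]; rfl)

theorem tuple_smul {g : Module.End F V} {s : F} (hs : s ≠ 0) (k : ℕ) :
    tuple (s • g) k = (tuple g k).scaleRoots s := by
  classical
  rcases Nat.eq_zero_or_pos k with rfl | hk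
  · rw [tuple_zero, tuple_zero, one_scaleRoots]
  set g' := s • g with hg'
  have hfib : ∀ Q : F[X], Irreducible Q → Q.Monic →
      (Finset.univ.filter fun i => ((blk g').P i, (blk g').e i) = (Q.scaleRoots s, k)).card =
        (Finset.univ.filter fun i => ((blk g).P i, (blk g).e i) = (Q, k)).card := by
    intro Q hQ hQm
    have hQs := irreducible_scaleRoots hs hQ
    have hQsm : (Q.scaleRoots s).Monic := (monic_scaleRoots_iff s).2 hQm
    have h1 := (blk g').card_formula hQs hQsm hk
    have h2 := (blk g).card_formula hQ hQm hk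
    have he : ∀ j, finrank F (LinearMap.ker (aeval g' (Q.scaleRoots s ^ j))) =
        finrank F (LinearMap.ker (aeval g (Q ^ j))) := fun j => by
      rw [map_pow, map_pow, hg', aeval_smul_scaleRoots, _root_.smul_pow, LinearMap.ker_smul _ _ (pow_ne_zero _ (pow_ne_zero _ hs))]
    rw [he, he, he, natDegree_scaleRoots] at h1
    exact Nat.eq_of_mul_eq_mul_left hQ.natDegree_pos (by omega)
  have hm1 : ((tuple g k).scaleRoots s).Monic := (monic_scaleRoots_iff s).2 (tuple_monic g k)
  have hfac : UniqueFactorizationMonoid.normalizedFactors ((tuple g k).scaleRoots s) =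
      UniqueFactorizationMonoid.normalizedFactors (tuple g' k) := by
    have hprod : (tuple g k).scaleRoots s =
        (((Finset.univ.filter fun i => (blk g).e i = k).val.map (blk g).P).map fun P => P.scaleRoots s).prod := by
      rw [tuple, Finset.prod_eq_multiset_prod]
      induction (Finset.univ.filter fun i => (blk g).e i = k).val.map (blk g).P using Multiset.induction_on with
      | empty => simp
      | cons a t ih =>
        rw [Multiset.prod_cons, Multiset.map_cons, Multiset.prod_cons, mul_scaleRoots_of_noZeroDivisors, ih]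
    rw [hprod, Multiset.map_map, UniqueFactorizationMonoid.normalizedFactors_prod_eq _ fun p hp => by
      obtain ⟨i, -, rfl⟩ := Multiset.mem_map.1 hp
      exact irreducible_scaleRoots hs ((blk g).irr i), Multiset.map_map]
    refine Multiset.ext.2 fun Q' => ?_
    rw [count_tuple, Multiset.count_map, ← Finset.filter_val, ← Finset.card_def, Finset.filter_filter]
    have hn : ∀ i, normalize (((blk g).P i).scaleRoots s) = ((blk g).P i).scaleRoots s := fun i =>
      ((monic_scaleRoots_iff s).2 ((blk g).monic i)).normalize_eq_self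
    simp only [Function.comp_apply, hn]
    by_cases h : Irreducible Q' ∧ Q'.Monic
    · have hQ : (Q'.scaleRoots s⁻¹).scaleRoots s = Q' := scaleRoots_scaleRoots (inv_mul_cancel₀ hs) Q'
      have hf := hfib _ (irreducible_scaleRoots (inv_ne_zero hs) h.1) ((monic_scaleRoots_iff _).2 h.2)
      rw [hQ] at hf
      rw [hf]
      congr 1
      ext i
      simp only [Finset.mem_filter, Finset.mem_univ, true_and, Prod.mk.injEq]
      exact ⟨fun hi => ⟨by rw [hi.2, scaleRoots_scaleRoots (mul_inv_cancel₀ hs)], hi.1⟩,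
        fun hi => ⟨hi.2, by rw [hi.1, hQ]⟩⟩
    · rw [(blk g').card_eq_zero fun h' => h ⟨h'.1, h'.2.1⟩, Finset.card_eq_zero, Finset.filter_eq_empty_iff]
      rintro i - ⟨-, rfl⟩
      exact h ⟨irreducible_scaleRoots hs ((blk g).irr i), (monic_scaleRoots_iff s).2 ((blk g).monic i)⟩
  have hass := UniqueFactorizationMonoid.prod_normalizedFactors hm1.ne_zero
  rw [hfac] at hass
  exact eq_of_monic_of_associated (tuple_monic _ k) hm1
    ((UniqueFactorizationMonoid.prod_normalizedFactors (tuple_monic g' k).ne_zero).symm.trans hass)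

end CfsgLib.CharDegrees.ClassCount
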