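import Mathlib

/-!
The numbers of class types of `GL n q`: coefficients of `∏ (1 - t^i) / (1 - q t^i)` and bounds on them.

`M q l k n` counts the families `(g_k, g_(k+1), ..., g_(k+l-1))` of monic polynomials with non-zero
constant term with `∑ i * deg g_i = n`.
-/

set_option autoImplicit false

namespace CfsgLib.CharDegrees.ClassCount

open Finset

/-- The number of monic polynomials of degree `s` with non-zero constant term. -/
def aC (q : ℕ) : ℕ → ℕ
  | 0 => 1
  | s + 1 => (q - 1) * q ^ s

/-- The number of families of weight `n` with indices in `[k, k + l)`. -/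
def M (q : ℕ) : ℕ → ℕ → ℕ → ℕ
  | 0, _, n => if n = 0 then 1 else 0
  | l + 1, k, n => ∑ s ∈ range (n + 1), if k * s ≤ n then aC q s * M q l (k + 1) (n - k * s) else 0

/-- Weighted partial sums. -/
def U (q l k : ℕ) : ℕ → ℕ
  | 0 => M q l k 0
  | n + 1 => q * U q l k n + M q l k (n + 1)

theorem aC_zero (q : ℕ) : aC q 0 = 1 := by simp [aC]

theorem aC_succ (q s : ℕ) : aC q (s + 1) = (q - 1) * q ^ s := by simp [aC]

theorem M_base (q k n : ℕ) : M q 0 k n = if n = 0 then 1 else 0 := by simp [M]

theorem M_succ (q l k n : ℕ) : M q (l + 1) k n =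
    ∑ s ∈ range (n + 1), if k * s ≤ n then aC q s * M q l (k + 1) (n - k * s) else 0 := by simp [M]

theorem U_zero (q l k : ℕ) : U q l k 0 = M q l k 0 := by simp [U]

theorem U_succ (q l k n : ℕ) : U q l k (n + 1) = q * U q l k n + M q l k (n + 1) := by simp [U]

theorem M_zero (q l k : ℕ) : M q l k 0 = 1 := by
  induction l generalizing k with
  | zero => simp [M_base]
  | succ l ih => simp [M_succ, ih, aC_zero]

theorem M_lt (q l : ℕ) {k n : ℕ} (h : n < k) : M q (l + 1) k n = M q l (k + 1) n := by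
  rw [M_succ, Finset.sum_eq_single 0]
  · simp [aC_zero]
  · intro s _ hs
    have : k * 1 ≤ k * s := Nat.mul_le_mul_left k (by omega)
    rw [if_neg (by omega)]
  · simp

theorem M_eq_zero (q l : ℕ) {k n : ℕ} (hn : 0 < n) (h : n < k) : M q l k n = 0 := by
  induction l generalizing k with
  | zero => simp [M_base]; omega
  | succ l ih => rw [M_lt q l h]; exact ih (by omega)

theorem M_rec {q : ℕ} (hq : 1 ≤ q) (l : ℕ) {k : ℕ} (hk : 1 ≤ k) (m : ℕ) :
    M q (l + 1) k (m + k) + M q l (k + 1) m = q * M q (l + 1) k m + M q l (k + 1) (m + k) := by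
  rw [M_succ, M_succ, Finset.sum_range_succ' _ (m + k), Finset.mul_sum]
  simp only [Nat.mul_zero, Nat.zero_le, if_true, Nat.sub_zero, aC_zero, one_mul]
  have e1 : ∀ s : ℕ, (if k * (s + 1) ≤ m + k then aC q (s + 1) * M q l (k + 1) (m + k - k * (s + 1)) else 0)
      = if k * s ≤ m then aC q (s + 1) * M q l (k + 1) (m - k * s) else 0 := fun s => by
    rw [Nat.mul_succ]
    by_cases h : k * s ≤ m
    · rw [if_pos h, if_pos (by omega), show m + k - (k * s + k) = m - k * s by omega]
    · rw [if_neg h, if_neg (by omega)]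
  simp only [e1]
  rw [← Finset.sum_subset (s₁ := range (m + 1)) (s₂ := range (m + k))
    (fun x hx => by simp only [mem_range] at hx ⊢; omega)
    (fun x _ hx => by
      simp only [mem_range, not_lt] at hx
      have : 1 * x ≤ k * x := Nat.mul_le_mul_right x hk
      rw [if_neg (by omega)])]
  rw [Finset.sum_range_succ' (fun s => if k * s ≤ m then aC q (s + 1) * M q l (k + 1) (m - k * s) else 0),
    Finset.sum_range_succ' (fun s => q * (if k * s ≤ m then aC q s * M q l (k + 1) (m - k * s) else 0))]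
  simp only [Nat.mul_zero, Nat.zero_le, if_true, Nat.sub_zero, aC_zero, one_mul, aC_succ, pow_succ, pow_zero,
    mul_one]
  have e2 : ∀ s : ℕ, (if k * (s + 1) ≤ m then (q - 1) * (q ^ s * q) * M q l (k + 1) (m - k * (s + 1)) else 0)
      = q * (if k * (s + 1) ≤ m then (q - 1) * q ^ s * M q l (k + 1) (m - k * (s + 1)) else 0) := fun s => by
    split_ifs <;> ring
  simp only [e2]
  have e3 : (q - 1) * M q l (k + 1) m + M q l (k + 1) m = q * M q l (k + 1) m := by
    rw [← Nat.succ_mul, Nat.succ_eq_add_one, Nat.sub_add_cancel hq]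
  linarith [e3]

theorem M_self {q : ℕ} (hq : 1 ≤ q) (l : ℕ) {k : ℕ} (hk : 1 ≤ k) :
    M q (l + 1) k k + 1 = q + M q l (k + 1) k := by
  simpa [M_zero] using M_rec hq l hk 0

theorem U_lt (q l : ℕ) {k n : ℕ} (h : n < k) : U q (l + 1) k n = U q l (k + 1) n := by
  induction n with
  | zero => simp [U_zero, M_zero]
  | succ n ih => rw [U_succ, U_succ, ih (by omega), M_lt q l h]

theorem U_rec {q : ℕ} (hq : 1 ≤ q) (l : ℕ) {k : ℕ} (hk : 1 ≤ k) (m : ℕ) :
    U q (l + 1) k (m + k) + U q l (k + 1) m = q * U q (l + 1) k m + U q l (k + 1) (m + k) := by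
  induction m with
  | zero =>
    obtain ⟨j, rfl⟩ : ∃ j, k = j + 1 := ⟨k - 1, by omega⟩
    rw [Nat.zero_add, U_succ, U_succ, U_zero, U_zero, M_zero, M_zero, U_lt q l (Nat.lt_succ_self j)]
    have := M_self hq l hk
    linarith
  | succ m ih =>
    rw [show m + 1 + k = m + k + 1 by omega, U_succ, U_succ, U_succ, U_succ]
    have := M_rec hq l hk (m + 1)
    rw [show m + 1 + k = m + k + 1 by omega] at this
    nlinarith [ih, this]

theorem mul_U_le (q l k n d : ℕ) : q ^ d * U q l k n ≤ U q l k (n + d) := by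
  induction d with
  | zero => simp
  | succ d ih =>
    rw [← Nat.add_assoc, U_succ, pow_succ']
    calc q * q ^ d * U q l k n = q * (q ^ d * U q l k n) := by ring
      _ ≤ q * U q l k (n + d) := Nat.mul_le_mul_left q ih
      _ ≤ _ := Nat.le_add_right _ _

theorem U_step {q : ℕ} (hq : 1 ≤ q) (l : ℕ) {k : ℕ} (hk : 1 ≤ k) :
    ∀ n, 1 ≤ n → (q : ℤ) ^ k * U q (l + 1) k n - (q : ℤ) ^ 2 * U q (l + 1) k (n - 1) ≤
      (q : ℤ) ^ k * U q l (k + 1) n - (q : ℤ) * U q l (k + 1) (n - 1) := by
  intro n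
  induction n using Nat.strong_induction_on with
  | _ n ih =>
    intro hn
    have hq' : (1 : ℤ) ≤ q := by exact_mod_cast hq
    rcases lt_trichotomy n k with h | rfl | h
    · rw [U_lt q l h, U_lt q l (show n - 1 < k by omega)]
      have : (0 : ℤ) ≤ U q l (k + 1) (n - 1) := Int.natCast_nonneg _
      nlinarith [mul_nonneg (mul_nonneg (show (0 : ℤ) ≤ q by omega) (show (0 : ℤ) ≤ q - 1 by omega)) this]
    · have h0 := U_rec hq l hk 0
      rw [Nat.zero_add, U_zero, U_zero, M_zero, M_zero, mul_one] at h0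
      rw [U_lt q l (show n - 1 < n by omega)]
      have h0' : (U q (l + 1) n n : ℤ) + 1 = q + U q l (n + 1) n := by exact_mod_cast h0
      have h1 : (q : ℤ) ^ (n - 1) ≤ U q l (n + 1) (n - 1) := by
        have := mul_U_le q l (n + 1) 0 (n - 1)
        rw [U_zero, M_zero, mul_one, Nat.zero_add] at this
        exact_mod_cast this
      have h2 : (q : ℤ) ^ n = q * (q : ℤ) ^ (n - 1) := by rw [← pow_succ', Nat.sub_add_cancel hn]
      have e0 : (q : ℤ) ^ n * U q (l + 1) n n = (q : ℤ) ^ n * U q l (n + 1) n + (q - 1) * (q * (q : ℤ) ^ (n - 1)) := by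
        linear_combination (q : ℤ) ^ n * h0' + ((q : ℤ) - 1) * h2
      have := mul_le_mul_of_nonneg_left h1
        (mul_nonneg (show (0 : ℤ) ≤ q by omega) (show (0 : ℤ) ≤ q - 1 by omega))
      linarith [e0]
    · obtain ⟨m, rfl⟩ : ∃ m, n = m + 1 + k := ⟨n - k - 1, by omega⟩
      have ih' := ih (m + 1) (by omega) (by omega)
      rw [Nat.add_sub_cancel] at ih'
      rw [show m + 1 + k - 1 = m + k by omega]
      have r1 : (U q (l + 1) k (m + 1 + k) : ℤ) + U q l (k + 1) (m + 1) =
          q * U q (l + 1) k (m + 1) + U q l (k + 1) (m + 1 + k) := by exact_mod_cast U_rec hq l hk (m + 1)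
      have r2 : (U q (l + 1) k (m + k) : ℤ) + U q l (k + 1) m =
          q * U q (l + 1) k m + U q l (k + 1) (m + k) := by exact_mod_cast U_rec hq l hk m
      have h1 : (q : ℤ) ^ (k - 1) * U q l (k + 1) (m + 1) ≤ U q l (k + 1) (m + k) := by
        have := mul_U_le q l (k + 1) (m + 1) (k - 1)
        rw [show m + 1 + (k - 1) = m + k by omega] at this
        exact_mod_cast this
      have h2 : (q : ℤ) ^ k = q * (q : ℤ) ^ (k - 1) := by rw [← pow_succ', Nat.sub_add_cancel hk]
      have e1 := congrArg (fun x : ℤ => (q : ℤ) ^ k * x) r1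
      have e2 := congrArg (fun x : ℤ => (q : ℤ) ^ 2 * x) r2
      have i1 := mul_le_mul_of_nonneg_left h1 (mul_nonneg (show (0 : ℤ) ≤ q by omega) (show (0 : ℤ) ≤ q - 1 by omega))
      have i2 := mul_le_mul_of_nonneg_left ih' (show (0 : ℤ) ≤ q by omega)
      have e3 := congrArg (fun x : ℤ => x * ((q - 1) * (U q l (k + 1) (m + 1) : ℤ))) h2
      linarith [e1, e2, e3, i1, i2]

theorem U_main {q : ℕ} (hq : 1 ≤ q) (l : ℕ) :
    ∀ k, 1 ≤ k → ∀ n, 1 ≤ n →
      (q : ℤ) ^ k * U q l k n - (q : ℤ) ^ 2 * U q l k (n - 1) ≤ (q : ℤ) ^ (k + n) := by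
  induction l with
  | zero =>
    intro k _ n hn
    have hU : ∀ m, U q 0 k m = q ^ m := fun m => by
      induction m with
      | zero => simp [U_zero, M_zero]
      | succ m ih => rw [U_succ, ih, M_base, if_neg (by omega)]; ring
    rw [hU, hU, pow_add]
    push_cast
    have : (0 : ℤ) ≤ (q : ℤ) ^ 2 * (q : ℤ) ^ (n - 1) := by positivity
    linarith
  | succ l ih =>
    intro k hk n hn
    refine le_of_mul_le_mul_left ?_ (show (0 : ℤ) < q by exact_mod_cast hq)
    have h1 := mul_le_mul_of_nonneg_left (U_step hq l hk n hn) (Int.natCast_nonneg q)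
    refine h1.trans ?_
    have h2 := ih (k + 1) (by omega) n hn
    rw [pow_succ (q : ℤ) k, show k + 1 + n = (k + n) + 1 by omega, pow_succ (q : ℤ) (k + n)] at h2
    linarith

/-- `k (GL n q) ≤ q ^ n`, numerically. -/
theorem M_le_pow {q : ℕ} (hq : 1 ≤ q) (l n : ℕ) : M q l 1 n ≤ q ^ n := by
  rcases n with _ | n
  · simp [M_zero]
  have h := U_main hq l 1 le_rfl (n + 1) (by omega)
  rw [U_succ, Nat.add_sub_cancel, pow_one, Nat.cast_add, Nat.cast_mul, Nat.add_comm 1 (n + 1),
    pow_succ (q : ℤ) (n + 1), sq] at h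
  have h' : (q : ℤ) * M q l 1 (n + 1) ≤ q * (q : ℤ) ^ (n + 1) := by linarith
  exact_mod_cast le_of_mul_le_mul_left h' (show (0 : ℤ) < q by exact_mod_cast hq)

theorem M_one_eq {q : ℕ} (hq : 1 ≤ q) (l n : ℕ) :
    M q (l + 1) 1 (n + 1) = M q l 2 (n + 1) + (q - 1) * U q l 2 n := by
  induction n with
  | zero =>
    have := M_self hq l (k := 1) le_rfl
    rw [U_zero, M_zero, mul_one]
    simp only [Nat.reduceAdd] at this ⊢
    omega
  | succ n ih =>
    have h := M_rec hq l (k := 1) le_rfl (n + 1)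
    rw [ih] at h
    rw [U_succ]
    obtain ⟨q', rfl⟩ : ∃ q', q = q' + 1 := ⟨q - 1, by omega⟩
    simp only [Nat.add_sub_cancel] at h ⊢
    simp only [Nat.reduceAdd] at h
    nlinarith [h]

theorem geom_bound {q : ℕ} (hq : 3 ≤ q) (m : ℕ) : 2 * ∑ i ∈ range m, q ^ i < q ^ m := by
  induction m with
  | zero => simp
  | succ m ih =>
    rw [Finset.sum_range_succ, pow_succ]
    have := Nat.mul_le_mul_left (q ^ m) hq
    omega

theorem M_two_le {q : ℕ} (hq : 1 ≤ q) (l : ℕ) {k : ℕ} (hk : 2 ≤ k) : M q l k 2 ≤ q - 1 := by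
  induction l generalizing k with
  | zero => simp [M_base]
  | succ l ih =>
    rcases Nat.lt_or_ge 2 k with h | h
    · rw [M_eq_zero q _ (by norm_num) h]; exact Nat.zero_le _
    · obtain rfl : k = 2 := by omega
      have := M_self hq l (k := 2) (by norm_num)
      rw [M_eq_zero q l (k := 2 + 1) (by norm_num) (by norm_num)] at this
      omega

/-- Families without index one. -/
theorem M_high_le {q : ℕ} (hq : 3 ≤ q) :
    ∀ n, 3 ≤ n → ∀ l k, 2 ≤ k → M q l k n ≤ q ^ (n - 2) := by
  intro n
  induction n using Nat.strong_induction_on with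
  | _ n ih =>
    intro hn l k hk
    let T : ℕ → ℕ → ℕ := fun j m => if m < j then 0 else if m = 2 then q * (q - 1) else q ^ (m - 1)
    have key : ∀ l k, 2 ≤ k → M q l k n ≤ (q - 1) + ∑ j ∈ Finset.Ico k n, T j (n - j) ∧
        (n < k → M q l k n = 0) := by
      intro l
      induction l with
      | zero => intro k _; rw [M_base, if_neg (by omega)]; exact ⟨Nat.zero_le _, fun _ => rfl⟩
      | succ l ihl =>
        intro k hk
        refine ⟨?_, fun h => M_eq_zero q _ (by omega) h⟩
        obtain ⟨h1, h2⟩ := ihl (k + 1) (by omega)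
        rcases Nat.lt_trichotomy n k with h | rfl | h
        · rw [M_eq_zero q _ (by omega) h]; exact Nat.zero_le _
        · have := M_self (show 1 ≤ q by omega) l (k := n) (by omega)
          rw [h2 (by omega)] at this
          omega
        · obtain ⟨m, rfl⟩ : ∃ m, n = m + k := ⟨n - k, by omega⟩
          have hr := M_rec (show 1 ≤ q by omega) l (show 1 ≤ k by omega) m
          rw [Finset.sum_eq_sum_Ico_succ_bot h, Nat.add_sub_cancel]
          have hT : q * M q (l + 1) k m ≤ T k m := by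
            simp only [T]
            split_ifs with hmk hm2
            · rw [M_eq_zero q _ (by omega) hmk, mul_zero]
            · subst hm2; exact Nat.mul_le_mul_left q (M_two_le (by omega) _ hk)
            · calc q * M q (l + 1) k m ≤ q * q ^ (m - 2) :=
                    Nat.mul_le_mul_left q (ih m (by omega) (by omega) _ _ hk)
                _ = q ^ (m - 1) := by rw [← pow_succ', show m - 2 + 1 = m - 1 by omega]
          omega
    refine (key l k hk).1.trans ?_
    have hsub : ∑ j ∈ Finset.Ico k n, T j (n - j) ≤ ∑ j ∈ Finset.Ico 2 n, T j (n - j) :=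
      Finset.sum_le_sum_of_subset (Finset.Ico_subset_Ico_left hk)
    refine le_trans (Nat.add_le_add_left hsub _) ?_
    rcases (show n = 3 ∨ n = 4 ∨ 5 ≤ n by omega) with rfl | rfl | h5
    · simp [Finset.sum_Ico_succ_top, T]
    · simp [Finset.sum_Ico_succ_top, T]
      obtain ⟨q', rfl⟩ : ∃ q', q = q' + 1 := ⟨q - 1, by omega⟩
      simp only [Nat.add_sub_cancel]; nlinarith
    · have hle : ∀ j ∈ Finset.Ico 2 n, T j (n - j) ≤ q ^ (n - 1 - j) := by
        intro j hj
        simp only [Finset.mem_Ico] at hj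
        simp only [T]
        split_ifs with a b
        · exact Nat.zero_le _
        · omega
        · rw [show n - j - 1 = n - 1 - j by omega]
      refine le_trans (Nat.add_le_add_left (Finset.sum_le_sum hle) _) ?_
      have hsum : ∑ j ∈ Finset.Ico 2 n, q ^ (n - 1 - j) = ∑ i ∈ range (n - 2), q ^ i := by
        rw [Finset.sum_Ico_eq_sum_range, ← Finset.sum_range_reflect (fun i => q ^ i)]
        exact Finset.sum_congr rfl fun j hj => by
          simp only [mem_range] at hj; rw [show n - 2 - 1 - j = n - 1 - (2 + j) by omega]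
      rw [hsum]
      have h4 := geom_bound hq (n - 2)
      have h3 : q ^ (1 + 1) ≤ q ^ (n - 2) := Nat.pow_le_pow_right (by omega) (by omega)
      have h6 : 2 * (q - 1) ≤ q ^ (1 + 1) := by
        rw [pow_succ, pow_one]
        exact Nat.mul_le_mul (show 2 ≤ q by omega) (Nat.sub_le q 1)
      omega

end CfsgLib.CharDegrees.ClassCount
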