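import Cfsg.Agent.Lib.CharDegrees.ClassCount.OCode

/-!
The number of codes for the orthogonal groups in even dimension.
-/

set_option autoImplicit false
set_option linter.unusedSectionVars false

namespace CfsgLib.CharDegrees.ClassCount.Orth

open Finset

/-- A product of `1 - a` is at least `1` minus the sum. -/
theorem one_sub_sum_le {ι : Type*} (s : Finset ι) (a : ι → ℝ) (h0 : ∀ i ∈ s, 0 ≤ a i) (h1 : ∀ i ∈ s, a i ≤ 1) :
    1 - ∑ i ∈ s, a i ≤ ∏ i ∈ s, (1 - a i) := by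
  classical
  induction s using Finset.induction_on with
  | empty => simp
  | insert i s hi ih =>
    rw [Finset.sum_insert hi, Finset.prod_insert hi]
    have hs : 0 ≤ ∑ j ∈ s, a j := Finset.sum_nonneg fun j hj => h0 j (mem_insert_of_mem hj)
    have hai := h0 i (mem_insert_self _ _)
    have hai' := h1 i (mem_insert_self _ _)
    refine le_trans ?_ (mul_le_mul_of_nonneg_left
      (ih (fun j hj => h0 j (mem_insert_of_mem hj)) fun j hj => h1 j (mem_insert_of_mem hj)) (by linarith))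
    have : 0 ≤ a i * ∑ j ∈ s, a j := mul_nonneg hai hs
    nlinarith

theorem geom_le {r : ℝ} (h0 : 0 ≤ r) (h1 : r < 1) (k : ℕ) : ∑ i ∈ range k, r ^ i ≤ 1 / (1 - r) := by
  rw [le_div_iff₀ (by linarith), geom_sum_mul_neg]
  have : 0 ≤ r ^ k := pow_nonneg h0 k
  linarith

/-- The bound `y` for `3 ^ (-1/2)`. -/
noncomputable def y0 : ℝ := 57736 / 100000

/-- The part coming from the bits. -/
theorem bits_bound (J : ℕ) :
    (∏ j ∈ range (J + 10), (1 + y0 ^ (2 * j + 1)) ^ 4) + (∏ j ∈ range (J + 10), (1 - y0 ^ (2 * j + 1)) ^ 4) ≤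
      37 / 2 := by
  have hy : (0 : ℝ) ≤ y0 ∧ y0 < 1 := by unfold y0; norm_num
  have ha0 : ∀ j : ℕ, 0 ≤ y0 ^ (2 * j + 1) := fun j => pow_nonneg hy.1 _
  have ha1 : ∀ j : ℕ, y0 ^ (2 * j + 1) < 1 := fun j => pow_lt_one₀ hy.1 hy.2 (by omega)
  rw [add_comm J 10, Finset.prod_range_add, Finset.prod_range_add]
  set A := ∏ j ∈ range 10, (1 + y0 ^ (2 * j + 1)) ^ 4 with hA
  set C := ∏ j ∈ range 10, (1 - y0 ^ (2 * j + 1)) ^ 4 with hC
  have hsum : ∑ i ∈ range J, y0 ^ (2 * (10 + i) + 1) ≤ y0 ^ 21 / (1 - y0 ^ 2) := by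
    rw [Finset.sum_congr rfl fun i _ => (show y0 ^ (2 * (10 + i) + 1) = y0 ^ 21 * (y0 ^ 2) ^ i by
      rw [← pow_mul, ← pow_add]; congr 1; ring), ← Finset.mul_sum]
    refine le_trans (mul_le_mul_of_nonneg_left (geom_le (pow_nonneg hy.1 2) ?_ J) (pow_nonneg hy.1 21)) ?_
    · exact pow_lt_one₀ hy.1 hy.2 (by norm_num)
    · rw [mul_one_div]
  set t := y0 ^ 21 / (1 - y0 ^ 2) with ht
  have ht1 : t < 1 := by rw [ht]; unfold y0; norm_num
  have hprod : 1 - t ≤ ∏ i ∈ range J, (1 - y0 ^ (2 * (10 + i) + 1)) :=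
    le_trans (by linarith) (one_sub_sum_le _ _ (fun i _ => ha0 _) fun i _ => (ha1 _).le)
  have hpos : ∀ i : ℕ, (0 : ℝ) < 1 - y0 ^ (2 * (10 + i) + 1) := fun i => sub_pos.2 (ha1 _)
  have hup : (∏ i ∈ range J, (1 + y0 ^ (2 * (10 + i) + 1)) ^ 4) * (1 - t) ^ 4 ≤ 1 := by
    rw [Finset.prod_pow]
    rw [← mul_pow]
    refine pow_le_one₀ (mul_nonneg (Finset.prod_nonneg fun i _ => by linarith [ha0 (10 + i)]) (by linarith)) ?_
    refine le_trans (mul_le_mul_of_nonneg_left hprod (Finset.prod_nonneg fun i _ => by linarith [ha0 (10 + i)])) ?_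
    rw [← Finset.prod_mul_distrib]
    refine Finset.prod_le_one (fun i _ => mul_nonneg (by linarith [ha0 (10 + i)]) (hpos i).le) fun i _ => ?_
    nlinarith [ha0 (10 + i)]
  have hdown : (∏ i ∈ range J, (1 - y0 ^ (2 * (10 + i) + 1)) ^ 4) ≤ 1 :=
    Finset.prod_le_one (fun i _ => pow_nonneg (hpos i).le 4) fun i _ =>
      pow_le_one₀ (hpos i).le (by linarith [ha0 (10 + i)])
  have hA0 : 0 ≤ A := Finset.prod_nonneg fun i _ => pow_nonneg (by linarith [ha0 i]) 4
  have hC0 : 0 ≤ C := Finset.prod_nonneg fun i _ => pow_nonneg (sub_nonneg.2 (ha1 i).le) 4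
  have ht4 : (0 : ℝ) < (1 - t) ^ 4 := pow_pos (by linarith) 4
  have hAb : A + C * (1 - t) ^ 4 ≤ 37 / 2 * (1 - t) ^ 4 := by
    rw [hA, hC, ht]
    simp only [y0, Finset.prod_range_succ, Finset.prod_range_zero]
    norm_num
  refine le_of_mul_le_mul_right (le_trans ?_ hAb) ht4
  rw [add_mul]
  refine add_le_add ?_ ?_
  · rw [mul_assoc]
    exact mul_le_of_le_one_right hA0 hup
  · exact mul_le_mul_of_nonneg_right (mul_le_of_le_one_right hC0 hdown) ht4.le

/-- The part coming from the polynomials. -/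
theorem poly_bound (m : ℕ) : (∏ j ∈ range m, (1 - (1 / 3 : ℝ) ^ (j + 1)))⁻¹ ≤ 179 / 100 := by
  have ha : ∀ j : ℕ, (1 / 3 : ℝ) ^ (j + 1) < 1 := fun j => pow_lt_one₀ (by norm_num) (by norm_num) (by omega)
  have hmono : ∏ j ∈ range (6 + m), (1 - (1 / 3 : ℝ) ^ (j + 1)) ≤ ∏ j ∈ range m, (1 - (1 / 3 : ℝ) ^ (j + 1)) := by
    rw [add_comm, Finset.prod_range_add]
    refine mul_le_of_le_one_right (Finset.prod_nonneg fun j _ => (sub_pos.2 (ha j)).le) ?_
    exact Finset.prod_le_one (fun j _ => (sub_pos.2 (ha _)).le) fun j _ => by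
      have : (0 : ℝ) ≤ (1 / 3 : ℝ) ^ (m + j + 1) := by positivity
      linarith
  have hsum : ∑ i ∈ range m, (1 / 3 : ℝ) ^ (6 + i + 1) ≤ (1 / 3 : ℝ) ^ 7 / (1 - 1 / 3) := by
    rw [Finset.sum_congr rfl fun i _ => (show (1 / 3 : ℝ) ^ (6 + i + 1) = (1 / 3) ^ 7 * (1 / 3) ^ i by
      rw [← pow_add]; congr 1; ring), ← Finset.mul_sum]
    refine le_trans (mul_le_mul_of_nonneg_left (geom_le (by norm_num) (by norm_num) m) (by norm_num)) ?_
    rw [mul_one_div]
  have hlow : (∏ j ∈ range 6, (1 - (1 / 3 : ℝ) ^ (j + 1))) * (1 - (1 / 3 : ℝ) ^ 7 / (1 - 1 / 3)) ≤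
      ∏ j ∈ range (6 + m), (1 - (1 / 3 : ℝ) ^ (j + 1)) := by
    rw [Finset.prod_range_add]
    refine mul_le_mul_of_nonneg_left (le_trans (by linarith) (one_sub_sum_le _ _ (fun i _ => by positivity)
      fun i _ => (ha _).le)) (Finset.prod_nonneg fun j _ => (sub_pos.2 (ha j)).le)
  rw [inv_le_comm₀ (Finset.prod_pos fun j _ => sub_pos.2 (ha j)) (by norm_num)]
  refine le_trans ?_ (hlow.trans hmono)
  simp only [Finset.prod_range_succ, Finset.prod_range_zero]
  norm_num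

set_option maxHeartbeats 1000000 in
/-- All codes together with the codes without bits. -/
theorem sum_code_le {q n : ℕ} (hq : 3 ≤ q) (hn : 1 ≤ n) :
    ∑ c ∈ codeSet n, q ^ ∑ i, c.2 i + ∑ c ∈ (codeSet n).filter (fun c => c.1 = ∅), q ^ ∑ i, c.2 i ≤ 19 * q ^ n := by
  classical
  obtain ⟨m, rfl⟩ := Nat.exists_eq_add_of_le' hn
  set x : ℝ := 1 / (q : ℝ) with hx
  have hq0 : (0 : ℝ) < q := by exact_mod_cast (show 0 < q by omega)
  have hx0 : 0 ≤ x := by positivity
  have hx3 : x ≤ 1 / 3 := by rw [hx]; exact one_div_le_one_div_of_le (by norm_num) (by exact_mod_cast hq)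
  have hy0 : (0 : ℝ) ≤ y0 := by unfold y0; norm_num
  have hxy : x ≤ y0 ^ 2 := hx3.trans (by unfold y0; norm_num)
  let wS : Finset (ℕ × Fin 4) → ℕ := fun S => ∑ p ∈ S, (2 * p.1 - 1)
  let g : Finset (ℕ × Fin 4) → ℝ := fun S => ∏ p ∈ S, y0 ^ (2 * p.1 - 1)
  let g' : Finset (ℕ × Fin 4) → ℝ := fun S => ∏ p ∈ S, -(y0 ^ (2 * p.1 - 1))
  have hg0 : ∀ S, 0 ≤ g S := fun S => Finset.prod_nonneg fun p _ => pow_nonneg hy0 _
  have hgg : ∀ S, g' S = (-1 : ℝ) ^ S.card * g S := fun S => by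
    simp only [g', g]
    rw [Finset.prod_neg]
  let E : (Fin (m + 1) → ℕ) → ℝ := fun d => ∏ i : Fin (m + 1), ((1 / 3 : ℝ) ^ (i : ℕ)) ^ d i
  have hE0 : ∀ d, 0 ≤ E d := fun d => Finset.prod_nonneg fun i _ => by positivity
  have hpar : ∀ S : Finset (ℕ × Fin 4), (∀ p ∈ S, 1 ≤ p.1) → (Even (wS S) ↔ Even S.card) := by
    intro S hS
    induction S using Finset.induction_on with
    | empty => simp [wS]
    | insert p S hp ih =>
      have h1 := hS p (mem_insert_self _ _)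
      have hih := ih fun r hr => hS r (mem_insert_of_mem hr)
      simp only [wS] at hih ⊢
      rw [Finset.sum_insert hp, Finset.card_insert_of_notMem hp, Nat.even_add, Nat.even_add_one]
      have : ¬ Even (2 * p.1 - 1) := by rw [Nat.even_iff]; omega
      rw [← hih]
      tauto
  have hW : ∀ c ∈ codeSet (m + 1), (q : ℝ) ^ (∑ i, c.2 i) ≤ (q : ℝ) ^ (m + 1) * (g c.1 * E c.2) := fun c hc => by
    have h := (mem_filter.1 hc).2
    have e1 : ∑ i : Fin (m + 1), ((i : ℕ) + 1) * c.2 i = ∑ i : Fin (m + 1), c.2 i + ∑ i : Fin (m + 1), (i : ℕ) * c.2 i := by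
      rw [← Finset.sum_add_distrib]
      exact Finset.sum_congr rfl fun i _ => by ring
    rw [e1] at h
    obtain ⟨u, hu⟩ : ∃ u, ∑ p ∈ c.1, (2 * p.1 - 1) = 2 * u := ⟨m + 1 - (∑ i : Fin (m + 1), c.2 i + ∑ i : Fin (m + 1), (i : ℕ) * c.2 i), by omega⟩
    have e : ∑ i : Fin (m + 1), c.2 i + (u + ∑ i : Fin (m + 1), (i : ℕ) * c.2 i) = m + 1 := by omega
    have hqx : (q : ℝ) ^ (∑ i, c.2 i) = (q : ℝ) ^ (m + 1) * (x ^ u * x ^ ∑ i : Fin (m + 1), (i : ℕ) * c.2 i) := by
      rw [← pow_add, hx, div_pow, one_pow, mul_one_div, eq_div_iff (pow_ne_zero _ hq0.ne'), ← pow_add, e]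
    rw [hqx]
    refine mul_le_mul_of_nonneg_left (mul_le_mul ?_ ?_ (pow_nonneg hx0 _) (hg0 _)) (by positivity)
    · simp only [g, Finset.prod_pow_eq_pow_sum]
      rw [hu, pow_mul]
      exact pow_le_pow_left₀ hx0 hxy u
    · simp only [E, ← pow_mul, Finset.prod_pow_eq_pow_sum]
      exact pow_le_pow_left₀ hx0 hx3 _
  let Φ : Finset (ℕ × Fin 4) × (Fin (m + 1) → ℕ) → Finset (ℕ × Fin 4) × (Fin (m + 1) → ℕ) :=
    fun c => (c.1, Function.update c.2 0 0)
  have hΦ : Set.InjOn Φ ↑(codeSet (m + 1)) := by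
    intro c hc c' hc' he
    simp only [Φ, Prod.mk.injEq] at he
    refine Prod.ext he.1 (funext fun i => ?_)
    by_cases hi : i = 0
    · subst hi
      have h := (mem_filter.1 hc).2
      have h' := (mem_filter.1 hc').2
      rw [Fin.sum_univ_succ] at h h'
      have e : ∀ i : Fin m, c.2 i.succ = c'.2 i.succ := fun i => by
        have := congrFun he.2 i.succ
        simpa [Function.update_of_ne (Fin.succ_ne_zero i)] using this
      simp only [e, he.1, Fin.val_zero, zero_add, one_mul] at h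
      simp only [Fin.val_zero, zero_add, one_mul] at h'
      omega
    · simpa [Function.update_of_ne hi] using congrFun he.2 i
  have hEΦ : ∀ c : Finset (ℕ × Fin 4) × (Fin (m + 1) → ℕ), E (Φ c).2 = E c.2 := fun c => by
    simp only [E, Φ]
    refine Finset.prod_congr rfl fun i _ => ?_
    by_cases hi : i = 0
    · subst hi; simp
    · rw [Function.update_of_ne hi]
  let R : Fin (m + 1) → Finset ℕ := fun i => if i = 0 then {0} else range (m + 2)
  set N := 2 * (m + 1) + 10 with hN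
  let U : Finset (ℕ × Fin 4) := Icc 1 N ×ˢ (univ : Finset (Fin 4))
  have hE : ∑ d ∈ Fintype.piFinset R, E d ≤ 179 / 100 := by
    rw [← Finset.prod_univ_sum]
    refine le_trans ?_ (poly_bound m)
    rw [Fin.prod_univ_succ, ← Finset.prod_inv_distrib]
    simp only [R, if_pos, Finset.sum_singleton, pow_zero, one_mul, Fin.succ_ne_zero, if_false, Fin.val_succ]
    rw [Fin.prod_univ_eq_prod_range (fun i => ∑ d ∈ range (m + 2), ((1 / 3 : ℝ) ^ (i + 1)) ^ d) m]
    refine Finset.prod_le_prod (fun j _ => Finset.sum_nonneg fun d _ => by positivity) fun j _ => ?_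
    rw [← one_div]
    exact geom_le (by positivity) (pow_lt_one₀ (by norm_num) (by norm_num) (by omega)) _
  have himg : ∀ c ∈ codeSet (m + 1), Φ c ∈ (U.powerset.filter fun S => Even S.card) ×ˢ Fintype.piFinset R := by
    intro c hc
    obtain ⟨hd1, hd2⟩ := mem_product.1 (mem_filter.1 hc).1
    rw [mem_powerset] at hd1
    refine mem_product.2 ⟨mem_filter.2 ⟨mem_powerset.2 (hd1.trans ?_), (hpar _ fun p hp => ?_).1 ?_⟩,
      Fintype.mem_piFinset.2 fun i => ?_⟩
    · refine Finset.product_subset_product_left (Icc_subset_Icc_right ?_)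
      omega
    · exact (mem_Icc.1 (mem_product.1 (hd1 hp)).1).1
    · have := (mem_filter.1 hc).2
      simp only [wS, Φ, Nat.even_iff]
      omega
    · by_cases hi : i = 0
      · subst hi; simp [Φ, R]
      · simpa [Φ, R, hi, Function.update_of_ne hi, Nat.lt_succ_iff] using Fintype.mem_piFinset.1 hd2 i
  have hg : ∑ S ∈ U.powerset.filter (fun S => Even S.card), g S ≤ 37 / 4 := by
    have e : ∑ S ∈ U.powerset.filter (fun S => Even S.card), g S =
        (∑ S ∈ U.powerset, g S + ∑ S ∈ U.powerset, g' S) / 2 := by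
      rw [Finset.sum_filter, ← Finset.sum_add_distrib, Finset.sum_div]
      refine Finset.sum_congr rfl fun S _ => ?_
      rw [hgg]
      rcases Nat.even_or_odd S.card with h | h
      · rw [if_pos h, h.neg_one_pow]; ring
      · rw [if_neg (Nat.not_even_iff_odd.2 h), h.neg_one_pow]; ring
    rw [e]
    show (∑ S ∈ (Icc 1 N ×ˢ (univ : Finset (Fin 4))).powerset, ∏ p ∈ S, y0 ^ (2 * p.1 - 1) +
      ∑ S ∈ (Icc 1 N ×ˢ (univ : Finset (Fin 4))).powerset, ∏ p ∈ S, -(y0 ^ (2 * p.1 - 1))) / 2 ≤ 37 / 4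
    rw [← Finset.prod_one_add, ← Finset.prod_one_add, Finset.prod_product, Finset.prod_product]
    simp only [Finset.prod_const, Finset.card_univ, Fintype.card_fin]
    have hr : ∀ f : ℕ → ℝ, ∏ j ∈ Icc 1 N, f (2 * j - 1) = ∏ j ∈ range N, f (2 * j + 1) := fun f => by
      rw [Finset.range_eq_Ico, show Icc 1 N = Ico (0 + 1) (N + 1) by
        ext; simp only [mem_Icc, mem_Ico]; omega, ← Finset.prod_Ico_add' (fun j => f (2 * j - 1)) 0 N 1]
      exact Finset.prod_congr rfl fun j _ => by congr 1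
    have h1 := hr fun k => (1 + y0 ^ k) ^ 4
    have h2 := hr fun k => (1 + -(y0 ^ k)) ^ 4
    try simp only at h1 h2
    rw [h1, h2, hN]
    have := bits_bound (2 * (m + 1))
    simp only [← sub_eq_add_neg]
    linarith
  have hT : ∑ c ∈ codeSet (m + 1), g c.1 * E c.2 ≤ 37 / 4 * (179 / 100) := by
    rw [← Finset.sum_congr rfl (fun c (_ : c ∈ codeSet (m + 1)) => by rw [hEΦ] :
      ∀ c ∈ codeSet (m + 1), g (Φ c).1 * E (Φ c).2 = g c.1 * E c.2),
      ← Finset.sum_image (f := fun c => g c.1 * E c.2) hΦ]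
    refine le_trans (Finset.sum_le_sum_of_subset_of_nonneg (Finset.image_subset_iff.2 himg)
      fun c _ _ => mul_nonneg (hg0 _) (hE0 _)) ?_
    rw [Finset.sum_product, ← Finset.sum_mul_sum]
    exact mul_le_mul hg hE (Finset.sum_nonneg fun d _ => hE0 d) (by norm_num)
  have hZ : ∑ c ∈ (codeSet (m + 1)).filter (fun c => c.1 = ∅), g c.1 * E c.2 ≤ 179 / 100 := by
    rw [← Finset.sum_congr rfl (fun c (_ : c ∈ (codeSet (m + 1)).filter (fun c => c.1 = ∅)) => by rw [hEΦ] :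
      ∀ c ∈ (codeSet (m + 1)).filter (fun c => c.1 = ∅), g (Φ c).1 * E (Φ c).2 = g c.1 * E c.2),
      ← Finset.sum_image (f := fun c => g c.1 * E c.2) (hΦ.mono (coe_subset.2 (filter_subset _ _)))]
    refine le_trans (Finset.sum_le_sum_of_subset_of_nonneg (t := ({∅} : Finset (Finset (ℕ × Fin 4))) ×ˢ Fintype.piFinset R)
      (Finset.image_subset_iff.2 fun c hc => ?_) fun c _ _ => mul_nonneg (hg0 _) (hE0 _)) ?_
    · obtain ⟨hc, he⟩ := mem_filter.1 hc
      exact mem_product.2 ⟨mem_singleton.2 he, (mem_product.1 (himg c hc)).2⟩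
    · rw [Finset.sum_product, Finset.sum_singleton]
      simpa [g] using hE
  have h6 : ((∑ c ∈ codeSet (m + 1), q ^ ∑ i, c.2 i + ∑ c ∈ (codeSet (m + 1)).filter (fun c => c.1 = ∅), q ^ ∑ i, c.2 i : ℕ) : ℝ)
      ≤ 19 * (q : ℝ) ^ (m + 1) := by
    push_cast
    refine le_trans (add_le_add (Finset.sum_le_sum hW) (Finset.sum_le_sum fun c hc => hW c (mem_filter.1 hc).1)) ?_
    rw [← Finset.mul_sum, ← Finset.mul_sum]
    nlinarith [hT, hZ, pow_pos hq0 (m + 1)]
  exact_mod_cast h6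

end CfsgLib.CharDegrees.ClassCount.Orth
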