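import Cfsg.Agent.Lib.CharDegrees.ClassCount.SpCode
import Cfsg.Agent.Lib.Forms.SympBridge

/-!
The classes of `Sp (2 n, q)` for odd `q`.
-/

set_option autoImplicit false
set_option linter.unusedSectionVars false

namespace CfsgLib.CharDegrees.ClassCount.Sp

open Polynomial Module

universe u v

variable {F : Type u} [Field F]

section Abstract

variable {V : Type v} [AddCommGroup V] [Module F V]

/-- The restriction of an automorphism to an invariant subspace. -/
noncomputable def restr (g : V ≃ₗ[F] V) (R : Submodule F V) (h : ∀ x ∈ R, g x ∈ R ∧ g.symm x ∈ R) : R ≃ₗ[F] R :=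
  LinearEquiv.ofLinearMap (g.toLinearMap.restrict fun x hx => (h x hx).1)
    (g.symm.toLinearMap.restrict fun x hx => (h x hx).2)
    (LinearMap.ext fun x => Subtype.ext (g.apply_symm_apply _))
    (LinearMap.ext fun x => Subtype.ext (g.symm_apply_apply _))

theorem coe_restr (g : V ≃ₗ[F] V) (R : Submodule F V) (h : ∀ x ∈ R, g x ∈ R ∧ g.symm x ∈ R) (x : R) :
    (restr g R h x : V) = g x := rfl

/-- The negative of an automorphism. -/
def negEquiv (g : V ≃ₗ[F] V) : V ≃ₗ[F] V := g.trans (LinearEquiv.neg F)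

theorem negEquiv_apply (g : V ≃ₗ[F] V) (x : V) : negEquiv g x = -g x := rfl

theorem negEquiv_symm_apply (g : V ≃ₗ[F] V) (x : V) : (negEquiv g).symm x = g.symm (-x) := rfl

theorem pow_apply_eq_zero (g : V ≃ₗ[F] V) {D : ℕ} {x : V} (h : ((g.toLinearMap - 1) ^ D) x = 0) :
    ((g.toLinearMap - g.symm.toLinearMap) ^ D) x = 0 := by
  have e : g.toLinearMap - g.symm.toLinearMap = (g.symm.toLinearMap * (g.toLinearMap + 1)) * (g.toLinearMap - 1) :=
    LinearMap.ext fun x => by
      simp only [LinearMap.sub_apply, Module.End.mul_apply, LinearMap.add_apply, Module.End.one_apply,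
        LinearEquiv.coe_coe, map_add, map_sub, g.symm_apply_apply]
      abel
  have hc : Commute (g.symm.toLinearMap * (g.toLinearMap + 1)) (g.toLinearMap - 1) := by
    refine LinearMap.ext fun x => ?_
    simp only [LinearMap.sub_apply, Module.End.mul_apply, LinearMap.add_apply, Module.End.one_apply,
      LinearEquiv.coe_coe, map_add, map_sub, g.symm_apply_apply, g.apply_symm_apply]
    abel
  rw [e, hc.mul_pow, Module.End.mul_apply, h, map_zero]

variable [FiniteDimensional F V]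

/-- A datum describes an isometry. -/
def Rep [DecidableEq F] (δ : F) (B : LinearMap.BilinForm F V) (g : V ≃ₗ[F] V) {n : ℕ} (x : SpData F n) : Prop :=
  ∃ (K R₁ L R : Submodule F V) (_ : Split B g 1 ⊤ K R₁ (finrank F V))
    (h₂ : Split B g (-1) R₁ L R (finrank F V)),
    HasData δ B (g.toLinearMap - g.symm.toLinearMap) K x.P ∧
    HasData δ B ((negEquiv g).toLinearMap - (negEquiv g).symm.toLinearMap) L x.M ∧
    ∀ k, tuple (restr g R h₂.inv_R).toLinearMap k = x.t k

theorem kill_neg (g : V ≃ₗ[F] V) {D : ℕ} {x : V} (h : ((g.toLinearMap - (-1 : F) • 1) ^ D) x = 0) :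
    (((negEquiv g).toLinearMap - 1) ^ D) x = 0 := by
  have e : (negEquiv g).toLinearMap - 1 = (-1 : F) • (g.toLinearMap - (-1 : F) • 1) :=
    LinearMap.ext fun x => by simp [negEquiv_apply, sub_eq_add_neg, add_comm]
  rw [e, _root_.smul_pow, LinearMap.smul_apply, h, smul_zero]

variable [Fintype F] [DecidableEq F]

/-- Every isometry has a datum. -/
theorem exists_rep {B : LinearMap.BilinForm F V} (hB : B.Nondegenerate) (halt : B.IsAlt) (h2 : (2 : F) ≠ 0) {δ : F}
    (hδ : ¬ IsSquare δ) (g : V ≃ₗ[F] V) (hg : ∀ x y, B (g x) (g y) = B x y) {n : ℕ} (hn : finrank F V = 2 * n) :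
    ∃ x : SpData F n, Rep δ B g x := by
  have hδ0 : δ ≠ 0 := fun h => hδ (h ▸ IsSquare.zero)
  obtain ⟨K, R₁, h₁⟩ := exists_split halt g hg (ε := 1) (one_mul 1) (W := ⊤)
    (fun x _ => ⟨trivial, trivial⟩) (fun x _ h => hB.1 x fun y => h y trivial)
  obtain ⟨L, R, h₂⟩ := exists_split halt g hg (ε := -1) (by ring) h₁.inv_R h₁.nd_R
  have hng : ∀ x y, B (negEquiv g x) (negEquiv g y) = B x y := fun x y => by simp [negEquiv_apply, hg]
  obtain ⟨P, hP, hPb, hP1⟩ := exists_data (skew_sub_inv B g hg) halt h2 hδ K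
    (fun x hx => sub_mem (h₁.inv_K x hx).1 (h₁.inv_K x hx).2) h₁.nd_K (finrank F V)
    (fun x hx => pow_apply_eq_zero g (by simpa using h₁.kill x hx))
  obtain ⟨M, hM, hMb, hM1⟩ := exists_data (skew_sub_inv B (negEquiv g) hng) halt h2 hδ L
    (fun x hx => sub_mem (neg_mem (h₂.inv_K x hx).1) ((h₂.inv_K (-x) (neg_mem hx)).2)) h₂.nd_K (finrank F V)
    (fun x hx => pow_apply_eq_zero (negEquiv g) (kill_neg g (h₂.kill x hx)))
  let gR := restr g R h₂.inv_R
  let BR := B.restrict R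
  have haltR : BR.IsAlt := fun x => halt (x : V)
  have hBR : BR.Nondegenerate := by
    refine ⟨fun x hx => Subtype.ext (h₂.nd_R x x.2 fun y hy => hx ⟨y, hy⟩), fun x hx => Subtype.ext (h₂.nd_R x x.2 fun y hy => ?_)⟩
    have := hx ⟨y, hy⟩
    change B y (x : V) = 0 at this
    rw [← LinearMap.IsAlt.neg halt, this, neg_zero]
  have hdet : LinearMap.det gR.toLinearMap ≠ 0 := (LinearEquiv.isUnit_det' gR).ne_zero
  have hdR : finrank F R ≤ 2 * n := hn ▸ Submodule.finrank_le R
  have hsum : finrank F K + (finrank F L + finrank F R) = 2 * n := by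
    have e1 := Submodule.finrank_sup_add_finrank_inf_eq K R₁
    have e2 := Submodule.finrank_sup_add_finrank_inf_eq L R
    rw [h₁.sup, h₁.disj.eq_bot, finrank_bot, finrank_top] at e1
    rw [h₂.sup, h₂.disj.eq_bot, finrank_bot] at e2
    omega
  refine ⟨⟨P, M, fun k => tuple gR.toLinearMap k, ⟨fun b hb => ⟨(hPb b hb).1, (hPb b hb).2.2⟩, hP1⟩,
    ⟨fun b hb => ⟨(hMb b hb).1, (hMb b hb).2.2⟩, hM1⟩, tuple_monic _, tuple_coeff_zero hdet,
    tuple_rev BR hBR haltR gR (fun x y => hg (x : V) (y : V)), ?_, ?_, ?_, ?_⟩, K, R₁, L, R, h₁, h₂, hP, hM,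
    fun k => rfl⟩
  · refine tuple_eval_ne_zero _ fun x hx => ?_
    refine Subtype.ext (h₁.inj x (h₂.le_R x.2) ?_)
    simpa [gR, coe_restr] using congrArg Subtype.val hx
  · refine tuple_eval_ne_zero _ fun x hx => ?_
    refine Subtype.ext (h₂.inj x x.2 ?_)
    simpa [gR, coe_restr] using congrArg Subtype.val hx
  · intro k hk
    refine Finset.prod_eq_one fun i hi => ?_
    have h1 := (Finset.mem_filter.1 hi).2
    have h3 := (blk gR.toLinearMap).pos i
    have h4 := (blk gR.toLinearMap).e_le i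
    omega
  · rw [← hP.finrank_eq (skew_sub_inv B g hg) hδ0, ← hM.finrank_eq (skew_sub_inv B (negEquiv g) hng) hδ0,
      ← tuple_weight (g := gR.toLinearMap) (2 * n) hdR]
    omega

/-- Isometries with the same datum are conjugate by an isometry. -/
theorem exists_conj_of_rep {p : ℕ} [Fact p.Prime] [CharP F p] (hp2 : p ≠ 2) {B : LinearMap.BilinForm F V}
    (halt : B.IsAlt) {δ : F} (hδ : δ ≠ 0) {g g' : V ≃ₗ[F] V} (hg : ∀ x y, B (g x) (g y) = B x y)
    (hg' : ∀ x y, B (g' x) (g' y) = B x y) {n : ℕ} {x x' : SpData F n} (hP : x.P = x'.P) (hM : x.M = x'.M)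
    (ht : x.t = x'.t) (h : Rep δ B g x) (h' : Rep δ B g' x') :
    ∃ T : V ≃ₗ[F] V, (∀ a b, B (T a) (T b) = B a b) ∧ ∀ a, T (g a) = g' (T a) := by
  obtain ⟨K, R₁, L, R, h₁, h₂, hK, hL, hR⟩ := h
  obtain ⟨K', R₁', L', R', h₁', h₂', hK', hL', hR'⟩ := h'
  have hng : ∀ g : V ≃ₗ[F] V, (∀ x y, B (g x) (g y) = B x y) → ∀ x y, B (negEquiv g x) (negEquiv g y) = B x y :=
    fun g hg x y => by simp [negEquiv_apply, hg]
  have iK : Iso B B g.toLinearMap g'.toLinearMap K K' :=
    Iso.of_data hp2 hδ g g' hg hg' (fun a ha => (h₁.inv_K a ha).1) (fun a ha => (h₁'.inv_K a ha).1)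
      (fun a ha => (h₁.inv_K a ha).2) (fun a ha => (h₁'.inv_K a ha).2)
      (fun a ha => by simpa using h₁.kill a ha) (fun a ha => by simpa using h₁'.kill a ha) hK (hP ▸ hK')
  have iL : Iso B B g.toLinearMap g'.toLinearMap L L' := by
    obtain ⟨T, hT, hTg⟩ := Iso.of_data hp2 hδ (negEquiv g) (negEquiv g') (hng g hg) (hng g' hg')
      (fun a ha => neg_mem (h₂.inv_K a ha).1) (fun a ha => neg_mem (h₂'.inv_K a ha).1)
      (fun a ha => (h₂.inv_K (-a) (neg_mem ha)).2) (fun a ha => (h₂'.inv_K (-a) (neg_mem ha)).2)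
      (fun a ha => kill_neg g (h₂.kill a ha)) (fun a ha => kill_neg g' (h₂'.kill a ha)) hL (hM ▸ hL')
    refine ⟨T, hT, fun a b hab => ?_⟩
    have := hTg a (-b) (by simp [negEquiv_apply, hab])
    simpa [negEquiv_apply] using this
  have iR : Iso B B g.toLinearMap g'.toLinearMap R R' := by
    have mk : ∀ {S : Submodule F V}, (∀ a ∈ S, (∀ b ∈ S, B a b = 0) → a = 0) → (B.restrict S).Nondegenerate :=
      fun {S} hS => ⟨fun a ha => Subtype.ext (hS a a.2 fun b hb => ha ⟨b, hb⟩), fun a ha => Subtype.ext (hS a a.2 fun b hb => by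
        have := ha ⟨b, hb⟩
        change B b (a : V) = 0 at this
        rw [← LinearMap.IsAlt.neg halt, this, neg_zero])⟩
    obtain ⟨T, hT, hTg⟩ := exists_isometry_of_tuple hp2 (B.restrict R) (mk h₂.nd_R) (fun a => halt (a : V))
      (restr g R h₂.inv_R) (fun a b => hg a b)
      (fun a ha => Subtype.ext (h₁.inj a (h₂.le_R a.2) (by simpa [coe_restr] using congrArg Subtype.val ha)))
      (fun a ha => Subtype.ext (h₂.inj a a.2 (by simpa [coe_restr] using congrArg Subtype.val ha)))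
      (B.restrict R') (mk h₂'.nd_R) (fun a => halt (a : V)) (restr g' R' h₂'.inv_R) (fun a b => hg' a b)
      (fun k => by rw [hR, hR', ht])
    refine ⟨T, hT, fun a b hab => ?_⟩
    rw [show b = restr g R h₂.inv_R a from Subtype.ext hab, hTg]
    rfl
  have iR₁ := iL.glue iR h₂.disj h₂'.disj h₂.sup h₂'.sup h₂.orth h₂'.orth (fun a ha => (h₂.inv_K a ha).1)
    fun a ha => (h₂.inv_R a ha).1
  obtain ⟨T, hT, hTg⟩ := iK.glue iR₁ h₁.disj h₁'.disj h₁.sup h₁'.sup h₁.orth h₁'.orth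
    (fun a ha => (h₁.inv_K a ha).1) fun a ha => (h₁.inv_R a ha).1
  exact ⟨Submodule.topEquiv.symm ≪≫ₗ T ≪≫ₗ Submodule.topEquiv, fun a b => hT ⟨a, trivial⟩ ⟨b, trivial⟩,
    fun a => hTg ⟨a, trivial⟩ ⟨g a, trivial⟩ rfl⟩

end Abstract

/-- `k (Sp (2 n, q)) ≤ 10.8 q ^ n` for odd `q`. -/
theorem five_mul_card_classes_Sp_le [Fintype F] (hodd : Odd (Fintype.card F)) {n : ℕ} (hn : 1 ≤ n) :
    5 * Nat.card (ConjClasses (Matrix.symplecticGroup (Fin n) F)) ≤ 54 * Fintype.card F ^ n := by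
  classical
  obtain ⟨p, hchar⟩ := CharP.exists F
  haveI : Fact p.Prime := ⟨CharP.char_is_prime F p⟩
  obtain ⟨⟨f, hf⟩, -, hq⟩ := FiniteField.card F p
  have hp2 : p ≠ 2 := by
    rintro rfl
    rw [hq] at hodd
    exact Nat.not_even_iff_odd.2 hodd ((Nat.even_pow' (by simpa using hf.ne')).2 even_two)
  have h2 : (2 : F) ≠ 0 := fun h => hp2 ((Nat.prime_dvd_prime_iff_eq Fact.out Nat.prime_two).1
    ((CharP.cast_eq_zero_iff F p 2).1 (by exact_mod_cast h)))
  obtain ⟨δ, hδ⟩ := FiniteField.exists_nonsquare (F := F) (by rw [ringChar.eq F p]; exact hp2)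
  have hδ0 : δ ≠ 0 := fun h => hδ (h ▸ IsSquare.zero)
  let G := Matrix.symplecticGroup (Fin n) F
  let eqv : G → (Fin n ⊕ Fin n → F) ≃ₗ[F] (Fin n ⊕ Fin n → F) := fun A =>
    LinearEquiv.ofInjectiveEndo (Matrix.toLin' (A : Matrix _ _ F)) (by
      intro a b hab
      exact Matrix.mulVec_injective_iff_isUnit.2 (CfsgLib.Omega.isUnit_of_mem_symplecticGroup A.2) hab)
  have heqv : ∀ (A : G) v, eqv A v = Matrix.mulVec (A : Matrix _ _ F) v := fun A v => rfl
  have hiso : ∀ (A : G) a b, CfsgLib.Omega.sympBilin n F (eqv A a) (eqv A b) = CfsgLib.Omega.sympBilin n F a b := fun A a b => by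
    rw [CfsgLib.Omega.sympBilin_apply, CfsgLib.Omega.sympBilin_apply, heqv, heqv]
    exact CfsgLib.Omega.sympForm_mulVec_of_mem A.2 a b
  have hfr : finrank F (Fin n ⊕ Fin n → F) = 2 * n := by simp [two_mul]
  have hrep := fun A : G => exists_rep (CfsgLib.Forms.sympBilin_nondeg n F) (CfsgLib.Forms.sympBilin_isAlt n F) h2 hδ
    (eqv A) (hiso A) hfr
  choose x hx using hrep
  let Φ : ConjClasses G → (Σ c : {c // c ∈ codeSet n}, ∀ i : Fin n, Fin (c.1.2 i) → F) := fun C =>
    (x (Quotient.out C)).code h2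
  have hΦ : Function.Injective Φ := fun C C' h => by
    obtain ⟨hP, hM, ht⟩ := code_injective h2 h
    obtain ⟨T, hT, hTg⟩ := exists_conj_of_rep hp2 (CfsgLib.Forms.sympBilin_isAlt n F) hδ0 (hiso (Quotient.out C))
      (hiso (Quotient.out C')) hP hM ht (hx _) (hx _)
    let c : G := CfsgLib.Forms.spOfEquiv T fun a b => by
      rw [← CfsgLib.Omega.sympBilin_apply, ← CfsgLib.Omega.sympBilin_apply, hT]
    have hconj : c * Quotient.out C = Quotient.out C' * c := Subtype.ext (Matrix.ext_of_mulVec_single fun i => by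
      show Matrix.mulVec ((c : Matrix (Fin n ⊕ Fin n) (Fin n ⊕ Fin n) F) * ((Quotient.out C : G) : Matrix (Fin n ⊕ Fin n) (Fin n ⊕ Fin n) F)) _ =
        Matrix.mulVec (((Quotient.out C' : G) : Matrix (Fin n ⊕ Fin n) (Fin n ⊕ Fin n) F) * (c : Matrix (Fin n ⊕ Fin n) (Fin n ⊕ Fin n) F)) _
      rw [← Matrix.mulVec_mulVec, ← Matrix.mulVec_mulVec, CfsgLib.Forms.spOfEquiv_mulVec,
        CfsgLib.Forms.spOfEquiv_mulVec, ← heqv, ← heqv, hTg])
    have := ConjClasses.mk_eq_mk_iff_isConj.2 (isConj_iff.2 ⟨c, by rw [hconj, mul_inv_cancel_right]⟩ :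
      IsConj (Quotient.out C : G) (Quotient.out C' : G))
    rwa [show ConjClasses.mk (Quotient.out C) = C from Quotient.out_eq C,
      show ConjClasses.mk (Quotient.out C') = C' from Quotient.out_eq C'] at this
  have hle := Nat.card_le_card_of_injective Φ hΦ
  rw [card_code] at hle
  have hq3 : 3 ≤ Fintype.card F := by
    have := Fintype.one_lt_card (α := F)
    rcases hodd with ⟨r, hr⟩
    omega
  exact (Nat.mul_le_mul_left 5 hle).trans (five_mul_sum_code hq3 hn)

/-- `q ^ n ≤ k (Sp (2 n, q))`. -/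
theorem pow_le_card_classes_Sp [Fintype F] (n : ℕ) :
    Fintype.card F ^ n ≤ Nat.card (ConjClasses (Matrix.symplecticGroup (Fin n) F)) := by
  classical
  obtain ⟨p, hchar⟩ := CharP.exists F
  haveI : Fact p.Prime := ⟨CharP.char_is_prime F p⟩
  rw [← CfsgLib.SemisimpleClasses.Symp.card_classes p]
  exact Nat.card_le_card_of_injective (fun c => c.1) fun _ _ h => Subtype.ext h

end CfsgLib.CharDegrees.ClassCount.Sp
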