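import Cfsg.Agent.Lib.CharDegrees.ClassCount.OFlip
import Cfsg.Agent.Lib.CharDegrees.ClassCount.ONumeric
import Cfsg.Agent.Lib.CharDegrees.ClassCount.SpClasses
import Cfsg.Prelude.Def_Classical

/-!
The classes of an orthogonal group in even dimension, odd characteristic.
-/

set_option autoImplicit false
set_option linter.unusedSectionVars false

namespace CfsgLib.CharDegrees.ClassCount.Orth

open Polynomial Module
open CfsgLib.CharDegrees.ClassCount.Sp (Split Iso restr coe_restr negEquiv negEquiv_apply pow_apply_eq_zero kill_neg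
  skew_sub_inv tuple_rev tuple_eval_ne_zero exists_isometry_of_tuple)

universe u v

variable {F : Type u} [Field F]

section Abstract

variable {V : Type v} [AddCommGroup V] [Module F V] [FiniteDimensional F V]

/-- An isometry without eigenvalue `±1` of a symmetric form is one of an alternating form. -/
theorem exists_alt {B : LinearMap.BilinForm F V} (hB : B.Nondegenerate) (hsym : ∀ x y, B x y = B y x)
    (h2 : (2 : F) ≠ 0) (g : V ≃ₗ[F] V) (hg : ∀ x y, B (g x) (g y) = B x y) (h1 : ∀ x, g x = x → x = 0)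
    (hm : ∀ x, g x = -x → x = 0) :
    (B.compLeft (g.toLinearMap - g.symm.toLinearMap)).Nondegenerate ∧
      (B.compLeft (g.toLinearMap - g.symm.toLinearMap)).IsAlt ∧
      (∀ x y, B.compLeft (g.toLinearMap - g.symm.toLinearMap) (g x) (g y) =
        B.compLeft (g.toLinearMap - g.symm.toLinearMap) x y) ∧
      Function.Surjective ⇑(g.toLinearMap - g.symm.toLinearMap) := by
  set z := g.toLinearMap - g.symm.toLinearMap with hzdef
  have hz : ∀ x, z x = g x - g.symm x := fun x => rfl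
  have hinj : Function.Injective z := (injective_iff_map_eq_zero z).2 fun x hx => by
    rw [hz, sub_eq_zero] at hx
    have e : g (g x) = x := by rw [hx, g.apply_symm_apply]
    exact h1 x (sub_eq_zero.1 (hm (g x - x) (by rw [map_sub, e]; abel)))
  have hsurj : Function.Surjective z := LinearMap.surjective_of_injective hinj
  have hC : ∀ x y, B.compLeft z x y = B (z x) y := fun x y => rfl
  have hsk : ∀ x y, B (z x) y = -B x (z y) := skew_sub_inv B g hg
  refine ⟨⟨fun x hx => hinj (by rw [map_zero]; exact hB.1 _ hx), fun y hy => hB.2 y fun x => ?_⟩, fun x => ?_, fun x y => ?_, hsurj⟩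
  · obtain ⟨w, rfl⟩ := hsurj x; exact hy w
  · have e := hsk x x
    rw [hsym x (z x)] at e
    rw [hC]
    exact (mul_eq_zero.1 (show (2 : F) * B (z x) x = 0 by linear_combination e)).resolve_left h2
  · rw [hC, hC, show z (g x) = g (z x) by simp [hz], hg]

/-- A datum describes an isometry. -/
def Rep [DecidableEq F] (δ : F) (B : LinearMap.BilinForm F V) (g : V ≃ₗ[F] V) {n : ℕ} (x : OData F n) : Prop :=
  ∃ (K R₁ L R : Submodule F V) (_ : Split B g 1 ⊤ K R₁ (finrank F V))
    (h₂ : Split B g (-1) R₁ L R (finrank F V)),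
    HasData δ B (g.toLinearMap - g.symm.toLinearMap) K x.P ∧
    HasData δ B ((negEquiv g).toLinearMap - (negEquiv g).symm.toLinearMap) L x.M ∧
    ∀ k, tuple (restr g R h₂.inv_R).toLinearMap k = x.t k

theorem restrict_nondegenerate {B : LinearMap.BilinForm F V} (hsym : ∀ x y, B x y = B y x) {S : Submodule F V}
    (hS : ∀ a ∈ S, (∀ b ∈ S, B a b = 0) → a = 0) : (B.restrict S).Nondegenerate :=
  ⟨fun a ha => Subtype.ext (hS a a.2 fun b hb => ha ⟨b, hb⟩), fun a ha => Subtype.ext (hS a a.2 fun b hb => by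
    have := ha ⟨b, hb⟩
    change B b (a : V) = 0 at this
    rw [hsym, this])⟩

variable [Fintype F] [DecidableEq F]

/-- Every isometry has a datum. -/
theorem exists_rep {B : LinearMap.BilinForm F V} (hB : B.Nondegenerate) (hsym : ∀ x y, B x y = B y x)
    (h2 : (2 : F) ≠ 0) {δ : F} (hδ : ¬ IsSquare δ) (g : V ≃ₗ[F] V) (hg : ∀ x y, B (g x) (g y) = B x y) {n : ℕ}
    (hn : finrank F V = 2 * n) : ∃ x : OData F n, Rep δ B g x := by
  have hδ0 : δ ≠ 0 := fun h => hδ (h ▸ IsSquare.zero)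
  obtain ⟨K, R₁, h₁⟩ := exists_split_symm hsym g hg (ε := 1) (one_mul 1) (W := ⊤)
    (fun x _ => ⟨trivial, trivial⟩) (fun x _ h => hB.1 x fun y => h y trivial)
  obtain ⟨L, R, h₂⟩ := exists_split_symm hsym g hg (ε := -1) (by ring) h₁.inv_R h₁.nd_R
  have hng : ∀ x y, B (negEquiv g x) (negEquiv g y) = B x y := fun x y => by simp [negEquiv_apply, hg]
  obtain ⟨P, hP, hPb, hP1⟩ := exists_data (skew_sub_inv B g hg) hsym h2 hδ K
    (fun x hx => sub_mem (h₁.inv_K x hx).1 (h₁.inv_K x hx).2) h₁.nd_K (finrank F V)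
    (fun x hx => pow_apply_eq_zero g (by simpa using h₁.kill x hx))
  obtain ⟨M, hM, hMb, hM1⟩ := exists_data (skew_sub_inv B (negEquiv g) hng) hsym h2 hδ L
    (fun x hx => sub_mem (neg_mem (h₂.inv_K x hx).1) ((h₂.inv_K (-x) (neg_mem hx)).2)) h₂.nd_K (finrank F V)
    (fun x hx => pow_apply_eq_zero (negEquiv g) (kill_neg g (h₂.kill x hx)))
  let gR := restr g R h₂.inv_R
  obtain ⟨hC, haltC, hgC, -⟩ := exists_alt (restrict_nondegenerate hsym h₂.nd_R) (fun a b => hsym (a : V) b) h2 gR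
    (fun a b => hg (a : V) b)
    (fun a ha => Subtype.ext (h₁.inj a (h₂.le_R a.2) (by simpa [gR, coe_restr] using congrArg Subtype.val ha)))
    (fun a ha => Subtype.ext (h₂.inj a a.2 (by simpa [gR, coe_restr] using congrArg Subtype.val ha)))
  have hdet : LinearMap.det gR.toLinearMap ≠ 0 := (LinearEquiv.isUnit_det' gR).ne_zero
  have hdR : finrank F R ≤ 2 * n := hn ▸ Submodule.finrank_le R
  have hsum : finrank F K + (finrank F L + finrank F R) = 2 * n := by
    have e1 := Submodule.finrank_sup_add_finrank_inf_eq K R₁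
    have e2 := Submodule.finrank_sup_add_finrank_inf_eq L R
    rw [h₁.sup, h₁.disj.eq_bot, finrank_bot, finrank_top] at e1
    rw [h₂.sup, h₂.disj.eq_bot, finrank_bot] at e2
    omega
  refine ⟨⟨P, M, fun k => tuple gR.toLinearMap k, ⟨fun b hb => ⟨(hPb b hb).1, (hPb b hb).2.2⟩, hP1⟩,
    ⟨fun b hb => ⟨(hMb b hb).1, (hMb b hb).2.2⟩, hM1⟩, tuple_monic _, tuple_coeff_zero hdet,
    tuple_rev _ hC haltC gR hgC, ?_, ?_, ?_, ?_⟩, K, R₁, L, R, h₁, h₂, hP, hM, fun k => rfl⟩
  · refine tuple_eval_ne_zero _ fun x hx => ?_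
    refine Subtype.ext (h₁.inj x (h₂.le_R x.2) ?_)
    simpa [gR, coe_restr] using congrArg Subtype.val hx
  · refine tuple_eval_ne_zero _ fun x hx => ?_
    refine Subtype.ext (h₂.inj x x.2 ?_)
    simpa [gR, coe_restr] using congrArg Subtype.val hx
  · intro k hk
    refine Finset.prod_eq_one fun i hi => ?_
    have h1 := (Finset.mem_filter.1 hi).2
    have h3 := (blk gR.toLinearMap).pos i
    have h4 := (blk gR.toLinearMap).e_le i
    omega
  · rw [← hP.finrank_eq (skew_sub_inv B g hg) hδ0, ← hM.finrank_eq (skew_sub_inv B (negEquiv g) hng) hδ0,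
      ← tuple_weight (g := gR.toLinearMap) (2 * n) hdR]
    omega

/-- The parts without eigenvalue `±1` are isometric when the families agree. -/
theorem iso_rest {p : ℕ} [Fact p.Prime] [CharP F p] (hp2 : p ≠ 2) (h2 : (2 : F) ≠ 0)
    {B : LinearMap.BilinForm F V} (hsym : ∀ x y, B x y = B y x) {g g' : V ≃ₗ[F] V}
    (hg : ∀ x y, B (g x) (g y) = B x y) (hg' : ∀ x y, B (g' x) (g' y) = B x y)
    {R R' : Submodule F V} (hinv : ∀ a ∈ R, g a ∈ R ∧ g.symm a ∈ R) (hinv' : ∀ a ∈ R', g' a ∈ R' ∧ g'.symm a ∈ R')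
    (hnd : ∀ a ∈ R, (∀ b ∈ R, B a b = 0) → a = 0) (hnd' : ∀ a ∈ R', (∀ b ∈ R', B a b = 0) → a = 0)
    (h1 : ∀ a ∈ R, g a = a → a = 0) (hm : ∀ a ∈ R, g a = -a → a = 0)
    (h1' : ∀ a ∈ R', g' a = a → a = 0) (hm' : ∀ a ∈ R', g' a = -a → a = 0)
    (heq : ∀ k, tuple (restr g R hinv).toLinearMap k = tuple (restr g' R' hinv').toLinearMap k) :
    Iso B B g.toLinearMap g'.toLinearMap R R' := by
  obtain ⟨hC, haltC, hgC, hsurj⟩ := exists_alt (restrict_nondegenerate hsym hnd) (fun a b => hsym (a : V) b) h2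
    (restr g R hinv) (fun a b => hg (a : V) b) (fun a ha => Subtype.ext (h1 a a.2 (congrArg Subtype.val ha)))
    (fun a ha => Subtype.ext (hm a a.2 (congrArg Subtype.val ha)))
  obtain ⟨hC', haltC', hgC', -⟩ := exists_alt (restrict_nondegenerate hsym hnd') (fun a b => hsym (a : V) b) h2
    (restr g' R' hinv') (fun a b => hg' (a : V) b) (fun a ha => Subtype.ext (h1' a a.2 (congrArg Subtype.val ha)))
    (fun a ha => Subtype.ext (hm' a a.2 (congrArg Subtype.val ha)))
  have k1 : ∀ a : R, restr g R hinv a = a → a = 0 := fun a ha => Subtype.ext (h1 a a.2 (congrArg Subtype.val ha))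
  have k2 : ∀ a : R, restr g R hinv a = -a → a = 0 := fun a ha => Subtype.ext (hm a a.2 (congrArg Subtype.val ha))
  obtain ⟨T, hT, hTg⟩ := exists_isometry_of_tuple hp2 _ hC haltC (restr g R hinv) hgC k1 k2 _ hC' haltC'
    (restr g' R' hinv') hgC' heq
  refine ⟨T, fun a b => ?_, fun a b hab => ?_⟩
  · obtain ⟨w, rfl⟩ := hsurj a
    have h := hT w b
    have hTz : T (((restr g R hinv).toLinearMap - (restr g R hinv).symm.toLinearMap) w) =
        ((restr g' R' hinv').toLinearMap - (restr g' R' hinv').symm.toLinearMap) (T w) := by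
      simp only [LinearMap.sub_apply, LinearEquiv.coe_coe, map_sub, hTg]
      congr 1
      apply (restr g' R' hinv').injective
      rw [← hTg, LinearEquiv.apply_symm_apply, LinearEquiv.apply_symm_apply]
    rw [hTz]
    exact h
  · rw [show b = restr g R hinv a from Subtype.ext hab, hTg]
    rfl

/-- Forgetting the isometries. -/
theorem Iso.forget {B B' : LinearMap.BilinForm F V} {g g' : Module.End F V} {W W' : Submodule F V}
    (h : Iso B B' g g' W W') : Iso B B' 0 0 W W' := by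
  obtain ⟨T, hT, -⟩ := h
  exact ⟨T, hT, fun x y hxy => by rw [show y = 0 from Subtype.ext hxy, map_zero]; rfl⟩

/-- Isometries with the same datum are conjugate by an isometry. -/
theorem exists_conj_of_rep {p : ℕ} [Fact p.Prime] [CharP F p] (hp2 : p ≠ 2) (h2 : (2 : F) ≠ 0)
    {B : LinearMap.BilinForm F V} (hsym : ∀ x y, B x y = B y x) {δ : F} (hδ : δ ≠ 0) {g g' : V ≃ₗ[F] V}
    (hg : ∀ x y, B (g x) (g y) = B x y) (hg' : ∀ x y, B (g' x) (g' y) = B x y) {n : ℕ} {x x' : OData F n}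
    (hP : x.P = x'.P) (hM : x.M = x'.M) (ht : x.t = x'.t) (h : Rep δ B g x) (h' : Rep δ B g' x') :
    ∃ T : V ≃ₗ[F] V, (∀ a b, B (T a) (T b) = B a b) ∧ ∀ a, T (g a) = g' (T a) := by
  obtain ⟨K, R₁, L, R, h₁, h₂, hK, hL, hR⟩ := h
  obtain ⟨K', R₁', L', R', h₁', h₂', hK', hL', hR'⟩ := h'
  have hng : ∀ g : V ≃ₗ[F] V, (∀ x y, B (g x) (g y) = B x y) → ∀ x y, B (negEquiv g x) (negEquiv g y) = B x y :=
    fun g hg x y => by simp [negEquiv_apply, hg]
  have iK : Iso B B g.toLinearMap g'.toLinearMap K K' :=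
    iso_of_data hp2 hδ g g' hg hg' (fun a ha => (h₁.inv_K a ha).1) (fun a ha => (h₁'.inv_K a ha).1)
      (fun a ha => (h₁.inv_K a ha).2) (fun a ha => (h₁'.inv_K a ha).2)
      (fun a ha => by simpa using h₁.kill a ha) (fun a ha => by simpa using h₁'.kill a ha) hK (hP ▸ hK')
  have iL : Iso B B g.toLinearMap g'.toLinearMap L L' := by
    obtain ⟨T, hT, hTg⟩ := iso_of_data hp2 hδ (negEquiv g) (negEquiv g') (hng g hg) (hng g' hg')
      (fun a ha => neg_mem (h₂.inv_K a ha).1) (fun a ha => neg_mem (h₂'.inv_K a ha).1)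
      (fun a ha => (h₂.inv_K (-a) (neg_mem ha)).2) (fun a ha => (h₂'.inv_K (-a) (neg_mem ha)).2)
      (fun a ha => kill_neg g (h₂.kill a ha)) (fun a ha => kill_neg g' (h₂'.kill a ha)) hL (hM ▸ hL')
    refine ⟨T, hT, fun a b hab => ?_⟩
    have := hTg a (-b) (by simp [negEquiv_apply, hab])
    simpa [negEquiv_apply] using this
  have iR : Iso B B g.toLinearMap g'.toLinearMap R R' :=
    iso_rest hp2 h2 hsym hg hg' h₂.inv_R h₂'.inv_R h₂.nd_R h₂'.nd_R
      (fun a ha h => h₁.inj a (h₂.le_R ha) (by simpa using h)) (fun a ha h => h₂.inj a ha (by simpa using h))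
      (fun a ha h => h₁'.inj a (h₂'.le_R ha) (by simpa using h)) (fun a ha h => h₂'.inj a ha (by simpa using h))
      (fun k => by rw [hR, hR', ht])
  have iR₁ := iL.glue iR h₂.disj h₂'.disj h₂.sup h₂'.sup h₂.orth h₂'.orth (fun a ha => (h₂.inv_K a ha).1)
    fun a ha => (h₂.inv_R a ha).1
  obtain ⟨T, hT, hTg⟩ := iK.glue iR₁ h₁.disj h₁'.disj h₁.sup h₁'.sup h₁.orth h₁'.orth
    (fun a ha => (h₁.inv_K a ha).1) fun a ha => (h₁.inv_R a ha).1
  exact ⟨Submodule.topEquiv.symm ≪≫ₗ T ≪≫ₗ Submodule.topEquiv, fun a b => hT ⟨a, trivial⟩ ⟨b, trivial⟩,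
    fun a => hTg ⟨a, trivial⟩ ⟨g a, trivial⟩ rfl⟩

/-- A space does not carry two data that differ in one sign. -/
theorem rep_flip_false {p : ℕ} [Fact p.Prime] [CharP F p] (hp2 : p ≠ 2) (h2 : (2 : F) ≠ 0)
    {B : LinearMap.BilinForm F V} (hB : B.Nondegenerate) (hsym : ∀ x y, B x y = B y x) {δ : F}
    (hδ : ¬ IsSquare δ) {g g' : V ≃ₗ[F] V} (hg : ∀ x y, B (g x) (g y) = B x y)
    (hg' : ∀ x y, B (g' x) (g' y) = B x y) {n : ℕ} {x x' : OData F n} (ht : x.t = x'.t) {k : ℕ} (hodd : ¬ Even k)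
    (hcase : ((∃ b, (k, b) ∈ x.P) ∧ x'.P = flip x.P k ∧ x'.M = x.M) ∨
      ((∃ b, (k, b) ∈ x.M) ∧ x'.M = flip x.M k ∧ x'.P = x.P))
    (h : Rep δ B g x) (h' : Rep δ B g' x') : False := by
  have hδ0 : δ ≠ 0 := fun h => hδ (h ▸ IsSquare.zero)
  obtain ⟨K, R₁, L, R, h₁, h₂, hK, hL, hR⟩ := h
  obtain ⟨K', R₁', L', R', h₁', h₂', hK', hL', hR'⟩ := h'
  have hng : ∀ g : V ≃ₗ[F] V, (∀ x y, B (g x) (g y) = B x y) → ∀ x y, B (negEquiv g x) (negEquiv g y) = B x y :=
    fun g hg x y => by simp [negEquiv_apply, hg]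
  have iR : Iso B B 0 0 R R' := Iso.forget
    (iso_rest hp2 h2 hsym hg hg' h₂.inv_R h₂'.inv_R h₂.nd_R h₂'.nd_R
      (fun a ha h => h₁.inj a (h₂.le_R ha) (by simpa using h)) (fun a ha h => h₂.inj a ha (by simpa using h))
      (fun a ha h => h₁'.inj a (h₂'.le_R ha) (by simpa using h)) (fun a ha h => h₂'.inj a ha (by simpa using h))
      (fun k => by rw [hR, hR', ht]))
  rcases hcase with ⟨hk, hP, hM⟩ | ⟨hk, hM, hP⟩
  · rw [hP] at hK'
    rw [hM] at hL'
    obtain ⟨T, hT, -⟩ := hL.exists_isometry hδ0 (skew_sub_inv B _ (hng g hg)) (skew_sub_inv B _ (hng g' hg')) hL'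
    have iL : Iso B B 0 0 L L' := ⟨T, hT, fun a b hab => by rw [show b = 0 from Subtype.ext hab, map_zero]; rfl⟩
    have iR₁ := iL.glue iR h₂.disj h₂'.disj h₂.sup h₂'.sup h₂.orth h₂'.orth (fun _ _ => zero_mem _) fun _ _ => zero_mem _
    exact not_hasData_flip hB hδ (skew_sub_inv B g hg) (skew_sub_inv B g' hg') hsym
      ⟨h₁.disj, codisjoint_iff.2 h₁.sup⟩ ⟨h₁'.disj, codisjoint_iff.2 h₁'.sup⟩ (fun a ha b hb => (h₁.orth a ha b hb).1)
      (fun a ha b hb => (h₁'.orth a ha b hb).1) iR₁ hodd hk hK hK'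
  · rw [hP] at hK'
    rw [hM] at hL'
    obtain ⟨T, hT, -⟩ := hK.exists_isometry hδ0 (skew_sub_inv B g hg) (skew_sub_inv B g' hg') hK'
    have iK : Iso B B 0 0 K K' := ⟨T, hT, fun a b hab => by rw [show b = 0 from Subtype.ext hab, map_zero]; rfl⟩
    have mk : ∀ {K R₁ L R : Submodule F V} {g : V ≃ₗ[F] V}, Split B g 1 ⊤ K R₁ (finrank F V) →
        Split B g (-1) R₁ L R (finrank F V) →
        Disjoint K R ∧ IsCompl L (K ⊔ R) ∧ (∀ a ∈ L, ∀ b ∈ K ⊔ R, B a b = 0) ∧
          ∀ a ∈ K, ∀ b ∈ R, B a b = 0 ∧ B b a = 0 := by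
      intro K R₁ L R g h₁ h₂
      have ho : ∀ a ∈ L, ∀ b ∈ K ⊔ R, B a b = 0 := fun a ha b hb => by
        obtain ⟨c, hc, d, hd, rfl⟩ := Submodule.mem_sup.1 hb
        rw [map_add, (h₁.orth c hc a (h₂.le_K ha)).2, (h₂.orth a ha d hd).1, add_zero]
      refine ⟨h₁.disj.mono_right h₂.le_R, ⟨Submodule.disjoint_def.2 fun a ha ha' => h₂.nd_K a ha fun b hb => ?_,
        codisjoint_iff.2 ?_⟩, ho, fun a ha b hb => h₁.orth a ha b (h₂.le_R hb)⟩
      · rw [hsym, ho b hb a ha']
      · rw [← h₁.sup, ← h₂.sup, sup_left_comm]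
    obtain ⟨d1, c1, o1, o1'⟩ := mk h₁ h₂
    obtain ⟨d2, c2, o2, o2'⟩ := mk h₁' h₂'
    have iKR := iK.glue iR d1 d2 rfl rfl o1' o2' (fun _ _ => zero_mem _) fun _ _ => zero_mem _
    exact not_hasData_flip hB hδ (skew_sub_inv B _ (hng g hg)) (skew_sub_inv B _ (hng g' hg')) hsym c1 c2 o1 o2
      iKR hodd hk hL hL'

end Abstract

/-- A datum has an odd part at `±1`. -/
def oddSet (D : Multiset Blk) : Set ℕ := {k | ¬ Even k ∧ ∃ b, (k, b) ∈ D}

open Classical in
/-- Flip the first sign. -/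
noncomputable def OData.flipped {n : ℕ} (x : OData F n) : OData F n :=
  if hP : (oddSet x.P).Nonempty then
    { x with
      P := flip x.P (sInf (oddSet x.P))
      hP := (flip_valid (Nat.sInf_mem hP).2 (Nat.sInf_mem hP).1 x.hP).1
      weight := by rw [(flip_valid (Nat.sInf_mem hP).2 (Nat.sInf_mem hP).1 x.hP).2]; exact x.weight }
  else if hM : (oddSet x.M).Nonempty then
    { x with
      M := flip x.M (sInf (oddSet x.M))
      hM := (flip_valid (Nat.sInf_mem hM).2 (Nat.sInf_mem hM).1 x.hM).1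
      weight := by rw [(flip_valid (Nat.sInf_mem hM).2 (Nat.sInf_mem hM).1 x.hM).2]; exact x.weight }
  else x

/-- Some sign can be flipped. -/
def OData.HasSign {n : ℕ} (x : OData F n) : Prop := (oddSet x.P).Nonempty ∨ (oddSet x.M).Nonempty

theorem oddSet_flip {D : Multiset Blk} (h : (oddSet D).Nonempty) : oddSet (flip D (sInf (oddSet D))) = oddSet D := by
  ext r
  exact and_congr_right fun _ => exists_mem_flip (Nat.sInf_mem h).2 r

theorem flipped_flipped {n : ℕ} (x : OData F n) : x.flipped.flipped = x := by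
  by_cases hP : (oddSet x.P).Nonempty
  · have e : x.flipped.P = flip x.P (sInf (oddSet x.P)) := by rw [OData.flipped, dif_pos hP]
    have e2 : x.flipped.M = x.M := by rw [OData.flipped, dif_pos hP]
    have e3 : x.flipped.t = x.t := by rw [OData.flipped, dif_pos hP]
    have hP' : (oddSet x.flipped.P).Nonempty := by rw [e, oddSet_flip hP]; exact hP
    rw [OData.flipped, dif_pos hP']
    cases x with
    | mk P M t a b c d f g h i j =>
      simp only [OData.mk.injEq]
      refine ⟨?_, e2, e3⟩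
      rw [e, oddSet_flip hP, flip_flip (Nat.sInf_mem hP).2 a.2]
  · by_cases hM : (oddSet x.M).Nonempty
    · have e : x.flipped.M = flip x.M (sInf (oddSet x.M)) := by rw [OData.flipped, dif_neg hP, dif_pos hM]
      have e2 : x.flipped.P = x.P := by rw [OData.flipped, dif_neg hP, dif_pos hM]
      have e3 : x.flipped.t = x.t := by rw [OData.flipped, dif_neg hP, dif_pos hM]
      have hP' : ¬ (oddSet x.flipped.P).Nonempty := by rw [e2]; exact hP
      have hM' : (oddSet x.flipped.M).Nonempty := by rw [e, oddSet_flip hM]; exact hM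
      rw [OData.flipped, dif_neg hP', dif_pos hM']
      cases x with
      | mk P M t a b c d f g h i j =>
        simp only [OData.mk.injEq]
        refine ⟨e2, ?_, e3⟩
        rw [e, oddSet_flip hM, flip_flip (Nat.sInf_mem hM).2 b.2]
    · have e : x.flipped = x := by rw [OData.flipped, dif_neg hP, dif_neg hM]
      rw [e, e]

theorem S_eq_empty {n : ℕ} (x : OData F n) (h : ¬ x.HasSign) : x.S = ∅ := by
  simp only [OData.HasSign, not_or, Set.not_nonempty_iff_eq_empty] at h
  have hz : ∀ D : Multiset Blk, oddSet D = ∅ → ∀ j, 1 ≤ j → ∀ b, bitOf D j b = 0 := fun D hD j hj b => by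
    have hc : ∀ c, D.count (2 * j - 1, c) = 0 := fun c => Multiset.count_eq_zero.2 fun hm => by
      have : 2 * j - 1 ∈ oddSet D := ⟨by rw [Nat.even_iff]; omega, c, hm⟩
      rw [hD] at this
      exact this
    cases b <;> simp [bitOf, hc]
  refine Finset.filter_eq_empty_iff.2 fun p hp => ?_
  have hj := (Finset.mem_Icc.1 (Finset.mem_product.1 hp).1).1
  simp [OData.bit, hz _ h.1 _ hj, hz _ h.2 _ hj]

/-- `k (O (V)) ≤ 9.5 q ^ n` for a nondegenerate symmetric form in dimension `2 n`, `q` odd. -/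
theorem two_mul_card_classes_isometryGroup_le [Fintype F] (hodd : Odd (Fintype.card F)) {ι : Type} [Fintype ι]
    [DecidableEq ι] {n : ℕ} (hn : 1 ≤ n) (hcard : Fintype.card ι = 2 * n) (Q : (ι → F) → F) (M : Matrix ι ι F)
    (hM : M.det ≠ 0) (hMs : M.transpose = M) (hQ : ∀ v, 2 * Q v = dotProduct v (M.mulVec v)) :
    2 * Nat.card (ConjClasses ↥(Cfsg.isometryGroup F Q)) ≤ 19 * Fintype.card F ^ n := by
  classical
  obtain ⟨p, hchar⟩ := CharP.exists F
  haveI : Fact p.Prime := ⟨CharP.char_is_prime F p⟩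
  obtain ⟨⟨f, hf⟩, -, hq⟩ := FiniteField.card F p
  have hp2 : p ≠ 2 := by
    rintro rfl
    rw [hq] at hodd
    exact Nat.not_even_iff_odd.2 hodd ((Nat.even_pow' (by simpa using hf.ne')).2 even_two)
  have h2 : (2 : F) ≠ 0 := fun h => hp2 ((Nat.prime_dvd_prime_iff_eq Fact.out Nat.prime_two).1
    ((CharP.cast_eq_zero_iff F p 2).1 (by exact_mod_cast h)))
  obtain ⟨δ, hδ⟩ := FiniteField.exists_nonsquare (F := F) (by rw [ringChar.eq F p]; exact hp2)
  have hδ0 : δ ≠ 0 := fun h => hδ (h ▸ IsSquare.zero)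
  let B : LinearMap.BilinForm F (ι → F) := Matrix.toBilin' M
  have hB : ∀ u v, B u v = dotProduct u (M.mulVec v) := fun u v => Matrix.toBilin'_apply' _ _ _
  have hsym : ∀ u v, B u v = B v u := fun u v => by
    rw [hB, hB, Matrix.dotProduct_mulVec, ← Matrix.mulVec_transpose, hMs, dotProduct_comm]
  have hBn : B.Nondegenerate := LinearMap.BilinForm.nondegenerate_toBilin'_of_det_ne_zero' M hM
  let G := Cfsg.isometryGroup F Q
  let eqv : G → (ι → F) ≃ₗ[F] (ι → F) := fun A => (Matrix.GeneralLinearGroup.toLin (A : GL ι F)).toLinearEquiv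
  have heqv : ∀ (A : G) v, eqv A v = Matrix.mulVec ((A : GL ι F) : Matrix ι ι F) v := fun A v => rfl
  have hBQ : ∀ T : (ι → F) →ₗ[F] (ι → F), (∀ v, Q (T v) = Q v) → ∀ a b, B (T a) (T b) = B a b := fun T hT a b => by
    have e : ∀ w, B (T w) (T w) = B w w := fun w => by rw [hB, hB, ← hQ, ← hQ, hT]
    have := e (a + b)
    simp only [map_add, LinearMap.add_apply] at this
    rw [e a, e b, hsym (T b) (T a), hsym b a] at this
    exact mul_left_cancel₀ h2 (by linear_combination this)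
  have hiso : ∀ (A : G) a b, B (eqv A a) (eqv A b) = B a b := fun A =>
    hBQ (eqv A).toLinearMap fun v => A.2 v v
  have hfr : finrank F (ι → F) = 2 * n := by rw [Module.finrank_fintype_fun_eq_card, hcard]
  have hrep := fun A : G => exists_rep hBn hsym h2 hδ (eqv A) (hiso A) hfr
  choose x hx using hrep
  have hinj : ∀ C C' : ConjClasses G, (x (Quotient.out C)).code h2 = (x (Quotient.out C')).code h2 → C = C' := by
    intro C C' h
    obtain ⟨hP, hM', ht⟩ := code_injective h2 h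
    obtain ⟨T, hT, hTg⟩ := exists_conj_of_rep hp2 h2 hsym hδ0 (hiso (Quotient.out C)) (hiso (Quotient.out C')) hP hM'
      ht (hx _) (hx _)
    let u : GL ι F := Matrix.GeneralLinearGroup.toLin.symm (LinearMap.GeneralLinearGroup.ofLinearEquiv T)
    have hu : ∀ v, Matrix.mulVec (u : Matrix ι ι F) v = T v := fun v => by
      have e := Matrix.GeneralLinearGroup.toLin.apply_symm_apply (LinearMap.GeneralLinearGroup.ofLinearEquiv T)
      exact congrArg (fun w : LinearMap.GeneralLinearGroup F (ι → F) => (w : (ι → F) →ₗ[F] (ι → F)) v) e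
    have hmem : u ∈ G := fun a b => by
      show Q (Matrix.mulVec (u : Matrix ι ι F) a) = Q a
      apply mul_left_cancel₀ h2
      rw [hQ, hQ, hu, ← hB, ← hB, hT]
    have hconj : (⟨u, hmem⟩ : G) * Quotient.out C = Quotient.out C' * ⟨u, hmem⟩ :=
      Subtype.ext (Units.ext (Matrix.ext_of_mulVec_single fun i => by
        show Matrix.mulVec ((u : Matrix ι ι F) * (((Quotient.out C : G) : GL ι F) : Matrix ι ι F)) _ =
          Matrix.mulVec ((((Quotient.out C' : G) : GL ι F) : Matrix ι ι F) * (u : Matrix ι ι F)) _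
        rw [← Matrix.mulVec_mulVec, ← Matrix.mulVec_mulVec, hu, hu, ← heqv, ← heqv, hTg]))
    have := ConjClasses.mk_eq_mk_iff_isConj.2 (isConj_iff.2 ⟨⟨u, hmem⟩, by rw [hconj, mul_inv_cancel_right]⟩ :
      IsConj (Quotient.out C : G) (Quotient.out C' : G))
    rwa [show ConjClasses.mk (Quotient.out C) = C from Quotient.out_eq C,
      show ConjClasses.mk (Quotient.out C') = C' from Quotient.out_eq C'] at this
  let y : ConjClasses G → OData F n := fun C => x (Quotient.out C)
  haveI : Finite (ConjClasses G) := inferInstance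
  let S₁ := {C : ConjClasses G // (y C).HasSign}
  let S₀ := {C : ConjClasses G // ¬ (y C).HasSign}
  let Code := Σ c : {c // c ∈ codeSet n}, ∀ i : Fin n, Fin (c.1.2 i) → F
  haveI : Finite Code := inferInstance
  have hcross : ∀ C C' : S₁, (y C.1).code h2 ≠ ((y C'.1).flipped).code h2 := by
    intro C C' h
    obtain ⟨hP, hM', ht⟩ := code_injective h2 h
    by_cases hne : (oddSet (y C'.1).P).Nonempty
    · rw [OData.flipped, dif_pos hne] at hP hM' ht
      simp only at hP hM' ht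
      exact rep_flip_false hp2 h2 hBn hsym hδ (hiso _) (hiso _) ht.symm (Nat.sInf_mem hne).1
        (Or.inl ⟨(Nat.sInf_mem hne).2, hP, hM'⟩) (hx (Quotient.out C'.1)) (hx (Quotient.out C.1))
    · have hne' := C'.2.resolve_left hne
      rw [OData.flipped, dif_neg hne, dif_pos hne'] at hP hM' ht
      simp only at hP hM' ht
      exact rep_flip_false hp2 h2 hBn hsym hδ (hiso _) (hiso _) ht.symm (Nat.sInf_mem hne').1
        (Or.inr ⟨(Nat.sInf_mem hne').2, hM', hP⟩) (hx (Quotient.out C'.1)) (hx (Quotient.out C.1))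
  have hdata : ∀ a b : OData F n, a.code h2 = b.code h2 → a = b := by
    intro a b h
    obtain ⟨e1, e2, e3⟩ := code_injective h2 h
    cases a; cases b
    simp only at e1 e2 e3
    subst e1 e2 e3
    rfl
  have hsign : ∀ z : OData F n, z.HasSign → z.flipped.HasSign := fun z hz => by
    by_cases hne : (oddSet z.P).Nonempty
    · left; rw [OData.flipped, dif_pos hne]; show (oddSet (flip _ _)).Nonempty; rw [oddSet_flip hne]; exact hne
    · have hne' := hz.resolve_left hne
      right; rw [OData.flipped, dif_neg hne, dif_pos hne']; show (oddSet (flip _ _)).Nonempty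
      rw [oddSet_flip hne']; exact hne'
  let Ψ : S₁ ⊕ S₁ ⊕ S₀ → Code := Sum.elim (fun C => (y C.1).code h2)
    (Sum.elim (fun C => ((y C.1).flipped).code h2) fun C => (y C.1).code h2)
  have hΨ : Function.Injective Ψ := by
    rintro (a | a | a) (b | b | b) h <;> simp only [Ψ, Sum.elim_inl, Sum.elim_inr] at h
    · rw [Subtype.ext (hinj _ _ h)]
    · exact absurd h (hcross a b)
    · exact absurd (hinj _ _ h) fun e => b.2 (e ▸ a.2)
    · exact absurd h.symm (hcross b a)
    · have e := congrArg OData.flipped (hdata _ _ h)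
      rw [flipped_flipped, flipped_flipped] at e
      rw [Subtype.ext (hinj _ _ (congrArg (fun z : OData F n => z.code h2) e))]
    · exact absurd (hdata _ _ h ▸ hsign _ a.2) b.2
    · exact absurd (hinj _ _ h) fun e => a.2 (e ▸ b.2)
    · exact absurd ((hdata _ _ h).symm ▸ hsign _ b.2) a.2
    · rw [Subtype.ext (hinj _ _ h)]
  let Code₀ := Σ c : {c // c ∈ (codeSet n).filter (fun c => c.1 = ∅)}, ∀ i : Fin n, Fin (c.1.2 i) → F
  haveI : Finite Code₀ := inferInstance
  let Φ : S₀ → Code₀ := fun C =>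
    ⟨⟨((y C.1).code h2).1.1, Finset.mem_filter.2 ⟨((y C.1).code h2).1.2, S_eq_empty _ C.2⟩⟩, ((y C.1).code h2).2⟩
  have hΦ : Function.Injective Φ := fun a b h => Subtype.ext (hinj _ _ (by
    have := congrArg (fun z : Code₀ => (⟨⟨z.1.1, (Finset.mem_filter.1 z.1.2).1⟩, z.2⟩ : Code)) h
    exact this))
  have h1 := Nat.card_le_card_of_injective Ψ hΨ
  have h0 := Nat.card_le_card_of_injective Φ hΦ
  rw [Nat.card_sum, Nat.card_sum] at h1
  have hk : Nat.card (ConjClasses G) = Nat.card S₁ + Nat.card S₀ := by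
    rw [← Nat.card_sum]
    exact Nat.card_congr (Equiv.sumCompl _).symm
  have hsum : ∀ s : Finset (Finset (ℕ × Fin 4) × (Fin n → ℕ)),
      Nat.card (Σ c : {c // c ∈ s}, ∀ i : Fin n, Fin (c.1.2 i) → F) = ∑ c ∈ s, Fintype.card F ^ ∑ i, c.2 i := fun s => by
    rw [Nat.card_sigma, ← Finset.sum_coe_sort s]
    refine Finset.sum_congr rfl fun c _ => ?_
    rw [Nat.card_pi, ← Finset.prod_pow_eq_pow_sum]
    exact Finset.prod_congr rfl fun i _ => by rw [Nat.card_pi, Finset.prod_const, Finset.card_univ, Fintype.card_fin,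
      Nat.card_eq_fintype_card]
  have hq3 : 3 ≤ Fintype.card F := by
    have := Fintype.one_lt_card (α := F)
    rcases hodd with ⟨r, hr⟩
    omega
  have hb := sum_code_le (n := n) hq3 hn
  have hc1 : Nat.card Code = ∑ c ∈ codeSet n, Fintype.card F ^ ∑ i, c.2 i := hsum _
  have hc0 : Nat.card Code₀ = ∑ c ∈ (codeSet n).filter (fun c => c.1 = ∅), Fintype.card F ^ ∑ i, c.2 i := hsum _
  rw [← hc1, ← hc0] at hb
  have : 2 * Nat.card (ConjClasses G) ≤ 19 * Fintype.card F ^ n := by omega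
  exact this

end CfsgLib.CharDegrees.ClassCount.Orth
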