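import Cfsg.Agent.Lib.CharDegrees.ClassCount.OCode

/-!
Changing the sign of one block changes the discriminant.
-/

set_option autoImplicit false
set_option linter.unusedSectionVars false

namespace CfsgLib.CharDegrees.ClassCount.Orth

open Module Submodule

universe u v

variable {F : Type u} [Field F]

/-- Change the sign of one block of size `k`. -/
def flip (D : Multiset Blk) (k : ℕ) : Multiset Blk :=
  if (k, true) ∈ D then (k, false) ::ₘ D.erase (k, true) else (k, true) ::ₘ D.erase (k, false)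

theorem mem_flip {D : Multiset Blk} {k : ℕ} {c : Blk} (hc : c ∈ flip D k) : c ∈ D ∨ c.1 = k := by
  unfold flip at hc
  split_ifs at hc
  all_goals
    rcases Multiset.mem_cons.1 hc with rfl | hc
    · exact Or.inr rfl
    · exact Or.inl (Multiset.mem_of_mem_erase hc)

theorem count_flip {D : Multiset Blk} {k : ℕ} (hk : ∃ b, (k, b) ∈ D) (h1 : ∀ r, D.count (r, true) ≤ 1) (r : ℕ) :
    (flip D k).count (r, true) = (if r = k then 1 - D.count (r, true) else D.count (r, true)) ∧
      (flip D k).count (r, false) + (if r = k then 1 - D.count (r, true) else 0) =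
        D.count (r, false) + (if r = k then D.count (r, true) else 0) := by
  have hr := h1 r
  unfold flip
  by_cases ht : (k, true) ∈ D
  · have h := Multiset.one_le_count_iff_mem.2 ht
    rw [if_pos ht]
    by_cases hrk : r = k
    · subst hrk
      simp [Multiset.count_cons, Multiset.count_erase_self]
      omega
    · simp [hrk]
  · obtain ⟨b, hb⟩ := hk
    have hf : (k, false) ∈ D := by
      cases b
      · exact hb
      · exact absurd hb ht
    have h := Multiset.one_le_count_iff_mem.2 hf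
    have h0 := Multiset.count_eq_zero.2 ht
    rw [if_neg ht]
    by_cases hrk : r = k
    · subst hrk
      simp [Multiset.count_cons, Multiset.count_erase_self, h0]
      omega
    · simp [hrk]

theorem exists_mem_flip {D : Multiset Blk} {k : ℕ} (hk : ∃ b, (k, b) ∈ D) (r : ℕ) :
    (∃ b, (r, b) ∈ flip D k) ↔ ∃ b, (r, b) ∈ D := by
  constructor
  · rintro ⟨b, hb⟩
    rcases mem_flip hb with h | h
    · exact ⟨b, h⟩
    · cases h; exact hk
  · rintro ⟨b, hb⟩
    by_cases hr : r = k
    · subst hr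
      unfold flip
      split_ifs <;> exact ⟨_, Multiset.mem_cons_self _ _⟩
    · refine ⟨b, ?_⟩
      unfold flip
      split_ifs <;> exact Multiset.mem_cons_of_mem ((Multiset.mem_erase_of_ne (by simp [hr])).2 hb)

theorem flip_flip {D : Multiset Blk} {k : ℕ} (hk : ∃ b, (k, b) ∈ D) (h1 : ∀ r, D.count (r, true) ≤ 1) :
    flip (flip D k) k = D := by
  have h2 : ∀ r, (flip D k).count (r, true) ≤ 1 := fun r => by
    rw [(count_flip hk h1 r).1]
    have := h1 r
    split_ifs <;> omega
  refine Multiset.ext.2 fun ⟨r, δ⟩ => ?_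
  obtain ⟨e1, e2⟩ := count_flip ((exists_mem_flip hk k).2 hk) h2 r
  obtain ⟨f1, f2⟩ := count_flip hk h1 r
  have := h1 r
  cases δ <;> split_ifs at * <;> omega

theorem flip_valid {D : Multiset Blk} {k : ℕ} (hk : ∃ b, (k, b) ∈ D) (hodd : ¬ Even k)
    (hD : (∀ b ∈ D, 0 < b.1 ∧ (Even b.1 → b.2 = false)) ∧ ∀ r, D.count (r, true) ≤ 1) :
    ((∀ b ∈ flip D k, 0 < b.1 ∧ (Even b.1 → b.2 = false)) ∧ ∀ r, (flip D k).count (r, true) ≤ 1) ∧
      ((flip D k).map size).sum = (D.map size).sum := by
  refine ⟨⟨fun b hb => ?_, fun r => ?_⟩, ?_⟩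
  · rcases mem_flip hb with h | h
    · exact hD.1 b h
    · obtain ⟨c, hc⟩ := hk
      exact ⟨h ▸ (hD.1 _ hc).1, fun he => absurd (h ▸ he) hodd⟩
  · rw [(count_flip hk hD.2 r).1]
    have := hD.2 r
    split_ifs <;> omega
  · have hs : ∀ b : Bool, size (k, b) = k := fun b => by simp [size, rk, hodd]
    unfold flip
    split_ifs with ht
    · conv_rhs => rw [← Multiset.cons_erase ht]
      rw [Multiset.map_cons, Multiset.map_cons, Multiset.sum_cons, Multiset.sum_cons, hs, hs]
    · obtain ⟨b, hb⟩ := hk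
      cases b
      · conv_rhs => rw [← Multiset.cons_erase hb]
        rw [Multiset.map_cons, Multiset.map_cons, Multiset.sum_cons, Multiset.sum_cons, hs, hs]
      · exact absurd hb ht

variable {V : Type v} [AddCommGroup V] [Module F V] [FiniteDimensional F V]

/-- The two choices of sign live on spaces of different discriminants. -/
theorem not_hasData_flip {B : LinearMap.BilinForm F V} (hB : B.Nondegenerate) {δ : F} (hδ : ¬ IsSquare δ)
    {N N' : Module.End F V} (hN : ∀ x y, B (N x) y = -B x (N y)) (hN' : ∀ x y, B (N' x) y = -B x (N' y))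
    (hsym : ∀ x y, B x y = B y x) {K R K' R' : Submodule F V} (hd : IsCompl K R) (hd' : IsCompl K' R')
    (horth : ∀ x ∈ K, ∀ y ∈ R, B x y = 0) (horth' : ∀ x ∈ K', ∀ y ∈ R', B x y = 0)
    (hR : Sp.Iso B B 0 0 R R') {P : Multiset Blk} {k : ℕ} (hodd : ¬ Even k) (hk : ∃ b, (k, b) ∈ P)
    (h : HasData δ B N K P) (h' : HasData δ B N' K' (flip P k)) : False := by
  classical
  have hδ0 : δ ≠ 0 := fun h => hδ (h ▸ IsSquare.zero)
  obtain ⟨ι, hι, b, v, hf, hP⟩ := h
  obtain ⟨e, he, hkey⟩ : ∃ e, (k, e) ∈ P ∧ ∀ D' : Multiset Blk, P = (k, e) ::ₘ D' → flip P k = (k, !e) ::ₘ D' := by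
    by_cases ht : (k, true) ∈ P
    · exact ⟨true, ht, fun D' hD' => by rw [flip, if_pos ht, hD', Multiset.erase_cons_head]; rfl⟩
    · obtain ⟨c, hc⟩ := hk
      cases c
      · exact ⟨false, hc, fun D' hD' => by rw [flip, if_neg ht, hD', Multiset.erase_cons_head]; rfl⟩
      · exact absurd hc ht
  rw [hP] at he
  obtain ⟨i₀, -, hi₀⟩ := Multiset.mem_map.1 he
  have hbk : (b i₀).1 = k := by rw [hi₀]
  have hrk : rk (b i₀) = 1 := by simp [rk, hbk, hodd]
  have hpos : 0 < k := hbk ▸ (hf.blk i₀).pos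
  set a0 : Fin (rk (b i₀)) := ⟨0, by rw [hrk]; norm_num⟩
  set c₀ : F := val δ (b i₀) 0 with hc₀
  have hc0 : c₀ ≠ 0 := val_ne_zero hδ0 _ _
  set γ : F := if e then δ⁻¹ else δ with hγ
  have hγsq : ¬ IsSquare γ := by
    rw [hγ]
    cases e
    · simpa using hδ
    · simpa using hδ
  have hγc : ∀ a, val δ (k, !e) a = γ * c₀ := fun a => by
    rw [hc₀, hi₀, hγ]
    cases e <;> simp [val, hodd, hδ0]
  let f : Fin (b i₀).1 → V := fun l => (N ^ (l : ℕ)) (v i₀ a0)
  have hgf : ∀ l l' : Fin (b i₀).1, B (f l) (f l') = if l' = l.rev then (-1 : F) ^ (l' : ℕ) * c₀ else 0 := fun l l' => by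
    show B ((N ^ (l : ℕ)) (v i₀ a0)) ((N ^ (l' : ℕ)) (v i₀ a0)) = _
    rw [(hf.blk i₀).gram' hN]
    by_cases hl : l' = l.rev
    · rw [if_pos hl, if_pos ⟨by simp [a0, hrk], by rw [hl, Fin.val_rev]; omega⟩]
    · rw [if_neg hl, if_neg (fun hh => hl (Fin.ext (by rw [Fin.val_rev]; omega))), mul_zero]
  let Vm : V →ₗ[F] (Fin (b i₀).1 → F) :=
    LinearMap.pi fun l => ((-1 : F) ^ (l.rev : ℕ) * c₀)⁻¹ • B.flip (f l.rev)
  let Um : (Fin (b i₀).1 → F) →ₗ[F] V := Fintype.linearCombination F f
  have hVU : ∀ s, Vm (Um s) = s := fun s => funext fun l => by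
    simp only [Vm, Um, LinearMap.pi_apply, LinearMap.smul_apply, smul_eq_mul, LinearMap.BilinForm.flip_apply,
      Fintype.linearCombination_apply, map_sum, LinearMap.sum_apply, map_smul, hgf]
    rw [Finset.sum_eq_single l (fun l' _ hl' => by
      rw [if_neg (fun h => hl' (Fin.rev_injective h.symm)), mul_zero, mul_zero]) (fun h => absurd (Finset.mem_univ _) h), if_pos rfl]
    have : (-1 : F) ^ (l.rev : ℕ) * c₀ ≠ 0 := mul_ne_zero (pow_ne_zero _ (neg_ne_zero.2 one_ne_zero)) hc0
    field_simp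
  let D : Module.End F V := 1 + (γ - 1) • (Um ∘ₗ Vm)
  have hDx : ∀ x, D x = x + (γ - 1) • Um (Vm x) := fun x => rfl
  have hUmem : ∀ s, Um s ∈ Submodule.span F (Set.range f) := fun s => by
    rw [← Fintype.range_linearCombination]
    exact ⟨s, rfl⟩
  have hfK : ∀ l, f l ∈ K := fun l => by
    rw [hf.span]; exact Submodule.subset_span ⟨⟨i₀, a0, l⟩, rfl⟩
  have hUK : ∀ s, Um s ∈ K := fun s => Submodule.span_le.2 (by rintro _ ⟨l, rfl⟩; exact hfK l) (hUmem s)
  have hzero : ∀ x, (∀ l, B x (f l) = 0) → D x = x := fun x hx => by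
    rw [hDx, show Vm x = 0 from funext fun l => by simp [Vm, hx], map_zero, smul_zero, add_zero]
  have hDf : ∀ l, D (f l) = γ • f l := fun l => by
    have e1 : Vm (f l) = Pi.single l 1 := by
      rw [show f l = Um (Pi.single l 1) by simp [Um, Fintype.linearCombination_apply_single], hVU]
    rw [hDx, e1, Fintype.linearCombination_apply_single, one_smul, sub_smul, one_smul, add_sub_cancel]
  have hDR : ∀ y ∈ R, D y = y := fun y hy => hzero y fun l => by rw [hsym]; exact horth _ (hfK l) y hy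
  have hother : ∀ i, i ≠ i₀ → ∀ a (l : ℕ), D ((N ^ l) (v i a)) = (N ^ l) (v i a) := fun i hi a l =>
    hzero _ fun l' => hf.orth i i₀ hi _ _ _ _
  have hsame : ∀ a (l : ℕ), D ((N ^ l) (v i₀ a)) = γ • (N ^ l) (v i₀ a) := fun a l => by
    have ha : a = a0 := Fin.ext (by have := a.isLt; simp [a0]; omega)
    subst ha
    by_cases hl : l < (b i₀).1
    · exact hDf ⟨l, hl⟩
    · rw [← Nat.sub_add_cancel (le_of_not_gt hl), pow_add, Module.End.mul_apply, (hf.blk i₀).kill, map_zero,
        map_zero, smul_zero]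
  let B₂ : LinearMap.BilinForm F V := B.compLeft D
  have hB₂ : ∀ x y, B₂ x y = B (D x) y := fun x y => rfl
  let b' : ι → Blk := fun i => if i = i₀ then (k, !e) else b i
  have hrk' : ∀ i, rk (b' i) = rk (b i) := fun i => by
    simp only [b']
    split_ifs with h
    · rw [h, hrk]; simp [rk, hodd]
    · rfl
  have hk' : ∀ i, (b' i).1 = (b i).1 := fun i => by
    simp only [b']
    split_ifs with h
    · rw [h, hbk]
    · rfl
  have hDN : ∀ x, D (N x) = N (D x) := fun x => by
    obtain ⟨a, ha, c, hc, rfl⟩ : ∃ a ∈ K, ∃ c ∈ R, a + c = x :=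
      Submodule.mem_sup.1 (hd.sup_eq_top ▸ Submodule.mem_top)
    have hNR : ∀ c ∈ R, D (N c) = N c := fun c hc => hzero _ fun l => by
      have hNf : N (f l) ∈ K := by
        show N ((N ^ (l : ℕ)) (v i₀ a0)) ∈ K
        rw [← Module.End.mul_apply, ← pow_succ']
        by_cases hl : (l : ℕ) + 1 < (b i₀).1
        · exact hfK ⟨l + 1, hl⟩
        · rw [show (l : ℕ) + 1 = (b i₀).1 by omega, (hf.blk i₀).kill]; exact zero_mem _
      rw [hN, hsym c, horth _ hNf c hc, neg_zero]
    have hK : ∀ a ∈ K, D (N a) = N (D a) := by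
      intro a ha
      rw [hf.span] at ha
      induction ha using Submodule.span_induction with
      | mem z hz =>
        obtain ⟨⟨i, r, l⟩, rfl⟩ := hz
        show D (N ((N ^ (l : ℕ)) (v i r))) = N (D ((N ^ (l : ℕ)) (v i r)))
        rw [← Module.End.mul_apply N, ← pow_succ']
        by_cases hi : i = i₀
        · subst hi; rw [hsame, hsame, map_smul, ← Module.End.mul_apply N, ← pow_succ']
        · rw [hother i hi, hother i hi, ← Module.End.mul_apply N, ← pow_succ']
      | zero => simp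
      | add p q _ _ hp hq => simp only [map_add, hp, hq]
      | smul r p _ hp => simp only [map_smul, hp]
    simp only [map_add, hK a ha, hNR c hc, hDR c hc]
  have hdata : HasData δ B₂ N K (flip P k) := by
    refine ⟨ι, hι, b', fun i a => v i (Fin.cast (hrk' i) a), ⟨fun i => ?_, fun i i' hne a a' l l' => ?_, ?_⟩, ?_⟩
    · refine ⟨by rw [hk']; exact (hf.blk i).pos, ?_, fun a => by rw [hk']; exact (hf.blk i).kill _, fun a a' j => ?_⟩
      · intro hev
        by_cases hi : i = i₀
        · exfalso; rw [hk', hi, hbk] at hev; exact hodd hev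
        · simp only [b', hi, if_false] at hev ⊢
          exact (hf.blk i).even_false hev
      · rw [hB₂]
        by_cases hi : i = i₀
        · subst hi
          rw [hsame, map_smul, LinearMap.smul_apply, smul_eq_mul, (hf.blk i).gram]
          simp only [Fin.val_cast, hrk', hk']
          by_cases hcond : (a : ℕ) + (a' : ℕ) + 1 = rk (b i) ∧ j + 1 = (b i).1
          · rw [if_pos hcond, if_pos hcond]
            simp only [b', if_pos]
            rw [hγc, hc₀]
            congr 2
            omega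
          · rw [if_neg hcond, if_neg hcond, mul_zero]
        · rw [hother i hi, (hf.blk i).gram]
          simp only [Fin.val_cast, hrk', hk']
          simp only [b', hi, if_false]
    · rw [hB₂]
      by_cases hi : i = i₀
      · subst hi; rw [hsame, map_smul, LinearMap.smul_apply, hf.orth _ _ hne, smul_zero]
      · rw [hother i hi, hf.orth _ _ hne]
    · rw [hf.span]
      congr 1
      ext z
      constructor
      · rintro ⟨⟨i, a, l⟩, rfl⟩
        exact ⟨⟨i, Fin.cast (hrk' i).symm a, Fin.cast (hk' i).symm l⟩, rfl⟩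
      · rintro ⟨⟨i, a, l⟩, rfl⟩
        exact ⟨⟨i, Fin.cast (hrk' i) a, Fin.cast (hk' i) l⟩, rfl⟩
    · have hu : (Finset.univ : Finset ι).val = i₀ ::ₘ (Finset.univ.erase i₀).val := by
        rw [← Finset.insert_val_of_notMem (Finset.notMem_erase i₀ _), Finset.insert_erase (Finset.mem_univ _)]
      rw [hu, Multiset.map_cons] at hP ⊢
      rw [hi₀] at hP
      rw [hkey _ hP, show b' i₀ = (k, !e) by simp [b']]
      congr 1
      exact Multiset.map_congr rfl fun i hi => by simp [b', (Finset.mem_erase.1 hi).1]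
  have hN₂ : ∀ x y, B₂ (N x) y = -B₂ x (N y) := fun x y => by rw [hB₂, hB₂, hDN, hN]
  obtain ⟨TK, hTK, -⟩ := hdata.exists_isometry hδ0 hN₂ hN' h'
  obtain ⟨TR, hTR, -⟩ := hR
  have iK : Sp.Iso B₂ B 0 0 K K' := ⟨TK, hTK, fun x y hxy => by
    rw [show y = 0 from Subtype.ext hxy, map_zero]; rfl⟩
  have iR : Sp.Iso B₂ B 0 0 R R' := ⟨TR, fun x y => by rw [hTR, hB₂, hDR _ x.2], fun x y hxy => by
    rw [show y = 0 from Subtype.ext hxy, map_zero]; rfl⟩
  have hDK : ∀ a ∈ K, D a ∈ K := fun a ha => by rw [hDx]; exact add_mem ha (K.smul_mem _ (hUK _))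
  obtain ⟨T, hT, -⟩ := iK.glue iR hd.disjoint hd'.disjoint hd.sup_eq_top hd'.sup_eq_top
    (fun x hx y hy => ⟨by rw [hB₂, horth _ (hDK x hx) y hy],
      by rw [hB₂, hDR y hy, hsym, horth x hx y hy]⟩)
    (fun x hx y hy => ⟨horth' x hx y hy, by rw [hsym]; exact horth' x hx y hy⟩)
    (fun _ _ => zero_mem _) (fun _ _ => zero_mem _)
  let T' : V →ₗ[F] V := (Submodule.topEquiv.symm ≪≫ₗ T ≪≫ₗ Submodule.topEquiv).toLinearMap
  have hT' : ∀ x y, B (T' x) (T' y) = B (D x) y := fun x y => hT ⟨x, trivial⟩ ⟨y, trivial⟩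
  let bs := Module.finBasis F V
  have hM : (B.comp T' T') = B.compLeft D := LinearMap.ext₂ hT'
  have hdet := congrArg (fun C => (LinearMap.BilinForm.toMatrix bs C).det) hM
  simp only [LinearMap.BilinForm.toMatrix_comp bs bs, LinearMap.BilinForm.toMatrix_compLeft, Matrix.det_mul,
    Matrix.det_transpose, LinearMap.det_toMatrix] at hdet
  have hG : (LinearMap.BilinForm.toMatrix bs B).det ≠ 0 :=
    (LinearMap.BilinForm.nondegenerate_iff_det_ne_zero bs).1 hB
  have hdD : LinearMap.det D = γ ^ (b i₀).1 := by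
    let bb := Pi.basisFun F (Fin (b i₀).1)
    have e2 : LinearMap.toMatrix bs bs D =
        1 + ((γ - 1) • LinearMap.toMatrix bb bs Um) * LinearMap.toMatrix bs bb Vm := by
      rw [Matrix.smul_mul, ← LinearMap.toMatrix_comp, ← map_smul, ← LinearMap.toMatrix_one bs, ← map_add]
    rw [← LinearMap.det_toMatrix bs, e2, Matrix.det_one_add_mul_comm, Matrix.mul_smul,
      ← LinearMap.toMatrix_comp, show Vm ∘ₗ Um = LinearMap.id from LinearMap.ext hVU, LinearMap.toMatrix_id,
      show (1 : Matrix (Fin (b i₀).1) (Fin (b i₀).1) F) + (γ - 1) • 1 = γ • 1 by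
        rw [sub_smul, one_smul]; abel,
      Matrix.det_smul, Matrix.det_one, mul_one, Fintype.card_fin]
  rw [hdD] at hdet
  have hsq : γ ^ (b i₀).1 = LinearMap.det T' * LinearMap.det T' := by
    apply mul_right_cancel₀ hG
    linear_combination -hdet
  obtain ⟨w, hw⟩ := Nat.not_even_iff_odd.1 (hbk ▸ hodd : ¬ Even (b i₀).1)
  rw [hw, pow_succ] at hsq
  refine hγsq ⟨LinearMap.det T' / γ ^ w, ?_⟩
  have hγ0 : γ ≠ 0 := fun h => hγsq (h ▸ IsSquare.zero)
  field_simp
  rw [← pow_mul, mul_comm w 2]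
  linear_combination hsq

end CfsgLib.CharDegrees.ClassCount.Orth
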