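import Cfsg.Agent.Lib.SemisimpleClasses.Symplectic
import Cfsg.Agent.Lib.Classes.QuadDisc
import Cfsg.Agent.Lib.Forms.SymmOrtho
import Cfsg.Prelude.Def_Classical

/-!
Many characteristic polynomials in an orthogonal group of even dimension.
-/

set_option autoImplicit false
set_option linter.unusedSectionVars false

namespace CfsgLib.CharDegrees.ClassCount.Orth

open Polynomial Matrix
open CfsgLib.Classes.SympSemi (rev rev_mul rev_one rev_X_sub_one)
open CfsgLib.SemisimpleClasses.Symp (palinPoly palinCoeff coeff_palinPoly palinPoly_spec palinEquiv exists_sp_charpoly)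

universe u

variable {F : Type u} [Field F]

/-- A self-reciprocal polynomial without root `±1` has even degree and constant term `1`. -/
theorem palin_of_rev (h2 : (2 : F) ≠ 0) {f : F[X]} (hr' : rev f = f) (hone : f.eval 1 ≠ 0) (hneg : f.eval (-1) ≠ 0) :
    f.coeff 0 = 1 ∧ Even f.natDegree := by
  have hr : C (f.coeff 0)⁻¹ * f.reverse = f := hr'
  have e1 : (f.coeff 0)⁻¹ * f.eval 1 = f.eval 1 := by
    conv_rhs => rw [← hr, eval_mul, eval_C]
    congr 1
    rw [eval_eq_sum_range, eval_eq_sum_range' (p := f.reverse) (n := f.natDegree + 1)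
      (Nat.lt_succ_of_le (reverse_natDegree_le f)), ← Finset.sum_range_reflect (fun i => f.reverse.coeff i * 1 ^ i)]
    refine Finset.sum_congr rfl fun i hi => ?_
    rw [Finset.mem_range] at hi
    rw [show f.natDegree + 1 - 1 - i = f.natDegree - i by omega, coeff_reverse, revAt_le (Nat.sub_le _ _),
      Nat.sub_sub_self (by omega), one_pow, one_pow]
  have h0 : f.coeff 0 = 1 := by
    have := mul_right_cancel₀ hone (e1.trans (one_mul _).symm)
    exact inv_eq_one.1 this
  refine ⟨h0, ?_⟩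
  rw [h0, inv_one, map_one, one_mul] at hr
  by_contra hodd
  rw [Nat.not_even_iff_odd] at hodd
  refine hneg ?_
  have key : f.eval (-1) = -f.eval (-1) := by
    conv_lhs => rw [← hr]
    rw [eval_eq_sum_range (p := f), eval_eq_sum_range' (p := f.reverse) (n := f.natDegree + 1)
      (Nat.lt_succ_of_le (reverse_natDegree_le f)), ← Finset.sum_range_reflect (fun i => f.reverse.coeff i * (-1) ^ i),
      ← Finset.sum_neg_distrib]
    refine Finset.sum_congr rfl fun i hi => ?_
    rw [Finset.mem_range] at hi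
    rw [show f.natDegree + 1 - 1 - i = f.natDegree - i by omega, coeff_reverse, revAt_le (Nat.sub_le _ _),
      Nat.sub_sub_self (by omega)]
    have e : ((-1 : F)) ^ (f.natDegree - i) = -((-1) ^ i) := by
      rw [neg_one_pow_eq_pow_mod_two, neg_one_pow_eq_pow_mod_two (n := i)]
      rw [Nat.odd_iff] at hodd
      rcases Nat.mod_two_eq_zero_or_one i with h | h
      · rw [h, show (f.natDegree - i) % 2 = 1 by omega]; simp
      · rw [h, show (f.natDegree - i) % 2 = 0 by omega]; simp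
    rw [e]; ring
  exact (mul_eq_zero.1 (show (2 : F) * f.eval (-1) = 0 by linear_combination key)).resolve_left h2

/-- Symmetric Gram matrices of the same size and discriminant class are congruent. -/
theorem exists_congr [Fintype F] (h2 : (2 : F) ≠ 0) {ι κ : Type} [Fintype ι] [DecidableEq ι] [Fintype κ]
    [DecidableEq κ] {M : Matrix ι ι F} {G : Matrix κ κ F} (hM : M.det ≠ 0) (hG : G.det ≠ 0)
    (hMs : Mᵀ = M) (hGs : Gᵀ = G) {m : ℕ} (hι : Fintype.card ι = m + 1) (hκ : Fintype.card κ = m + 1)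
    (hsq : IsSquare (G.det * M.det)) :
    ∃ e : (κ → F) ≃ₗ[F] (ι → F), ∀ u v, e u ⬝ᵥ M *ᵥ e v = u ⬝ᵥ G *ᵥ v := by
  classical
  obtain ⟨α, hα⟩ := FiniteField.exists_nonsquare (F := F) (fun h => h2 (by
    have : CharP F 2 := ringChar.of_eq h
    exact CharTwo.two_eq_zero))
  have mk : ∀ {ν : Type} [Fintype ν] [DecidableEq ν] (A : Matrix ν ν F), A.det ≠ 0 → Aᵀ = A → Fintype.card ν = m + 1 →
      ∃ (b : Module.Basis (Fin (m + 1)) F (ν → F)) (d : F) (c : F), c ≠ 0 ∧ (d = 1 ∨ d = α) ∧ d = c ^ 2 * A.det ∧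
        ∀ i j, b i ⬝ᵥ A *ᵥ b j = if i = j then (if i = Fin.last m then d else 1) else 0 := by
    intro ν _ _ A hA hAs hν
    have hB : ∀ u v, Matrix.toBilin' A u v = u ⬝ᵥ A *ᵥ v := fun u v => Matrix.toBilin'_apply' _ _ _
    have hS : (Matrix.toBilin' A).IsSymm := ⟨fun u v => by
      rw [hB, hB, Matrix.dotProduct_mulVec, ← Matrix.mulVec_transpose, hAs, dotProduct_comm]⟩
    obtain ⟨b, ho, h1, hl⟩ := CfsgLib.Forms.exists_orthogonal_basis_one h2 _ hS
      (LinearMap.BilinForm.nondegenerate_toBilin'_of_det_ne_zero' A hA)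
      (by rw [Module.finrank_fintype_fun_eq_card, hν]) α hα
    set d := b (Fin.last m) ⬝ᵥ A *ᵥ b (Fin.last m) with hd
    have hg : ∀ i j, b i ⬝ᵥ A *ᵥ b j = if i = j then (if i = Fin.last m then d else 1) else 0 := fun i j => by
      by_cases hij : i = j
      · subst hij
        rw [if_pos rfl]
        by_cases hi : i = Fin.last m
        · rw [if_pos hi, hd, hi]
        · rw [if_neg hi, ← hB]; exact h1 i hi
      · rw [if_neg hij, ← hB]; exact ho i j hij
    obtain ⟨c, hc, hcd⟩ := CfsgLib.Classes.isSquare_det_gram (fun u v => u ⬝ᵥ A *ᵥ v) A (fun _ _ => rfl) b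
    refine ⟨b, d, c, hc, by rw [hd, ← hB]; exact hl, ?_, hg⟩
    rw [← hcd, show (Matrix.of fun i j => b i ⬝ᵥ A *ᵥ b j) = Matrix.diagonal fun i => if i = Fin.last m then d else 1 by
      ext i j; rw [Matrix.of_apply, hg, Matrix.diagonal_apply], Matrix.det_diagonal, Finset.prod_ite_eq' Finset.univ (Fin.last m) (fun _ => d)]
    simp
  obtain ⟨b, d, c, hc, hd, hdet, hg⟩ := mk G hG hGs hκ
  obtain ⟨b', d', c', hc', hd', hdet', hg'⟩ := mk M hM hMs hι
  have hdd : d = d' := by
    have hs : IsSquare (d * d') := by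
      rw [hdet, hdet', show c ^ 2 * G.det * (c' ^ 2 * M.det) = (c * c') ^ 2 * (G.det * M.det) by ring]
      exact (CfsgLib.Classes.isSquare_sq_mul_iff (mul_ne_zero hc hc')).2 hsq
    rcases hd with rfl | rfl <;> rcases hd' with rfl | rfl <;> first | rfl | exact absurd (by simpa using hs) hα
  refine ⟨b.equiv b' (Equiv.refl _), fun u v => ?_⟩
  have key : (Matrix.toBilin' M).compl₁₂ (b.equiv b' (Equiv.refl _)).toLinearMap (b.equiv b' (Equiv.refl _)).toLinearMap =
      Matrix.toBilin' G := by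
    refine b.ext fun i => b.ext fun j => ?_
    simp only [LinearMap.compl₁₂_apply, LinearEquiv.coe_coe, Module.Basis.equiv_apply, Equiv.refl_apply]
    rw [Matrix.toBilin'_apply', Matrix.toBilin'_apply', hg, hg', hdd]
  have h := LinearMap.congr_fun (LinearMap.congr_fun key u) v
  rwa [LinearMap.compl₁₂_apply, Matrix.toBilin'_apply', Matrix.toBilin'_apply'] at h

/-- Block diagonal matrices preserving a block diagonal form. -/
theorem blocks_preserve {p q : Type} [Fintype p] [DecidableEq p] [Fintype q] [DecidableEq q] {A S : Matrix p p F}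
    (h : Aᵀ * S * A = S) {s : q → F} (d : q → F) (hs : ∀ i, s i * s i = 1) :
    (Matrix.fromBlocks A 0 0 (Matrix.diagonal s))ᵀ * Matrix.fromBlocks S 0 0 (Matrix.diagonal d) *
      Matrix.fromBlocks A 0 0 (Matrix.diagonal s) = Matrix.fromBlocks S 0 0 (Matrix.diagonal d) := by
  simp only [Matrix.fromBlocks_transpose, Matrix.fromBlocks_multiply, Matrix.diagonal_transpose,
    Matrix.diagonal_mul_diagonal, Matrix.transpose_zero, Matrix.mul_zero, Matrix.zero_mul, add_zero, zero_add, h]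
  congr 2
  funext i
  rw [mul_comm (s i), mul_assoc, hs, mul_one]

/-- `det J = 1`. -/
theorem det_J (m : ℕ) : (Matrix.J (Fin m) F).det = 1 := by
  have e : Matrix.J (Fin m) F = CfsgLib.Classes.hypMatrix m F * Matrix.fromBlocks 1 0 0 (-1) := by
    simp [Matrix.J, CfsgLib.Classes.hypMatrix, Matrix.fromBlocks_multiply]
  rw [e, det_mul, CfsgLib.Classes.det_hypMatrix, det_fromBlocks_zero₂₁, det_one, det_neg, det_one, Fintype.card_fin,
    one_mul, mul_one, ← mul_pow, show (-1 : F) * -1 = 1 by ring, one_pow]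

set_option maxHeartbeats 600000 in
/-- Every suitable self-reciprocal polynomial is the characteristic polynomial of an isometry. -/
theorem exists_isometry_charpoly [Fintype F] (h2 : (2 : F) ≠ 0) {ι : Type} [Fintype ι] [DecidableEq ι] {n : ℕ}
    (hn : 1 ≤ n) (hcard : Fintype.card ι = 2 * n) {M : Matrix ι ι F} (hM : M.det ≠ 0) (hMs : Mᵀ = M)
    {χ : F[X]} (hm : χ.Monic) (hd : χ.natDegree = 2 * n) (hsym : ∀ k ≤ 2 * n, χ.coeff k = χ.coeff (2 * n - k))
    (hA : χ.eval 1 * χ.eval (-1) = 0 ∨ IsSquare (χ.eval 1 * χ.eval (-1) * M.det)) :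
    ∃ g : GL ι F, (∀ u v, ((g : Matrix ι ι F) *ᵥ u) ⬝ᵥ M *ᵥ ((g : Matrix ι ι F) *ᵥ v) = u ⬝ᵥ M *ᵥ v) ∧
      (g : Matrix ι ι F).charpoly = χ := by
  classical
  have hc0 : χ.coeff 0 = 1 := by rw [hsym 0 (Nat.zero_le _), Nat.sub_zero, ← hd]; exact hm.coeff_natDegree
  have hrev : rev χ = χ := by
    rw [rev, hc0, inv_one, map_one, one_mul]
    ext k
    rw [coeff_reverse, hd]
    by_cases hk : k ≤ 2 * n
    · rw [revAt_le hk, ← hsym k hk]
    · rw [revAt_eq_self_of_lt (by omega)]
  have h11 : (-1 : F) ≠ 1 := fun h => h2 (by linear_combination -h)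
  have hrp : ∀ (f : F[X]), rev f = f → ∀ r : ℕ, rev (f ^ r) = f ^ r := by
    intro f hf r
    induction r with
    | zero => simp [rev_one]
    | succ r ih => rw [pow_succ, rev_mul, ih, hf]
  have hX1 : rev ((X + C (1 : F)) : F[X]) = X + C 1 := by
    have hr : ((X : F[X]) + C 1).reverse = X + C 1 := by
      ext i
      rw [coeff_reverse, natDegree_X_add_C]
      rcases i with _ | _ | i
      · rw [revAt_le (Nat.zero_le _)]; simp [coeff_one]
      · rw [revAt_le le_rfl]; simp [coeff_one]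
      · rw [revAt_eq_self_of_lt (by omega)]
    rw [rev, hr]
    simp
  obtain ⟨f₁, hf₁, hf₁n⟩ := exists_eq_pow_rootMultiplicity_mul_and_not_dvd χ hm.ne_zero 1
  set a := χ.rootMultiplicity 1
  have hf₁0 : f₁ ≠ 0 := fun h => hm.ne_zero (by rw [hf₁, h, mul_zero])
  obtain ⟨f, hf, hfn⟩ := exists_eq_pow_rootMultiplicity_mul_and_not_dvd f₁ hf₁0 (-1)
  set b := f₁.rootMultiplicity (-1)
  have hneg1 : (X - C (-1 : F)) = X + C 1 := by rw [map_neg, sub_neg_eq_add]
  rw [hneg1] at hf hfn
  have hχ : χ = ((X - C 1) ^ a * (X + C 1) ^ b) * f := by rw [hf₁, hf]; ring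
  have hab0 : ((X - C (1 : F)) ^ a * (X + C 1) ^ b) ≠ 0 :=
    mul_ne_zero (pow_ne_zero _ (X_sub_C_ne_zero _)) (pow_ne_zero _ (X_add_C_ne_zero _))
  have hfm : f.Monic := (((monic_X_sub_C 1).pow a).mul ((monic_X_add_C 1).pow b)).of_mul_monic_left (hχ ▸ hm)
  have hfr : rev f = f := by
    refine mul_left_cancel₀ hab0 ?_
    conv_rhs => rw [← hχ, ← hrev, hχ, rev_mul, rev_mul, hrp _ rev_X_sub_one, hrp _ hX1]
  have hfone : f.eval 1 ≠ 0 := fun h => hf₁n (by
    rw [hf]; exact dvd_mul_of_dvd_right (dvd_iff_isRoot.2 h) _)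
  have hfneg : f.eval (-1) ≠ 0 := fun h => hfn (by rw [← hneg1]; exact dvd_iff_isRoot.2 h)
  obtain ⟨hf0, hfe⟩ := palin_of_rev h2 hfr hfone hfneg
  obtain ⟨r, hr⟩ := hfe
  have hdeg : a + b + 2 * r = 2 * n := by
    rw [← hd, hχ, (((monic_X_sub_C (1 : F)).pow a).mul ((monic_X_add_C 1).pow b)).natDegree_mul hfm,
      ((monic_X_sub_C (1 : F)).pow a).natDegree_mul ((monic_X_add_C 1).pow b), (monic_X_sub_C (1 : F)).natDegree_pow,
      (monic_X_add_C (1 : F)).natDegree_pow, natDegree_X_sub_C, natDegree_X_add_C, hr]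
    ring
  obtain ⟨g₀, hg₀⟩ := exists_sp_charpoly (n := r) hfm (by omega) fun k hk => by
    have e : rev f = f := hfr
    rw [rev, hf0, inv_one, map_one, one_mul] at e
    conv_lhs => rw [← e, coeff_reverse, revAt_le (show k ≤ f.natDegree by omega)]
    congr 1
    omega
  set A : Matrix (Fin r ⊕ Fin r) (Fin r ⊕ Fin r) F := (g₀ : Matrix (Fin r ⊕ Fin r) (Fin r ⊕ Fin r) F) with hAdef
  set H : Matrix (Fin r ⊕ Fin r) (Fin r ⊕ Fin r) F := ((g₀⁻¹ : Matrix.symplecticGroup (Fin r) F) : Matrix (Fin r ⊕ Fin r) (Fin r ⊕ Fin r) F) with hHdef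
  set J := Matrix.J (Fin r) F with hJdef
  have hAJ : Aᵀ * J * A = J := SymplecticGroup.mem_iff'.1 g₀.2
  have hHJ : Hᵀ * J * H = J := SymplecticGroup.mem_iff'.1 (g₀⁻¹ : Matrix.symplecticGroup (Fin r) F).2
  have hAH : A * H = 1 := congrArg Subtype.val (mul_inv_cancel g₀)
  have hHA : H * A = 1 := congrArg Subtype.val (inv_mul_cancel g₀)
  have hAJ' : Aᵀ * J = J * H := by
    conv_rhs => rw [← hAJ]
    simp only [Matrix.mul_assoc, hAH, Matrix.mul_one]
  have hHJ' : Hᵀ * J = J * A := by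
    conv_rhs => rw [← hHJ]
    simp only [Matrix.mul_assoc, hHA, Matrix.mul_one]
  set S := (A - H)ᵀ * J with hS
  have hSsym : Sᵀ = S := by
    have hJt : Jᵀ = -J := Matrix.J_transpose (Fin r) F
    rw [hS, Matrix.transpose_mul, Matrix.transpose_transpose, hJt, Matrix.transpose_sub, Matrix.sub_mul, hAJ', hHJ',
      Matrix.neg_mul, ← Matrix.mul_sub, Matrix.mul_sub, Matrix.mul_sub]
    abel
  have hSinv : Aᵀ * S * A = S := by
    have hc : (A - H) * A = A * (A - H) := by rw [Matrix.sub_mul, Matrix.mul_sub, hAH, hHA]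
    have e : Aᵀ * (A - H)ᵀ = (A - H)ᵀ * Aᵀ := by rw [← Matrix.transpose_mul, ← Matrix.transpose_mul, hc]
    rw [hS, ← Matrix.mul_assoc Aᵀ, e, Matrix.mul_assoc, Matrix.mul_assoc, ← Matrix.mul_assoc Aᵀ, hAJ]
  have hSdet : S.det = f.eval 1 * f.eval (-1) := by
    have hev : Even (Fintype.card (Fin r ⊕ Fin r)) := by simp
    have h1 : (A - 1).det = f.eval 1 := by
      rw [← hg₀, Matrix.eval_charpoly, show A - 1 = -(Matrix.scalar (Fin r ⊕ Fin r) (1 : F) - A) by simp,
        Matrix.det_neg, hev.neg_one_pow, one_mul]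
    have h3 : (A + 1).det = f.eval (-1) := by
      rw [← hg₀, Matrix.eval_charpoly, show A + 1 = -(Matrix.scalar (Fin r ⊕ Fin r) (-1 : F) - A) by
        rw [map_neg, map_one]; abel, Matrix.det_neg, hev.neg_one_pow, one_mul]
    have hH1 : H.det = 1 := SymplecticGroup.det_eq_one (g₀⁻¹ : Matrix.symplecticGroup (Fin r) F).2
    have e : A - H = H * ((A - 1) * (A + 1)) := by
      rw [show (A - 1) * (A + 1) = A * A - 1 by noncomm_ring, Matrix.mul_sub, ← Matrix.mul_assoc, hHA, Matrix.one_mul,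
        Matrix.mul_one]
    rw [hS, det_mul, det_transpose, det_J, mul_one, e, det_mul, det_mul, hH1, one_mul, h1, h3]
  have hS0 : S.det ≠ 0 := by rw [hSdet]; exact mul_ne_zero hfone hfneg
  let κ := (Fin r ⊕ Fin r) ⊕ (Fin a ⊕ Fin b)
  obtain ⟨d, hd0, hdsq⟩ : ∃ d : Fin a ⊕ Fin b → F, (∀ i, d i ≠ 0) ∧ IsSquare (S.det * (∏ i, d i) * M.det) := by
    rcases Nat.eq_zero_or_pos (a + b) with hab | hab
    · have ha : a = 0 := by omega
      have hb : b = 0 := by omega
      have : IsEmpty (Fin a ⊕ Fin b) := by rw [ha, hb]; infer_instance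
      refine ⟨fun _ => 1, fun _ => one_ne_zero, ?_⟩
      have e : χ = f := by rw [hχ, ha, hb, pow_zero, pow_zero, one_mul, one_mul]
      rw [Finset.prod_const_one, mul_one, hSdet, ← e]
      exact hA.resolve_left (by rw [e]; exact mul_ne_zero hfone hfneg)
    · obtain ⟨i₀⟩ : Nonempty (Fin a ⊕ Fin b) := Fintype.card_pos_iff.1 (by simpa using hab)
      refine ⟨fun i => if i = i₀ then S.det * M.det else 1, fun i => ?_, ?_⟩
      · dsimp only; split_ifs
        · exact mul_ne_zero hS0 hM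
        · exact one_ne_zero
      · rw [Finset.prod_ite_eq' Finset.univ i₀ (fun _ => S.det * M.det), if_pos (Finset.mem_univ _)]
        exact ⟨S.det * M.det, by ring⟩
  let G : Matrix κ κ F := Matrix.fromBlocks S 0 0 (Matrix.diagonal d)
  let g₁ : Matrix κ κ F := Matrix.fromBlocks A 0 0 (Matrix.diagonal (Sum.elim (fun _ => 1) fun _ => -1))
  have hGdet : G.det = S.det * ∏ i, d i := by
    show (Matrix.fromBlocks S 0 0 (Matrix.diagonal d)).det = _
    rw [det_fromBlocks_zero₂₁, det_diagonal]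
  have hG0 : G.det ≠ 0 := by rw [hGdet]; exact mul_ne_zero hS0 (Finset.prod_ne_zero_iff.2 fun i _ => hd0 i)
  have hGs : Gᵀ = G := by
    show (Matrix.fromBlocks S 0 0 (Matrix.diagonal d))ᵀ = Matrix.fromBlocks S 0 0 (Matrix.diagonal d)
    rw [Matrix.fromBlocks_transpose, hSsym, Matrix.diagonal_transpose, Matrix.transpose_zero, Matrix.transpose_zero]
  have hκ : Fintype.card κ = 2 * n := by simp [κ]; omega
  obtain ⟨e, he⟩ := exists_congr h2 hM hG0 hMs hGs (m := 2 * n - 1) (by omega) (by omega) (by rw [hGdet]; exact hdsq)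
  have hpres : ∀ u v, (g₁ *ᵥ u) ⬝ᵥ G *ᵥ (g₁ *ᵥ v) = u ⬝ᵥ G *ᵥ v := fun u v => by
    have hgG : g₁ᵀ * G * g₁ = G :=
      blocks_preserve hSinv d fun i => by rcases i with i | i <;> simp
    conv_rhs => rw [← hgG]
    rw [← Matrix.mulVec_mulVec, ← Matrix.mulVec_mulVec, Matrix.dotProduct_mulVec (A := g₁ᵀ), Matrix.vecMul_transpose]
  let P : Matrix ι κ F := LinearMap.toMatrix' e.toLinearMap
  let P' : Matrix κ ι F := LinearMap.toMatrix' e.symm.toLinearMap
  have hPP : P * P' = 1 := by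
    show LinearMap.toMatrix' e.toLinearMap * LinearMap.toMatrix' e.symm.toLinearMap = 1
    rw [← LinearMap.toMatrix'_comp, show e.toLinearMap ∘ₗ e.symm.toLinearMap = LinearMap.id from
      LinearMap.ext e.apply_symm_apply, LinearMap.toMatrix'_id]
  have hP'P : P' * P = 1 := by
    show LinearMap.toMatrix' e.symm.toLinearMap * LinearMap.toMatrix' e.toLinearMap = 1
    rw [← LinearMap.toMatrix'_comp, show e.symm.toLinearMap ∘ₗ e.toLinearMap = LinearMap.id from
      LinearMap.ext e.symm_apply_apply, LinearMap.toMatrix'_id]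
  have hP : ∀ v, P *ᵥ v = e v := fun v => by
    show LinearMap.toMatrix' e.toLinearMap *ᵥ v = _
    rw [← Matrix.toLin'_apply, Matrix.toLin'_toMatrix']; rfl
  have hg1u : IsUnit g₁.det := by
    rw [show g₁.det = A.det * (Matrix.diagonal (Sum.elim (fun _ : Fin a => (1 : F)) fun _ : Fin b => -1)).det from
      Matrix.det_fromBlocks_zero₂₁ _ _ _, SymplecticGroup.det_eq_one g₀.2, one_mul, det_diagonal]
    refine isUnit_iff_ne_zero.2 (Finset.prod_ne_zero_iff.2 fun i _ => ?_)
    rcases i with i | i <;> simp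
  let g : Matrix ι ι F := P * g₁ * P'
  have hgu : IsUnit g := by
    refine IsUnit.of_mul_eq_one (P * g₁⁻¹ * P') ?_
    show P * g₁ * P' * (P * g₁⁻¹ * P') = 1
    rw [Matrix.mul_assoc (P * g₁), ← Matrix.mul_assoc P', ← Matrix.mul_assoc P', hP'P, Matrix.one_mul,
      ← Matrix.mul_assoc, Matrix.mul_assoc P, Matrix.mul_nonsing_inv _ hg1u, Matrix.mul_one, hPP]
  refine ⟨hgu.unit, fun u v => ?_, ?_⟩
  · rw [hgu.unit_spec]
    obtain ⟨u, rfl⟩ := e.surjective u
    obtain ⟨v, rfl⟩ := e.surjective v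
    have hgv : ∀ w, g *ᵥ e w = e (g₁ *ᵥ w) := fun w => by
      show (P * g₁ * P') *ᵥ e w = _
      rw [← hP w, Matrix.mulVec_mulVec, Matrix.mul_assoc, hP'P, Matrix.mul_one, ← Matrix.mulVec_mulVec, hP]
    rw [hgv, hgv, he, hpres, he]
  · rw [hgu.unit_spec]
    have hcc : g.charpoly = g₁.charpoly := by
      let eqv : ι ≃ κ := Fintype.equivOfCardEq (by rw [hκ, hcard])
      let Q : Matrix ι ι F := P.submatrix id eqv
      let Q' : Matrix ι ι F := P'.submatrix eqv id
      have hQQ : Q * Q' = 1 := by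
        show P.submatrix id eqv * P'.submatrix eqv id = 1
        rw [Matrix.submatrix_mul_equiv, hPP, Matrix.submatrix_id_id]
      have hQ'Q : Q' * Q = 1 := mul_eq_one_comm.1 hQQ
      have hg : g = Q * g₁.submatrix eqv eqv * Q' := by
        show P * g₁ * P' = P.submatrix id eqv * g₁.submatrix eqv eqv * P'.submatrix eqv id
        rw [Matrix.submatrix_mul_equiv, Matrix.submatrix_mul_equiv, Matrix.submatrix_id_id]
      let U : (Matrix ι ι F)ˣ := ⟨Q, Q', hQQ, hQ'Q⟩
      rw [hg, show Q * g₁.submatrix eqv eqv * Q' = (U : Matrix ι ι F) * g₁.submatrix eqv eqv * (↑U⁻¹ : Matrix ι ι F) from rfl,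
        Matrix.coe_units_inv, Matrix.charpoly_units_conj]
      exact Matrix.charpoly_reindex eqv.symm g₁
    rw [hcc, hχ]
    have e1 : g₁.charpoly = A.charpoly *
        (Matrix.diagonal (Sum.elim (fun _ : Fin a => (1 : F)) fun _ : Fin b => -1)).charpoly :=
      Matrix.charpoly_fromBlocks_zero₂₁ _ _ _
    rw [e1, Matrix.charpoly_diagonal, Fintype.prod_sum_type, hg₀, mul_comm f]
    simp only [Sum.elim_inl, Sum.elim_inr, Finset.prod_const, Finset.card_univ, Fintype.card_fin, map_neg, sub_neg_eq_add]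

theorem coeff_two_terms (m : ℕ) (s t : F) (w : Fin m → F) :
    palinPoly (Fin.cons s (Fin.cons t w) : Fin (m + 2) → F) =
      palinPoly (Fin.cons 0 (Fin.cons 0 w) : Fin (m + 2) → F) + C s * (X + X ^ (2 * m + 3)) +
        C t * (X ^ 2 + if m = 0 then 0 else X ^ (2 * m + 2)) := by
  ext k
  simp only [coeff_add, coeff_C_mul, coeff_palinPoly]
  by_cases hk : k ≤ 2 * (m + 2)
  · rw [if_pos hk, if_pos hk]
    unfold palinCoeff
    by_cases h0 : k = 0 ∨ 2 * (m + 2) ≤ k
    · rw [dif_pos h0, dif_pos h0]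
      rcases eq_or_ne m 0 with hm | hm <;> simp [hm, coeff_X, coeff_X_pow] <;>
        split_ifs <;> first | omega | simp
    rw [dif_neg h0, dif_neg h0]
    have key : ∀ (j : Fin (m + 2)) (e₁ e₂ : F), (j.val = 0 → e₁ = 1) → (j.val ≠ 0 → e₁ = 0) → (j.val = 1 → e₂ = 1) →
        (j.val ≠ 1 → e₂ = 0) →
        (Fin.cons s (Fin.cons t w) : Fin (m + 2) → F) j =
          (Fin.cons 0 (Fin.cons 0 w) : Fin (m + 2) → F) j + s * e₁ + t * e₂ := by
      intro j e₁ e₂ a1 a2 a3 a4
      induction j using Fin.cases with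
      | zero => rw [a1 rfl, a4 (by simp)]; simp
      | succ j =>
        induction j using Fin.cases with
        | zero => rw [a2 (by simp), a3 (by simp)]; simp
        | succ j => rw [a2 (by simp), a4 (by simp)]; simp
    by_cases hk1 : k ≤ m + 2
    · rw [dif_pos hk1, dif_pos hk1]
      refine key _ _ _ ?_ ?_ ?_ ?_ <;> simp only <;> intro h
      all_goals
        rcases eq_or_ne m 0 with hm | hm <;> simp [hm, coeff_X, coeff_X_pow] <;> (try split_ifs) <;> first | omega | simp
    · rw [dif_neg hk1, dif_neg hk1]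
      refine key _ _ _ ?_ ?_ ?_ ?_ <;> simp only <;> intro h
      all_goals
        rcases eq_or_ne m 0 with hm | hm <;> simp [hm, coeff_X, coeff_X_pow] <;> (try split_ifs) <;> first | omega | simp
  · rw [if_neg hk, if_neg hk]
    rcases eq_or_ne m 0 with hm | hm <;> simp [hm, coeff_X, coeff_X_pow] <;>
      split_ifs <;> first | omega | simp

/-- `q ^ n ≤ 2 k (O (V))` in dimension `2 n`, `q` odd. -/
theorem pow_le_two_mul_card_classes [Fintype F] (hodd : Odd (Fintype.card F)) {ι : Type} [Fintype ι] [DecidableEq ι]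
    {n : ℕ} (hn : 2 ≤ n) (hcard : Fintype.card ι = 2 * n) (Q : (ι → F) → F) (M : Matrix ι ι F)
    (hM : M.det ≠ 0) (hMs : Mᵀ = M) (hQ : ∀ v, 2 * Q v = v ⬝ᵥ M *ᵥ v) :
    Fintype.card F ^ n ≤ 2 * Nat.card (ConjClasses ↥(Cfsg.isometryGroup F Q)) := by
  classical
  have hch : ringChar F ≠ 2 := fun h => by
    have := FiniteField.even_card_of_char_two h
    rw [Nat.odd_iff] at hodd
    omega
  have h2 : (2 : F) ≠ 0 := Ring.two_ne_zero hch
  obtain ⟨m, rfl⟩ := Nat.exists_eq_add_of_le' hn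
  let ev : (Fin (m + 2) → F) → F × F := fun v => ((palinPoly v).eval 1, (palinPoly v).eval (-1))
  let A : Finset (F × F) := Finset.univ.filter fun p => p.1 * p.2 = 0 ∨ IsSquare (p.1 * p.2 * M.det)
  have hA : Fintype.card F ^ 2 ≤ 2 * A.card := by
    obtain ⟨δ, hδ⟩ := FiniteField.exists_nonsquare (F := F) hch
    have hδ0 : δ ≠ 0 := fun h => hδ (h ▸ IsSquare.zero)
    let Z : Finset (F × F) := Finset.univ.filter fun p => p.1 * p.2 = 0
    let Sq : Finset (F × F) := Finset.univ.filter fun p => p.1 * p.2 ≠ 0 ∧ IsSquare (p.1 * p.2 * M.det)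
    let Ns : Finset (F × F) := Finset.univ.filter fun p => p.1 * p.2 ≠ 0 ∧ ¬ IsSquare (p.1 * p.2 * M.det)
    have hNs : Ns.card ≤ Sq.card := by
      refine Finset.card_le_card_of_injOn (fun p => (p.1 * δ, p.2)) (fun p hp => ?_) fun p _ p' _ h => ?_
      · simp only [Ns, Finset.coe_filter, Finset.mem_univ, true_and, Set.mem_ofPred_eq] at hp
        simp only [Sq, Finset.coe_filter, Finset.mem_univ, true_and, Set.mem_ofPred_eq]
        refine ⟨?_, ?_⟩
        · rw [mul_right_comm]; exact mul_ne_zero hp.1 hδ0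
        · rw [show p.1 * δ * p.2 * M.det = (p.1 * p.2 * M.det) * δ by ring,
            CfsgLib.Classes.isSquare_mul_iff h2 (mul_ne_zero hp.1 hM) hδ0]
          exact ⟨fun h => absurd h hp.2, fun h => absurd h hδ⟩
      · simp only [Prod.mk.injEq] at h
        exact Prod.ext (mul_right_cancel₀ hδ0 h.1) h.2
    have hsplit : A.card = Z.card + Sq.card := by
      rw [← Finset.card_union_of_disjoint (Finset.disjoint_filter.2 fun p _ h => fun h' => h'.1 h)]
      congr 1
      ext p
      simp only [A, Z, Sq, Finset.mem_filter, Finset.mem_union, Finset.mem_univ, true_and]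
      tauto
    have hall : Fintype.card F ^ 2 = Z.card + Sq.card + Ns.card := by
      have h1 := Finset.card_filter_add_card_filter_not (s := (Finset.univ : Finset (F × F))) (fun p => p.1 * p.2 = 0)
      have h3 := Finset.card_filter_add_card_filter_not
        (s := (Finset.univ : Finset (F × F)).filter fun p => ¬ p.1 * p.2 = 0) (fun p => IsSquare (p.1 * p.2 * M.det))
      simp only [Finset.filter_filter] at h3
      rw [Finset.card_univ, Fintype.card_prod, ← pow_two] at h1
      simp only [Z, Sq, Ns, ne_eq]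
      omega
    omega
  have hsol : ∀ (w : Fin m → F) (p : F × F), ∃ s t : F, ev (Fin.cons s (Fin.cons t w)) = p := by
    intro w p
    set v₀ := ev (Fin.cons 0 (Fin.cons 0 w))
    set c : F := if m = 0 then 1 else 2 with hc
    have hc0 : c ≠ 0 := by rw [hc]; split_ifs <;> simp [h2]
    have hs : ∀ s t : F, ev (Fin.cons s (Fin.cons t w)) = (v₀.1 + 2 * s + c * t, v₀.2 - 2 * s + c * t) := fun s t => by
      show (_, _) = _
      rw [coeff_two_terms, Prod.mk.injEq]
      have o1 : Odd (2 * m + 3) := ⟨m + 1, by ring⟩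
      have e1 : Even (2 * m + 2) := ⟨m + 1, by ring⟩
      rw [hc]
      split_ifs <;> simp [v₀, ev, o1.neg_one_pow, e1.neg_one_pow] <;> constructor <;> ring
    refine ⟨(p.1 - v₀.1 - (p.2 - v₀.2)) / (2 * 2), (p.1 - v₀.1 + (p.2 - v₀.2)) / (2 * c), ?_⟩
    rw [hs]
    refine Prod.ext ?_ ?_ <;> simp only <;> field_simp <;> ring
  choose fs ft hft using hsol
  let T := {v : Fin (m + 2) → F // ev v ∈ A}
  let Φ : (Fin m → F) × A → T := fun x => ⟨Fin.cons (fs x.1 x.2.1) (Fin.cons (ft x.1 x.2.1) x.1), by rw [hft]; exact x.2.2⟩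
  have hΦ : Function.Injective Φ := fun x y h => by
    have h' := congrArg Subtype.val h
    have e1 : x.1 = y.1 := by
      funext i
      have := congrFun h' i.succ.succ
      simpa [Φ] using this
    refine Prod.ext e1 (Subtype.ext ?_)
    have := congrArg ev h'
    simpa [Φ, hft] using this
  let G := Cfsg.isometryGroup F Q
  have hex : ∀ v : T, ∃ g : G, ((g : GL ι F) : Matrix ι ι F).charpoly = palinPoly v.1 := by
    intro v
    obtain ⟨hm1, hd, hs⟩ := palinPoly_spec v.1
    obtain ⟨g, hg, hgc⟩ := exists_isometry_charpoly h2 (by omega : 1 ≤ m + 2) hcard hM hMs hm1 hd hs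
      (by simpa [A, ev] using v.2)
    exact ⟨⟨g, fun a _ => by
      show Q ((g : Matrix ι ι F) *ᵥ a) = Q a
      exact mul_left_cancel₀ h2 (by rw [hQ, hQ, hg])⟩, hgc⟩
  choose fg hfg using hex
  have hinj : Function.Injective fun v : T => ConjClasses.mk (fg v) := fun v v' h => by
    obtain ⟨c, hc⟩ := isConj_iff.1 (ConjClasses.mk_eq_mk_iff_isConj.1 h)
    have hc' := congrArg (fun z : G => (((z : GL ι F)) : Matrix ι ι F).charpoly) hc
    simp only [Subgroup.coe_mul, Subgroup.coe_inv, Units.val_mul, hfg] at hc'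
    rw [Matrix.coe_units_inv, Matrix.charpoly_units_conj, hfg] at hc'
    apply Subtype.ext
    have := (palinEquiv (K := F) (n := m + 2)).symm.injective
      (a₁ := v.1) (a₂ := v'.1) (Subtype.ext hc')
    exact this
  have h1 := Nat.card_le_card_of_injective _ hinj
  have h3 := Nat.card_le_card_of_injective Φ hΦ
  rw [Nat.card_prod, Nat.card_fun, Nat.card_eq_fintype_card, Nat.card_eq_fintype_card, Nat.card_eq_fintype_card (α := A),
    Fintype.card_coe, Fintype.card_fin] at h3
  calc Fintype.card F ^ (m + 2) = Fintype.card F ^ m * Fintype.card F ^ 2 := pow_add _ _ _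
    _ ≤ Fintype.card F ^ m * (2 * A.card) := Nat.mul_le_mul_left _ hA
    _ = 2 * (Fintype.card F ^ m * A.card) := by ring
    _ ≤ 2 * Nat.card T := Nat.mul_le_mul_left 2 (by simpa [Nat.card_eq_fintype_card] using h3)
    _ ≤ _ := Nat.mul_le_mul_left 2 h1

end CfsgLib.CharDegrees.ClassCount.Orth
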