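import Cfsg.Agent.Lib.CharDegrees.ClassCount.OClasses
import Cfsg.Agent.Lib.CharDegrees.ClassCount.OOddCode

/-!
The classes of an orthogonal group in odd dimension, odd characteristic: invariants.
-/

set_option autoImplicit false
set_option linter.unusedSectionVars false

namespace CfsgLib.CharDegrees.ClassCount.Orth.Odd

open Polynomial Module
open CfsgLib.CharDegrees.ClassCount.Sp (Split Iso restr coe_restr negEquiv negEquiv_apply pow_apply_eq_zero kill_neg
  skew_sub_inv tuple_rev tuple_eval_ne_zero exists_isometry_of_tuple)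

universe u v

variable {F : Type u} [Field F]
variable {V : Type v} [AddCommGroup V] [Module F V] [FiniteDimensional F V]

/-- An isometry without eigenvalue `-1` has determinant one. -/
theorem det_eq_one_of_no_neg {B : LinearMap.BilinForm F V} (hB : B.Nondegenerate) (g : V ≃ₗ[F] V)
    (hg : ∀ x y, B (g x) (g y) = B x y) (hm : ∀ x, g x = -x → x = 0) : LinearMap.det g.toLinearMap = 1 := by
  classical
  let bs := Module.finBasis F V
  have hG : (LinearMap.BilinForm.toMatrix bs B).det ≠ 0 :=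
    (LinearMap.BilinForm.nondegenerate_iff_det_ne_zero bs).1 hB
  set S : Module.End F V := g.toLinearMap + 1 with hS
  have hSd : LinearMap.det S ≠ 0 := by
    intro h
    obtain ⟨x, hx, hx0⟩ := (Submodule.ne_bot_iff _).1 (LinearMap.bot_lt_ker_of_det_eq_zero h).ne'
    exact hx0 (hm x (eq_neg_of_add_eq_zero_left (by simpa [hS] using hx)))
  have key : B.comp S g.toLinearMap = B.compRight S := LinearMap.ext₂ fun x y => by
    show B (g x + x) (g y) = B x (g y + y)
    simp only [map_add, LinearMap.add_apply, hg]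
    ring
  have h := congrArg (fun C => (LinearMap.BilinForm.toMatrix bs C).det) key
  simp only [LinearMap.BilinForm.toMatrix_comp bs bs, LinearMap.BilinForm.toMatrix_compRight, Matrix.det_mul,
    Matrix.det_transpose, LinearMap.det_toMatrix] at h
  apply mul_left_cancel₀ (mul_ne_zero hSd hG)
  linear_combination h

/-- The determinant of an automorphism of a direct sum. -/
theorem det_eq_mul_restr {K R : Submodule F V} (hd : IsCompl K R) (g : V ≃ₗ[F] V)
    (hK : ∀ x ∈ K, g x ∈ K ∧ g.symm x ∈ K) (hR : ∀ x ∈ R, g x ∈ R ∧ g.symm x ∈ R) :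
    LinearMap.det g.toLinearMap =
      LinearMap.det (restr g K hK).toLinearMap * LinearMap.det (restr g R hR).toLinearMap := by
  rw [← LinearMap.det_prodMap, ← LinearMap.det_conj _ (Submodule.prodEquivOfIsCompl K R hd)]
  congr 1
  refine LinearMap.ext fun x => ?_
  obtain ⟨⟨a, b⟩, rfl⟩ := (Submodule.prodEquivOfIsCompl K R hd).surjective x
  rw [LinearMap.comp_apply, LinearMap.comp_apply, LinearEquiv.coe_coe, LinearEquiv.coe_coe, LinearEquiv.coe_coe,
    LinearEquiv.symm_apply_apply, LinearMap.prodMap_apply]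
  simp [coe_restr]

/-- A datum describes an isometry. -/
def Rep (δ : F) (B : LinearMap.BilinForm F V) (g : V ≃ₗ[F] V) {n : ℕ} (x : OData F n) [DecidableEq F] : Prop :=
  ∃ (K R₁ L R : Submodule F V) (_ : Split B g 1 ⊤ K R₁ (finrank F V))
    (h₂ : Split B g (-1) R₁ L R (finrank F V)),
    HasData δ B (g.toLinearMap - g.symm.toLinearMap) K x.P ∧
    HasData δ B ((negEquiv g).toLinearMap - (negEquiv g).symm.toLinearMap) L x.M ∧
    ∀ k, tuple (restr g R h₂.inv_R).toLinearMap k = x.t k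

/-- A unipotent part has no eigenvalue `-1`. -/
theorem no_neg_of_pow (h2 : (2 : F) ≠ 0) (g : V ≃ₗ[F] V) {D : ℕ} {x : V} (h : ((g.toLinearMap - 1) ^ D) x = 0)
    (hx : g x = -x) : x = 0 := by
  have e : ∀ n : ℕ, ((g.toLinearMap - 1) ^ n) x = ((-2 : F) ^ n) • x := by
    intro n
    induction n with
    | zero => simp
    | succ n ih =>
      rw [pow_succ', Module.End.mul_apply, ih, map_smul, pow_succ, mul_smul]
      congr 1
      simp only [LinearMap.sub_apply, LinearEquiv.coe_coe, Module.End.one_apply, hx, neg_smul, two_smul]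
      abel
  rw [e] at h
  exact (smul_eq_zero.1 h).resolve_left (pow_ne_zero _ (neg_ne_zero.2 h2))

/-- The isometries of determinant one have an even part at `-1`. -/
theorem even_finrank_neg {B : LinearMap.BilinForm F V} (hB : B.Nondegenerate) (hsym : ∀ x y, B x y = B y x)
    (h2 : (2 : F) ≠ 0) (g : V ≃ₗ[F] V) (hg : ∀ x y, B (g x) (g y) = B x y) {K R₁ L R : Submodule F V}
    (h₁ : Split B g 1 ⊤ K R₁ (finrank F V)) (h₂ : Split B g (-1) R₁ L R (finrank F V))
    (hdet : LinearMap.det g.toLinearMap = 1) : Even (finrank F L) := by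
  set W := K ⊔ R with hW
  have ho : ∀ a ∈ L, ∀ b ∈ W, B a b = 0 := fun a ha b hb => by
    obtain ⟨c, hc, d, hd, rfl⟩ := Submodule.mem_sup.1 hb
    rw [map_add, (h₁.orth c hc a (h₂.le_K ha)).2, (h₂.orth a ha d hd).1, add_zero]
  have hc : IsCompl L W := by
    refine ⟨Submodule.disjoint_def.2 fun a ha ha' => h₂.nd_K a ha fun b hb => ?_, codisjoint_iff.2 ?_⟩
    · rw [hsym, ho b hb a ha']
    · rw [hW, ← h₁.sup, ← h₂.sup, sup_left_comm]
  have hWi : ∀ x ∈ W, g x ∈ W ∧ g.symm x ∈ W := fun x hx => by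
    obtain ⟨c, hc, d, hd, rfl⟩ := Submodule.mem_sup.1 hx
    rw [map_add, map_add]
    exact ⟨Submodule.add_mem_sup (h₁.inv_K c hc).1 (h₂.inv_R d hd).1,
      Submodule.add_mem_sup (h₁.inv_K c hc).2 (h₂.inv_R d hd).2⟩
  have hWn : (B.restrict W).Nondegenerate := restrict_nondegenerate hsym fun a ha h => hB.1 a fun y => by
    obtain ⟨l, hl, w, hw, rfl⟩ := Submodule.mem_sup.1 (hc.sup_eq_top.symm ▸ Submodule.mem_top : y ∈ L ⊔ W)
    rw [map_add, hsym, ho l hl a ha, h w hw, add_zero]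
  have e1 : LinearMap.det (restr g W hWi).toLinearMap = 1 := by
    refine det_eq_one_of_no_neg hWn _ (fun a b => hg (a : V) b) fun a ha => Subtype.ext ?_
    obtain ⟨c, hc', d, hd, hcd⟩ := Submodule.mem_sup.1 a.2
    have h := congrArg Subtype.val ha
    rw [coe_restr, Submodule.coe_neg, ← hcd, map_add, neg_add] at h
    have hdisj := Submodule.disjoint_def.1 (h₁.disj.mono_right h₂.le_R) (g c + c) (add_mem (h₁.inv_K c hc').1 hc') ?_
    · have hdn : g d = -d := by
        rw [eq_neg_of_add_eq_zero_left hdisj] at h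
        exact add_left_cancel h
      rw [← hcd, no_neg_of_pow h2 g (by simpa using h₁.kill c hc') (eq_neg_of_add_eq_zero_left hdisj),
        h₂.inj d hd (by simpa using hdn)]
      simp
    · rw [show g c + c = -(g d + d) by linear_combination (norm := abel) h]
      exact neg_mem (add_mem (h₂.inv_R d hd).1 hd)
  have e2 : LinearMap.det (restr g L h₂.inv_K).toLinearMap = (-1) ^ finrank F L := by
    have hne : LinearMap.det (negEquiv (restr g L h₂.inv_K)).toLinearMap = 1 := by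
      refine det_eq_one_of_no_neg (restrict_nondegenerate hsym h₂.nd_K) _
        (fun a b => by
          show B ((negEquiv (restr g L h₂.inv_K) a : L) : V) ((negEquiv (restr g L h₂.inv_K) b : L) : V) = B (a : V) b
          simp [negEquiv_apply, coe_restr, hg]) fun a ha => Subtype.ext ?_
      rw [negEquiv_apply, neg_inj] at ha
      refine no_neg_of_pow h2 (negEquiv g) (kill_neg g (h₂.kill a a.2)) ?_
      rw [negEquiv_apply, show g (a : V) = a from congrArg Subtype.val ha]
    rw [show (negEquiv (restr g L h₂.inv_K)).toLinearMap = (-1 : F) • (restr g L h₂.inv_K).toLinearMap from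
      LinearMap.ext fun a => by simp [negEquiv_apply], LinearMap.det_smul] at hne
    calc LinearMap.det (restr g L h₂.inv_K).toLinearMap
        = ((-1 : F) ^ finrank F L * (-1) ^ finrank F L) * LinearMap.det (restr g L h₂.inv_K).toLinearMap := by
          rw [← mul_pow, neg_one_mul, neg_neg, one_pow, one_mul]
      _ = _ := by rw [mul_assoc, hne, mul_one]
  rw [det_eq_mul_restr hc g h₂.inv_K hWi, e1, e2, mul_one] at hdet
  by_contra hodd
  rw [(Nat.not_even_iff_odd.1 hodd).neg_one_pow] at hdet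
  exact h2 (by linear_combination -hdet)

variable [Fintype F] [DecidableEq F]

/-- Every isometry has a datum, and an even part at `-1` for determinant one. -/
theorem exists_rep {B : LinearMap.BilinForm F V} (hB : B.Nondegenerate) (hsym : ∀ x y, B x y = B y x)
    (h2 : (2 : F) ≠ 0) {δ : F} (hδ : ¬ IsSquare δ) (g : V ≃ₗ[F] V) (hg : ∀ x y, B (g x) (g y) = B x y) {n : ℕ}
    (hn : finrank F V = 2 * n - 1) (hdet : LinearMap.det g.toLinearMap = 1) :
    ∃ x : OData F n, Rep δ B g x ∧ Even (x.M.map size).sum := by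
  have hδ0 : δ ≠ 0 := fun h => hδ (h ▸ IsSquare.zero)
  obtain ⟨K, R₁, h₁⟩ := exists_split_symm hsym g hg (ε := 1) (one_mul 1) (W := ⊤)
    (fun x _ => ⟨trivial, trivial⟩) (fun x _ h => hB.1 x fun y => h y trivial)
  obtain ⟨L, R, h₂⟩ := exists_split_symm hsym g hg (ε := -1) (by ring) h₁.inv_R h₁.nd_R
  have hng : ∀ x y, B (negEquiv g x) (negEquiv g y) = B x y := fun x y => by simp [negEquiv_apply, hg]
  obtain ⟨P, hP, hPb, hP1⟩ := exists_data (skew_sub_inv B g hg) hsym h2 hδ K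
    (fun x hx => sub_mem (h₁.inv_K x hx).1 (h₁.inv_K x hx).2) h₁.nd_K (finrank F V)
    (fun x hx => pow_apply_eq_zero g (by simpa using h₁.kill x hx))
  obtain ⟨M, hM, hMb, hM1⟩ := exists_data (skew_sub_inv B (negEquiv g) hng) hsym h2 hδ L
    (fun x hx => sub_mem (neg_mem (h₂.inv_K x hx).1) ((h₂.inv_K (-x) (neg_mem hx)).2)) h₂.nd_K (finrank F V)
    (fun x hx => pow_apply_eq_zero (negEquiv g) (kill_neg g (h₂.kill x hx)))
  let gR := restr g R h₂.inv_R
  obtain ⟨hC, haltC, hgC, -⟩ := exists_alt (restrict_nondegenerate hsym h₂.nd_R) (fun a b => hsym (a : V) b) h2 gR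
    (fun a b => hg (a : V) b)
    (fun a ha => Subtype.ext (h₁.inj a (h₂.le_R a.2) (by simpa [gR, coe_restr] using congrArg Subtype.val ha)))
    (fun a ha => Subtype.ext (h₂.inj a a.2 (by simpa [gR, coe_restr] using congrArg Subtype.val ha)))
  have hdet' : LinearMap.det gR.toLinearMap ≠ 0 := (LinearEquiv.isUnit_det' gR).ne_zero
  have hdR : finrank F R ≤ 2 * n := (Submodule.finrank_le R).trans (by omega)
  have hsum : finrank F K + (finrank F L + finrank F R) = 2 * n - 1 := by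
    have e1 := Submodule.finrank_sup_add_finrank_inf_eq K R₁
    have e2 := Submodule.finrank_sup_add_finrank_inf_eq L R
    rw [h₁.sup, h₁.disj.eq_bot, finrank_bot, finrank_top] at e1
    rw [h₂.sup, h₂.disj.eq_bot, finrank_bot] at e2
    omega
  refine ⟨⟨P, M, fun k => tuple gR.toLinearMap k, ⟨fun b hb => ⟨(hPb b hb).1, (hPb b hb).2.2⟩, hP1⟩,
    ⟨fun b hb => ⟨(hMb b hb).1, (hMb b hb).2.2⟩, hM1⟩, tuple_monic _, tuple_coeff_zero hdet',
    tuple_rev _ hC haltC gR hgC, ?_, ?_, ?_, ?_⟩, ⟨K, R₁, L, R, h₁, h₂, hP, hM, fun k => rfl⟩, ?_⟩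
  · refine tuple_eval_ne_zero _ fun x hx => ?_
    refine Subtype.ext (h₁.inj x (h₂.le_R x.2) ?_)
    simpa [gR, coe_restr] using congrArg Subtype.val hx
  · refine tuple_eval_ne_zero _ fun x hx => ?_
    refine Subtype.ext (h₂.inj x x.2 ?_)
    simpa [gR, coe_restr] using congrArg Subtype.val hx
  · intro k hk
    refine Finset.prod_eq_one fun i hi => ?_
    have h1 := (Finset.mem_filter.1 hi).2
    have h3 := (blk gR.toLinearMap).pos i
    have h4 := (blk gR.toLinearMap).e_le i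
    omega
  · rw [← hP.finrank_eq (skew_sub_inv B g hg) hδ0, ← hM.finrank_eq (skew_sub_inv B (negEquiv g) hng) hδ0,
      ← tuple_weight (g := gR.toLinearMap) (2 * n) hdR]
    omega
  · show Even (M.map size).sum
    rw [← hM.finrank_eq (skew_sub_inv B (negEquiv g) hng) hδ0]
    exact even_finrank_neg hB hsym h2 g hg h₁ h₂ hdet

/-- Isometries with the same datum are conjugate by an isometry. -/
theorem exists_conj_of_rep {p : ℕ} [Fact p.Prime] [CharP F p] (hp2 : p ≠ 2) (h2 : (2 : F) ≠ 0)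
    {B : LinearMap.BilinForm F V} (hsym : ∀ x y, B x y = B y x) {δ : F} (hδ : δ ≠ 0) {g g' : V ≃ₗ[F] V}
    (hg : ∀ x y, B (g x) (g y) = B x y) (hg' : ∀ x y, B (g' x) (g' y) = B x y) {n : ℕ} {x x' : OData F n}
    (hP : x.P = x'.P) (hM : x.M = x'.M) (ht : x.t = x'.t) (h : Rep δ B g x) (h' : Rep δ B g' x') :
    ∃ T : V ≃ₗ[F] V, (∀ a b, B (T a) (T b) = B a b) ∧ ∀ a, T (g a) = g' (T a) := by
  obtain ⟨K, R₁, L, R, h₁, h₂, hK, hL, hR⟩ := h
  obtain ⟨K', R₁', L', R', h₁', h₂', hK', hL', hR'⟩ := h'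
  have hng : ∀ g : V ≃ₗ[F] V, (∀ x y, B (g x) (g y) = B x y) → ∀ x y, B (negEquiv g x) (negEquiv g y) = B x y :=
    fun g hg x y => by simp [negEquiv_apply, hg]
  have iK : Iso B B g.toLinearMap g'.toLinearMap K K' :=
    iso_of_data hp2 hδ g g' hg hg' (fun a ha => (h₁.inv_K a ha).1) (fun a ha => (h₁'.inv_K a ha).1)
      (fun a ha => (h₁.inv_K a ha).2) (fun a ha => (h₁'.inv_K a ha).2)
      (fun a ha => by simpa using h₁.kill a ha) (fun a ha => by simpa using h₁'.kill a ha) hK (hP ▸ hK')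
  have iL : Iso B B g.toLinearMap g'.toLinearMap L L' := by
    obtain ⟨T, hT, hTg⟩ := iso_of_data hp2 hδ (negEquiv g) (negEquiv g') (hng g hg) (hng g' hg')
      (fun a ha => neg_mem (h₂.inv_K a ha).1) (fun a ha => neg_mem (h₂'.inv_K a ha).1)
      (fun a ha => (h₂.inv_K (-a) (neg_mem ha)).2) (fun a ha => (h₂'.inv_K (-a) (neg_mem ha)).2)
      (fun a ha => kill_neg g (h₂.kill a ha)) (fun a ha => kill_neg g' (h₂'.kill a ha)) hL (hM ▸ hL')
    refine ⟨T, hT, fun a b hab => ?_⟩
    have := hTg a (-b) (by simp [negEquiv_apply, hab])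
    simpa [negEquiv_apply] using this
  have iR : Iso B B g.toLinearMap g'.toLinearMap R R' :=
    iso_rest hp2 h2 hsym hg hg' h₂.inv_R h₂'.inv_R h₂.nd_R h₂'.nd_R
      (fun a ha h => h₁.inj a (h₂.le_R ha) (by simpa using h)) (fun a ha h => h₂.inj a ha (by simpa using h))
      (fun a ha h => h₁'.inj a (h₂'.le_R ha) (by simpa using h)) (fun a ha h => h₂'.inj a ha (by simpa using h))
      (fun k => by rw [hR, hR', ht])
  have iR₁ := iL.glue iR h₂.disj h₂'.disj h₂.sup h₂'.sup h₂.orth h₂'.orth (fun a ha => (h₂.inv_K a ha).1)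
    fun a ha => (h₂.inv_R a ha).1
  obtain ⟨T, hT, hTg⟩ := iK.glue iR₁ h₁.disj h₁'.disj h₁.sup h₁'.sup h₁.orth h₁'.orth
    (fun a ha => (h₁.inv_K a ha).1) fun a ha => (h₁.inv_R a ha).1
  exact ⟨Submodule.topEquiv.symm ≪≫ₗ T ≪≫ₗ Submodule.topEquiv, fun a b => hT ⟨a, trivial⟩ ⟨b, trivial⟩,
    fun a => hTg ⟨a, trivial⟩ ⟨g a, trivial⟩ rfl⟩

/-- A space does not carry two data that differ in one sign. -/
theorem rep_flip_false {p : ℕ} [Fact p.Prime] [CharP F p] (hp2 : p ≠ 2) (h2 : (2 : F) ≠ 0)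
    {B : LinearMap.BilinForm F V} (hB : B.Nondegenerate) (hsym : ∀ x y, B x y = B y x) {δ : F}
    (hδ : ¬ IsSquare δ) {g g' : V ≃ₗ[F] V} (hg : ∀ x y, B (g x) (g y) = B x y)
    (hg' : ∀ x y, B (g' x) (g' y) = B x y) {n : ℕ} {x x' : OData F n} (ht : x.t = x'.t) {k : ℕ} (hodd : ¬ Even k)
    (hk : ∃ b, (k, b) ∈ x.P) (hP : x'.P = flip x.P k) (hM : x'.M = x.M)
    (h : Rep δ B g x) (h' : Rep δ B g' x') : False := by
  have hδ0 : δ ≠ 0 := fun h => hδ (h ▸ IsSquare.zero)
  obtain ⟨K, R₁, L, R, h₁, h₂, hK, hL, hR⟩ := h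
  obtain ⟨K', R₁', L', R', h₁', h₂', hK', hL', hR'⟩ := h'
  have hng : ∀ g : V ≃ₗ[F] V, (∀ x y, B (g x) (g y) = B x y) → ∀ x y, B (negEquiv g x) (negEquiv g y) = B x y :=
    fun g hg x y => by simp [negEquiv_apply, hg]
  have iR : Iso B B 0 0 R R' := Iso.forget
    (iso_rest hp2 h2 hsym hg hg' h₂.inv_R h₂'.inv_R h₂.nd_R h₂'.nd_R
      (fun a ha h => h₁.inj a (h₂.le_R ha) (by simpa using h)) (fun a ha h => h₂.inj a ha (by simpa using h))
      (fun a ha h => h₁'.inj a (h₂'.le_R ha) (by simpa using h)) (fun a ha h => h₂'.inj a ha (by simpa using h))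
      (fun k => by rw [hR, hR', ht]))
  rw [hP] at hK'
  rw [hM] at hL'
  obtain ⟨T, hT, -⟩ := hL.exists_isometry hδ0 (skew_sub_inv B _ (hng g hg)) (skew_sub_inv B _ (hng g' hg')) hL'
  have iL : Iso B B 0 0 L L' := ⟨T, hT, fun a b hab => by rw [show b = 0 from Subtype.ext hab, map_zero]; rfl⟩
  have iR₁ := iL.glue iR h₂.disj h₂'.disj h₂.sup h₂'.sup h₂.orth h₂'.orth (fun _ _ => zero_mem _) fun _ _ => zero_mem _
  exact not_hasData_flip hB hδ (skew_sub_inv B g hg) (skew_sub_inv B g' hg') hsym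
    ⟨h₁.disj, codisjoint_iff.2 h₁.sup⟩ ⟨h₁'.disj, codisjoint_iff.2 h₁'.sup⟩ (fun a ha b hb => (h₁.orth a ha b hb).1)
    (fun a ha b hb => (h₁'.orth a ha b hb).1) iR₁ hodd hk hK hK'

end CfsgLib.CharDegrees.ClassCount.Orth.Odd
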