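import Cfsg.Agent.Lib.CharDegrees.ClassCount.ONumeric

/-!
The number of codes for the orthogonal groups in odd dimension.
-/

set_option autoImplicit false
set_option linter.unusedSectionVars false

namespace CfsgLib.CharDegrees.ClassCount.Orth.Odd

open Finset

/-- Two squared products over odd exponents. -/
theorem sq_bound (J : ℕ) :
    (∏ j ∈ range (J + 10), (1 + y0 ^ (2 * j + 1)) ^ 2) ≤ 427 / 100 ∧
      955 / 10000 ≤ ∏ j ∈ range (J + 10), (1 - y0 ^ (2 * j + 1)) ^ 2 := by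
  have hy : (0 : ℝ) ≤ y0 ∧ y0 < 1 := by unfold y0; norm_num
  have ha0 : ∀ j : ℕ, 0 ≤ y0 ^ (2 * j + 1) := fun j => pow_nonneg hy.1 _
  have ha1 : ∀ j : ℕ, y0 ^ (2 * j + 1) < 1 := fun j => pow_lt_one₀ hy.1 hy.2 (by omega)
  have hsum : ∑ i ∈ range J, y0 ^ (2 * (10 + i) + 1) ≤ y0 ^ 21 / (1 - y0 ^ 2) := by
    rw [Finset.sum_congr rfl fun i _ => (show y0 ^ (2 * (10 + i) + 1) = y0 ^ 21 * (y0 ^ 2) ^ i by
      rw [← pow_mul, ← pow_add]; congr 1; ring), ← Finset.mul_sum]
    refine le_trans (mul_le_mul_of_nonneg_left (geom_le (pow_nonneg hy.1 2) ?_ J) (pow_nonneg hy.1 21)) ?_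
    · exact pow_lt_one₀ hy.1 hy.2 (by norm_num)
    · rw [mul_one_div]
  set t := y0 ^ 21 / (1 - y0 ^ 2) with ht
  have ht1 : t < 1 := by rw [ht]; unfold y0; norm_num
  have hprod : 1 - t ≤ ∏ i ∈ range J, (1 - y0 ^ (2 * (10 + i) + 1)) :=
    le_trans (by linarith) (one_sub_sum_le _ _ (fun i _ => ha0 _) fun i _ => (ha1 _).le)
  have hpos : ∀ i : ℕ, (0 : ℝ) < 1 - y0 ^ (2 * (10 + i) + 1) := fun i => sub_pos.2 (ha1 _)
  have hup : (∏ i ∈ range J, (1 + y0 ^ (2 * (10 + i) + 1)) ^ 2) * (1 - t) ^ 2 ≤ 1 := by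
    rw [Finset.prod_pow, ← mul_pow]
    refine pow_le_one₀ (mul_nonneg (Finset.prod_nonneg fun i _ => by linarith [ha0 (10 + i)]) (by linarith)) ?_
    refine le_trans (mul_le_mul_of_nonneg_left hprod (Finset.prod_nonneg fun i _ => by linarith [ha0 (10 + i)])) ?_
    rw [← Finset.prod_mul_distrib]
    refine Finset.prod_le_one (fun i _ => mul_nonneg (by linarith [ha0 (10 + i)]) (hpos i).le) fun i _ => ?_
    nlinarith [ha0 (10 + i)]
  have hdown : (1 - t) ^ 2 ≤ ∏ i ∈ range J, (1 - y0 ^ (2 * (10 + i) + 1)) ^ 2 := by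
    rw [Finset.prod_pow]; exact pow_le_pow_left₀ (by linarith) hprod 2
  rw [add_comm J 10, Finset.prod_range_add, Finset.prod_range_add]
  constructor
  · refine le_of_mul_le_mul_right ?_ (pow_pos (by linarith : 0 < 1 - t) 2)
    rw [mul_assoc]
    refine le_trans (mul_le_of_le_one_right (Finset.prod_nonneg fun i _ => pow_nonneg (by linarith [ha0 i]) 2) hup) ?_
    rw [ht]
    simp only [y0, Finset.prod_range_succ, Finset.prod_range_zero]
    norm_num
  · refine le_trans ?_ (mul_le_mul_of_nonneg_left hdown (Finset.prod_nonneg fun i _ => pow_nonneg (sub_nonneg.2 (ha1 i).le) 2))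
    rw [ht]
    simp only [y0, Finset.prod_range_succ, Finset.prod_range_zero]
    norm_num

variable {α : Type} [Fintype α]

/-- The weight of a set of bits. -/
noncomputable def gw (S : Finset (ℕ × α)) : ℝ := ∏ p ∈ S, y0 ^ (2 * p.1 - 1)

theorem gw_nonneg (S : Finset (ℕ × α)) : 0 ≤ gw S :=
  Finset.prod_nonneg fun _ _ => pow_nonneg (by unfold y0; norm_num) _

/-- The odd-at-one, even-at-minus-one subsets. -/
theorem parity_sum (side : α → Prop) [DecidablePred side] [DecidableEq α] {a : ℕ}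
    (h₁ : (univ.filter side).card = a) (h₂ : (univ.filter fun i => ¬ side i).card = a) (N : ℕ) :
    ∑ S ∈ (Icc 1 N ×ˢ (univ : Finset α)).powerset.filter
      (fun S => Odd (S.filter fun p => side p.2).card ∧ Even (S.filter fun p => ¬ side p.2).card), gw S =
      ((∏ j ∈ range N, (1 + y0 ^ (2 * j + 1)) ^ (2 * a)) - ∏ j ∈ range N, (1 - y0 ^ (2 * j + 1)) ^ (2 * a)) / 4 := by
  have hr : ∀ f : ℕ → ℝ, ∏ j ∈ Icc 1 N, f (2 * j - 1) = ∏ j ∈ range N, f (2 * j + 1) := fun f => by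
    rw [Finset.range_eq_Ico, show Icc 1 N = Ico (0 + 1) (N + 1) by
      ext; simp only [mem_Icc, mem_Ico]; omega, ← Finset.prod_Ico_add' (fun j => f (2 * j - 1)) 0 N 1]
    exact Finset.prod_congr rfl fun j _ => by congr 1
  have key : ∀ s t : ℝ, ∑ S ∈ (Icc 1 N ×ˢ (univ : Finset α)).powerset,
      (s ^ (S.filter fun p => side p.2).card * t ^ (S.filter fun p => ¬ side p.2).card * gw S) =
      ∏ j ∈ range N, ((1 + s * y0 ^ (2 * j + 1)) ^ a * (1 + t * y0 ^ (2 * j + 1)) ^ a) := fun s t => by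
    have e : ∀ S : Finset (ℕ × α), s ^ (S.filter fun p => side p.2).card * t ^ (S.filter fun p => ¬ side p.2).card * gw S =
        ∏ p ∈ S, (if side p.2 then s else t) * y0 ^ (2 * p.1 - 1) := fun S => by
      rw [Finset.prod_mul_distrib, Finset.prod_ite, Finset.prod_const, Finset.prod_const, gw]
    rw [Finset.sum_congr rfl fun S _ => e S, ← Finset.prod_one_add, Finset.prod_product,
      ← hr fun k => (1 + s * y0 ^ k) ^ a * (1 + t * y0 ^ k) ^ a]
    refine Finset.prod_congr rfl fun j _ => ?_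
    have e2 : ∀ i : α, 1 + (if side i then s else t) * y0 ^ (2 * j - 1) =
        if side i then 1 + s * y0 ^ (2 * j - 1) else 1 + t * y0 ^ (2 * j - 1) := fun i => by split_ifs <;> rfl
    rw [Finset.prod_congr rfl fun i _ => e2 i, Finset.prod_ite, Finset.prod_const, Finset.prod_const, h₁, h₂]
  have k1 := key 1 1
  have k2 := key (-1) 1
  have k3 := key 1 (-1)
  have k4 := key (-1) (-1)
  simp only [one_pow, one_mul, mul_one, neg_mul, ← sub_eq_add_neg, ← pow_add] at k1 k2 k3 k4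
  have k23 : (∏ j ∈ range N, ((1 - y0 ^ (2 * j + 1)) ^ a * (1 + y0 ^ (2 * j + 1)) ^ a)) =
      ∏ j ∈ range N, ((1 + y0 ^ (2 * j + 1)) ^ a * (1 - y0 ^ (2 * j + 1)) ^ a) :=
    Finset.prod_congr rfl fun j _ => mul_comm _ _
  rw [show 2 * a = a + a by ring, ← k1, ← k4, Finset.sum_filter, ← Finset.sum_sub_distrib, eq_div_iff (by norm_num),
    Finset.sum_mul]
  rw [← k2, ← k3] at k23
  have hz : ∀ S : Finset (ℕ × α),
      (if Odd (S.filter fun p => side p.2).card ∧ Even (S.filter fun p => ¬ side p.2).card then gw S else 0) * 4 =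
        (gw S - (-1) ^ ((S.filter fun p => side p.2).card + (S.filter fun p => ¬ side p.2).card) * gw S) -
        ((-1) ^ (S.filter fun p => side p.2).card * gw S - (-1) ^ (S.filter fun p => ¬ side p.2).card * gw S) := fun S => by
    rw [pow_add]
    rcases Nat.even_or_odd (S.filter fun p => side p.2).card with h | h <;>
      rcases Nat.even_or_odd (S.filter fun p => ¬ side p.2).card with h' | h'
    · rw [if_neg fun e => Nat.not_even_iff_odd.2 e.1 h, h.neg_one_pow, h'.neg_one_pow]; ring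
    · rw [if_neg fun e => Nat.not_even_iff_odd.2 e.1 h, h.neg_one_pow, h'.neg_one_pow]; ring
    · rw [if_pos ⟨h, h'⟩, h.neg_one_pow, h'.neg_one_pow]; ring
    · rw [if_neg fun e => Nat.not_even_iff_odd.2 h' e.2, h.neg_one_pow, h'.neg_one_pow]; ring
  rw [Finset.sum_congr rfl fun S _ => hz S, Finset.sum_sub_distrib, sub_eq_self, Finset.sum_sub_distrib, k23, sub_self]

/-- The weight of the half degrees. -/
noncomputable def ew {m : ℕ} (d : Fin (m + 1) → ℕ) : ℝ := ∏ i : Fin (m + 1), ((1 / 3 : ℝ) ^ (i : ℕ)) ^ d i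

theorem ew_nonneg {m : ℕ} (d : Fin (m + 1) → ℕ) : 0 ≤ ew d := Finset.prod_nonneg fun i _ => by positivity

/-- A possible code in dimension `2 m + 1`. -/
def Valid (side : α → Prop) [DecidablePred side] {m : ℕ} (c : Finset (ℕ × α) × (Fin (m + 1) → ℕ)) : Prop :=
  (∀ p ∈ c.1, 1 ≤ p.1 ∧ p.1 ≤ m + 1) ∧ (∀ i, c.2 i ≤ m + 1) ∧
    2 * ∑ i : Fin (m + 1), ((i : ℕ) + 1) * c.2 i + ∑ p ∈ c.1, (2 * p.1 - 1) = 2 * (m + 1) - 1 ∧
    Odd (c.1.filter fun p => side p.2).card ∧ Even (c.1.filter fun p => ¬ side p.2).card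

theorem valid_weight {q m : ℕ} (hq : 3 ≤ q) {side : α → Prop} [DecidablePred side]
    {c : Finset (ℕ × α) × (Fin (m + 1) → ℕ)} (hc : Valid side c) :
    ∑ i, c.2 i ≤ m ∧
      (q : ℝ) ^ (∑ i, c.2 i) * y0 ≤ (q : ℝ) ^ m * ((3 / q : ℝ) ^ (m - ∑ i, c.2 i) * (gw c.1 * ew c.2)) ∧
      (∑ i, c.2 i = m → ∑ p ∈ c.1, (2 * p.1 - 1) = 1 ∧ ∀ i : Fin (m + 1), i ≠ 0 → c.2 i = 0) := by
  obtain ⟨h1, -, h, ho, -⟩ := hc
  have e1 : ∑ i : Fin (m + 1), ((i : ℕ) + 1) * c.2 i = ∑ i : Fin (m + 1), c.2 i + ∑ i : Fin (m + 1), (i : ℕ) * c.2 i := by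
    rw [← Finset.sum_add_distrib]
    exact Finset.sum_congr rfl fun i _ => by ring
  rw [e1] at h
  obtain ⟨u, hu⟩ : ∃ u, ∑ p ∈ c.1, (2 * p.1 - 1) = 2 * u + 1 := by
    refine ⟨m - (∑ i : Fin (m + 1), c.2 i + ∑ i : Fin (m + 1), (i : ℕ) * c.2 i), ?_⟩
    omega
  have e : ∑ i : Fin (m + 1), c.2 i + (u + ∑ i : Fin (m + 1), (i : ℕ) * c.2 i) = m := by omega
  have hq0 : (0 : ℝ) < q := by exact_mod_cast (show 0 < q by omega)
  have hy0 : (0 : ℝ) ≤ y0 := by unfold y0; norm_num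
  refine ⟨by omega, ?_, fun hm => ⟨by omega, fun i hi => ?_⟩⟩
  · rw [show m - ∑ i, c.2 i = u + ∑ i : Fin (m + 1), (i : ℕ) * c.2 i by omega]
    have hqm : (q : ℝ) ^ (∑ i, c.2 i) =
        (q : ℝ) ^ m * ((3 / q : ℝ) ^ (u + ∑ i : Fin (m + 1), (i : ℕ) * c.2 i) *
          (1 / 3 : ℝ) ^ (u + ∑ i : Fin (m + 1), (i : ℕ) * c.2 i)) := by
      rw [← mul_pow, show (3 / q : ℝ) * (1 / 3) = 1 / q by field_simp]
      generalize hr : u + ∑ i : Fin (m + 1), (i : ℕ) * c.2 i = r at e ⊢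
      rw [show (q : ℝ) ^ m = (q : ℝ) ^ (∑ i, c.2 i) * (q : ℝ) ^ r by rw [← pow_add, e], mul_assoc, ← mul_pow,
        mul_one_div, div_self hq0.ne', one_pow, mul_one]
    rw [hqm, mul_assoc, mul_assoc]
    refine mul_le_mul_of_nonneg_left (mul_le_mul_of_nonneg_left ?_ (by positivity)) (by positivity)
    rw [pow_add, mul_right_comm]
    refine mul_le_mul ?_ (le_of_eq ?_) (by positivity) (gw_nonneg _)
    · rw [gw, Finset.prod_pow_eq_pow_sum, hu, pow_succ, pow_mul]
      exact mul_le_mul_of_nonneg_right (pow_le_pow_left₀ (by norm_num) (by unfold y0; norm_num) u) hy0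
    · simp only [ew, ← pow_mul, Finset.prod_pow_eq_pow_sum]
  · have h0 : ∑ i : Fin (m + 1), (i : ℕ) * c.2 i = 0 := by omega
    have := Finset.sum_eq_zero_iff.1 h0 i (mem_univ _)
    rcases mul_eq_zero.1 this with h | h
    · exact absurd (Fin.ext h) hi
    · exact h

variable [DecidableEq α]

/-- Forgetting the first half degree. -/
def drop0 {m : ℕ} (c : Finset (ℕ × α) × (Fin (m + 1) → ℕ)) : Finset (ℕ × α) × (Fin (m + 1) → ℕ) :=
  (c.1, Function.update c.2 0 0)

theorem ew_drop0 {m : ℕ} (c : Finset (ℕ × α) × (Fin (m + 1) → ℕ)) : ew (drop0 c).2 = ew c.2 := by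
  refine Finset.prod_congr rfl fun i _ => ?_
  by_cases hi : i = 0
  · subst hi; simp
  · simp [drop0, Function.update_of_ne hi]

theorem drop0_injOn {m : ℕ} (side : α → Prop) [DecidablePred side] :
    Set.InjOn (drop0 (α := α)) {c : Finset (ℕ × α) × (Fin (m + 1) → ℕ) | Valid side c} := by
  intro c hc c' hc' he
  simp only [drop0, Prod.mk.injEq] at he
  refine Prod.ext he.1 (funext fun i => ?_)
  by_cases hi : i = 0
  · subst hi
    have h := hc.2.2.1
    have h' := hc'.2.2.1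
    rw [Fin.sum_univ_succ] at h h'
    have e : ∀ i : Fin m, c.2 i.succ = c'.2 i.succ := fun i => by
      have := congrFun he.2 i.succ
      simpa [Function.update_of_ne (Fin.succ_ne_zero i)] using this
    simp only [e, he.1, Fin.val_zero, zero_add, one_mul] at h
    simp only [Fin.val_zero, zero_add, one_mul] at h'
    omega
  · simpa [Function.update_of_ne hi] using congrFun he.2 i

/-- The codes together with two excluded points weigh at most the product. -/
theorem sum_gw_ew_le {m : ℕ} (side : α → Prop) [DecidablePred side] {a : ℕ}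
    (h₁ : (univ.filter side).card = a) (h₂ : (univ.filter fun i => ¬ side i).card = a)
    (C X : Finset (Finset (ℕ × α) × (Fin (m + 1) → ℕ))) (hC : ∀ c ∈ C, Valid side c)
    (hX : ∀ c ∈ X, (∀ p ∈ c.1, 1 ≤ p.1 ∧ p.1 ≤ m + 11) ∧ c.2 = 0 ∧ Odd (c.1.filter fun p => side p.2).card ∧
      Even (c.1.filter fun p => ¬ side p.2).card) (hdisj : ∀ c ∈ C, drop0 c ∉ X) :
    ∑ c ∈ C, gw c.1 * ew c.2 + ∑ c ∈ X, gw c.1 ≤
      ((∏ j ∈ range (m + 11), (1 + y0 ^ (2 * j + 1)) ^ (2 * a)) - ∏ j ∈ range (m + 11), (1 - y0 ^ (2 * j + 1)) ^ (2 * a)) / 4 *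
        (179 / 100) := by
  let R : Fin (m + 1) → Finset ℕ := fun i => if i = 0 then {0} else range (m + 2)
  have hE : ∑ d ∈ Fintype.piFinset R, ew d ≤ 179 / 100 := by
    simp only [ew]
    rw [← Finset.prod_univ_sum]
    refine le_trans ?_ (poly_bound m)
    rw [Fin.prod_univ_succ, ← Finset.prod_inv_distrib]
    simp only [R, if_pos, Finset.sum_singleton, pow_zero, one_mul, Fin.succ_ne_zero, if_false, Fin.val_succ]
    rw [Fin.prod_univ_eq_prod_range (fun i => ∑ d ∈ range (m + 2), ((1 / 3 : ℝ) ^ (i + 1)) ^ d) m]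
    refine Finset.prod_le_prod (fun j _ => Finset.sum_nonneg fun d _ => by positivity) fun j _ => ?_
    rw [← one_div]
    exact geom_le (by positivity) (pow_lt_one₀ (by norm_num) (by norm_num) (by omega)) _
  rw [← parity_sum side h₁ h₂ (m + 11)]
  refine le_trans (le_of_eq ?_) (le_trans (Finset.sum_le_sum_of_subset_of_nonneg
    (t := ((Icc 1 (m + 11) ×ˢ (univ : Finset α)).powerset.filter
      (fun S => Odd (S.filter fun p => side p.2).card ∧ Even (S.filter fun p => ¬ side p.2).card)) ×ˢ Fintype.piFinset R)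
    (s := C.image drop0 ∪ X) (f := fun c => gw c.1 * ew c.2) ?_ fun c _ _ => mul_nonneg (gw_nonneg _) (ew_nonneg _)) ?_)
  · rw [Finset.sum_union (Finset.disjoint_left.2 fun c hc => by
      obtain ⟨c', hc', rfl⟩ := Finset.mem_image.1 hc; exact hdisj c' hc'),
      Finset.sum_image fun c hc c' hc' => drop0_injOn side (hC c hc) (hC c' hc')]
    congr 1
    · exact Finset.sum_congr rfl fun c _ => by rw [ew_drop0]; rfl
    · exact Finset.sum_congr rfl fun c hc => by rw [(hX c hc).2.1]; simp [ew]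
  · refine Finset.union_subset (Finset.image_subset_iff.2 fun c hc => ?_) fun c hc => ?_
    · obtain ⟨h1, h3, -, h5⟩ := hC c hc
      refine mem_product.2 ⟨mem_filter.2 ⟨mem_powerset.2 fun p hp => ?_, h5⟩, Fintype.mem_piFinset.2 fun i => ?_⟩
      · exact mem_product.2 ⟨mem_Icc.2 ⟨(h1 p hp).1, by have := (h1 p hp).2; omega⟩, mem_univ _⟩
      · by_cases hi : i = 0
        · subst hi; simp [drop0, R]
        · simpa [drop0, R, hi, Function.update_of_ne hi, Nat.lt_succ_iff] using h3 i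
    · obtain ⟨h1, h3, h5⟩ := hX c hc
      refine mem_product.2 ⟨mem_filter.2 ⟨mem_powerset.2 fun p hp => mem_product.2 ⟨mem_Icc.2 (h1 p hp), mem_univ _⟩, h5⟩,
        Fintype.mem_piFinset.2 fun i => ?_⟩
      rw [h3]
      by_cases hi : i = 0 <;> simp [R, hi]
  · rw [Finset.sum_product, ← Finset.sum_mul_sum]
    exact mul_le_mul_of_nonneg_left hE (Finset.sum_nonneg fun S _ => gw_nonneg _)

/-- All codes. -/
theorem sum_all_le {q m : ℕ} (hq : 3 ≤ q) (C : Finset (Finset (ℕ × Fin 4) × (Fin (m + 1) → ℕ)))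
    (hC : ∀ c ∈ C, Valid (fun i : Fin 4 => i.val < 2) c) :
    1000 * ∑ c ∈ C, q ^ ∑ i, c.2 i ≤ 14140 * q ^ m := by
  have hq0 : (0 : ℝ) < q := by exact_mod_cast (show 0 < q by omega)
  have hW : ∀ c ∈ C, (q : ℝ) ^ (∑ i, c.2 i) * y0 ≤ (q : ℝ) ^ m * (gw c.1 * ew c.2) := fun c hc => by
    obtain ⟨-, h, -⟩ := valid_weight hq (hC c hc)
    refine h.trans (mul_le_mul_of_nonneg_left (mul_le_of_le_one_left (mul_nonneg (gw_nonneg _) (ew_nonneg _)) ?_) (by positivity))
    exact pow_le_one₀ (by positivity) ((div_le_one hq0).2 (by exact_mod_cast hq))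
  have h := sum_gw_ew_le (fun i : Fin 4 => i.val < 2) (a := 2) (by decide) (by decide) C ∅ hC (by simp) (by simp)
  rw [Finset.sum_empty, add_zero] at h
  obtain ⟨hb, -⟩ := sq_bound (m + 1)
  rw [show m + 1 + 10 = m + 11 by ring] at hb
  have e : ∀ f : ℕ → ℝ, ∏ j ∈ range (m + 11), f j ^ (2 * 2) = (∏ j ∈ range (m + 11), f j ^ 2) * ∏ j ∈ range (m + 11), f j ^ 2 :=
    fun f => by rw [← Finset.prod_mul_distrib]; exact Finset.prod_congr rfl fun j _ => by ring
  rw [e fun j => 1 + y0 ^ (2 * j + 1), e fun j => 1 - y0 ^ (2 * j + 1)] at h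
  set A := ∏ j ∈ range (m + 11), (1 + y0 ^ (2 * j + 1)) ^ 2
  have hA : 0 ≤ A := Finset.prod_nonneg fun j _ => sq_nonneg _
  have hA2 : A * A ≤ 427 / 100 * (427 / 100) := mul_le_mul hb hb hA (by norm_num)
  have hsum : (∑ c ∈ C, (q : ℝ) ^ ∑ i, c.2 i) * y0 ≤ (q : ℝ) ^ m * (427 / 100 * (427 / 100) / 4 * (179 / 100)) := by
    rw [Finset.sum_mul]
    refine (Finset.sum_le_sum hW).trans ?_
    rw [← Finset.mul_sum]
    refine mul_le_mul_of_nonneg_left (h.trans ?_) (by positivity)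
    nlinarith [mul_self_nonneg (∏ j ∈ range (m + 11), (1 - y0 ^ (2 * j + 1)) ^ 2)]
  have h6 : ((1000 * ∑ c ∈ C, q ^ ∑ i, c.2 i : ℕ) : ℝ) ≤ 14140 * (q : ℝ) ^ m := by
    push_cast
    rw [show y0 = 57736 / 100000 from rfl] at hsum
    nlinarith [hsum, pow_pos hq0 m]
  exact_mod_cast h6

/-- The codes of the classes that split. -/
theorem sum_split_le {q m : ℕ} (hq : 3 ≤ q) (hodd : Odd q) (hm : 2 ≤ m)
    (C : Finset (Finset (ℕ × Fin 2) × (Fin (m + 1) → ℕ))) (hC : ∀ c ∈ C, Valid (fun i : Fin 2 => i = 0) c)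
    (cnt : Finset (ℕ × Fin 2) × (Fin (m + 1) → ℕ) → ℕ) (hcnt : ∀ c ∈ C, cnt c ≤ q ^ ∑ i, c.2 i)
    (href : ∀ c ∈ C, 1 ≤ c.2 0 → cnt c * q ^ 2 ≤ (q - 1) ^ 2 * q ^ ∑ i, c.2 i) :
    1000 * ∑ c ∈ C, cnt c ≤ 2496 * q ^ m := by
  classical
  have hy : (0 : ℝ) < y0 := by unfold y0; norm_num
  have hq0 : (0 : ℝ) < q := by exact_mod_cast (show 0 < q by omega)
  set G : ℝ := (427 / 100 - 955 / 10000) / 4 * (179 / 100) with hG
  have hbound : ∀ (C X : Finset (Finset (ℕ × Fin 2) × (Fin (m + 1) → ℕ))), (∀ c ∈ C, Valid (fun i : Fin 2 => i = 0) c) →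
      (∀ c ∈ X, (∀ p ∈ c.1, 1 ≤ p.1 ∧ p.1 ≤ m + 11) ∧ c.2 = 0 ∧ Odd (c.1.filter fun p => p.2 = 0).card ∧
        Even (c.1.filter fun p => ¬ p.2 = 0).card) → (∀ c ∈ C, drop0 c ∉ X) →
      ∑ c ∈ C, gw c.1 * ew c.2 + ∑ c ∈ X, gw c.1 ≤ G := fun C X h h' hd => by
    have hs := sum_gw_ew_le (fun i : Fin 2 => i = 0) (a := 1) (by decide) (by decide) C X h h' hd
    rw [mul_one] at hs
    obtain ⟨hb, hb'⟩ := sq_bound (m + 1)
    rw [show m + 1 + 10 = m + 11 by ring] at hb hb'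
    rw [hG]
    linarith
  let Z : Fin (m + 1) → ℕ := 0
  let p1 : Finset (ℕ × Fin 2) × (Fin (m + 1) → ℕ) := ({(1, 0)}, Z)
  let p2 : Finset (ℕ × Fin 2) × (Fin (m + 1) → ℕ) := ({(2, 0)}, Z)
  have hp : ∀ c ∈ ({p1, p2} : Finset _), (∀ p ∈ c.1, 1 ≤ p.1 ∧ p.1 ≤ m + 11) ∧ c.2 = 0 ∧
      Odd (c.1.filter fun p => p.2 = 0).card ∧ Even (c.1.filter fun p => ¬ p.2 = 0).card := by
    intro c hc
    rcases Finset.mem_insert.1 hc with rfl | hc
    · simp [p1, Z, Finset.filter_singleton]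
    · rw [Finset.mem_singleton] at hc; subst hc; simp [p2, Z, Finset.filter_singleton]
  have hne : p1 ≠ p2 := fun h => by simpa [p1, p2] using congrArg Prod.fst h
  have hg1 : gw p1.1 = y0 := by simp [gw, p1]
  have hg2 : gw p2.1 = y0 ^ 3 := by simp [gw, p2]
  have hpow : ∀ c ∈ C, ((cnt c : ℕ) : ℝ) ≤ (q : ℝ) ^ ∑ i, c.2 i := fun c hc => by exact_mod_cast hcnt c hc
  have h0 : ∀ c : Finset (ℕ × Fin 2) × (Fin (m + 1) → ℕ), 0 ≤ gw c.1 * ew c.2 := fun c =>
    mul_nonneg (gw_nonneg _) (ew_nonneg _)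
  suffices h : (∑ c ∈ C, (cnt c : ℝ)) * y0 ≤ (q : ℝ) ^ m * (2496 / 1000 * y0) by
    have h6 : ((1000 * ∑ c ∈ C, cnt c : ℕ) : ℝ) ≤ 2496 * (q : ℝ) ^ m := by
      push_cast
      nlinarith [le_of_mul_le_mul_right (h.trans_eq (mul_assoc _ _ _).symm) hy]
    exact_mod_cast h6
  rw [Finset.sum_mul]
  rcases (show q = 3 ∨ 5 ≤ q by rcases hodd with ⟨r, hr⟩; omega) with rfl | hq5
  · have hW : ∀ c ∈ C, (cnt c : ℝ) * y0 ≤
        (3 : ℝ) ^ m * (4 / 9 * (gw c.1 * ew c.2) + 5 / 9 * if c.2 0 = 0 then gw c.1 * ew c.2 else 0) := fun c hc => by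
      obtain ⟨-, h, -⟩ := valid_weight le_rfl (hC c hc)
      norm_num at h
      split_ifs with hd
      · refine ((mul_le_mul_of_nonneg_right (hpow c hc) hy.le).trans (by norm_num; exact h)).trans (le_of_eq ?_)
        ring
      · have := href c hc (Nat.pos_of_ne_zero hd)
        have h9 : (cnt c : ℝ) * 9 ≤ 4 * (3 : ℝ) ^ ∑ i, c.2 i := by exact_mod_cast this
        nlinarith [mul_le_mul_of_nonneg_right h9 hy.le]
    refine (Finset.sum_le_sum hW).trans ?_
    rw [← Finset.mul_sum, Finset.sum_add_distrib, ← Finset.mul_sum, ← Finset.mul_sum, ← Finset.sum_filter]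
    push_cast
    refine mul_le_mul_of_nonneg_left ?_ (by positivity)
    have hA := hbound C ∅ hC (by simp) (by simp)
    have hB := hbound (C.filter fun c => c.2 0 = 0) {p1, p2} (fun c hc => hC c (mem_filter.1 hc).1) hp fun c hc hm' => by
      obtain ⟨hc, hd⟩ := mem_filter.1 hc
      have hu : (drop0 c).2 = c.2 := by simp only [drop0]; rw [← hd]; exact Function.update_eq_self 0 c.2
      have hw := (hC c hc).2.2.1
      rcases Finset.mem_insert.1 hm' with h | h
      · rw [show c.1 = {(1, 0)} from congrArg Prod.fst h, ← hu, h] at hw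
        simp [p1, Z] at hw
        omega
      · rw [Finset.mem_singleton] at h
        rw [show c.1 = {(2, 0)} from congrArg Prod.fst h, ← hu, h] at hw
        simp [p2, Z] at hw
        omega
    rw [Finset.sum_empty, add_zero] at hA
    rw [Finset.sum_pair hne, hg1, hg2] at hB
    rw [hG] at hA hB
    rw [show y0 = 57736 / 100000 from rfl] at hB ⊢
    norm_num at hB ⊢
    linarith
  · have hW : ∀ c ∈ C, (cnt c : ℝ) * y0 ≤
        (q : ℝ) ^ m * (3 / 5 * (gw c.1 * ew c.2) + 2 / 5 * if ∑ i, c.2 i = m then gw c.1 * ew c.2 else 0) := fun c hc => by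
      obtain ⟨hle, h, -⟩ := valid_weight hq (hC c hc)
      refine ((mul_le_mul_of_nonneg_right (hpow c hc) hy.le).trans h).trans (mul_le_mul_of_nonneg_left ?_ (by positivity))
      split_ifs with hd
      · rw [hd, Nat.sub_self, pow_zero]; linarith
      · rw [mul_zero, add_zero]
        refine mul_le_mul_of_nonneg_right ?_ (h0 c)
        refine le_trans (pow_le_of_le_one (by positivity) ((div_le_one hq0).2 (by exact_mod_cast hq)) (by omega)) ?_
        rw [div_le_div_iff₀ hq0 (by norm_num)]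
        have : (5 : ℝ) ≤ q := by exact_mod_cast hq5
        linarith
    refine (Finset.sum_le_sum hW).trans ?_
    rw [← Finset.mul_sum, Finset.sum_add_distrib, ← Finset.mul_sum, ← Finset.mul_sum, ← Finset.sum_filter]
    refine mul_le_mul_of_nonneg_left ?_ (by positivity)
    have hA := hbound C ∅ hC (by simp) (by simp)
    have hB : ∑ c ∈ C.filter (fun c => ∑ i, c.2 i = m), gw c.1 * ew c.2 ≤ y0 := by
      have himg : (C.filter (fun c => ∑ i, c.2 i = m)).image drop0 ⊆ {p1} := Finset.image_subset_iff.2 fun c hc => by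
        obtain ⟨hc, hs⟩ := mem_filter.1 hc
        obtain ⟨hw, hd⟩ := (valid_weight hq (hC c hc)).2.2 hs
        obtain ⟨h1, -, -, ho, -⟩ := hC c hc
        obtain ⟨p, hpm⟩ := Finset.card_pos.1 ho.pos
        obtain ⟨hpc, hp0⟩ := mem_filter.1 hpm
        have hone : ∀ r ∈ c.1, r = p := fun r hr => by
          by_contra hrp
          have := Finset.sum_le_sum_of_subset_of_nonneg (f := fun p : ℕ × Fin 2 => 2 * p.1 - 1) (s := {r, p})
            (Finset.insert_subset hr (Finset.singleton_subset_iff.2 hpc)) fun _ _ _ => Nat.zero_le _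
          rw [Finset.sum_pair hrp] at this
          have := h1 r hr
          have := h1 p hpc
          omega
        have hS : c.1 = {p} := Finset.eq_singleton_iff_unique_mem.2 ⟨hpc, hone⟩
        rw [hS, Finset.sum_singleton] at hw
        refine Finset.mem_singleton.2 (Prod.ext (hS.trans ?_) (funext fun i => ?_))
        · have := h1 p hpc
          rw [show p = (1, 0) from Prod.ext (by show p.1 = 1; omega) hp0]
        · by_cases hi : i = 0
          · subst hi; simp [drop0, p1, Z]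
          · simp [drop0, p1, Z, Function.update_of_ne hi, hd i hi]
      have := Finset.sum_le_sum_of_subset_of_nonneg (f := fun c => gw c.1 * ew c.2) himg fun c _ _ => h0 c
      rw [Finset.sum_singleton, Finset.sum_image fun a ha b hb => drop0_injOn (fun i : Fin 2 => i = 0) (hC a (mem_filter.1 ha).1) (hC b (mem_filter.1 hb).1),
        hg1, show ew p1.2 = 1 by simp [ew, p1, Z], mul_one] at this
      refine le_trans (le_of_eq (Finset.sum_congr rfl fun c _ => ?_)) this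
      rw [ew_drop0]; rfl
    rw [Finset.sum_empty, add_zero, hG] at hA
    rw [show y0 = 57736 / 100000 from rfl] at hB ⊢
    norm_num at hA hB ⊢
    linarith

end CfsgLib.CharDegrees.ClassCount.Orth.Odd
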