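import Cfsg.Agent.Lib.CharDegrees.ClassCount.OOddClasses
import Cfsg.Agent.Lib.CharDegrees.ClassCount.OOddNumeric
import Cfsg.Agent.Lib.CharDegrees.ClassCount.OLower

/-!
Counting the data of the classes of an orthogonal group in odd dimension, and of those that split.
-/

set_option autoImplicit false
set_option linter.unusedSectionVars false

namespace CfsgLib.CharDegrees.ClassCount.Orth.Odd

open Polynomial Finset
open CfsgLib.SemisimpleClasses.Symp (palinPoly palinEquiv palinCoeff)

universe u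

variable {F : Type u} [Field F]

/-- The number of self-reciprocal polynomials without root `±1`. -/
theorem card_nonroot [Fintype F] (h2 : (2 : F) ≠ 0) {d : ℕ} (hd : 1 ≤ d) :
    Nat.card {v : Fin d → F // (palinPoly v).eval 1 ≠ 0 ∧ (palinPoly v).eval (-1) ≠ 0} * Fintype.card F ^ 2 ≤
      (Fintype.card F - 1) ^ 2 * Fintype.card F ^ d := by
  classical
  set q := Fintype.card F with hq
  have hq2 : 2 ≤ q := Fintype.one_lt_card
  rcases (show d = 1 ∨ 2 ≤ d by omega) with rfl | hd2
  · have e : ∀ v : Fin 1 → F, palinPoly v = X ^ 2 + C (v 0) * X + 1 := fun v => by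
      simp [palinPoly, Finset.sum_range_succ, palinCoeff, ← C_mul_X_pow_eq_monomial]
      ring
    have h22 : (2 : F) ≠ -2 := fun h => mul_ne_zero h2 h2 (by linear_combination h)
    let Φ : {v : Fin 1 → F // (palinPoly v).eval 1 ≠ 0 ∧ (palinPoly v).eval (-1) ≠ 0} → {s : F // s ∉ ({2, -2} : Finset F)} :=
      fun v => ⟨v.1 0, fun h => by
        rcases Finset.mem_insert.1 h with h | h
        · exact v.2.2 (by simp [e, h]; ring)
        · exact v.2.1 (by simp [e, Finset.mem_singleton.1 h]; ring)⟩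
    have hΦ : Function.Injective Φ := fun v w h => Subtype.ext (funext fun i => by
      rw [Subsingleton.elim i 0]; exact congrArg Subtype.val h)
    have := Nat.card_le_card_of_injective Φ hΦ
    rw [Nat.card_eq_fintype_card (α := {s : F // s ∉ ({2, -2} : Finset F)}), Fintype.card_subtype,
      Finset.filter_not, Finset.filter_mem_eq_inter, Finset.univ_inter, Finset.card_sdiff,
      Finset.inter_univ, Finset.card_univ, Finset.card_pair h22, ← hq] at this
    rw [pow_one]
    obtain ⟨r, hr⟩ : ∃ r, q = r + 2 := ⟨q - 2, by omega⟩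
    rw [hr] at this ⊢
    rw [show r + 2 - 1 = r + 1 by omega]
    refine le_trans (Nat.mul_le_mul_right _ (show _ ≤ r by omega)) ?_
    nlinarith
  · obtain ⟨m, rfl⟩ := Nat.exists_eq_add_of_le' hd2
    let Φ : {v : Fin (m + 2) → F // (palinPoly v).eval 1 ≠ 0 ∧ (palinPoly v).eval (-1) ≠ 0} →
        (Fin m → F) × ({a : F // a ≠ 0} × {a : F // a ≠ 0}) :=
      fun v => (Fin.tail (Fin.tail v.1), ⟨_, v.2.1⟩, ⟨_, v.2.2⟩)
    have hΦ : Function.Injective Φ := by
      intro v v' h
      simp only [Φ, Prod.mk.injEq, Subtype.mk.injEq] at h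
      obtain ⟨hw, ha, hb⟩ := h
      obtain ⟨s, t, w, hv⟩ : ∃ s t w, v.1 = Fin.cons s (Fin.cons t w) :=
        ⟨v.1 0, Fin.tail v.1 0, Fin.tail (Fin.tail v.1), by rw [Fin.cons_self_tail, Fin.cons_self_tail]⟩
      obtain ⟨s', t', w', hv'⟩ : ∃ s t w, v'.1 = Fin.cons s (Fin.cons t w) :=
        ⟨v'.1 0, Fin.tail v'.1 0, Fin.tail (Fin.tail v'.1), by rw [Fin.cons_self_tail, Fin.cons_self_tail]⟩
      rw [hv, hv'] at hw ha hb
      simp only [Fin.tail_cons] at hw
      subst hw
      rw [coeff_two_terms, coeff_two_terms m s' t'] at ha hb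
      set c : F := if m = 0 then 1 else 2 with hc
      have hc0 : c ≠ 0 := by rw [hc]; split_ifs <;> simp [h2]
      have o1 : Odd (2 * m + 3) := ⟨m + 1, by ring⟩
      have e1 : Even (2 * m + 2) := ⟨m + 1, by ring⟩
      have e2 : (2 * s + c * t = 2 * s' + c * t') ∧ (-(2 * s) + c * t = -(2 * s') + c * t') := by
        rw [hc]
        split_ifs with hm <;> simp [hm, o1.neg_one_pow, e1.neg_one_pow] at ha hb ⊢ <;>
          constructor <;> first | linear_combination ha | linear_combination hb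
      have hs : s = s' := mul_left_cancel₀ (mul_ne_zero h2 h2) (by linear_combination e2.1 - e2.2)
      have ht : t = t' := mul_left_cancel₀ (mul_ne_zero h2 hc0) (by linear_combination e2.1 + e2.2)
      exact Subtype.ext (by rw [hv, hv', hs, ht])
    have := Nat.card_le_card_of_injective Φ hΦ
    rw [Nat.card_prod, Nat.card_prod, Nat.card_fun, Nat.card_eq_fintype_card (α := F),
      Nat.card_eq_fintype_card (α := {a : F // a ≠ 0}), Nat.card_eq_fintype_card (α := Fin m), Fintype.card_fin,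
      Fintype.card_subtype_compl, Fintype.card_subtype_eq, ← hq] at this
    calc _ ≤ q ^ m * ((q - 1) * (q - 1)) * q ^ 2 := Nat.mul_le_mul_right _ this
      _ = _ := by ring

variable {m : ℕ}

/-- The parity of the bits on the two sides. -/
theorem parity_bits (x : OData F (m + 1)) (h2 : (2 : F) ≠ 0) (he : Even (x.M.map size).sum) :
    Odd (x.S.filter fun p => p.2.val < 2).card ∧ Even (x.S.filter fun p => ¬ p.2.val < 2).card := by
  classical
  have hw := x.weight
  have hP := sum_size_eq x.hP.1 (n := m + 1) (by omega)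
  have hM := sum_size_eq x.hM.1 (n := m + 1) (by omega)
  have ht : Even (∑ k ∈ Icc 1 (2 * (m + 1)), k * (x.t k).natDegree) :=
    Finset.even_sum _ fun k _ => (t_palin x h2 k).2.mul_left k
  have hc : ∀ (side : Fin 4 → Prop) (_ : DecidablePred side), (x.S.filter fun p => side p.2).card =
      ∑ j ∈ Icc 1 (m + 1), ∑ i : Fin 4, if side i then x.bit (j, i) else 0 := fun side _ => by
    rw [OData.S, Finset.filter_filter, Finset.card_filter, Finset.sum_product]
    refine Finset.sum_congr rfl fun j _ => Finset.sum_congr rfl fun i _ => ?_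
    have := bit_le x (j, i)
    by_cases hs : side i <;> rcases (show x.bit (j, i) = 0 ∨ x.bit (j, i) = 1 by omega) with h | h <;> simp [hs, h]
  have hodd : ∀ f : ℕ → ℕ, (∑ j ∈ Icc 1 (m + 1), (2 * j - 1) * f j) % 2 = (∑ j ∈ Icc 1 (m + 1), f j) % 2 := fun f => by
    rw [Finset.sum_nat_mod, Finset.sum_nat_mod (f := f)]
    refine congrArg (· % 2) (Finset.sum_congr rfl fun j hj => ?_)
    rw [Nat.mul_mod, show (2 * j - 1) % 2 = 1 by have := (Finset.mem_Icc.1 hj).1; omega, one_mul, Nat.mod_mod]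
  have hP' := hodd fun j => bitOf x.P j true + bitOf x.P j false
  have hM' := hodd fun j => bitOf x.M j true + bitOf x.M j false
  have hcP : (x.S.filter fun p => p.2.val < 2).card = ∑ j ∈ Icc 1 (m + 1), (bitOf x.P j true + bitOf x.P j false) := by
    rw [hc (fun i => i.val < 2) inferInstance]
    exact Finset.sum_congr rfl fun j _ => by simp [Fin.sum_univ_four, OData.bit]
  have hcM : (x.S.filter fun p => ¬ p.2.val < 2).card = ∑ j ∈ Icc 1 (m + 1), (bitOf x.M j true + bitOf x.M j false) := by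
    rw [hc (fun i => ¬ i.val < 2) inferInstance]
    exact Finset.sum_congr rfl fun j _ => by simp [Fin.sum_univ_four, OData.bit]
  rw [Nat.even_iff] at he ht
  rw [hcP, hcM, Nat.odd_iff, Nat.even_iff]
  omega

/-- The codes satisfy the constraints. -/
theorem valid_code (x : OData F (m + 1)) (h2 : (2 : F) ≠ 0) (he : Even (x.M.map size).sum) :
    Valid (fun i : Fin 4 => i.val < 2) (x.S, fun i : Fin (m + 1) => x.d (i + 1)) := by
  obtain ⟨h1, hw⟩ := mem_filter.1 (code_mem x h2)
  obtain ⟨hS, hd⟩ := mem_product.1 h1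
  refine ⟨fun p hp => mem_Icc.1 (mem_product.1 (mem_powerset.1 hS hp)).1, fun i => ?_, hw, parity_bits x h2 he⟩
  have := Fintype.mem_piFinset.1 hd i
  rw [mem_range] at this
  omega

/-- The eigenvalue one carries a block of odd size. -/
theorem oddSet_nonempty (x : OData F (m + 1)) (h2 : (2 : F) ≠ 0) (he : Even (x.M.map size).sum) :
    (oddSet x.P).Nonempty := by
  obtain ⟨p, hp⟩ := Finset.card_pos.1 (parity_bits x h2 he).1.pos
  obtain ⟨hp, hside⟩ := mem_filter.1 hp
  obtain ⟨hj, hbit⟩ := mem_filter.1 hp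
  have hj1 := (mem_Icc.1 (mem_product.1 hj).1).1
  refine ⟨2 * p.1 - 1, by rw [Nat.even_iff]; omega, ?_⟩
  by_contra hno
  have h0 : ∀ b, x.P.count (2 * p.1 - 1, b) = 0 := fun b => Multiset.count_eq_zero.2 fun h => hno ⟨b, h⟩
  rcases (show p.2 = 0 ∨ p.2 = 1 by rcases p with ⟨j, i⟩; fin_cases i <;> simp at hside ⊢) with h | h <;>
    simp [OData.bit, h, bitOf, h0] at hbit

/-- Flip the first sign at one. -/
noncomputable def flipOne {n : ℕ} (x : OData F n) (h : (oddSet x.P).Nonempty) : OData F n :=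
  { x with
    P := flip x.P (sInf (oddSet x.P))
    hP := (flip_valid (Nat.sInf_mem h).2 (Nat.sInf_mem h).1 x.hP).1
    weight := by rw [(flip_valid (Nat.sInf_mem h).2 (Nat.sInf_mem h).1 x.hP).2]; exact x.weight }

/-- The classes of the special group are at most half as many as the codes. -/
theorem two_mul_card_le [Fintype F] (hq : 3 ≤ Fintype.card F) (h2 : (2 : F) ≠ 0) {C : Type*} [Finite C]
    (x : C → OData F (m + 1)) (hev : ∀ a, Even ((x a).M.map size).sum)
    (hinj : ∀ a b, (x a).P = (x b).P → (x a).M = (x b).M → (x a).t = (x b).t → a = b)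
    (hcross : ∀ a b, (x b).P = flip (x a).P (sInf (oddSet (x a).P)) → (x b).M = (x a).M → (x b).t ≠ (x a).t) :
    1000 * (2 * Nat.card C) ≤ 14140 * Fintype.card F ^ m := by
  classical
  let y : C → OData F (m + 1) := fun a => flipOne (x a) (oddSet_nonempty (x a) h2 (hev a))
  let K := (codeSet (m + 1)).filter fun c => Valid (fun i : Fin 4 => i.val < 2) c
  let Code := Σ c : {c // c ∈ K}, ∀ i : Fin (m + 1), Fin (c.1.2 i) → F
  haveI : Finite Code := inferInstance
  let mk : {z : OData F (m + 1) // Even (z.M.map size).sum} → Code := fun z =>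
    ⟨⟨(z.1.code h2).1.1, mem_filter.2 ⟨(z.1.code h2).1.2, valid_code z.1 h2 z.2⟩⟩, (z.1.code h2).2⟩
  let Ψ : C ⊕ C → Code := Sum.elim (fun a => mk ⟨x a, hev a⟩) fun a => mk ⟨y a, hev a⟩
  have hmk : ∀ z z', mk z = mk z' → z.1.P = z'.1.P ∧ z.1.M = z'.1.M ∧ z.1.t = z'.1.t := fun z z' h =>
    code_injective h2 (congrArg (fun w : Code => (⟨⟨w.1.1, (mem_filter.1 w.1.2).1⟩, w.2⟩ :
      Σ c : {c // c ∈ codeSet (m + 1)}, ∀ i : Fin (m + 1), Fin (c.1.2 i) → F)) h)
  have hyP : ∀ a, (y a).P = flip (x a).P (sInf (oddSet (x a).P)) := fun a => rfl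
  have hΨ : Function.Injective Ψ := by
    rintro (a | a) (b | b) h <;> simp only [Ψ, Sum.elim_inl, Sum.elim_inr] at h <;>
      obtain ⟨hP, hM, ht⟩ := hmk _ _ h
    · rw [hinj a b hP hM ht]
    · exact absurd (show (x a).t = (x b).t from ht) (hcross b a (hP.trans (hyP b)) hM)
    · exact absurd (show (x b).t = (x a).t from ht.symm) (hcross a b (hP.symm.trans (hyP a)) hM.symm)
    · have hf : ∀ c, flip (y c).P (sInf (oddSet (y c).P)) = (x c).P := fun c => by
        have hne := oddSet_nonempty (x c) h2 (hev c)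
        rw [hyP, oddSet_flip hne, flip_flip (Nat.sInf_mem hne).2 (x c).hP.2]
      rw [hinj a b (by rw [← hf a, ← hf b, hP]) hM ht]
  have h1 := Nat.card_le_card_of_injective Ψ hΨ
  have hcode : Nat.card Code = ∑ c ∈ K, Fintype.card F ^ ∑ i, c.2 i := by
    rw [Nat.card_sigma, ← Finset.sum_coe_sort K]
    refine Finset.sum_congr rfl fun c _ => ?_
    rw [Nat.card_pi, ← Finset.prod_pow_eq_pow_sum]
    exact Finset.prod_congr rfl fun i _ => by rw [Nat.card_pi, Finset.prod_const, Finset.card_univ, Fintype.card_fin,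
      Nat.card_eq_fintype_card]
  have hb := sum_all_le (m := m) hq K fun c hc => (mem_filter.1 hc).2
  rw [Nat.card_sum, hcode] at h1
  omega

/-- The side of a bit. -/
def fold (p : ℕ × Fin 4) : ℕ × Fin 2 := (p.1, if p.2.val < 2 then 0 else 1)

/-- The bit of prescribed sign on a side. -/
def unfold (bs : ℕ → Bool) (p : ℕ × Fin 2) : ℕ × Fin 4 :=
  (p.1, if p.2 = 0 then (if bs (p.1 - 1) then 0 else 1) else (if bs (p.1 - 1) then 2 else 3))

/-- Codes of the data with single blocks of prescribed signs. -/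
theorem card_split_le [Fintype F] (hq : 3 ≤ Fintype.card F) (hodd : Odd (Fintype.card F)) (hm : 2 ≤ m)
    (h2 : (2 : F) ≠ 0) {C : Type*} [Finite C] (x : C → OData F (m + 1))
    (hev : ∀ a, Even ((x a).M.map size).sum)
    (hinj : ∀ a b, (x a).P = (x b).P → (x a).M = (x b).M → (x a).t = (x b).t → a = b) (bs : ℕ → Bool)
    (hsgn : ∀ a k b, ((2 * k + 1, b) ∈ (x a).P → b = bs k ∧ (x a).P.count (2 * k + 1, b) ≤ 1) ∧
      ((2 * k + 1, b) ∈ (x a).M → b = bs k ∧ (x a).M.count (2 * k + 1, b) ≤ 1)) :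
    1000 * Nat.card C ≤ 2496 * Fintype.card F ^ m := by
  classical
  set q := Fintype.card F with hqdef
  let T : C → Finset (ℕ × Fin 2) := fun a => (x a).S.image fold
  have hun : ∀ a, ∀ p ∈ (x a).S, unfold bs (fold p) = p := by
    intro a p hp
    obtain ⟨hj, hbit⟩ := mem_filter.1 hp
    have hj1 := (mem_Icc.1 (mem_product.1 hj).1).1
    have he : 2 * p.1 - 1 = 2 * (p.1 - 1) + 1 := by omega
    have hb : ∀ (D : Multiset Blk) (b : Bool), (∀ k b, (2 * k + 1, b) ∈ D → b = bs k ∧ D.count (2 * k + 1, b) ≤ 1) →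
        bitOf D p.1 b = 1 → b = bs (p.1 - 1) := fun D b hD hbit => by
      refine (hD (p.1 - 1) b (Multiset.one_le_count_iff_mem.1 ?_)).1
      rw [← he]
      cases b <;> simp only [bitOf] at hbit <;> omega
    obtain ⟨j, i⟩ := p
    fin_cases i <;> simp [OData.bit] at hbit
    · simp [unfold, fold, ← hb _ true (fun k b => (hsgn a k b).1) hbit]
    · simp [unfold, fold, ← hb _ false (fun k b => (hsgn a k b).1) hbit]
    · simp [unfold, fold, ← hb _ true (fun k b => (hsgn a k b).2) hbit]
    · simp [unfold, fold, ← hb _ false (fun k b => (hsgn a k b).2) hbit]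
  have hfold : ∀ a, Set.InjOn fold ↑(x a).S := fun a p hp p' hp' h => by rw [← hun a p hp, h, hun a p' hp']
  have hST : ∀ a, (T a).image (unfold bs) = (x a).S := fun a => by
    rw [Finset.image_image]
    exact (Finset.image_congr fun p hp => hun a p hp).trans Finset.image_id
  let dd : C → Fin (m + 1) → ℕ := fun a i => (x a).d (i + 1)
  let U := ((Icc 1 (m + 1) ×ˢ (univ : Finset (Fin 2))).powerset ×ˢ Fintype.piFinset fun _ : Fin (m + 1) => range (m + 2)).filter
    fun c => Valid (fun i : Fin 2 => i = 0) c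
  have hU : ∀ a, (T a, dd a) ∈ U := fun a => by
    obtain ⟨h1, hd, hw, hp, hm'⟩ := valid_code (x a) h2 (hev a)
    have hv : Valid (fun i : Fin 2 => i = 0) (T a, dd a) := by
      refine ⟨fun p hp => ?_, hd, ?_, ?_, ?_⟩
      · obtain ⟨r, hr, rfl⟩ := Finset.mem_image.1 hp; exact h1 r hr
      · show _ + ∑ p ∈ T a, (2 * p.1 - 1) = _
        rw [Finset.sum_image (hfold a)]
        exact hw
      · show Odd ((T a).filter fun p => p.2 = 0).card
        rw [Finset.filter_image, Finset.card_image_of_injOn ((hfold a).mono (coe_subset.2 (filter_subset _ _)))]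
        convert hp using 3
        simp only [fold]
        split_ifs with h <;> simp [h]
      · show Even ((T a).filter fun p => ¬ p.2 = 0).card
        rw [Finset.filter_image, Finset.card_image_of_injOn ((hfold a).mono (coe_subset.2 (filter_subset _ _)))]
        convert hm' using 3
        simp only [fold]
        split_ifs with h <;> simp [h]
    refine mem_filter.2 ⟨mem_product.2 ⟨mem_powerset.2 fun p hp => mem_product.2 ⟨mem_Icc.2 (hv.1 p hp), mem_univ _⟩,
      Fintype.mem_piFinset.2 fun i => mem_range.2 (Nat.lt_succ_of_le (hd i))⟩, hv⟩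
  let good : ∀ d : Fin (m + 1) → ℕ, (∀ i, Fin (d i) → F) → Prop := fun d f =>
    (palinPoly (f 0)).eval 1 ≠ 0 ∧ (palinPoly (f 0)).eval (-1) ≠ 0
  let Code := Σ c : {c // c ∈ U}, {f : ∀ i : Fin (m + 1), Fin (c.1.2 i) → F // good c.1.2 f}
  haveI : Finite Code := inferInstance
  have hgood : ∀ a, good (dd a) ((x a).code h2).2 := fun a => by
    have hp0 : ∀ D : Multiset Blk, (∀ k b, (2 * k + 1, b) ∈ D → b = bs k ∧ D.count (2 * k + 1, b) ≤ 1) → pOf D 1 = 0 :=
      fun D hD => by
        rw [pOf, if_neg (by norm_num)]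
        refine Nat.div_eq_of_lt (Nat.lt_succ_of_le ?_)
        by_cases h : (1, false) ∈ D
        · exact (hD 0 false h).2
        · rw [Multiset.count_eq_zero.2 h]; exact zero_le_one
    have e : palinPoly (fun i : Fin ((x a).d 1) => ((x a).h 1).coeff ((i : ℕ) + 1)) = (x a).h 1 :=
      congrArg Subtype.val ((palinEquiv (K := F) (n := (x a).d 1)).symm_apply_apply ⟨_, h_spec (x a) h2 1⟩)
    show (palinPoly (fun i : Fin ((x a).d 1) => ((x a).h 1).coeff ((i : ℕ) + 1))).eval 1 ≠ 0 ∧
      (palinPoly (fun i : Fin ((x a).d 1) => ((x a).h 1).coeff ((i : ℕ) + 1))).eval (-1) ≠ 0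
    rw [e, OData.h, hp0 _ fun k b => (hsgn a k b).1, hp0 _ fun k b => (hsgn a k b).2]
    simpa using ⟨(x a).t_one 1, (x a).t_neg 1⟩
  let Ψ : C → Code := fun a => ⟨⟨(T a, dd a), hU a⟩, ((x a).code h2).2, hgood a⟩
  have hΨ : Function.Injective Ψ := by
    intro a b h
    let back : Code → Σ c : Finset (ℕ × Fin 4) × (Fin (m + 1) → ℕ), ∀ i : Fin (m + 1), Fin (c.2 i) → F :=
      fun z => ⟨(z.1.1.1.image (unfold bs), z.1.1.2), z.2.1⟩
    have hback : ∀ a, back (Ψ a) = ⟨((x a).code h2).1.1, ((x a).code h2).2⟩ := fun a => by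
      refine Sigma.ext ?_ HEq.rfl
      exact Prod.ext (hST a) rfl
    have h' := congrArg back h
    rw [hback, hback] at h'
    have hinj' : Function.Injective (fun z : Σ c : {c // c ∈ codeSet (m + 1)}, ∀ i : Fin (m + 1), Fin (c.1.2 i) → F =>
        (⟨z.1.1, z.2⟩ : Σ c : Finset (ℕ × Fin 4) × (Fin (m + 1) → ℕ), ∀ i : Fin (m + 1), Fin (c.2 i) → F)) := by
      rintro ⟨⟨c, hc⟩, f⟩ ⟨⟨c', hc'⟩, f'⟩ h
      simp only [Sigma.mk.injEq] at h
      obtain ⟨rfl, h⟩ := h
      rw [eq_of_heq h]
    obtain ⟨h1, h3, h4⟩ := code_injective h2 (hinj' h')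
    exact hinj a b h1 h3 h4
  have h1 := Nat.card_le_card_of_injective Ψ hΨ
  let cnt : Finset (ℕ × Fin 2) × (Fin (m + 1) → ℕ) → ℕ := fun c =>
    Nat.card {f : ∀ i : Fin (m + 1), Fin (c.2 i) → F // good c.2 f}
  have hcode : Nat.card Code = ∑ c ∈ U, cnt c := by
    rw [Nat.card_sigma, ← Finset.sum_coe_sort U]
  have hall : ∀ d : Fin (m + 1) → ℕ, Nat.card (∀ i : Fin (m + 1), Fin (d i) → F) = q ^ ∑ i, d i := fun d => by
    rw [Nat.card_pi, ← Finset.prod_pow_eq_pow_sum]
    exact Finset.prod_congr rfl fun i _ => by rw [Nat.card_pi, Finset.prod_const, Finset.card_univ, Fintype.card_fin,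
      Nat.card_eq_fintype_card]
  have hb := sum_split_le (m := m) hq hodd hm U (fun c hc => (mem_filter.1 hc).2) cnt
    (fun c _ => (Nat.card_le_card_of_injective Subtype.val Subtype.val_injective).trans_eq (hall c.2))
    fun c _ hc0 => by
      let A := fun v : Fin (c.2 0) → F => (palinPoly v).eval 1 ≠ 0 ∧ (palinPoly v).eval (-1) ≠ 0
      let Rest := ∀ i : {i : Fin (m + 1) // i ≠ 0}, Fin (c.2 i) → F
      let e := Equiv.piSplitAt (0 : Fin (m + 1)) (fun i => Fin (c.2 i) → F)
      have e1 : cnt c = Nat.card {v // A v} * Nat.card Rest := by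
        rw [← Nat.card_prod]
        exact Nat.card_congr ((e.subtypeEquiv (q := fun z => A z.1) fun f => Iff.rfl).trans
          { toFun := fun z => (⟨z.1.1, z.2⟩, z.1.2)
            invFun := fun z => ⟨(z.1.1, z.2), z.1.2⟩
            left_inv := fun z => rfl
            right_inv := fun z => rfl })
      have e2 : q ^ ∑ i, c.2 i = q ^ c.2 0 * Nat.card Rest := by
        rw [← hall, Nat.card_congr e, Nat.card_prod, Nat.card_fun, Nat.card_eq_fintype_card (α := F),
          Nat.card_eq_fintype_card (α := Fin _), Fintype.card_fin]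
      rw [e1, e2, mul_right_comm, ← mul_assoc ((q - 1) ^ 2)]
      exact Nat.mul_le_mul_right _ (card_nonroot h2 hc0)
  omega

end CfsgLib.CharDegrees.ClassCount.Orth.Odd
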