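import Cfsg.Agent.Lib.CharDegrees.ClassCount.OSplit
import Cfsg.Agent.Lib.CharDegrees.ClassCount.OOddCount
import Cfsg.Agent.Lib.CharDegrees.ClassCount.IndexTwo
import Cfsg.Agent.Lib.Classes.OmegaOdd

/-!
The number of classes of `Ω (2 n + 1, q)` for odd `q`.
-/

set_option autoImplicit false
set_option linter.unusedSectionVars false

namespace CfsgLib.CharDegrees.ClassCount.Orth.Odd

open Module Polynomial
open CfsgLib.OrthGen
open CfsgLib.SemisimpleClasses.Symp (palinPoly palinPoly_spec palinEquiv)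

universe u

variable {F : Type u} [Field F] {ι : Type} [Fintype ι] [DecidableEq ι] {Q : QuadraticForm F (ι → F)}

/-- The negative of the identity. -/
def negIso (Q : QuadraticForm F (ι → F)) : Cfsg.isometryGroup F (⇑Q) :=
  mkIso Q (-1) (-1) (by simp) (by simp) fun x => by rw [Matrix.neg_mulVec, Matrix.one_mulVec, QuadraticMap.map_neg]

theorem act_negIso (x : ι → F) : act Q (negIso Q) x = -x := by
  rw [act, negIso, coe_mkIso, Matrix.neg_mulVec, Matrix.one_mulVec]

theorem dt_negIso (hι : Odd (Fintype.card ι)) : dt (negIso Q) = -1 := by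
  rw [dt, negIso, coe_mkIso, Matrix.det_neg, hι.neg_one_pow, Matrix.det_one, mul_one]

/-- The linear automorphism of an isometry. -/
noncomputable def eqv (g : Cfsg.isometryGroup F (⇑Q)) : (ι → F) ≃ₗ[F] (ι → F) :=
  (Matrix.GeneralLinearGroup.toLin (g : GL ι F)).toLinearEquiv

theorem eqv_apply (g : Cfsg.isometryGroup F (⇑Q)) (x : ι → F) : eqv g x = act Q g x := rfl

theorem det_eqv (g : Cfsg.isometryGroup F (⇑Q)) : LinearMap.det (eqv g).toLinearMap = dt g :=
  LinearMap.det_toLin' _

theorem dt_eq_or (hQ : (QuadraticMap.polarBilin Q).Nondegenerate) (g : Cfsg.isometryGroup F (⇑Q)) :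
    dt g = 1 ∨ dt g = -1 := by
  classical
  let B := QuadraticMap.polarBilin (Q : QuadraticForm F (ι → F))
  let bs := Module.finBasis F (ι → F)
  have hG : (LinearMap.BilinForm.toMatrix bs B).det ≠ 0 := (LinearMap.BilinForm.nondegenerate_iff_det_ne_zero bs).1 hQ
  have key : LinearMap.BilinForm.comp B (eqv g).toLinearMap (eqv g).toLinearMap = B :=
    LinearMap.ext₂ fun x y => pf_act g x y
  have h := congrArg (fun C => (LinearMap.BilinForm.toMatrix bs C).det) key
  simp only [LinearMap.BilinForm.toMatrix_comp bs bs, Matrix.det_mul, Matrix.det_transpose, LinearMap.det_toMatrix,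
    det_eqv] at h
  refine mul_self_eq_one_iff.1 (mul_right_cancel₀ hG ?_)
  linear_combination h

theorem dt_mul (g h : Cfsg.isometryGroup F (⇑Q)) : dt (g * h) = dt g * dt h := by
  simp only [dt]; rw [Subgroup.coe_mul, Units.val_mul, Matrix.det_mul]

variable [Fintype F]

/-- `2 k (Ω) ≤ 14.558 q ^ n` and `k (SO) ≤ 2 k (Ω)`. -/
theorem omega_card_le (hodd : Odd (Fintype.card F)) {n : ℕ} (hn : 2 ≤ n) (hι : Fintype.card ι = 2 * n + 1)
    (hQ : (QuadraticMap.polarBilin Q).Nondegenerate) :
    1000 * (2 * Nat.card (ConjClasses ↥(Cfsg.Omega F ⇑Q))) ≤ 14558 * Fintype.card F ^ n ∧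
      Nat.card (ConjClasses ↥(Cfsg.specialIsometryGroup F ⇑Q)) ≤ 2 * Nat.card (ConjClasses ↥(Cfsg.Omega F ⇑Q)) := by
  classical
  obtain ⟨p, hchar⟩ := CharP.exists F
  haveI : Fact p.Prime := ⟨CharP.char_is_prime F p⟩
  obtain ⟨⟨f, hf⟩, -, hq⟩ := FiniteField.card F p
  have hp2 : p ≠ 2 := by
    rintro rfl
    rw [hq] at hodd
    exact Nat.not_even_iff_odd.2 hodd ((Nat.even_pow' (by simpa using hf.ne')).2 even_two)
  have h2 : (2 : F) ≠ 0 := fun h => hp2 ((Nat.prime_dvd_prime_iff_eq Fact.out Nat.prime_two).1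
    ((CharP.cast_eq_zero_iff F p 2).1 (by exact_mod_cast h)))
  obtain ⟨δ, hδ⟩ := FiniteField.exists_nonsquare (F := F) (by rw [ringChar.eq F p]; exact hp2)
  have hδ0 : δ ≠ 0 := fun h => hδ (h ▸ IsSquare.zero)
  have hq3 : 3 ≤ Fintype.card F := by
    have := Fintype.one_lt_card (α := F)
    rcases hodd with ⟨r, hr⟩
    omega
  let O := Cfsg.isometryGroup F (⇑Q)
  let SO : Subgroup O := Cfsg.specialIsometryGroup F (⇑Q)
  have hmemSO : ∀ g : O, g ∈ SO ↔ dt g = 1 := fun g => CfsgLib.Forms.mem_special_iff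
  let H : Subgroup SO := (Cfsg.Omega F ⇑Q).subgroupOf SO
  have hι2 : 2 ≤ Fintype.card ι := by omega
  have hιodd : Odd (Fintype.card ι) := ⟨n, hι⟩
  have hmemH : ∀ g : SO, g ∈ H ↔ spinSign Q 1 (g : O) = 1 := fun g => by
    rw [Subgroup.mem_subgroupOf, CfsgLib.Classes.mem_omega_iff h2 hQ hι2]
    exact and_iff_right ((hmemSO _).1 g.2)
  have hΩ : Cfsg.Omega F ⇑Q ≤ SO := fun g hg =>
    (hmemSO g).2 ((CfsgLib.Classes.mem_omega_iff h2 hQ hι2 g).1 hg).1
  have hindex : H.index = 2 := by
    obtain ⟨a, ha⟩ := exists_Q_eq h2 hQ hι2 1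
    obtain ⟨b, hb⟩ := exists_Q_eq h2 hQ hι2 δ
    have ha0 : Q a ≠ 0 := by rw [ha]; exact one_ne_zero
    have hb0 : Q b ≠ 0 := by rw [hb]; exact hδ0
    refine Subgroup.index_eq_two_iff.2 ⟨⟨refl Q ha0 * refl Q hb0, CfsgLib.Forms.refl_mul_refl_mem_special ha0 hb0⟩,
      fun g => ?_⟩
    rw [hmemH, hmemH]
    have hsa : spinSign Q 1 (refl Q ha0) = -1 :=
      (spinSign_refl h2 one_ne_zero ha0).2 (by rw [ha, div_one]; exact IsSquare.one)
    have hsb : spinSign Q 1 (refl Q hb0) = 1 :=
      (spinSign_refl' h2 one_ne_zero hb0).2 (by rw [hb, one_div, isSquare_inv]; exact hδ)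
    rw [Subgroup.coe_mul, map_mul, map_mul, hsa, hsb]
    rcases Int.units_eq_one_or (spinSign Q 1 (g : O)) with h | h <;> rw [h] <;> decide
  have hB := hQ
  let B := QuadraticMap.polarBilin (Q : QuadraticForm F (ι → F))
  have hsym : ∀ a b, B a b = B b a := fun a b => pf_comm Q a b
  have hiso : ∀ (g : O) a b, B (eqv g a) (eqv g b) = B a b := fun g a b => pf_act g a b
  have hfr : finrank F (ι → F) = 2 * (n + 1) - 1 := by rw [Module.finrank_fintype_fun_eq_card, hι]; omega
  have hrep := fun g : SO => exists_rep hB hsym h2 hδ (eqv (g : O)) (hiso g) hfr ((det_eqv _).trans ((hmemSO _).1 g.2))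
  choose x hx hxe using hrep
  have hconj : ∀ g g' : SO, (x g).P = (x g').P → (x g).M = (x g').M → (x g).t = (x g').t →
      ConjClasses.mk g = ConjClasses.mk g' := by
    intro g g' hP hM ht
    obtain ⟨T, hT, hTg⟩ := exists_conj_of_rep hp2 h2 hsym hδ0 (hiso g) (hiso g') hP hM ht (hx _) (hx _)
    let u : O := mkIso Q (LinearMap.toMatrix' T.toLinearMap) (LinearMap.toMatrix' T.symm.toLinearMap)
      (by rw [← LinearMap.toMatrix'_comp]; simp) (by rw [← LinearMap.toMatrix'_comp]; simp) (fun v => by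
        rw [LinearMap.toMatrix'_mulVec]
        refine mul_left_cancel₀ h2 ?_
        rw [← pf_self, ← pf_self]
        exact hT v v)
    have hu : ∀ v, act Q u v = T v := fun v => by rw [act, coe_mkIso, LinearMap.toMatrix'_mulVec]; rfl
    obtain ⟨w, hw, hwg⟩ : ∃ w : O, dt w = 1 ∧ ∀ v, act Q w (act Q (g : O) v) = act Q (g' : O) (act Q w v) := by
      have hug : ∀ v, act Q u (act Q (g : O) v) = act Q (g' : O) (act Q u v) := fun v => by
        rw [hu, hu]; exact hTg v
      rcases dt_eq_or hQ u with h | h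
      · exact ⟨u, h, hug⟩
      · refine ⟨negIso Q * u, by rw [dt_mul, dt_negIso hιodd, h, neg_mul_neg, one_mul], fun v => ?_⟩
        rw [act_mul, hug, act_mul, act_negIso, act_negIso, ← neg_one_smul F (act Q u v), act_smul, neg_one_smul]
    refine ConjClasses.mk_eq_mk_iff_isConj.2 (isConj_iff.2 ⟨⟨w, (hmemSO w).2 hw⟩, ?_⟩)
    rw [mul_inv_eq_iff_eq_mul]
    exact Subtype.ext (ext_act fun v => by
      rw [Subgroup.coe_mul, Subgroup.coe_mul, act_mul, act_mul]; exact hwg v)
  have hout : ∀ C : ConjClasses SO, ConjClasses.mk (Quotient.out C) = C := fun C => Quotient.out_eq C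
  have hk : 1000 * (2 * Nat.card (ConjClasses SO)) ≤ 14140 * Fintype.card F ^ n :=
    two_mul_card_le hq3 h2 (fun C : ConjClasses SO => x (Quotient.out C)) (fun C => hxe _)
      (fun a b hP hM ht => by rw [← hout a, ← hout b]; exact hconj _ _ hP hM ht)
      fun a b hP hM ht => by
        have hne := oddSet_nonempty (x (Quotient.out a)) h2 (hxe _)
        exact rep_flip_false hp2 h2 hB hsym hδ (hiso _) (hiso _) ht.symm (Nat.sInf_mem hne).1 (Nat.sInf_mem hne).2
          hP hM (hx (Quotient.out a)) (hx (Quotient.out b))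
  have hneg : ∀ z y : O, (∀ v, act Q z (act Q y v) = act Q y (act Q z v)) →
      negIso Q * z * y = y * (negIso Q * z) := fun z y h => ext_act fun v => by
    rw [act_mul, act_mul, act_mul, act_mul, act_negIso, act_negIso, h, ← neg_one_smul F (act Q z v), act_smul,
      neg_one_smul]
  have hS : 1000 * Nat.card {C : ConjClasses SO // ∀ g, ConjClasses.mk g = C → (g ∈ H ∧ Subgroup.centralizer ({g} : Set SO) ≤ H)} ≤
      2496 * Fintype.card F ^ n := by
    refine card_split_le hq3 hodd hn h2 (fun C => x (Quotient.out C.1)) (fun C => hxe _)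
      (fun a b hP hM ht => Subtype.ext (by rw [← hout a.1, ← hout b.1]; exact hconj _ _ hP hM ht))
      (bsign F (spinSign Q 1 (negIso Q))) fun C k b => ?_
    refine signs_of_rep hp2 h2 hδ (spinSign Q 1 (negIso Q)) (eqv ((Quotient.out C.1 : SO) : O)) (hiso _)
      (fun z hz hzc => ?_) (hx _) k b
    have hzSO : negIso Q * z ∈ SO := (hmemSO _).2 (by rw [dt_mul, dt_negIso hιodd, hz, neg_mul_neg, one_mul])
    have hcomm : (⟨negIso Q * z, hzSO⟩ : SO) ∈ Subgroup.centralizer ({(Quotient.out C.1 : SO)} : Set SO) :=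
      Subgroup.mem_centralizer_singleton_iff.2 (Subtype.ext (hneg z _ hzc))
    have h := (hmemH _).1 ((C.2 _ (hout C.1)).2 hcomm)
    rw [map_mul] at h
    rw [← one_mul (spinSign Q 1 z), ← Int.units_mul_self (spinSign Q 1 (negIso Q)), mul_assoc, h, mul_one]
  have he : Nat.card (ConjClasses ↥(Cfsg.Omega F ⇑Q)) = Nat.card (ConjClasses H) :=
    Nat.card_congr
      { toFun := ConjClasses.map (Subgroup.subgroupOfEquivOfLe hΩ).symm.toMonoidHom
        invFun := ConjClasses.map (Subgroup.subgroupOfEquivOfLe hΩ).toMonoidHom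
        left_inv := fun C => by
          obtain ⟨a, rfl⟩ := ConjClasses.exists_rep C
          exact congrArg ConjClasses.mk ((Subgroup.subgroupOfEquivOfLe hΩ).apply_symm_apply a)
        right_inv := fun C => by
          obtain ⟨a, rfl⟩ := ConjClasses.exists_rep C
          exact congrArg ConjClasses.mk ((Subgroup.subgroupOfEquivOfLe hΩ).symm_apply_apply a) }
  have h12 := two_mul_card_classes_index_two H hindex
  refine ⟨?_, ?_⟩
  · rw [he, h12]
    omega
  · rw [he]
    exact card_classes_le_two_mul H hindex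

theorem blocks_one_preserve {κ μ : Type} [Fintype κ] [DecidableEq κ] [Fintype μ] [DecidableEq μ]
    (D : Matrix μ μ F) {A M' : Matrix κ κ F} (h : A.transpose * M' * A = M') :
    (Matrix.fromBlocks 1 0 0 A).transpose * Matrix.fromBlocks D 0 0 M' * Matrix.fromBlocks 1 0 0 A =
      Matrix.fromBlocks D 0 0 M' := by
  simp only [Matrix.fromBlocks_transpose, Matrix.fromBlocks_multiply, Matrix.transpose_zero, Matrix.transpose_one,
    Matrix.mul_zero, Matrix.zero_mul, add_zero, zero_add, Matrix.one_mul, Matrix.mul_one, h]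

/-- `q ^ n ≤ k (SO (2 n + 1, q))`. -/
theorem pow_le_card_special (hodd : Odd (Fintype.card F)) {n : ℕ} (hn : 2 ≤ n)
    (Q : QuadraticForm F (Unit ⊕ (Fin n ⊕ Fin n) → F)) (hQ : (QuadraticMap.polarBilin Q).Nondegenerate) :
    Fintype.card F ^ n ≤ Nat.card (ConjClasses ↥(Cfsg.specialIsometryGroup F ⇑Q)) := by
  classical
  have hch : ringChar F ≠ 2 := fun h => by
    have := FiniteField.even_card_of_char_two h
    rw [Nat.odd_iff] at hodd
    omega
  have h2 : (2 : F) ≠ 0 := Ring.two_ne_zero hch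
  let ι := Unit ⊕ (Fin n ⊕ Fin n)
  let M : Matrix ι ι F := LinearMap.BilinForm.toMatrix' (QuadraticMap.polarBilin Q)
  have hMB : ∀ u v, u ⬝ᵥ M.mulVec v = pf Q u v := fun u v => by
    rw [← Matrix.toBilin'_apply', Matrix.toBilin'_toMatrix']; rfl
  have hM : M.det ≠ 0 := LinearMap.BilinForm.nondegenerate_toBilin'_iff_det_ne_zero.1 (by
    rw [Matrix.toBilin'_toMatrix']; exact hQ)
  have hMs : M.transpose = M := Matrix.ext fun i j => by
    show QuadraticMap.polarBilin Q _ _ = QuadraticMap.polarBilin Q _ _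
    exact pf_comm Q _ _
  have hex : ∀ v : Fin n → F, ∃ g : ↥(Cfsg.specialIsometryGroup F ⇑Q),
      (((g : Cfsg.isometryGroup F ⇑Q) : GL ι F) : Matrix ι ι F).charpoly = (X - C 1) * palinPoly v := by
    intro v
    obtain ⟨hm1, hd, hs⟩ := palinPoly_spec v
    set π := (palinPoly v).eval 1 * (palinPoly v).eval (-1) with hπ
    set d : F := if π = 0 then 1 else π with hd'
    have hd0 : d ≠ 0 := by rw [hd']; split_ifs with h <;> simp [h]
    have hn0 : 0 < n := by omega
    let i₀ : Fin n ⊕ Fin n := Sum.inl ⟨0, hn0⟩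
    let M' : Matrix (Fin n ⊕ Fin n) (Fin n ⊕ Fin n) F := Matrix.diagonal fun i => if i = i₀ then d else 1
    have hM'd : M'.det = d := by
      rw [Matrix.det_diagonal, Finset.prod_ite_eq' Finset.univ i₀ (fun _ => d), if_pos (Finset.mem_univ _)]
    obtain ⟨g', hg', hgc⟩ := exists_isometry_charpoly h2 (show 1 ≤ n by omega)
      (show Fintype.card (Fin n ⊕ Fin n) = 2 * n by simp; omega) (M := M') (by rw [hM'd]; exact hd0)
      (Matrix.diagonal_transpose _) hm1 hd hs (by
        by_cases h : π = 0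
        · exact Or.inl h
        · right
          rw [hM'd, hd', if_neg h, ← hπ]
          exact ⟨π, rfl⟩)
    set A : Matrix (Fin n ⊕ Fin n) (Fin n ⊕ Fin n) F := (g' : Matrix (Fin n ⊕ Fin n) (Fin n ⊕ Fin n) F) with hA
    let D : Matrix Unit Unit F := Matrix.diagonal fun _ => d * M.det
    let G : Matrix ι ι F := Matrix.fromBlocks D 0 0 M'
    have hGd : G.det = d * M.det * d := by
      show (Matrix.fromBlocks D 0 0 M').det = _
      rw [Matrix.det_fromBlocks_zero₂₁, hM'd, Matrix.det_diagonal]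
      simp
    have hGs : G.transpose = G := by
      show (Matrix.fromBlocks D 0 0 M').transpose = Matrix.fromBlocks D 0 0 M'
      rw [Matrix.fromBlocks_transpose, Matrix.diagonal_transpose, Matrix.diagonal_transpose, Matrix.transpose_zero,
        Matrix.transpose_zero]
    have hι : Fintype.card ι = 2 * n + 1 := by simp [ι]; omega
    obtain ⟨e, he⟩ := exists_congr h2 hM (G := G) (by rw [hGd]; exact mul_ne_zero (mul_ne_zero hd0 hM) hd0) hMs hGs
      (m := 2 * n) hι hι (by rw [hGd]; exact ⟨d * M.det, by ring⟩)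
    let g₁ : Matrix ι ι F := Matrix.fromBlocks 1 0 0 A
    let P := LinearMap.toMatrix' e.toLinearMap
    let P' := LinearMap.toMatrix' e.symm.toLinearMap
    have hPP : P * P' = 1 := by
      show LinearMap.toMatrix' _ * LinearMap.toMatrix' _ = 1
      rw [← LinearMap.toMatrix'_comp]; simp
    have hP'P : P' * P = 1 := by
      show LinearMap.toMatrix' _ * LinearMap.toMatrix' _ = 1
      rw [← LinearMap.toMatrix'_comp]; simp
    let U : GL ι F := ⟨P, P', hPP, hP'P⟩
    have hg1 : ∀ a b, (g₁.mulVec a) ⬝ᵥ G.mulVec (g₁.mulVec b) = a ⬝ᵥ G.mulVec b := fun a b => by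
      have e1 : A.transpose * M' * A = M' := by
        apply Matrix.toBilin'.injective
        refine LinearMap.ext₂ fun u w => ?_
        rw [Matrix.toBilin'_apply', Matrix.toBilin'_apply', ← Matrix.mulVec_mulVec, ← Matrix.mulVec_mulVec,
          Matrix.dotProduct_mulVec (A := A.transpose), Matrix.vecMul_transpose]
        exact hg' u w
      have hgG : g₁.transpose * G * g₁ = G := blocks_one_preserve D e1
      conv_rhs => rw [← hgG]
      rw [← Matrix.mulVec_mulVec, ← Matrix.mulVec_mulVec, Matrix.dotProduct_mulVec (A := g₁.transpose),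
        Matrix.vecMul_transpose]
    have hAd : A.det = 1 := by
      rw [Matrix.det_eq_sign_charpoly_coeff, hgc, hs 0 (Nat.zero_le _), Nat.sub_zero, ← hd, hm1.coeff_natDegree]
      have : Even (Fintype.card (Fin n ⊕ Fin n)) := by simp
      rw [this.neg_one_pow, one_mul]
    have hg1d : g₁.det = 1 := by
      show (Matrix.fromBlocks 1 0 0 A).det = 1
      rw [Matrix.det_fromBlocks_zero₂₁, Matrix.det_one, hAd, one_mul]
    let g₁u : GL ι F := Matrix.nonsingInvUnit g₁ (by rw [hg1d]; exact isUnit_one)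
    let w : GL ι F := U * g₁u * U⁻¹
    have hwm : ∀ a, Q ((w : Matrix ι ι F).mulVec a) = Q a := fun a => by
      obtain ⟨a, rfl⟩ := e.surjective a
      have hev : (w : Matrix ι ι F).mulVec (e a) = e (g₁.mulVec a) := by
        show (P * g₁ * P').mulVec (e a) = _
        have hP : ∀ v, P.mulVec v = e v := fun v => LinearMap.toMatrix'_mulVec _ v
        rw [← hP a, Matrix.mulVec_mulVec, Matrix.mul_assoc, hP'P, Matrix.mul_one, ← Matrix.mulVec_mulVec, hP]
      refine mul_left_cancel₀ h2 ?_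
      rw [hev, ← pf_self, ← pf_self, ← hMB, ← hMB, he, hg1, he]
    let z : Cfsg.isometryGroup F ⇑Q := ⟨w, fun a _ => hwm a⟩
    refine ⟨⟨z, CfsgLib.Forms.mem_special_iff.2 ?_⟩, ?_⟩
    · show (P * g₁ * P').det = 1
      rw [Matrix.det_mul, Matrix.det_mul, mul_right_comm, ← Matrix.det_mul, hPP, Matrix.det_one, one_mul, hg1d]
    · show ((U : Matrix ι ι F) * g₁ * (↑U⁻¹ : Matrix ι ι F)).charpoly = _
      rw [Matrix.coe_units_inv, Matrix.charpoly_units_conj,
        show g₁.charpoly = (1 : Matrix Unit Unit F).charpoly * A.charpoly from Matrix.charpoly_fromBlocks_zero₂₁ _ _ _,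
        hgc, Matrix.charpoly_one]
      simp
  choose fg hfg using hex
  have hinj : Function.Injective fun v : Fin n → F => ConjClasses.mk (fg v) := fun v v' h => by
    obtain ⟨c, hc⟩ := isConj_iff.1 (ConjClasses.mk_eq_mk_iff_isConj.1 h)
    have hc' := congrArg (fun z : ↥(Cfsg.specialIsometryGroup F ⇑Q) =>
      (((z : Cfsg.isometryGroup F ⇑Q) : GL ι F) : Matrix ι ι F).charpoly) hc
    simp only [Subgroup.coe_mul, Subgroup.coe_inv, Units.val_mul] at hc'
    rw [Matrix.coe_units_inv, Matrix.charpoly_units_conj, hfg, hfg] at hc'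
    have := mul_left_cancel₀ (X_sub_C_ne_zero 1) hc'
    exact (palinEquiv (K := F) (n := n)).symm.injective (Subtype.ext this)
  have h := Nat.card_le_card_of_injective _ hinj
  rwa [Nat.card_fun, Nat.card_eq_fintype_card (α := F), Nat.card_eq_fintype_card (α := Fin n), Fintype.card_fin] at h

end CfsgLib.CharDegrees.ClassCount.Orth.Odd
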