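import Mathlib

/-!
Normal forms of a skew nilpotent endomorphism with respect to a nondegenerate symmetric form, in odd
characteristic, up to the multiset of blocks.
-/

set_option autoImplicit false
set_option linter.unusedSectionVars false

namespace CfsgLib.CharDegrees.ClassCount.Orth

open Module Submodule

universe u v

variable {F : Type u} [Field F]

/-- A block: its nilpotency index and whether its value is the fixed nonsquare. -/
abbrev Blk := ℕ × Bool

/-- The number of generators of a block. -/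
def rk (b : Blk) : ℕ := if Even b.1 then 2 else 1

/-- The dimension of a block. -/
def size (b : Blk) : ℕ := rk b * b.1

/-- The value of the form on the top of a block. -/
def val (δ : F) (b : Blk) (a : ℕ) : F :=
  if Even b.1 then (if a = 0 then 1 else -1) else (if b.2 then δ else 1)

theorem val_ne_zero {δ : F} (hδ : δ ≠ 0) (b : Blk) (a : ℕ) : val δ b a ≠ 0 := by
  unfold val
  split_ifs <;> simp [hδ]

variable {V : Type v} [AddCommGroup V] [Module F V] (B : LinearMap.BilinForm F V) (N : Module.End F V)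

theorem skew_pow (hN : ∀ x y, B (N x) y = -B x (N y)) :
    ∀ (j : ℕ) (x y : V), B ((N ^ j) x) y = (-1 : F) ^ j * B x ((N ^ j) y) := by
  intro j
  induction j with
  | zero => intro x y; simp
  | succ j ih =>
    intro x y
    rw [pow_succ, Module.End.mul_apply, ih, hN, ← Module.End.mul_apply, ← pow_succ', ← pow_succ,
      pow_succ ((-1 : F)) j]
    ring

/-- A normalised block. -/
structure IsBlock (δ : F) (b : Blk) (v : Fin (rk b) → V) : Prop where
  pos : 0 < b.1
  even_false : Even b.1 → b.2 = false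
  kill : ∀ a, (N ^ b.1) (v a) = 0
  gram : ∀ (a a' : Fin (rk b)) (j : ℕ), B ((N ^ j) (v a)) (v a') =
    if (a : ℕ) + (a' : ℕ) + 1 = rk b ∧ j + 1 = b.1 then val δ b a else 0

variable {B N}

theorem IsBlock.gram' {δ : F} {b : Blk} {v : Fin (rk b) → V} (h : IsBlock B N δ b v)
    (hN : ∀ x y, B (N x) y = -B x (N y)) (a a' : Fin (rk b)) (l l' : ℕ) :
    B ((N ^ l) (v a)) ((N ^ l') (v a')) =
      (-1 : F) ^ l' * if (a : ℕ) + (a' : ℕ) + 1 = rk b ∧ l + l' + 1 = b.1 then val δ b a else 0 := by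
  have e := skew_pow B N hN l' ((N ^ l) (v a)) (v a')
  rw [← Module.End.mul_apply, ← pow_add, h.gram, add_comm l' l] at e
  rw [e, ← mul_assoc, ← mul_pow, show (-1 : F) * -1 = 1 by ring, one_pow, one_mul]

/-- A family of orthogonal blocks spanning a subspace. -/
structure Fam (δ : F) (B : LinearMap.BilinForm F V) (N : Module.End F V) (W : Submodule F V) (ι : Type)
    (b : ι → Blk) (v : ∀ i, Fin (rk (b i)) → V) : Prop where
  blk : ∀ i, IsBlock B N δ (b i) (v i)
  orth : ∀ i i' : ι, i ≠ i' → ∀ a a' l l', B ((N ^ l) (v i a)) ((N ^ l') (v i' a')) = 0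
  span : W = Submodule.span F (Set.range fun x : Σ i, Fin (rk (b i)) × Fin (b i).1 =>
    (N ^ (x.2.2 : ℕ)) (v x.1 x.2.1))

/-- A subspace has the given multiset of blocks. -/
def HasData (δ : F) (B : LinearMap.BilinForm F V) (N : Module.End F V) (W : Submodule F V)
    (D : Multiset Blk) : Prop :=
  ∃ (ι : Type) (_ : Fintype ι) (b : ι → Blk) (v : ∀ i, Fin (rk (b i)) → V),
    Fam δ B N W ι b v ∧ D = (Finset.univ : Finset ι).val.map b

section Independent

variable {δ : F} {W : Submodule F V} {ι : Type} [Fintype ι] {b : ι → Blk} {v : ∀ i, Fin (rk (b i)) → V}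

theorem Fam.pairing (h : Fam δ B N W ι b v) (hN : ∀ x y, B (N x) y = -B x (N y))
    (c : (Σ i, Fin (rk (b i)) × Fin (b i).1) → F) (i : ι) (a : Fin (rk (b i))) (l : Fin (b i).1) :
    B (∑ x, c x • (N ^ (x.2.2 : ℕ)) (v x.1 x.2.1)) ((N ^ (l : ℕ)) (v i a)) =
      c ⟨i, a.rev, l.rev⟩ * ((-1 : F) ^ (l : ℕ) * val δ (b i) a.rev) := by
  classical
  rw [map_sum, LinearMap.sum_apply, Finset.sum_eq_single (⟨i, a.rev, l.rev⟩ : Σ i, Fin (rk (b i)) × Fin (b i).1)]
  · rw [map_smul, LinearMap.smul_apply, smul_eq_mul, (h.blk i).gram' hN, if_pos]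
    dsimp only
    rw [Fin.val_rev, Fin.val_rev]
    have := a.isLt
    have := l.isLt
    omega
  · rintro ⟨i', a', l'⟩ - hne
    rw [map_smul, LinearMap.smul_apply, smul_eq_mul]
    by_cases hi : i' = i
    · subst hi
      rw [(h.blk i').gram' hN, if_neg, mul_zero, mul_zero]
      rintro ⟨h1, h2⟩
      simp only at h1 h2
      refine hne ?_
      have ha' : a' = a.rev := Fin.ext (by rw [Fin.val_rev]; omega)
      have hl' : l' = l.rev := Fin.ext (by rw [Fin.val_rev]; omega)
      rw [ha', hl']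
    · rw [h.orth i' i hi, mul_zero]
  · simp

theorem Fam.indep (h : Fam δ B N W ι b v) (hN : ∀ x y, B (N x) y = -B x (N y)) (hδ : δ ≠ 0) :
    LinearIndependent F (fun x : Σ i, Fin (rk (b i)) × Fin (b i).1 => (N ^ (x.2.2 : ℕ)) (v x.1 x.2.1)) := by
  classical
  rw [Fintype.linearIndependent_iff]
  intro c hc ⟨i, a, l⟩
  have := h.pairing hN c i a.rev l.rev
  rw [hc, map_zero, LinearMap.zero_apply, Fin.rev_rev, Fin.rev_rev] at this
  exact (mul_eq_zero.1 this.symm).resolve_right
    (mul_ne_zero (pow_ne_zero _ (neg_ne_zero.2 one_ne_zero)) (val_ne_zero hδ _ _))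

theorem Fam.finrank_eq (h : Fam δ B N W ι b v) (hN : ∀ x y, B (N x) y = -B x (N y)) (hδ : δ ≠ 0) :
    finrank F W = ∑ i, size (b i) := by
  rw [h.span, finrank_span_eq_card (h.indep hN hδ), Fintype.card_sigma]
  simp [size]

end Independent

theorem HasData.finrank_eq {δ : F} {W : Submodule F V} {D : Multiset Blk} (h : HasData δ B N W D)
    (hN : ∀ x y, B (N x) y = -B x (N y)) (hδ : δ ≠ 0) : finrank F W = (D.map size).sum := by
  obtain ⟨ι, hι, b, v, hf, rfl⟩ := h
  rw [hf.finrank_eq hN hδ, Multiset.map_map]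
  rfl

section Isometry

variable {V' : Type*} [AddCommGroup V'] [Module F V'] {B' : LinearMap.BilinForm F V'} {N' : Module.End F V'}

/-- Equal data give isometries. -/
theorem HasData.exists_isometry {δ : F} (hδ : δ ≠ 0) {W : Submodule F V} {W' : Submodule F V'}
    (hN : ∀ x y, B (N x) y = -B x (N y)) (hN' : ∀ x y, B' (N' x) y = -B' x (N' y))
    {D : Multiset Blk} (h : HasData δ B N W D) (h' : HasData δ B' N' W' D) :
    ∃ T : W ≃ₗ[F] W', (∀ x y : W, B' (T x : V') (T y : V') = B (x : V) (y : V)) ∧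
      ∀ x y : W, (y : V) = N (x : V) → (T y : V') = N' (T x : V') := by
  classical
  obtain ⟨ι, hι, b, v, hf, hD⟩ := h
  obtain ⟨ι', hι', b', v', hf', hD'⟩ := h'
  have hcard : ∀ c, Fintype.card {i // b i = c} = Fintype.card {i // b' i = c} := fun c => by
    have := congrArg (Multiset.count c) (hD.symm.trans hD')
    rw [Multiset.count_map, Multiset.count_map] at this
    rw [Fintype.card_subtype, Fintype.card_subtype]
    simp only [Finset.card_def, Finset.filter_val]
    simpa only [eq_comm] using this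
  let σ : ι ≃ ι' := Equiv.ofFiberEquiv fun c => Fintype.equivOfCardEq (hcard c)
  have hσ : ∀ i, b' (σ i) = b i := fun i =>
    Equiv.ofFiberEquiv_map (f := b) (g := b') (fun c => Fintype.equivOfCardEq (hcard c)) i
  let ee : (Σ i, Fin (rk (b i)) × Fin (b i).1) ≃ Σ i, Fin (rk (b' i)) × Fin (b' i).1 :=
    Equiv.sigmaCongr σ fun i => (finCongr (by rw [hσ])).prodCongr (finCongr (by rw [hσ]))
  let f := fun x : Σ i, Fin (rk (b i)) × Fin (b i).1 => (N ^ (x.2.2 : ℕ)) (v x.1 x.2.1)
  let f' := fun x : Σ i, Fin (rk (b' i)) × Fin (b' i).1 => (N' ^ (x.2.2 : ℕ)) (v' x.1 x.2.1)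
  let bW : Basis _ F W := (Basis.span (hf.indep hN hδ)).map (LinearEquiv.ofEq _ _ hf.span.symm)
  let bW' : Basis _ F W' := (Basis.span (hf'.indep hN' hδ)).map (LinearEquiv.ofEq _ _ hf'.span.symm)
  have hb : ∀ x, (bW x : V) = f x := fun x => by simp [bW, f]
  have hb' : ∀ x, (bW' x : V') = f' x := fun x => by simp [bW', f']
  let T : W ≃ₗ[F] W' := bW.equiv bW' ee
  have hT : ∀ x, (T (bW x) : V') = f' (ee x) := fun x => by
    rw [show T (bW x) = bW' (ee x) from Basis.equiv_apply _ _ _ _, hb']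
  refine ⟨T, fun x y => ?_, fun x y hxy => ?_⟩
  · have key : (B'.compl₁₂ ((W'.subtype).comp T.toLinearMap) ((W'.subtype).comp T.toLinearMap)) =
        B.compl₁₂ W.subtype W.subtype := by
      refine bW.ext fun s => bW.ext fun t => ?_
      simp only [LinearMap.compl₁₂_apply, LinearMap.comp_apply, LinearEquiv.coe_coe, Submodule.subtype_apply]
      rw [hT, hT, hb, hb]
      obtain ⟨i, a, l⟩ := s
      obtain ⟨i', a', l'⟩ := t
      simp only [f, f', ee, Equiv.sigmaCongr, Equiv.trans_apply, Equiv.sigmaCongrLeft_apply,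
        Equiv.sigmaCongrRight_apply, id, Equiv.prodCongr_apply, Prod.map, finCongr_apply]
      by_cases hi : i = i'
      · subst hi
        rw [(hf'.blk _).gram' hN', (hf.blk _).gram' hN]
        simp only [Fin.val_cast, hσ]
      · rw [hf'.orth _ _ (σ.injective.ne hi), hf.orth _ _ hi]
    have := LinearMap.congr_fun (LinearMap.congr_fun key x) y
    simpa using this
  · have hinv : ∀ w ∈ W, N w ∈ W := by
      intro w hw
      rw [hf.span] at hw ⊢
      refine Submodule.span_induction ?_ (by simp) (fun p q _ _ hp hq => by rw [map_add]; exact add_mem hp hq)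
        (fun c p _ hp => by rw [map_smul]; exact Submodule.smul_mem _ c hp) hw
      rintro _ ⟨⟨i, a, l⟩, rfl⟩
      rw [← Module.End.mul_apply, ← pow_succ']
      by_cases hl : (l : ℕ) + 1 < (b i).1
      · exact Submodule.subset_span ⟨⟨i, a, ⟨l + 1, hl⟩⟩, rfl⟩
      · rw [show (l : ℕ) + 1 = (b i).1 by omega, (hf.blk i).kill]
        exact zero_mem _
    let NW : W →ₗ[F] W := N.restrict hinv
    have key : (W'.subtype).comp (T.toLinearMap.comp NW) = N'.comp ((W'.subtype).comp T.toLinearMap) := by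
      refine bW.ext fun s => ?_
      simp only [LinearMap.comp_apply, LinearEquiv.coe_coe, Submodule.subtype_apply]
      obtain ⟨i, a, l⟩ := s
      rw [hT]
      simp only [f', ee, Equiv.sigmaCongr, Equiv.trans_apply, Equiv.sigmaCongrLeft_apply,
        Equiv.sigmaCongrRight_apply, id, Equiv.prodCongr_apply, Prod.map, finCongr_apply]
      rw [← Module.End.mul_apply, ← pow_succ']
      simp only [Fin.val_cast]
      by_cases hl : (l : ℕ) + 1 < (b i).1
      · have e : NW (bW ⟨i, a, l⟩) = bW ⟨i, a, ⟨l + 1, hl⟩⟩ := Subtype.ext (by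
          rw [hb, LinearMap.coe_restrict_apply, hb]
          show N ((N ^ (l : ℕ)) (v i a)) = (N ^ ((l : ℕ) + 1)) (v i a)
          rw [← Module.End.mul_apply, ← pow_succ'])
        rw [e, hT]
        simp [f', ee, Equiv.sigmaCongr, Sigma.map]
      · have e : NW (bW ⟨i, a, l⟩) = 0 := Subtype.ext (by
          rw [LinearMap.coe_restrict_apply, hb, Submodule.coe_zero]
          show N ((N ^ (l : ℕ)) (v i a)) = 0
          rw [← Module.End.mul_apply, ← pow_succ', show (l : ℕ) + 1 = (b i).1 by omega, (hf.blk i).kill])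
        rw [e, map_zero, Submodule.coe_zero, show (l : ℕ) + 1 = (b' (σ i)).1 by rw [hσ]; omega,
          (hf'.blk (σ i)).kill]
    have e : y = NW x := Subtype.ext (by rw [LinearMap.coe_restrict_apply, hxy])
    have h2 := LinearMap.congr_fun key x
    simp only [LinearMap.comp_apply, LinearEquiv.coe_coe, Submodule.subtype_apply] at h2
    rw [e, h2]

end Isometry

section Exists

variable (hN : ∀ x y, B (N x) y = -B x (N y)) (hsym : ∀ x y, B x y = B y x)

/-- Repeatedly killing the highest remaining moment. -/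
theorem exists_descend {P : V → Prop} (μ : V → ℕ → F) (k : ℕ)
    (step : ∀ x j, P x → j + 1 < k → (∀ l, j < l → l + 1 < k → μ x l = 0) →
      ∃ y, P y ∧ ∀ l, j ≤ l → l + 1 < k → μ y l = 0)
    {x : V} (hx : P x) : ∃ y, P y ∧ ∀ l, l + 1 < k → μ y l = 0 := by
  suffices h : ∀ d, ∃ y, P y ∧ ∀ l, k ≤ l + 1 + d → l + 1 < k → μ y l = 0 by
    obtain ⟨y, hy, h'⟩ := h k
    exact ⟨y, hy, fun l hl => h' l (by omega) hl⟩
  intro d
  induction d with
  | zero => exact ⟨x, hx, fun l h1 h2 => absurd h2 (by omega)⟩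
  | succ d ih =>
    obtain ⟨y, hy, h'⟩ := ih
    by_cases hd : d + 2 ≤ k
    · obtain ⟨z, hz, h''⟩ := step y (k - (d + 2)) hy (by omega) fun l h1 h2 => h' l (by omega) h2
      exact ⟨z, hz, fun l h1 h2 => h'' l (by omega) h2⟩
    · exact ⟨y, hy, fun l h1 h2 => h' l (by omega) h2⟩

include hN hsym in
theorem moment_odd_zero (h2 : (2 : F) ≠ 0) {j : ℕ} (hj : Odd j) (x : V) : B ((N ^ j) x) x = 0 := by
  have e := skew_pow B N hN j x x
  rw [hj.neg_one_pow, neg_one_mul, hsym x ((N ^ j) x)] at e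
  have : (2 : F) * B ((N ^ j) x) x = 0 := by linear_combination e
  exact (mul_eq_zero.1 this).resolve_left h2

variable {W : Submodule F V} (hW : ∀ x ∈ W, N x ∈ W) {k : ℕ} (hk : ∀ x ∈ W, (N ^ k) x = 0)

include hW in
theorem pow_mem_W (j : ℕ) : ∀ {x : V}, x ∈ W → (N ^ j) x ∈ W := by
  induction j with
  | zero => intro x hx; simpa using hx
  | succ j ih => intro x hx; rw [pow_succ', Module.End.mul_apply]; exact hW _ (ih hx)

include hk in
theorem kill_ge {j : ℕ} (hj : k ≤ j) {x : V} (hx : x ∈ W) : (N ^ j) x = 0 := by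
  rw [← Nat.sub_add_cancel hj, pow_add, Module.End.mul_apply, hk x hx, map_zero]

include hN in
theorem moment_add (x y : V) (t : F) (i l : ℕ) :
    B ((N ^ l) (x + t • (N ^ i) y)) (x + t • (N ^ i) y) =
      B ((N ^ l) x) x + t * B ((N ^ (l + i)) y) x + t * ((-1 : F) ^ i * B ((N ^ (l + i)) x) y) +
        t * t * ((-1 : F) ^ i * B ((N ^ (l + i + i)) y) y) := by
  have e : ∀ p q : V, B p ((N ^ i) q) = (-1 : F) ^ i * B ((N ^ i) p) q := fun p q => by
    rw [skew_pow B N hN i p q, ← mul_assoc, ← mul_pow, show (-1 : F) * -1 = 1 by ring, one_pow, one_mul]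
  simp only [map_add, map_smul, LinearMap.add_apply, LinearMap.smul_apply, smul_eq_mul]
  rw [e, e, ← Module.End.mul_apply, ← Module.End.mul_apply, ← Module.End.mul_apply, ← pow_add,
    ← pow_add, ← pow_add, show i + l = l + i by omega, show i + (l + i) = l + i + i by omega]
  ring

include hN hsym hW hk in
/-- Odd index: all lower moments can be killed. -/
theorem exists_norm_single (h2 : (2 : F) ≠ 0) (hke : Odd k) {x : V} (hx : x ∈ W) (hc : B ((N ^ (k - 1)) x) x ≠ 0) :
    ∃ y ∈ W, ∀ j, B ((N ^ j) y) y = if j + 1 = k then B ((N ^ (k - 1)) x) x else 0 := by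
  set c := B ((N ^ (k - 1)) x) x with hcdef
  obtain ⟨y, ⟨hy, hyc⟩, h⟩ := exists_descend (P := fun y => y ∈ W ∧ B ((N ^ (k - 1)) y) y = c)
    (fun y l => B ((N ^ l) y) y) k (fun y j hy hj hlow => by
      obtain ⟨hy, hyc⟩ := hy
      by_cases hje : Odd j
      · refine ⟨y, ⟨hy, hyc⟩, fun l h1 h3 => ?_⟩
        rcases eq_or_lt_of_le h1 with rfl | h1
        · exact moment_odd_zero hN hsym h2 hje y
        · exact hlow l h1 h3
      set i := k - 1 - j with hi
      have hie : Even i := by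
        rw [Nat.odd_iff] at hke hje
        rw [Nat.even_iff]
        omega
      set t := -(B ((N ^ j) y) y) / (2 * c) with ht
      refine ⟨y + t • (N ^ i) y, ⟨add_mem hy (W.smul_mem _ (pow_mem_W hW i hy)), ?_⟩, fun l h1 h3 => ?_⟩
      · rw [moment_add hN, kill_ge hk (show k ≤ k - 1 + i by omega) hy,
          kill_ge hk (show k ≤ k - 1 + i + i by omega) hy, map_zero, LinearMap.zero_apply, hyc]
        ring
      · show B ((N ^ l) (y + t • (N ^ i) y)) (y + t • (N ^ i) y) = 0
        rw [moment_add hN, kill_ge hk (show k ≤ l + i + i by omega) hy, map_zero, LinearMap.zero_apply,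
          hie.neg_one_pow]
        rcases eq_or_lt_of_le h1 with rfl | h1
        · rw [show j + i = k - 1 by omega, hyc, ht]
          field_simp
          ring
        · rw [hlow l h1 h3, kill_ge hk (show k ≤ l + i by omega) hy, map_zero, LinearMap.zero_apply]
          ring)
    (x := x) ⟨hx, rfl⟩
  refine ⟨y, hy, fun j => ?_⟩
  rcases lt_trichotomy (j + 1) k with hj | hj | hj
  · rw [if_neg hj.ne]; exact h j hj
  · rw [if_pos hj, show j = k - 1 by omega, hyc]
  · rw [if_neg hj.ne', kill_ge hk (by omega) hy, map_zero, LinearMap.zero_apply]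

include hN hsym hW hk in
/-- Even index: a hyperbolic partner makes a vector isotropic. -/
theorem exists_isotropic (h2 : (2 : F) ≠ 0) (hko : Even k) {x y : V} (hx : x ∈ W) (hy : y ∈ W)
    (hc : B ((N ^ (k - 1)) x) y ≠ 0) :
    ∃ z ∈ W, B ((N ^ (k - 1)) z) y = B ((N ^ (k - 1)) x) y ∧ ∀ j, B ((N ^ j) z) z = 0 := by
  set c := B ((N ^ (k - 1)) x) y with hcdef
  obtain ⟨z, ⟨hz, hzc⟩, h⟩ := exists_descend (P := fun z => z ∈ W ∧ B ((N ^ (k - 1)) z) y = c)
    (fun z l => B ((N ^ l) z) z) k (fun z j hz hj hlow => by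
      obtain ⟨hz, hzc⟩ := hz
      by_cases hje : Odd j
      · refine ⟨z, ⟨hz, hzc⟩, fun l h1 h3 => ?_⟩
        rcases eq_or_lt_of_le h1 with rfl | h1
        · exact moment_odd_zero hN hsym h2 hje z
        · exact hlow l h1 h3
      set i := k - 1 - j with hi
      have hio : Odd i := by
        rw [Nat.odd_iff] at hje ⊢
        rw [Nat.even_iff] at hko
        omega
      have hyz : B ((N ^ (k - 1)) y) z = -c := by
        have hev : Odd (k - 1) := by
          rw [Nat.even_iff] at hko; rw [Nat.odd_iff]; omega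
        rw [skew_pow B N hN, hev.neg_one_pow, neg_one_mul, hsym, hzc]
      set t := B ((N ^ j) z) z / (2 * c) with ht
      refine ⟨z + t • (N ^ i) y, ⟨add_mem hz (W.smul_mem _ (pow_mem_W hW i hy)), ?_⟩, fun l h1 h3 => ?_⟩
      · rw [map_add, map_smul, map_add, LinearMap.add_apply, map_smul, LinearMap.smul_apply, hzc,
          ← Module.End.mul_apply, ← pow_add, kill_ge hk (show k ≤ k - 1 + i by omega) hy, map_zero,
          LinearMap.zero_apply, smul_zero, add_zero]
      · show B ((N ^ l) (z + t • (N ^ i) y)) (z + t • (N ^ i) y) = 0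
        rw [moment_add hN, kill_ge hk (show k ≤ l + i + i by omega) hy, map_zero, LinearMap.zero_apply,
          hio.neg_one_pow]
        rcases eq_or_lt_of_le h1 with rfl | h1
        · rw [show j + i = k - 1 by omega, hzc, hyz, ht]
          field_simp
          ring
        · rw [hlow l h1 h3, kill_ge hk (show k ≤ l + i by omega) hy, kill_ge hk (show k ≤ l + i by omega) hz]
          simp)
    (x := x) ⟨hx, rfl⟩
  refine ⟨z, hz, hzc, fun j => ?_⟩
  rcases lt_trichotomy (j + 1) k with hj | hj | hj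
  · exact h j hj
  · refine moment_odd_zero hN hsym h2 ?_ z
    rw [Nat.even_iff] at hko; rw [Nat.odd_iff]; omega
  · rw [kill_ge hk (by omega) hz, map_zero, LinearMap.zero_apply]

include hN hsym hW hk in
/-- Even index: a normalised pair. -/
theorem exists_norm_pair (h2 : (2 : F) ≠ 0) (hko : Even k) {x y : V} (hx : x ∈ W) (hy : y ∈ W)
    (hc : B ((N ^ (k - 1)) x) y = 1) :
    ∃ x' y', x' ∈ W ∧ y' ∈ W ∧ (∀ j, B ((N ^ j) x') x' = 0) ∧ (∀ j, B ((N ^ j) y') y' = 0) ∧
      ∀ j, B ((N ^ j) x') y' = if j + 1 = k then 1 else 0 := by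
  have hev : Odd (k - 1) := by
    have hk0 : k ≠ 0 := by
      rintro rfl
      have h0 := hk x hx
      simp at h0
      rw [h0] at hc
      simp at hc
    rw [Nat.even_iff] at hko; rw [Nat.odd_iff]; omega
  have hflip : ∀ p q, B ((N ^ (k - 1)) p) q = -B ((N ^ (k - 1)) q) p := fun p q => by
    rw [skew_pow B N hN, hev.neg_one_pow, neg_one_mul, hsym]
  obtain ⟨x₁, hx₁, hx₁c, hx₁i⟩ := exists_isotropic hN hsym hW hk h2 hko hx hy (by rw [hc]; exact one_ne_zero)
  rw [hc] at hx₁c
  obtain ⟨y₁, hy₁, hy₁c, hy₁i⟩ := exists_isotropic hN hsym hW hk h2 hko hy hx₁ (by rw [hflip, hx₁c]; simp)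
  rw [hflip y x₁, hx₁c, hflip] at hy₁c
  have hc1 : B ((N ^ (k - 1)) x₁) y₁ = 1 := neg_injective hy₁c
  obtain ⟨y₂, ⟨hy₂, hy₂i, hy₂c⟩, h⟩ := exists_descend
    (P := fun z => z ∈ W ∧ (∀ j, B ((N ^ j) z) z = 0) ∧ B ((N ^ (k - 1)) x₁) z = 1)
    (fun z l => B ((N ^ l) x₁) z) k (fun z j hz hj hlow => by
      obtain ⟨hz, hzi, hzc⟩ := hz
      set i := k - 1 - j with hi
      set t := -(B ((N ^ j) x₁) z) * (-1 : F) ^ i with ht
      have hm : ∀ l, B ((N ^ l) x₁) (z + t • (N ^ i) z) =
          B ((N ^ l) x₁) z + t * ((-1 : F) ^ i * B ((N ^ (l + i)) x₁) z) := fun l => by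
        rw [map_add, map_smul, smul_eq_mul]
        congr 2
        rw [show l + i = i + l by omega, pow_add, Module.End.mul_apply, skew_pow B N hN i ((N ^ l) x₁) z,
          ← mul_assoc, ← mul_pow, show (-1 : F) * -1 = 1 by ring, one_pow, one_mul]
      refine ⟨z + t • (N ^ i) z, ⟨add_mem hz (W.smul_mem _ (pow_mem_W hW i hz)), fun l => ?_, ?_⟩,
        fun l h1 h3 => ?_⟩
      · rw [moment_add hN, hzi, hzi, hzi]; ring
      · rw [hm, hzc, kill_ge hk (show k ≤ k - 1 + i by omega) hx₁, map_zero, LinearMap.zero_apply]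
        ring
      · show B ((N ^ l) x₁) (z + t • (N ^ i) z) = 0
        rw [hm]
        rcases eq_or_lt_of_le h1 with rfl | h1
        · rw [show j + i = k - 1 by omega, hzc, ht, mul_one, mul_assoc, ← mul_pow,
            show (-1 : F) * -1 = 1 by ring, one_pow]
          ring
        · rw [hlow l h1 h3, kill_ge hk (show k ≤ l + i by omega) hx₁, map_zero, LinearMap.zero_apply]
          ring)
    (x := y₁) ⟨hy₁, hy₁i, hc1⟩
  refine ⟨x₁, y₂, hx₁, hy₂, hx₁i, hy₂i, fun j => ?_⟩
  rcases lt_trichotomy (j + 1) k with hj | hj | hj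
  · rw [if_neg hj.ne]; exact h j hj
  · rw [if_pos hj, show j = k - 1 by omega, hy₂c]
  · rw [if_neg hj.ne', kill_ge hk (by omega) hx₁, map_zero, LinearMap.zero_apply]

end Exists

section Main

variable [FiniteDimensional F V] [Finite F]

/-- In a finite field, a nonzero element is a square times `1` or a square times a fixed nonsquare. -/
theorem exists_scale {δ : F} (hδ : ¬ IsSquare δ) {a : F} (ha : a ≠ 0) :
    ∃ s : F, s * s * a = 1 ∨ s * s * a = δ := by
  have := Fintype.ofFinite F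
  classical
  have hδ0 : δ ≠ 0 := fun h => hδ (h ▸ IsSquare.zero)
  by_cases h : IsSquare a
  · obtain ⟨r, rfl⟩ := h
    have hr : r ≠ 0 := fun h => ha (by rw [h, mul_zero])
    exact ⟨r⁻¹, Or.inl (by field_simp)⟩
  · have e : IsSquare (δ / a) := by
      have h1 : quadraticChar F δ = -1 := quadraticChar_neg_one_iff_not_isSquare.2 hδ
      have h3 : quadraticChar F a⁻¹ = -1 := quadraticChar_neg_one_iff_not_isSquare.2 (by simpa using h)
      refine (quadraticChar_one_iff_isSquare (div_ne_zero hδ0 ha)).1 ?_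
      rw [div_eq_mul_inv, map_mul, h1, h3]; rfl
    obtain ⟨s, hs⟩ := e
    exact ⟨s, Or.inr (by rw [← hs]; field_simp)⟩

/-- Nondegenerate invariant subspaces have data. -/
theorem exists_data (hN : ∀ x y, B (N x) y = -B x (N y)) (hsym : ∀ x y, B x y = B y x) (h2 : (2 : F) ≠ 0) {δ : F}
    (hδ : ¬ IsSquare δ) (W : Submodule F V) (hW : ∀ x ∈ W, N x ∈ W)
    (hnd : ∀ x ∈ W, (∀ y ∈ W, B x y = 0) → x = 0) (k : ℕ) (hk : ∀ x ∈ W, (N ^ k) x = 0) :
    ∃ D, HasData δ B N W D ∧ (∀ b ∈ D, 0 < b.1 ∧ b.1 ≤ k ∧ (Even b.1 → b.2 = false)) ∧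
      ∀ k', D.count (k', true) ≤ 1 := by
  classical
  have hδ0 : δ ≠ 0 := fun h => hδ (h ▸ IsSquare.zero)
  induction hd : finrank F W using Nat.strong_induction_on generalizing W k with
  | _ d ih =>
  subst hd
  by_cases hbot : W = ⊥
  · exact ⟨0, ⟨PEmpty, inferInstance, fun i => i.elim, fun i => i.elim,
      ⟨fun i => i.elim, fun i => i.elim, by rw [hbot]; exact (Submodule.span_eq_bot.2 (by rintro _ ⟨⟨i, _⟩, rfl⟩; exact i.elim)).symm⟩,
      by simp⟩, by simp, by simp⟩
  -- the least index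
  have hex : ∃ k, ∀ x ∈ W, (N ^ k) x = 0 := ⟨k, hk⟩
  set m := Nat.find hex with hm
  have hmk : m ≤ k := Nat.find_le hk
  have hmW : ∀ x ∈ W, (N ^ m) x = 0 := Nat.find_spec hex
  have hm0 : 0 < m := by
    refine Nat.pos_of_ne_zero fun h0 => hbot ((Submodule.eq_bot_iff W).2 fun x hx => ?_)
    simpa [h0] using hmW x hx
  have htop : ∃ x ∈ W, ∃ y ∈ W, B ((N ^ (m - 1)) x) y ≠ 0 := by
    by_contra h
    push Not at h
    exact Nat.find_min hex (show m - 1 < m by omega) fun x hx => hnd _ (pow_mem_W hW _ hx) fun y hy => h x hx y hy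
  -- one block
  obtain ⟨b, v, hv, hbm, hblk, hext⟩ : ∃ (b : Blk) (v : Fin (rk b) → V), (∀ a, v a ∈ W) ∧ b.1 = m ∧
      IsBlock B N δ b v ∧ (b.2 = true → ∀ z ∈ W, (∀ a l, B z ((N ^ l) (v a)) = 0) → (N ^ (m - 1)) z = 0 ∨
        B ((N ^ (m - 1)) z) z = 0) := by
    rcases Nat.even_or_odd' m with ⟨w, hw | hw⟩
    rotate_left
    · have ho : Odd m := ⟨w, hw⟩
      have hne : ¬ Even m := Nat.not_even_iff_odd.2 ho
      have hev : Even (m - 1) := by rw [Nat.odd_iff] at ho; rw [Nat.even_iff]; omega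
      have hs2 : ∀ p q, B ((N ^ (m - 1)) p) q = B ((N ^ (m - 1)) q) p := fun p q => by
        rw [skew_pow B N hN, hev.neg_one_pow, one_mul, hsym]
      obtain ⟨x, hx, hxc⟩ : ∃ x ∈ W, B ((N ^ (m - 1)) x) x ≠ 0 := by
        obtain ⟨x, hx, y, hy, hxy⟩ := htop
        by_contra h
        push Not at h
        have := h (x + y) (add_mem hx hy)
        simp only [map_add, LinearMap.add_apply, h x hx, h y hy, hs2 y x, zero_add, add_zero] at this
        exact hxy ((mul_eq_zero.1 (show (2 : F) * B ((N ^ (m - 1)) x) y = 0 by linear_combination this)).resolve_left h2)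
      have hrk : ∀ δ', rk (m, δ') = 1 := fun δ' => by simp [rk, hne]
      have hbk : ∀ (δ' : Bool) (w : V), w ∈ W → (∀ j, B ((N ^ j) w) w = if j + 1 = m then val δ (m, δ') 0 else 0) →
          IsBlock B N δ (m, δ') fun _ : Fin (rk (m, δ')) => w := fun δ' w hw hg =>
        { pos := hm0
          even_false := fun h => absurd h hne
          kill := fun _ => hmW w hw
          gram := fun a a' j => by
            have ha : (a : ℕ) = 0 := by have := a.isLt; have := hrk δ'; omega
            have ha' : (a' : ℕ) = 0 := by have := a'.isLt; have := hrk δ'; omega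
            rw [hg, ha, ha', hrk]
            simp }
      have hscale : ∀ (s : F) (w : V), B ((N ^ (m - 1)) (s • w)) (s • w) = s * s * B ((N ^ (m - 1)) w) w := fun s w => by
        simp only [map_smul, LinearMap.smul_apply, smul_eq_mul]; ring
      by_cases h1 : ∃ w ∈ W, B ((N ^ (m - 1)) w) w = 1
      · obtain ⟨w, hw, hwc⟩ := h1
        obtain ⟨y, hy, hyc⟩ := exists_norm_single hN hsym hW hmW h2 ho hw (by rw [hwc]; exact one_ne_zero)
        refine ⟨(m, false), fun _ => y, fun _ => hy, rfl, hbk false y hy fun j => ?_, fun h => by simp at h⟩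
        rw [hyc, hwc]
        simp [val, hne]
      · obtain ⟨s, hs | hs⟩ := exists_scale hδ hxc
        · exact absurd ⟨s • x, W.smul_mem _ hx, by rw [hscale, hs]⟩ h1
        obtain ⟨y, hy, hyc⟩ := exists_norm_single hN hsym hW hmW h2 ho (W.smul_mem s hx) (by rw [hscale, hs]; exact hδ0)
        refine ⟨(m, true), fun _ => y, fun _ => hy, rfl, hbk true y hy fun j => ?_, fun _ z hz hzo => Or.inr ?_⟩
        · rw [hyc, hscale, hs]
          simp [val, hne]
        · by_contra hzc
          have := Fintype.ofFinite F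
          have hyd : B ((N ^ (m - 1)) y) y = δ := by rw [hyc, hscale, hs, if_pos (by omega)]
          have hcross : B ((N ^ (m - 1)) z) y = 0 := by
            rw [skew_pow B N hN, hzo ⟨0, by rw [hrk]; norm_num⟩ (m - 1), mul_zero]
          obtain ⟨a, c, hac⟩ := FiniteField.exists_root_sum_quadratic
            (f := Polynomial.C δ * Polynomial.X ^ 2) (g := Polynomial.C (B ((N ^ (m - 1)) z) z) * Polynomial.X ^ 2 - 1)
            (by rw [Polynomial.degree_C_mul_X_pow 2 hδ0]; rfl)
            (by rw [Polynomial.degree_sub_eq_left_of_degree_lt] <;> simp [Polynomial.degree_C_mul_X_pow 2 hzc])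
            (by
              have hch : ringChar F ≠ 2 := fun h => h2 (by exact_mod_cast (ringChar.spec F 2).2 (by rw [h]))
              exact Nat.odd_iff.1 (Nat.odd_iff.2 (FiniteField.odd_card_of_char_ne_two hch)))
          refine h1 ⟨a • y + c • z, add_mem (W.smul_mem _ hy) (W.smul_mem _ hz), ?_⟩
          simp only [map_add, map_smul, LinearMap.add_apply, LinearMap.smul_apply, smul_eq_mul, hyd, hcross,
            hs2 y z]
          simp at hac
          linear_combination hac
    · have he : Even m := ⟨w, by rw [hw]; ring⟩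
      have hodd : Odd (m - 1) := by rw [Nat.even_iff] at he; rw [Nat.odd_iff]; omega
      obtain ⟨x, hx, y, hy, hxy⟩ := htop
      have hx' : B ((N ^ (m - 1)) ((B ((N ^ (m - 1)) x) y)⁻¹ • x)) y = 1 := by
        rw [map_smul, map_smul, LinearMap.smul_apply, smul_eq_mul, inv_mul_cancel₀ hxy]
      obtain ⟨x', y', hx'W, hy'W, hxi, hyi, hxy'⟩ :=
        exists_norm_pair hN hsym hW hmW h2 he (W.smul_mem _ hx) hy hx'
      have hrk : rk (m, false) = 2 := by simp [rk, he]
      have hyx : ∀ j, B ((N ^ j) y') x' = if j + 1 = m then -1 else 0 := fun j => by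
        rw [skew_pow B N hN, hsym, hxy']
        split_ifs with h
        · rw [show j = m - 1 by omega, hodd.neg_one_pow]; ring
        · simp
      refine ⟨(m, false), fun a => if (a : ℕ) = 0 then x' else y',
        fun a => by dsimp only; split_ifs <;> assumption, rfl,
        { pos := hm0
          even_false := fun _ => rfl
          kill := fun a => by dsimp only; split_ifs <;> exact hmW _ (by assumption)
          gram := fun a a' j => ?_ }, fun h => by simp at h⟩
      have ha := a.isLt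
      have ha' := a'.isLt
      have hv : ∀ r : ℕ, val δ (m, false) r = if r = 0 then 1 else -1 := fun r => by simp [val, he]
      rw [hv]
      simp only [hrk] at ha ha' ⊢
      rcases (show (a : ℕ) = 0 ∨ (a : ℕ) = 1 by omega) with e | e <;>
        rcases (show (a' : ℕ) = 0 ∨ (a' : ℕ) = 1 by omega) with e' | e' <;>
        simp [e, e', hxi, hyi, hxy', hyx]
  -- splitting
  have hfam : Fam δ B N (Submodule.span F (Set.range fun x : Σ _ : Unit, Fin (rk b) × Fin b.1 =>
      (N ^ (x.2.2 : ℕ)) (v x.2.1))) Unit (fun _ => b) (fun _ => v) :=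
    ⟨fun _ => hblk, fun i i' h => absurd (Subsingleton.elim i i') h, rfl⟩
  let W' : Submodule F V := W ⊓ ⨅ a : Fin (rk b), ⨅ l : Fin b.1, LinearMap.ker (B.flip ((N ^ (l : ℕ)) (v a)))
  have hmem : ∀ z, z ∈ W' ↔ z ∈ W ∧ ∀ (a : Fin (rk b)) (l : Fin b.1), B z ((N ^ (l : ℕ)) (v a)) = 0 := fun z => by
    simp [W', Submodule.mem_iInf]
  have hgen : ∀ z ∈ W', ∀ a (l : ℕ), B z ((N ^ l) (v a)) = 0 := fun z hz a l => by
    by_cases hl : l < b.1
    · exact ((hmem z).1 hz).2 a ⟨l, hl⟩
    · rw [kill_ge hmW (show m ≤ l by omega) (hv a), map_zero]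
  have hW' : ∀ z ∈ W', N z ∈ W' := fun z hz => (hmem _).2 ⟨hW z ((hmem z).1 hz).1, fun a l => by
    rw [hN, ← Module.End.mul_apply, ← pow_succ', hgen z hz, neg_zero]⟩
  have hgW : ∀ x : Σ _ : Unit, Fin (rk b) × Fin b.1, (N ^ (x.2.2 : ℕ)) (v x.2.1) ∈ W :=
    fun x => pow_mem_W hW _ (hv _)
  have hdec : ∀ z ∈ W, ∃ c : (Σ _ : Unit, Fin (rk b) × Fin b.1) → F,
      z - ∑ x, c x • (N ^ (x.2.2 : ℕ)) (v x.2.1) ∈ W' := fun z hz => by
    refine ⟨fun x => B z ((N ^ (x.2.2.rev : ℕ)) (v x.2.1.rev)) / ((-1 : F) ^ (x.2.2.rev : ℕ) * val δ b x.2.1), ?_⟩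
    refine (hmem _).2 ⟨sub_mem hz (sum_mem fun x _ => W.smul_mem _ (hgW x)), fun a l => ?_⟩
    rw [map_sub, LinearMap.sub_apply, hfam.pairing hN _ () a l]
    dsimp only
    rw [Fin.rev_rev, Fin.rev_rev, div_mul_cancel₀ _ (mul_ne_zero (pow_ne_zero _ (neg_ne_zero.2 one_ne_zero))
      (val_ne_zero hδ0 _ _)), sub_self]
  have hnd' : ∀ z ∈ W', (∀ y ∈ W', B z y = 0) → z = 0 := fun z hz h => by
    refine hnd z ((hmem z).1 hz).1 fun y hy => ?_
    obtain ⟨c, hc⟩ := hdec y hy
    have h3 := h _ hc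
    rw [map_sub, map_sum, sub_eq_zero] at h3
    rw [h3]
    exact Finset.sum_eq_zero fun x _ => by rw [map_smul, hgen z hz, smul_zero]
  have hlt : finrank F W' < finrank F W := by
    refine Submodule.finrank_lt_finrank_of_lt (lt_of_le_of_ne inf_le_left fun heq => ?_)
    have ha : 0 < rk b := by unfold rk; split_ifs <;> norm_num
    have hl : 0 < b.1 := hblk.pos
    set a : Fin (rk b) := ⟨0, ha⟩
    set l : Fin b.1 := ⟨b.1 - 1, by omega⟩
    have h3 := hgen (v a) (show v a ∈ W' by rw [show W' = W from heq]; exact hv a) a.rev l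
    have h4 := hblk.gram' hN a a.rev 0 l
    rw [pow_zero, Module.End.one_apply, h3, if_pos ⟨by rw [Fin.val_rev]; omega, by simp [l]; omega⟩] at h4
    exact mul_ne_zero (pow_ne_zero _ (neg_ne_zero.2 one_ne_zero)) (val_ne_zero hδ0 _ _) h4.symm
  obtain ⟨k', hk', hk'm, hk'b⟩ : ∃ k', (∀ z ∈ W', (N ^ k') z = 0) ∧ k' ≤ m ∧ (b.2 = true → k' < m) := by
    by_cases hb2 : b.2 = true
    · refine ⟨m - 1, fun z hz => ?_, by omega, fun _ => by omega⟩
      have hq : ∀ w ∈ W', B ((N ^ (m - 1)) w) w = 0 := fun w hw => by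
        rcases hext hb2 w ((hmem w).1 hw).1 (hgen w hw) with h | h
        · rw [h, map_zero, LinearMap.zero_apply]
        · exact h
      have hne : ¬ Even m := by
        intro h
        have := hblk.even_false (hbm ▸ h)
        rw [hb2] at this
        simp at this
      have hev : Even (m - 1) := by rw [Nat.not_even_iff] at hne; rw [Nat.even_iff]; omega
      have hs2 : ∀ p q, B ((N ^ (m - 1)) p) q = B ((N ^ (m - 1)) q) p := fun p q => by
        rw [skew_pow B N hN, hev.neg_one_pow, one_mul, hsym]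
      refine hnd' _ (pow_mem_W hW' _ hz) fun y hy => ?_
      have h5 := hq (z + y) (add_mem hz hy)
      simp only [map_add, LinearMap.add_apply, hq z hz, hq y hy, hs2 y z, zero_add, add_zero] at h5
      exact (mul_eq_zero.1 (show (2 : F) * B ((N ^ (m - 1)) z) y = 0 by linear_combination h5)).resolve_left h2
    · exact ⟨m, fun z hz => hmW z ((hmem z).1 hz).1, le_rfl, fun h => absurd h hb2⟩
  obtain ⟨D, ⟨ι, hι, bs, vs, hf, hD⟩, hDk, hD1⟩ := ih _ hlt W' hW' hnd' k' hk' rfl
  have hvs : ∀ i a l, (N ^ l) (vs i a) ∈ W' := fun i a l => pow_mem_W hW' l (by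
    rw [hf.span]
    exact Submodule.subset_span ⟨⟨i, a, ⟨0, (hf.blk i).pos⟩⟩, by simp⟩)
  refine ⟨b ::ₘ D, ⟨Option ι, inferInstance, fun i => i.elim b bs,
    fun i => match i with | none => v | some j => vs j, ⟨?_, ?_, ?_⟩, ?_⟩, ?_, ?_⟩
  · rintro (_ | j)
    exacts [hblk, hf.blk j]
  · rintro (_ | j) (_ | j') hne a a' l l'
    · exact absurd rfl hne
    · rw [hsym]; exact hgen _ (hvs j' a' l') a l
    · exact hgen _ (hvs j a l) a' l'
    · exact hf.orth j j' (fun h => hne (h ▸ rfl)) a a' l l'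
  · refine le_antisymm (fun z hz => ?_) (Submodule.span_le.2 ?_)
    · obtain ⟨c, hc⟩ := hdec z hz
      have e : z = (z - ∑ x, c x • (N ^ (x.2.2 : ℕ)) (v x.2.1)) + ∑ x, c x • (N ^ (x.2.2 : ℕ)) (v x.2.1) := by simp
      rw [e]
      refine add_mem ?_ (sum_mem fun x _ => Submodule.smul_mem _ _ (Submodule.subset_span ⟨⟨none, x.2⟩, rfl⟩))
      rw [hf.span] at hc
      refine Submodule.span_mono ?_ hc
      rintro _ ⟨⟨j, p⟩, rfl⟩
      exact ⟨⟨some j, p⟩, rfl⟩
    · rintro _ ⟨⟨_ | j, p⟩, rfl⟩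
      exacts [hgW ⟨(), p⟩, ((hmem _).1 (hvs j p.1 p.2)).1]
  · rw [hD]
    simp only [univ_option, Finset.insertNone, OrderEmbedding.coe_ofMapLEIff, Finset.cons_val, Finset.map_val, Multiset.map_cons, Multiset.map_map, Function.comp_def]
    rfl
  · intro c hc
    rcases Multiset.mem_cons.1 hc with rfl | hc
    · exact ⟨hblk.pos, hbm ▸ hmk, hblk.even_false⟩
    · exact ⟨(hDk c hc).1, (hDk c hc).2.1.trans (hk'm.trans hmk), (hDk c hc).2.2⟩
  · intro r
    rw [Multiset.count_cons]
    split_ifs with h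
    · have hb2 : b.2 = true := by rw [← h]
      have : D.count (r, true) = 0 := Multiset.count_eq_zero.2 fun hr => by
        have := (hDk _ hr).2.1
        have := hk'b hb2
        have : r = m := by rw [← hbm, ← h]
        simp only at *
        omega
      omega
    · simpa using hD1 r

end Main

end CfsgLib.CharDegrees.ClassCount.Orth
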