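import Cfsg.Agent.Lib.CharDegrees.ClassCount.OOddClasses
import Cfsg.Agent.Lib.Parabolic.OrthSpinor
import Cfsg.Agent.Lib.Forms.OrthAbel

/-!
Involutions in the centraliser attached to the blocks of odd size, and their spinor signs.
-/

set_option autoImplicit false
set_option linter.unusedSectionVars false

namespace CfsgLib.CharDegrees.ClassCount.Orth.Odd

open Module
open CfsgLib.OrthGen
open CfsgLib.CharDegrees.ClassCount.Sp (Split restr coe_restr negEquiv negEquiv_apply skew_sub_inv eq_of_sub_inv kill_neg)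

universe u

/-- A unit commuting with `U - U⁻¹` commutes with the unipotent unit `U`. -/
theorem commute_of_sub_inv {E : Type*} [Ring E] {p : ℕ} [Fact p.Prime] (hp2 : p ≠ 2) (hp : (p : E) = 0)
    (U Z : Eˣ) {D : ℕ} (hU : ((U : E) - 1) ^ D = 0) (h : (Z : E) * ((U : E) - ↑U⁻¹) = ((U : E) - ↑U⁻¹) * Z) :
    (Z : E) * U = U * Z := by
  have e := eq_of_sub_inv hp2 hp (Z * U * Z⁻¹) U (D := D) ?_ hU ?_
  · have := congrArg (fun W : Eˣ => (W : E) * Z) e
    simpa [mul_assoc] using this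
  · have e : ((Z * U * Z⁻¹ : Eˣ) : E) - 1 = (Z : E) * ((U : E) - 1) * ↑Z⁻¹ := by
      simp [mul_sub, sub_mul, mul_assoc]
    rw [e, Units.conj_pow, hU, mul_zero, zero_mul]
  · calc ((Z * U * Z⁻¹ : Eˣ) : E) - ↑(Z * U * Z⁻¹)⁻¹ = (Z : E) * ((U : E) - ↑U⁻¹) * ↑Z⁻¹ := by
          simp [mul_sub, sub_mul, mul_assoc, mul_inv_rev]
      _ = _ := by rw [h, Units.mul_inv_cancel_right]

variable {F : Type u} [Field F] [Fintype F] {ι : Type} [Fintype ι] [DecidableEq ι] {Q : QuadraticForm F (ι → F)}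

/-- The determinant of an isometry. -/
abbrev dt (z : Cfsg.isometryGroup F (⇑Q)) : F := ((z : Matrix.GeneralLinearGroup ι F) : Matrix ι ι F).det

open Classical in
/-- The spinor sign of a hyperbolic pair of reflections. -/
noncomputable def pairSign (F : Type u) [Field F] : ℤˣ := if IsSquare (-1 : F) then 1 else -1

open Classical in
/-- The spinor sign of a reflection in a vector of norm `1 / a`. -/
noncomputable def sgn (a : F) : ℤˣ := if IsSquare a then -1 else 1

theorem spinSign_eq_sgn (h2 : (2 : F) ≠ 0) {v : ι → F} (hv : Q v ≠ 0) :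
    spinSign Q 1 (refl Q hv) = sgn (1 / Q v) := by
  classical
  rw [sgn]
  split_ifs with h
  · exact (spinSign_refl h2 one_ne_zero hv).2 h
  · exact (spinSign_refl' h2 one_ne_zero hv).2 h

/-- A hyperbolic pair is negated by two reflections. -/
theorem exists_pair (h2 : (2 : F) ≠ 0) {a b : ι → F} (ha : Q a = 0) (hb : Q b = 0) (hab : pf Q a b ≠ 0) :
    ∃ z : Cfsg.isometryGroup F (⇑Q), dt z = 1 ∧ spinSign Q 1 z = pairSign F ∧ act Q z a = -a ∧ act Q z b = -b ∧
      ∀ x, pf Q a x = 0 → pf Q b x = 0 → act Q z x = x := by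
  classical
  have haa : pf Q a a = 0 := by rw [pf_self, ha, mul_zero]
  have hbb : pf Q b b = 0 := by rw [pf_self, hb, mul_zero]
  have hba : pf Q b a = pf Q a b := pf_comm Q b a
  have hp : Q (a + b) = pf Q a b := by rw [Q_add, ha, hb]; ring
  have hm : Q (a - b) = -pf Q a b := by rw [Q_sub, ha, hb]; ring
  have hp0 : Q (a + b) ≠ 0 := hp ▸ hab
  have hm0 : Q (a - b) ≠ 0 := hm ▸ neg_ne_zero.2 hab
  have hl : ∀ x, pf Q (a + b) x = pf Q a x + pf Q b x := fun x => QuadraticMap.polar_add_left Q a b x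
  have hl' : ∀ x, pf Q (a - b) x = pf Q a x - pf Q b x := fun x => QuadraticMap.polar_sub_left Q a b x
  refine ⟨refl Q hp0 * refl Q hm0, ?_, ?_, ?_, ?_, fun x hx hy => ?_⟩
  · rw [dt, Subgroup.coe_mul, Units.val_mul, Matrix.det_mul, CfsgLib.Forms.det_refl, CfsgLib.Forms.det_refl,
      neg_mul_neg, one_mul]
  · rw [map_mul, spinSign_eq_sgn h2, spinSign_eq_sgn h2, hp, hm, sgn, sgn, pairSign]
    have hi : (1 : F) / pf Q a b ≠ 0 := one_div_ne_zero hab
    have key : IsSquare (1 / pf Q a b * (1 / -pf Q a b)) ↔ IsSquare (-1 : F) := by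
      rw [show 1 / pf Q a b * (1 / -pf Q a b) = (1 / pf Q a b) ^ 2 * -1 by field_simp,
        CfsgLib.Classes.isSquare_sq_mul_iff hi]
    rw [CfsgLib.Classes.isSquare_mul_iff h2 hi (one_div_ne_zero (neg_ne_zero.2 hab))] at key
    generalize 1 / pf Q a b = A at key ⊢
    generalize 1 / -pf Q a b = A' at key ⊢
    by_cases h1 : IsSquare A <;> by_cases h3 : IsSquare A' <;>
      by_cases h5 : IsSquare (-1 : F) <;> simp [h1, h3, h5] at key ⊢
  · rw [act_mul, act_refl Q hm0, hl', haa, hba, hm, zero_sub, inv_mul_cancel₀ (neg_ne_zero.2 hab), one_smul,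
      sub_sub_cancel, act_refl Q hp0, hl, hbb, hp, add_zero, inv_mul_cancel₀ hab, one_smul]
    abel
  · have e : (-pf Q a b)⁻¹ * (pf Q a b - pf Q b b) = -1 := by rw [hbb]; field_simp; ring
    rw [act_mul, act_refl Q hm0, hl', hm, e, neg_smul, one_smul, sub_neg_eq_add, add_sub_cancel,
      act_refl Q hp0, hl, haa, hba, hp, zero_add, inv_mul_cancel₀ hab, one_smul]
    abel
  · rw [act_mul, act_refl_of_orth Q hm0 (by rw [hl', hx, hy, sub_zero]),
      act_refl_of_orth Q hp0 (by rw [hl, hx, hy, add_zero])]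

/-- The involution of a block of odd size. -/
theorem exists_block_involution (h2 : (2 : F) ≠ 0) {N : Module.End F (ι → F)}
    (hN : ∀ x y, pf Q (N x) y = -pf Q x (N y)) {v : ι → F} {m : ℕ} {c : F} (hc : c ≠ 0)
    (hkill : (N ^ (2 * m + 1)) v = 0) (hmom : ∀ j, pf Q ((N ^ j) v) v = if j = 2 * m then c else 0) :
    ∃ z : Cfsg.isometryGroup F (⇑Q), dt z = -1 ∧ spinSign Q 1 z = pairSign F ^ m * sgn (2 * (-1) ^ m / c) ∧
      (∀ x, act Q z (N x) = N (act Q z x)) ∧ (∀ x, act Q z (act Q z x) = x) ∧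
      (∀ (K : Submodule F (ι → F)), (∀ l, (N ^ l) v ∈ K) → ∀ x ∈ K, act Q z x ∈ K) ∧
      ∀ x, (∀ l, pf Q ((N ^ l) v) x = 0) → act Q z x = x := by
  classical
  let B := QuadraticMap.polarBilin (Q : QuadraticForm F (ι → F))
  set f : ℕ → (ι → F) := fun l => (N ^ l) v with hf
  have hgram : ∀ l l', pf Q (f l) (f l') = if l + l' = 2 * m then (-1 : F) ^ l' * c else 0 := fun l l' => by
    have e : pf Q ((N ^ l') (f l)) v = (-1 : F) ^ l' * pf Q (f l) (f l') := skew_pow B N hN l' (f l) v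
    rw [show (N ^ l') (f l) = (N ^ (l + l')) v by rw [hf, ← Module.End.mul_apply, ← pow_add, add_comm], hmom] at e
    calc pf Q (f l) (f l') = (-1 : F) ^ l' * ((-1 : F) ^ l' * pf Q (f l) (f l')) := by
          rw [← mul_assoc, ← mul_pow, neg_one_mul, neg_neg, one_pow, one_mul]
      _ = _ := by rw [← e, mul_ite, mul_zero]
  have hlast : ∀ l, 2 * m < l → f l = 0 := fun l hl => by
    rw [hf, show l = (l - (2 * m + 1)) + (2 * m + 1) by omega]
    dsimp only
    rw [pow_add, Module.End.mul_apply, hkill, map_zero]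
  have hQ0 : ∀ l, l ≠ m → Q (f l) = 0 := fun l hl => by
    have := hgram l l
    rw [pf_self, if_neg (by omega)] at this
    exact (mul_eq_zero.1 this).resolve_left h2
  have hQm : Q (f m) = (-1 : F) ^ m * c / 2 := by
    have := hgram m m
    rw [pf_self, if_pos (by ring)] at this
    rw [eq_div_iff h2, ← this]
    ring
  have hpairs : ∀ j, j ≤ m → ∃ z : Cfsg.isometryGroup F (⇑Q), dt z = 1 ∧ spinSign Q 1 z = pairSign F ^ j ∧
      (∀ l ≤ 2 * m, act Q z (f l) = if l < j ∨ 2 * m - j < l then -f l else f l) ∧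
      ∀ x, (∀ l, pf Q (f l) x = 0) → act Q z x = x := by
    intro j
    induction j with
    | zero =>
      intro _
      refine ⟨1, by simp [dt], by simp, fun l hl => ?_, fun x _ => act_one x⟩
      rw [act_one, if_neg (by omega)]
    | succ j ih =>
      intro hj
      obtain ⟨z, hz1, hz2, hz3, hz4⟩ := ih (by omega)
      obtain ⟨w, hw1, hw2, hwa, hwb, hw4⟩ := exists_pair h2 (hQ0 j (by omega)) (hQ0 (2 * m - j) (by omega))
        (show pf Q (f j) (f (2 * m - j)) ≠ 0 by
          rw [hgram, if_pos (by omega)]; exact mul_ne_zero (pow_ne_zero _ (neg_ne_zero.2 one_ne_zero)) hc)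
      refine ⟨w * z, ?_, by rw [map_mul, hw2, hz2, pow_succ'], fun l hl => ?_, fun x hx => ?_⟩
      · simp only [dt] at hw1 hz1 ⊢
        rw [Subgroup.coe_mul, Units.val_mul, Matrix.det_mul, hw1, hz1, one_mul]
      · rw [act_mul, hz3 l hl]
        by_cases e1 : l = j
        · rw [if_neg (by omega), if_pos (by omega), e1, hwa]
        by_cases e2 : l = 2 * m - j
        · rw [if_neg (by omega), if_pos (by omega), e2, hwb]
        have hfix : act Q w (f l) = f l :=
          hw4 _ (by rw [hgram, if_neg (by omega)]) (by rw [hgram, if_neg (by omega)])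
        by_cases e3 : l < j ∨ 2 * m - j < l
        · rw [if_pos e3, if_pos (by omega), ← neg_one_smul F (f l), act_smul, hfix, neg_one_smul]
        · rw [if_neg e3, if_neg (by omega), hfix]
      · rw [act_mul, hz4 x hx, hw4 x (hx _) (hx _)]
  obtain ⟨z₀, hd, hs, ha, ho⟩ := hpairs m le_rfl
  have hm0 : Q (f m) ≠ 0 := by
    rw [hQm]; exact div_ne_zero (mul_ne_zero (pow_ne_zero _ (neg_ne_zero.2 one_ne_zero)) hc) h2
  set z := refl Q hm0 * z₀ with hz
  have hneg : ∀ l, act Q z (f l) = -f l := fun l => by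
    by_cases hl : l ≤ 2 * m
    · rw [hz, act_mul, ha l hl]
      by_cases e : l = m
      · rw [if_neg (by omega), e, act_refl_self Q]
      · rw [if_pos (by omega), ← neg_one_smul F (f l), act_smul,
          act_refl_of_orth Q hm0 (by rw [hgram, if_neg (by omega)]), neg_one_smul]
    · rw [hlast l (by omega), act_zero, neg_zero]
  have horth : ∀ x, (∀ l, pf Q (f l) x = 0) → act Q z x = x := fun x hx => by
    rw [hz, act_mul, ho x hx, act_refl_of_orth Q hm0 (hx m)]
  set W := Submodule.span F (Set.range f) with hW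
  have hWneg : ∀ w ∈ W, act Q z w = -w := fun w hw => by
    induction hw using Submodule.span_induction with
    | mem x hx => obtain ⟨l, rfl⟩ := hx; exact hneg l
    | zero => rw [act_zero, neg_zero]
    | add x y _ _ hx hy => rw [act_add, hx, hy, neg_add]
    | smul a x _ hx => rw [act_smul, hx, smul_neg]
  have hWN : ∀ w ∈ W, N w ∈ W := fun w hw => by
    induction hw using Submodule.span_induction with
    | mem x hx =>
      obtain ⟨l, rfl⟩ := hx
      refine Submodule.subset_span ⟨l + 1, ?_⟩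
      rw [hf]
      dsimp only
      rw [pow_succ', Module.End.mul_apply]
    | zero => rw [map_zero]; exact zero_mem _
    | add x y _ _ hx hy => rw [map_add]; exact add_mem hx hy
    | smul a x _ hx => rw [map_smul]; exact W.smul_mem _ hx
  have hdec : ∀ x, ∃ w ∈ W, ∃ y, (∀ l, pf Q (f l) y = 0) ∧ x = w + y := fun x => by
    refine ⟨∑ l ∈ Finset.range (2 * m + 1), (pf Q x (f (2 * m - l)) / ((-1) ^ (2 * m - l) * c)) • f l,
      sum_mem fun l _ => W.smul_mem _ (Submodule.subset_span ⟨l, rfl⟩), _, fun l => ?_, (add_sub_cancel _ x).symm⟩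
    rw [pf_comm]
    show B (x - _) (f l) = 0
    rw [map_sub, LinearMap.sub_apply, map_sum, LinearMap.sum_apply]
    by_cases hl : l ≤ 2 * m
    · rw [Finset.sum_eq_single (2 * m - l) (fun l' hl' hne => ?_) (fun h => absurd (Finset.mem_range.2 (by omega)) h)]
      · rw [map_smul, LinearMap.smul_apply, smul_eq_mul]
        show pf Q x (f l) - _ * pf Q (f (2 * m - l)) (f l) = 0
        rw [hgram, if_pos (by omega), show 2 * m - (2 * m - l) = l by omega,
          div_mul_cancel₀ _ (mul_ne_zero (pow_ne_zero _ (neg_ne_zero.2 one_ne_zero)) hc), sub_self]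
      · rw [map_smul, LinearMap.smul_apply, smul_eq_mul]
        show _ * pf Q (f l') (f l) = 0
        rw [Finset.mem_range] at hl'
        rw [hgram, if_neg (by omega), mul_zero]
    · rw [hlast l (by omega)]
      simp
  refine ⟨z, ?_, ?_, fun x => ?_, fun x => ?_, fun K hK x hx => ?_, horth⟩
  · simp only [dt] at hd ⊢
    rw [hz, Subgroup.coe_mul, Units.val_mul, Matrix.det_mul, CfsgLib.Forms.det_refl, hd, mul_one]
  · rw [hz, map_mul, hs, spinSign_eq_sgn h2, hQm, mul_comm]
    congr 2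
    rcases neg_one_pow_eq_or F m with e | e <;> rw [e] <;> field_simp
  · obtain ⟨w, hw, y, hy, rfl⟩ := hdec x
    have hNy : ∀ l, pf Q (f l) (N y) = 0 := fun l => by
      have e := hN (f l) y
      rw [show N (f l) = f (l + 1) by rw [hf]; dsimp only; rw [pow_succ', Module.End.mul_apply], hy] at e
      exact neg_eq_zero.1 e.symm
    rw [map_add, act_add, act_add, hWneg w hw, horth y hy, hWneg _ (hWN w hw), horth _ hNy, map_add, map_neg]
  · obtain ⟨w, hw, y, hy, rfl⟩ := hdec x
    rw [act_add, hWneg w hw, horth y hy, act_add, horth y hy, ← neg_one_smul F w, act_smul, hWneg w hw, neg_one_smul,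
      neg_neg]
  · obtain ⟨w, hw, y, hy, rfl⟩ := hdec x
    have hwK : w ∈ K := Submodule.span_le.2 (by rintro _ ⟨l, rfl⟩; exact hK l) hw
    rw [act_add, hWneg w hw, horth y hy]
    exact add_mem (neg_mem hwK) (by simpa using sub_mem hx hwK)

/-- The involution of a block commutes with the isometry. -/
theorem exists_commuting {p : ℕ} [Fact p.Prime] [CharP F p] (hp2 : p ≠ 2) (h2 : (2 : F) ≠ 0)
    (u : (ι → F) ≃ₗ[F] (ι → F)) (hu : ∀ x y, pf Q (u x) (u y) = pf Q x y) {K R : Submodule F (ι → F)}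
    (hKR : K ⊔ R = ⊤) (horth : ∀ x ∈ K, ∀ y ∈ R, pf Q x y = 0)
    (hK : ∀ x ∈ K, u x ∈ K ∧ u.symm x ∈ K) (hR : ∀ x ∈ R, u x ∈ R) {D : ℕ}
    (hk : ∀ x ∈ K, ((u.toLinearMap - 1) ^ D) x = 0) {v : ι → F} (hv : v ∈ K) {m : ℕ} {c : F} (hc : c ≠ 0)
    (hkill : ((u.toLinearMap - u.symm.toLinearMap) ^ (2 * m + 1)) v = 0)
    (hmom : ∀ j, pf Q (((u.toLinearMap - u.symm.toLinearMap) ^ j) v) v = if j = 2 * m then c else 0) :
    ∃ z : Cfsg.isometryGroup F (⇑Q), dt z = -1 ∧ spinSign Q 1 z = pairSign F ^ m * sgn (2 * (-1) ^ m / c) ∧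
      ∀ x, act Q z (u x) = u (act Q z x) := by
  classical
  set N := u.toLinearMap - u.symm.toLinearMap with hN
  obtain ⟨z, hz1, hz2, hzN, hzz, hzK, hzo⟩ :=
    exists_block_involution h2 (skew_sub_inv (QuadraticMap.polarBilin (Q : QuadraticForm F (ι → F))) u hu) hc hkill hmom
  have hNK : ∀ l, (N ^ l) v ∈ K := by
    intro l
    induction l with
    | zero => simpa using hv
    | succ l ih => rw [pow_succ', Module.End.mul_apply]; exact sub_mem (hK _ ih).1 (hK _ ih).2
  have hfix : ∀ y ∈ R, act Q z y = y := fun y hy => hzo y fun l => horth _ (hNK l) y hy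
  let zK : Module.End F K :=
    { toFun := fun x => ⟨act Q z x, hzK K hNK x x.2⟩
      map_add' := fun x y => Subtype.ext (act_add z _ _)
      map_smul' := fun a x => Subtype.ext (act_smul z a _) }
  let U : (Module.End F K)ˣ := LinearMap.GeneralLinearGroup.ofLinearEquiv (restr u K hK)
  let Z : (Module.End F K)ˣ :=
    ⟨zK, zK, LinearMap.ext fun x => Subtype.ext (hzz x), LinearMap.ext fun x => Subtype.ext (hzz x)⟩
  have hU : ((U : Module.End F K) - 1) ^ D = 0 := by
    have e : ∀ (n : ℕ) (x : K), ((((U : Module.End F K) - 1) ^ n) x : ι → F) = ((u.toLinearMap - 1) ^ n) (x : ι → F) := by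
      intro n
      induction n with
      | zero => intro x; rfl
      | succ n ih =>
        intro x
        rw [pow_succ, pow_succ, Module.End.mul_apply, Module.End.mul_apply, ih]
        rfl
    exact LinearMap.ext fun x => Subtype.ext ((e D x).trans (hk _ x.2))
  have hpE : (p : Module.End F K) = 0 := by
    rw [← map_natCast (algebraMap F (Module.End F K)), CharP.cast_eq_zero, map_zero]
  have hcomm := commute_of_sub_inv hp2 hpE U Z hU (LinearMap.ext fun x => Subtype.ext (hzN x))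
  refine ⟨z, hz1, hz2, fun x => ?_⟩
  obtain ⟨a, ha, b, hb, rfl⟩ := Submodule.mem_sup.1 (hKR.symm ▸ Submodule.mem_top : x ∈ K ⊔ R)
  have e : act Q z (u a) = u (act Q z a) := congrArg Subtype.val (LinearMap.congr_fun hcomm ⟨a, ha⟩)
  rw [map_add, act_add, act_add, hfix b hb, hfix _ (hR b hb), map_add, e]

/-- The value `c` is compatible with the spinor sign `s` of the centraliser. -/
def SignOK (s : ℤˣ) (m : ℕ) (c : F) : Prop := pairSign F ^ m * sgn (2 * (-1) ^ m / c) = s

theorem not_signOK_both (h2 : (2 : F) ≠ 0) {δ : F} (hδ : ¬ IsSquare δ) (s : ℤˣ) (m : ℕ) :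
    ¬ (SignOK s m (1 : F) ∧ SignOK s m δ) := by
  classical
  rintro ⟨h1, h3⟩
  have e := mul_left_cancel (h1.trans h3.symm)
  have ha : (2 * (-1) ^ m : F) ≠ 0 := mul_ne_zero h2 (pow_ne_zero _ (neg_ne_zero.2 one_ne_zero))
  have hδ0 : δ ≠ 0 := fun h => hδ (h ▸ IsSquare.zero)
  have key : IsSquare (2 * (-1) ^ m / δ) ↔ ¬ IsSquare (2 * (-1) ^ m : F) := by
    rw [div_eq_mul_inv, CfsgLib.Classes.isSquare_mul_iff h2 ha (inv_ne_zero hδ0), isSquare_inv]
    simp [hδ]
  rw [div_one, sgn, sgn] at e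
  by_cases h : IsSquare (2 * (-1) ^ m : F)
  · rw [if_pos h, if_neg fun h' => key.1 h' h] at e
    simp at e
  · rw [if_neg h, if_pos (key.2 h)] at e
    simp at e

open Classical in
/-- The sign of the blocks of size `2 m + 1` in a split class. -/
noncomputable def bsign (F : Type u) [Field F] [Fintype F] (s : ℤˣ) (m : ℕ) : Bool := !decide (SignOK s m (1 : F))

/-- In a split class the blocks of each odd size are single, with prescribed sign. -/
theorem blocks_of_cent (h2 : (2 : F) ≠ 0) {δ : F} (hδ : ¬ IsSquare δ) (s : ℤˣ) {N : Module.End F (ι → F)}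
    {K : Submodule F (ι → F)}
    {D : Multiset Blk} (hD : HasData δ (QuadraticMap.polarBilin (Q : QuadraticForm F (ι → F))) N K D)
    (hblk : ∀ (v : ι → F) (m : ℕ) (c : F), v ∈ K → c ≠ 0 → (N ^ (2 * m + 1)) v = 0 →
      (∀ j, pf Q ((N ^ j) v) v = if j = 2 * m then c else 0) → SignOK s m c) (m : ℕ) (b : Bool)
    (hb : (2 * m + 1, b) ∈ D) : b = bsign F s m ∧ D.count (2 * m + 1, b) ≤ 1 := by
  classical
  have hδ0 : δ ≠ 0 := fun h => hδ (h ▸ IsSquare.zero)
  obtain ⟨κ, hκ, bb, v, hf, rfl⟩ := hD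
  have hne : ¬ Even (2 * m + 1) := by simp [parity_simps]
  have hmem : ∀ i a, v i a ∈ K := fun i a => by
    rw [hf.span]; exact Submodule.subset_span ⟨⟨i, a, ⟨0, (hf.blk i).pos⟩⟩, by simp⟩
  have hval : ∀ b : Bool, val δ (2 * m + 1, b) 0 = if b then δ else 1 := fun b => by simp [val, hne]
  have hdata : ∀ i e, bb i = (2 * m + 1, e) → ∃ x ∈ K, (N ^ (2 * m + 1)) x = 0 ∧
      ∀ j, pf Q ((N ^ j) x) x = if j = 2 * m then (if e then δ else 1) else 0 := by
    intro i e hi
    have hr : 0 < rk (bb i) := by unfold rk; split_ifs <;> norm_num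
    refine ⟨v i ⟨0, hr⟩, hmem _ _, by simpa [hi] using (hf.blk i).kill ⟨0, hr⟩, fun j => ?_⟩
    have hg : pf Q ((N ^ j) (v i ⟨0, hr⟩)) (v i ⟨0, hr⟩) = _ := (hf.blk i).gram ⟨0, hr⟩ ⟨0, hr⟩ j
    rw [hg]
    simp only [hi, hval, rk, hne, if_false]
    by_cases hj : j = 2 * m <;> simp [hj]
  have hok : ∀ i e, bb i = (2 * m + 1, e) → SignOK s m (if e then δ else (1 : F)) := fun i e hi => by
    obtain ⟨x, hx, hk, hmo⟩ := hdata i e hi
    exact hblk x m _ hx (by cases e <;> simp [hδ0]) hk hmo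
  obtain ⟨i₀, -, hi₀⟩ := Multiset.mem_map.1 hb
  have hbs : b = bsign F s m := by
    have h := hok i₀ b hi₀
    cases b
    · simp only [Bool.false_eq_true, if_false] at h
      simp [bsign, h]
    · simp only [if_true] at h
      simpa [bsign] using fun h1 => not_signOK_both h2 hδ s m ⟨h1, h⟩
  refine ⟨hbs, ?_⟩
  by_contra hcnt
  rw [Multiset.count_map] at hcnt
  have hcard : 1 < (Finset.univ.filter fun i => (2 * m + 1, b) = bb i).card := not_le.1 hcnt
  obtain ⟨i, hi, i', hi', hii⟩ := Finset.one_lt_card.1 hcard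
  simp only [Finset.mem_filter, Finset.mem_univ, true_and] at hi hi'
  have hr : 0 < rk (bb i) := by unfold rk; split_ifs <;> norm_num
  have hr' : 0 < rk (bb i') := by unfold rk; split_ifs <;> norm_num
  set x := v i ⟨0, hr⟩ with hxdef
  set y := v i' ⟨0, hr'⟩ with hydef
  have hkill : ∀ (i : κ) (h : 0 < rk (bb i)), bb i = (2 * m + 1, b) → (N ^ (2 * m + 1)) (v i ⟨0, h⟩) = 0 :=
    fun i h e => by simpa [e] using (hf.blk i).kill ⟨0, h⟩
  have hmom : ∀ (i : κ) (h : 0 < rk (bb i)), bb i = (2 * m + 1, b) → ∀ j,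
      pf Q ((N ^ j) (v i ⟨0, h⟩)) (v i ⟨0, h⟩) = if j = 2 * m then (if b then δ else 1) else 0 := fun i h e j => by
    have hg : pf Q ((N ^ j) (v i ⟨0, h⟩)) (v i ⟨0, h⟩) = _ := (hf.blk i).gram ⟨0, h⟩ ⟨0, h⟩ j
    rw [hg]
    simp only [e, hval, rk, hne, if_false]
    by_cases hj : j = 2 * m <;> simp [hj]
  have hxy : ∀ j, pf Q ((N ^ j) x) y = 0 := fun j => by
    have h1 := hf.orth i i' hii ⟨0, hr⟩ ⟨0, hr'⟩ j 0
    simp only [pow_zero, Module.End.one_apply] at h1
    exact h1
  have hyx : ∀ j, pf Q ((N ^ j) y) x = 0 := fun j => by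
    have h1 := hf.orth i' i (Ne.symm hii) ⟨0, hr'⟩ ⟨0, hr⟩ j 0
    simp only [pow_zero, Module.End.one_apply] at h1
    exact h1
  -- a rotation gives the other value
  obtain ⟨a, a', haa⟩ : ∃ a a' : F, a * a + a' * a' = δ := by
    obtain ⟨a, a', h⟩ := FiniteField.exists_root_sum_quadratic (R := F)
      (f := Polynomial.X ^ 2 - Polynomial.C δ) (g := Polynomial.X ^ 2)
      (by rw [Polynomial.degree_X_pow_sub_C (by norm_num)]; rfl) (Polynomial.degree_X_pow 2)
      (FiniteField.odd_card_of_char_ne_two fun h => h2 (by exact_mod_cast (ringChar.spec F 2).2 (by rw [h])))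
    exact ⟨a, a', by simp at h; linear_combination h⟩
  set c₁ : F := if b then δ else 1 with hc₁
  have hc10 : c₁ ≠ 0 := by rw [hc₁]; split_ifs <;> simp [hδ0]
  have hnew : SignOK s m (δ * c₁) := by
    refine hblk (a • x + a' • y) m _ (add_mem (K.smul_mem _ (hmem _ _)) (K.smul_mem _ (hmem _ _)))
      (mul_ne_zero hδ0 hc10) (by rw [map_add, map_smul, map_smul, hkill i hr hi.symm, hkill i' hr' hi'.symm]; simp)
      fun j => ?_
    show QuadraticMap.polarBilin (Q : QuadraticForm F (ι → F)) ((N ^ j) (a • x + a' • y)) (a • x + a' • y) = _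
    simp only [map_add, map_smul, LinearMap.add_apply, LinearMap.smul_apply, QuadraticMap.polarBilin_apply_apply,
      smul_eq_mul, hxy, hyx]
    simp only [hxdef, hydef, hmom i hr hi.symm, hmom i' hr' hi'.symm]
    rw [← haa]
    split_ifs <;> ring
  have hold : SignOK s m c₁ := hok i b hi.symm
  cases b
  · simp only [hc₁, Bool.false_eq_true, if_false, mul_one] at hnew hold
    exact not_signOK_both h2 hδ s m ⟨hold, hnew⟩
  · simp only [hc₁, if_true] at hnew hold
    refine not_signOK_both h2 hδ s m ⟨?_, hold⟩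
    have e : IsSquare (2 * (-1) ^ m / (δ * δ) : F) ↔ IsSquare (2 * (-1) ^ m / 1 : F) := by
      rw [div_one, show (2 * (-1) ^ m / (δ * δ) : F) = (1 / δ) ^ 2 * (2 * (-1) ^ m) by field_simp,
        CfsgLib.Classes.isSquare_sq_mul_iff (one_div_ne_zero hδ0)]
    unfold SignOK sgn at hnew ⊢
    simpa only [e] using hnew

/-- Split classes have prescribed signs. -/
theorem signs_of_rep {p : ℕ} [Fact p.Prime] [CharP F p] (hp2 : p ≠ 2) [DecidableEq F] (h2 : (2 : F) ≠ 0)
    {δ : F} (hδ : ¬ IsSquare δ) (s : ℤˣ)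
    (g : (ι → F) ≃ₗ[F] (ι → F)) (hg : ∀ x y, pf Q (g x) (g y) = pf Q x y)
    (hcent : ∀ z : Cfsg.isometryGroup F (⇑Q), dt z = -1 → (∀ x, act Q z (g x) = g (act Q z x)) → spinSign Q 1 z = s)
    {n : ℕ} {x : OData F n} (h : Rep δ (QuadraticMap.polarBilin (Q : QuadraticForm F (ι → F))) g x)
    (m : ℕ) (b : Bool) :
    ((2 * m + 1, b) ∈ x.P → b = bsign F s m ∧ x.P.count (2 * m + 1, b) ≤ 1) ∧
    ((2 * m + 1, b) ∈ x.M → b = bsign F s m ∧ x.M.count (2 * m + 1, b) ≤ 1) := by
  obtain ⟨K, R₁, L, R, h₁, h₂, hK, hL, hR⟩ := h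
  refine ⟨blocks_of_cent h2 hδ s hK (fun v m c hv hc hkill hmom => ?_) m b,
    blocks_of_cent h2 hδ s hL (fun v m c hv hc hkill hmom => ?_) m b⟩
  · obtain ⟨z, hz1, hz2, hz3⟩ := exists_commuting hp2 h2 g hg h₁.sup (fun a ha b hb => (h₁.orth a ha b hb).1)
      h₁.inv_K (fun a ha => (h₁.inv_R a ha).1) (fun a ha => by simpa using h₁.kill a ha) hv hc hkill hmom
    exact hz2.symm.trans (hcent z hz1 hz3)
  · have hKR : L ⊔ (K ⊔ R) = ⊤ := by rw [← h₁.sup, ← h₂.sup, sup_left_comm]
    obtain ⟨z, hz1, hz2, hz3⟩ := exists_commuting (K := L) (R := K ⊔ R) hp2 h2 (negEquiv g)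
      (fun a b => by
        show QuadraticMap.polarBilin (Q : QuadraticForm F (ι → F)) (negEquiv g a) (negEquiv g b) = _
        rw [negEquiv_apply, negEquiv_apply, LinearMap.map_neg₂, map_neg, neg_neg]
        exact hg a b) hKR
      (fun a ha b hb => by
        obtain ⟨c, hc, d, hd, rfl⟩ := Submodule.mem_sup.1 hb
        show QuadraticMap.polarBilin (Q : QuadraticForm F (ι → F)) a (c + d) = 0
        rw [map_add, (h₁.orth c hc a (h₂.le_K ha)).2, (h₂.orth a ha d hd).1, add_zero])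
      (fun a ha => ⟨neg_mem (h₂.inv_K a ha).1, (h₂.inv_K (-a) (neg_mem ha)).2⟩)
      (fun a ha => by
        obtain ⟨c, hc, d, hd, rfl⟩ := Submodule.mem_sup.1 ha
        rw [negEquiv_apply, map_add, neg_add]
        exact Submodule.add_mem_sup (neg_mem (h₁.inv_K c hc).1) (neg_mem (h₂.inv_R d hd).1))
      (fun a ha => kill_neg g (h₂.kill a ha)) hv hc hkill hmom
    refine hz2.symm.trans (hcent z hz1 fun a => ?_)
    have := hz3 a
    rw [negEquiv_apply, negEquiv_apply, ← neg_one_smul F (g a), act_smul, neg_one_smul, neg_inj] at this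
    exact this

end CfsgLib.CharDegrees.ClassCount.Orth.Odd
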