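import Cfsg.Agent.Lib.CharDegrees.ClassCount.SpTuples
import Cfsg.Agent.Lib.SemisimpleClasses.Symplectic

/-!
Encoding the invariants of a symplectic class by bits and self-reciprocal polynomials, and counting the codes.
-/

set_option autoImplicit false
set_option linter.unusedSectionVars false

namespace CfsgLib.CharDegrees.ClassCount.Sp

open Polynomial Finset
open CfsgLib.Classes.SympSemi (rev rev_mul rev_rev rev_monic natDegree_rev rev_X_sub_one)

universe u

variable {F : Type u} [Field F]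

/-- Invariants of a class: data of the two unipotent parts and the family of the rest. -/
structure SpData (F : Type u) [Field F] (n : ℕ) where
  /-- blocks for `1` -/
  P : Multiset Blk
  /-- blocks for `-1` -/
  M : Multiset Blk
  /-- the family of the rest -/
  t : ℕ → F[X]
  hP : (∀ b ∈ P, 0 < b.1 ∧ (¬ Even b.1 → b.2 = false)) ∧ ∀ k, P.count (k, true) ≤ 1
  hM : (∀ b ∈ M, 0 < b.1 ∧ (¬ Even b.1 → b.2 = false)) ∧ ∀ k, M.count (k, true) ≤ 1
  t_monic : ∀ k, (t k).Monic
  t_coeff : ∀ k, (t k).coeff 0 ≠ 0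
  t_rev : ∀ k, rev (t k) = t k
  t_one : ∀ k, (t k).eval 1 ≠ 0
  t_neg : ∀ k, (t k).eval (-1) ≠ 0
  t_out : ∀ k, (k = 0 ∨ 2 * n < k) → t k = 1
  weight : (P.map size).sum + (M.map size).sum + ∑ k ∈ Icc 1 (2 * n), k * (t k).natDegree = 2 * n

/-- The number of pairs of size `k`. -/
def pOf (D : Multiset Blk) (k : ℕ) : ℕ := if Even k then D.count (k, false) / 2 else D.count (k, false)

/-- The two bits at size `2 * j`. -/
def bitOf (D : Multiset Blk) (j : ℕ) : Bool → ℕ
  | true => D.count (2 * j, true)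
  | false => D.count (2 * j, false) % 2

theorem bitOf_le {D : Multiset Blk} (h : ∀ k, D.count (k, true) ≤ 1) (j : ℕ) (b : Bool) : bitOf D j b ≤ 1 := by
  cases b
  · simp only [bitOf]; omega
  · exact h _

theorem le_sum_size {D : Multiset Blk} {b : Blk} (hb : b ∈ D) : b.1 ≤ (D.map size).sum := by
  refine le_trans ?_ (Multiset.le_sum_of_mem (Multiset.mem_map_of_mem _ hb))
  unfold size rk
  split_ifs <;> omega

theorem sum_evens (g : ℕ → ℕ) : ∀ n, ∑ k ∈ Icc 1 (2 * n), (if Even k then g k else 0) = ∑ j ∈ Icc 1 n, g (2 * j)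
  | 0 => by simp
  | n + 1 => by
    rw [Finset.sum_Icc_succ_top (by omega), show 2 * (n + 1) = 2 * n + 1 + 1 by ring,
      Finset.sum_Icc_succ_top (by omega), Finset.sum_Icc_succ_top (by omega), sum_evens g n,
      if_neg (by simp [parity_simps]), if_pos (by simp [parity_simps])]
    ring_nf

/-- The dimension of data in terms of pairs and bits. -/
theorem sum_size_eq {D : Multiset Blk} (hD : ∀ b ∈ D, 0 < b.1 ∧ (¬ Even b.1 → b.2 = false)) {n : ℕ}
    (hn : (D.map size).sum ≤ 2 * n) :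
    (D.map size).sum = 2 * ∑ k ∈ Icc 1 (2 * n), k * pOf D k +
      2 * ∑ j ∈ Icc 1 n, j * (bitOf D j true + bitOf D j false) := by
  have hsub : D.toFinset ⊆ Icc 1 (2 * n) ×ˢ (univ : Finset Bool) := fun b hb => by
    rw [Multiset.mem_toFinset] at hb
    exact mem_product.2 ⟨mem_Icc.2 ⟨(hD b hb).1, (le_sum_size hb).trans hn⟩, mem_univ _⟩
  rw [Finset.sum_multiset_map_count, Finset.sum_subset hsub fun b _ hb => by
    rw [Multiset.mem_toFinset] at hb; rw [Multiset.count_eq_zero.2 hb, zero_smul], Finset.sum_product]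
  have e : ∀ k ∈ Icc 1 (2 * n), ∑ b : Bool, D.count (k, b) • size (k, b) =
      2 * (k * pOf D k) + (if Even k then k * (D.count (k, true) + D.count (k, false) % 2) else 0) := fun k _ => by
    rw [Fintype.sum_bool, smul_eq_mul, smul_eq_mul, pOf]
    unfold size rk
    by_cases hk : Even k
    · simp only [hk, if_true]
      conv_lhs => rw [← Nat.div_add_mod (D.count (k, false)) 2]
      ring
    · simp only [hk, if_false]
      rw [Multiset.count_eq_zero.2 fun h => by simpa using (hD _ h).2 hk]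
      ring
  rw [Finset.sum_congr rfl e, Finset.sum_add_distrib, ← Finset.mul_sum, sum_evens, Finset.mul_sum _ _ 2]
  congr 1
  rw [Finset.mul_sum]
  exact Finset.sum_congr rfl fun j _ => by simp only [bitOf]; ring

variable {n : ℕ}

/-- The polynomial of the code at size `k`. -/
noncomputable def SpData.h (x : SpData F n) (k : ℕ) : F[X] :=
  x.t k * ((X - C 1) ^ (2 * pOf x.P k) * (X + C 1) ^ (2 * pOf x.M k))

/-- Half the degree at size `k`. -/
noncomputable def SpData.d (x : SpData F n) (k : ℕ) : ℕ := (x.h k).natDegree / 2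

theorem t_palin (x : SpData F n) (h2 : (2 : F) ≠ 0) (k : ℕ) :
    (x.t k).coeff 0 = 1 ∧ Even (x.t k).natDegree := by
  set f := x.t k
  have hr : C (f.coeff 0)⁻¹ * f.reverse = f := x.t_rev k
  have e1 : (f.coeff 0)⁻¹ * f.eval 1 = f.eval 1 := by
    conv_rhs => rw [← hr, eval_mul, eval_C]
    congr 1
    rw [eval_eq_sum_range, eval_eq_sum_range' (p := f.reverse) (n := f.natDegree + 1)
      (Nat.lt_succ_of_le (reverse_natDegree_le f)), ← Finset.sum_range_reflect (fun i => f.reverse.coeff i * 1 ^ i)]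
    refine Finset.sum_congr rfl fun i hi => ?_
    rw [Finset.mem_range] at hi
    rw [show f.natDegree + 1 - 1 - i = f.natDegree - i by omega, coeff_reverse, revAt_le (Nat.sub_le _ _),
      Nat.sub_sub_self (by omega), one_pow, one_pow]
  have h0 : f.coeff 0 = 1 := by
    have := mul_right_cancel₀ (x.t_one k) (e1.trans (one_mul _).symm)
    exact inv_eq_one.1 this
  refine ⟨h0, ?_⟩
  rw [h0, inv_one, map_one, one_mul] at hr
  by_contra hodd
  rw [Nat.not_even_iff_odd] at hodd
  refine x.t_neg k ?_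
  have key : f.eval (-1) = -f.eval (-1) := by
    conv_lhs => rw [← hr]
    rw [eval_eq_sum_range (p := f), eval_eq_sum_range' (p := f.reverse) (n := f.natDegree + 1)
      (Nat.lt_succ_of_le (reverse_natDegree_le f)), ← Finset.sum_range_reflect (fun i => f.reverse.coeff i * (-1) ^ i),
      ← Finset.sum_neg_distrib]
    refine Finset.sum_congr rfl fun i hi => ?_
    rw [Finset.mem_range] at hi
    rw [show f.natDegree + 1 - 1 - i = f.natDegree - i by omega, coeff_reverse, revAt_le (Nat.sub_le _ _),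
      Nat.sub_sub_self (by omega)]
    have e : ((-1 : F)) ^ (f.natDegree - i) = -((-1) ^ i) := by
      rw [neg_one_pow_eq_pow_mod_two, neg_one_pow_eq_pow_mod_two (n := i)]
      rw [Nat.odd_iff] at hodd
      rcases Nat.mod_two_eq_zero_or_one i with h | h
      · rw [h, show (f.natDegree - i) % 2 = 1 by omega]; simp
      · rw [h, show (f.natDegree - i) % 2 = 0 by omega]; simp
    rw [e]; ring
  exact (mul_eq_zero.1 (show (2 : F) * f.eval (-1) = 0 by linear_combination key)).resolve_left h2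

theorem natDegree_h (x : SpData F n) (k : ℕ) :
    (x.h k).natDegree = (x.t k).natDegree + (2 * pOf x.P k + 2 * pOf x.M k) := by
  rw [SpData.h, (x.t_monic k).natDegree_mul (((monic_X_sub_C 1).pow _).mul ((monic_X_add_C 1).pow _)),
    ((monic_X_sub_C (1 : F)).pow _).natDegree_mul ((monic_X_add_C 1).pow _), (monic_X_sub_C (1 : F)).natDegree_pow,
    (monic_X_add_C (1 : F)).natDegree_pow, natDegree_X_sub_C, natDegree_X_add_C, mul_one, mul_one]

theorem h_spec (x : SpData F n) (h2 : (2 : F) ≠ 0) (k : ℕ) :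
    (x.h k).Monic ∧ (x.h k).natDegree = 2 * x.d k ∧
      ∀ i ≤ 2 * x.d k, (x.h k).coeff i = (x.h k).coeff (2 * x.d k - i) := by
  obtain ⟨h0, he⟩ := t_palin x h2 k
  have hm : (x.h k).Monic := (x.t_monic k).mul (((monic_X_sub_C 1).pow _).mul ((monic_X_add_C 1).pow _))
  have hd : (x.h k).natDegree = 2 * x.d k := by
    rw [SpData.d, natDegree_h]
    obtain ⟨r, hr⟩ := he
    omega
  have hc : (x.h k).coeff 0 = 1 := by
    rw [SpData.h, mul_coeff_zero, mul_coeff_zero, h0, coeff_zero_eq_eval_zero, coeff_zero_eq_eval_zero]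
    simp [pow_mul]
  have hrev : rev (x.h k) = x.h k := by
    have e1 : rev ((X + C (1 : F)) : F[X]) = X + C 1 := by
      have hr : ((X : F[X]) + C 1).reverse = X + C 1 := by
        ext i
        rw [coeff_reverse, natDegree_X_add_C]
        rcases i with _ | _ | i
        · rw [revAt_le (Nat.zero_le _)]; simp [coeff_one]
        · rw [revAt_le le_rfl]; simp [coeff_one]
        · rw [revAt_eq_self_of_lt (by omega)]
      rw [rev, hr]
      simp
    have hone : ∀ (f : F[X]) (_ : rev f = f) (m : ℕ), rev (f ^ m) = f ^ m := by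
      intro f hf m
      induction m with
      | zero => simp [CfsgLib.Classes.SympSemi.rev_one]
      | succ m ih => rw [pow_succ, rev_mul, ih, hf]
    rw [SpData.h, rev_mul, rev_mul, x.t_rev, hone _ rev_X_sub_one, hone _ e1]
  refine ⟨hm, hd, fun i hi => ?_⟩
  rw [rev, hc, inv_one, map_one, one_mul] at hrev
  conv_lhs => rw [← hrev, coeff_reverse, hd, revAt_le hi]

theorem weight_code (x : SpData F n) (h2 : (2 : F) ≠ 0) :
    ∑ k ∈ Icc 1 n, k * x.d k + ∑ j ∈ Icc 1 n, j * (bitOf x.P j true + bitOf x.P j false +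
      (bitOf x.M j true + bitOf x.M j false)) = n ∧ ∀ k, n < k → x.d k = 0 := by
  have hw := x.weight
  rw [sum_size_eq x.hP.1 (n := n) (by omega), sum_size_eq x.hM.1 (n := n) (by omega)] at hw
  have hd : ∀ k, 2 * (k * x.d k) = 2 * (k * pOf x.P k) + 2 * (k * pOf x.M k) + k * (x.t k).natDegree := fun k => by
    rw [show 2 * (k * x.d k) = k * (2 * x.d k) by ring, ← (h_spec x h2 k).2.1, natDegree_h]; ring
  have hsum : 2 * ∑ k ∈ Icc 1 (2 * n), k * x.d k = 2 * ∑ k ∈ Icc 1 (2 * n), k * pOf x.P k +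
      2 * ∑ k ∈ Icc 1 (2 * n), k * pOf x.M k + ∑ k ∈ Icc 1 (2 * n), k * (x.t k).natDegree := by
    rw [Finset.mul_sum, Finset.mul_sum, Finset.mul_sum, ← Finset.sum_add_distrib, ← Finset.sum_add_distrib]
    exact Finset.sum_congr rfl fun k _ => hd k
  have hbit : ∑ j ∈ Icc 1 n, j * (bitOf x.P j true + bitOf x.P j false + (bitOf x.M j true + bitOf x.M j false)) =
      ∑ j ∈ Icc 1 n, j * (bitOf x.P j true + bitOf x.P j false) +
        ∑ j ∈ Icc 1 n, j * (bitOf x.M j true + bitOf x.M j false) := by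
    rw [← Finset.sum_add_distrib]; exact Finset.sum_congr rfl fun j _ => by ring
  have hbig : ∀ k, n < k → x.d k = 0 := fun k hk => by
    by_cases hk2 : k ≤ 2 * n
    · have h1 := Finset.single_le_sum (f := fun k => k * x.d k) (fun _ _ => Nat.zero_le _)
        (Finset.mem_Icc.2 ⟨(by omega : 1 ≤ k), hk2⟩)
      rcases Nat.eq_zero_or_pos (x.d k) with h | h
      · exact h
      · have : k * 1 ≤ k * x.d k := Nat.mul_le_mul_left k h
        omega
    · have hz : ∀ (D : Multiset Blk), (D.map size).sum ≤ 2 * n → pOf D k = 0 := fun D hD => by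
        have hc : D.count (k, false) = 0 := Multiset.count_eq_zero.2 fun h => hk2 ((le_sum_size h).trans hD)
        simp [pOf, hc]
      have hw2 := x.weight
      rw [SpData.d, natDegree_h, hz x.P (by omega), hz x.M (by omega), x.t_out k (Or.inr (by omega))]
      simp
  refine ⟨?_, hbig⟩
  have hs : ∑ k ∈ Icc 1 n, k * x.d k = ∑ k ∈ Icc 1 (2 * n), k * x.d k :=
    Finset.sum_subset (Icc_subset_Icc_right (by omega)) fun k hk hk' => by
      simp only [mem_Icc] at hk hk'
      rw [hbig k (by omega), mul_zero]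
  omega

/-- The bit attached to an index. -/
def SpData.bit (x : SpData F n) (p : ℕ × Fin 4) : ℕ :=
  if p.2 = 0 then bitOf x.P p.1 true else if p.2 = 1 then bitOf x.P p.1 false
    else if p.2 = 2 then bitOf x.M p.1 true else bitOf x.M p.1 false

/-- The set of bits of a datum. -/
def SpData.S (x : SpData F n) : Finset (ℕ × Fin 4) := (Icc 1 n ×ˢ univ).filter fun p => x.bit p = 1

/-- Possible bits and half degrees. -/
def codeSet (n : ℕ) : Finset (Finset (ℕ × Fin 4) × (Fin n → ℕ)) :=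
  ((Icc 1 n ×ˢ univ).powerset ×ˢ Fintype.piFinset fun _ => range (n + 1)).filter
    fun c => ∑ i : Fin n, ((i : ℕ) + 1) * c.2 i + ∑ p ∈ c.1, p.1 = n

theorem bit_le (x : SpData F n) (p : ℕ × Fin 4) : x.bit p ≤ 1 := by
  unfold SpData.bit
  split_ifs <;> first | exact bitOf_le x.hP.2 _ _ | exact bitOf_le x.hM.2 _ _

theorem code_mem (x : SpData F n) (h2 : (2 : F) ≠ 0) : (x.S, fun i : Fin n => x.d (i + 1)) ∈ codeSet n := by
  obtain ⟨hw, -⟩ := weight_code x h2
  have hS : ∑ p ∈ x.S, p.1 = ∑ j ∈ Icc 1 n, j * (bitOf x.P j true + bitOf x.P j false +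
      (bitOf x.M j true + bitOf x.M j false)) := by
    have e : ∀ p, (if x.bit p = 1 then p.1 else 0) = p.1 * x.bit p := fun p => by
      have := bit_le x p
      rcases (show x.bit p = 0 ∨ x.bit p = 1 by omega) with h | h <;> simp [h]
    rw [SpData.S, Finset.sum_filter, Finset.sum_product]
    refine Finset.sum_congr rfl fun j _ => ?_
    rw [Finset.sum_congr rfl (fun p _ => e (j, p)), Fin.sum_univ_four]
    simp [SpData.bit]
    ring
  have hd : ∑ k ∈ Icc 1 n, k * x.d k = ∑ i : Fin n, ((i : ℕ) + 1) * x.d (i + 1) := by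
    rw [Fin.sum_univ_eq_sum_range (fun i => (i + 1) * x.d (i + 1)), Finset.range_eq_Ico,
      Finset.sum_Ico_add' (fun k => k * x.d k) 0 n 1]
    rfl
  refine mem_filter.2 ⟨mem_product.2 ⟨mem_powerset.2 (filter_subset _ _), Fintype.mem_piFinset.2 fun i => ?_⟩, ?_⟩
  · rw [mem_range]
    have hle : ((i : ℕ) + 1) * x.d (i + 1) ≤ n := by
      have := Finset.single_le_sum (f := fun i : Fin n => ((i : ℕ) + 1) * x.d (i + 1)) (fun _ _ => Nat.zero_le _)
        (mem_univ i)
      omega
    have := Nat.le_mul_of_pos_left (x.d (i + 1)) (show 0 < (i : ℕ) + 1 by omega)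
    exact Nat.lt_succ_of_le (this.trans hle)
  · simp only
    omega

/-- The code of a datum. -/
noncomputable def SpData.code (x : SpData F n) (h2 : (2 : F) ≠ 0) :
    Σ c : {c // c ∈ codeSet n}, ∀ i : Fin n, Fin (c.1.2 i) → F :=
  ⟨⟨(x.S, fun i : Fin n => x.d (i + 1)), code_mem x h2⟩, fun i m => (x.h (i + 1)).coeff (m + 1)⟩

theorem code_injective (h2 : (2 : F) ≠ 0) {x y : SpData F n} (hc : x.code h2 = y.code h2) :
    x.P = y.P ∧ x.M = y.M ∧ x.t = y.t := by
  classical
  have hS : x.S = y.S := congrArg (fun c => c.1.1.1) hc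
  have hd : ∀ k, x.d k = y.d k := fun k => by
    rcases Nat.eq_zero_or_pos k with rfl | hk
    · have hz : ∀ z : SpData F n, z.d 0 = 0 := fun z => by
        have hp : ∀ (D : Multiset Blk), (∀ b ∈ D, 0 < b.1) → pOf D 0 = 0 := fun D hD => by
          simp [pOf, Multiset.count_eq_zero.2 fun h => (hD (0, false) h).ne' rfl]
        rw [SpData.d, natDegree_h, hp _ fun b hb => (z.hP.1 b hb).1, hp _ fun b hb => (z.hM.1 b hb).1,
          z.t_out 0 (Or.inl rfl)]
        simp
      rw [hz, hz]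
    by_cases hkn : k ≤ n
    · have := congrArg (fun c => c.1.1.2 ⟨k - 1, by omega⟩) hc
      simpa [SpData.code, Nat.sub_add_cancel hk] using this
    · rw [(weight_code x h2).2 k (by omega), (weight_code y h2).2 k (by omega)]
  have hh : ∀ k, x.h k = y.h k := fun k => by
    have hx := h_spec x h2 k
    have hy := h_spec y h2 k
    rw [← hd k] at hy
    refine congrArg Subtype.val ((CfsgLib.SemisimpleClasses.Symp.palinEquiv (K := F) (n := x.d k)).injective
      (a₁ := ⟨_, hx⟩) (a₂ := ⟨_, hy⟩) (funext fun m => ?_))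
    show (x.h k).coeff (m + 1) = (y.h k).coeff (m + 1)
    have hm := m.isLt
    by_cases hk : 1 ≤ k ∧ k ≤ n
    · have := congrArg (fun c => if h : (m : ℕ) < c.1.1.2 ⟨k - 1, by omega⟩ then c.2 ⟨k - 1, by omega⟩ ⟨m, h⟩ else 0) hc
      simp only [SpData.code, Nat.sub_add_cancel hk.1] at this
      rwa [dif_pos hm, dif_pos (hd k ▸ hm)] at this
    · exfalso
      rcases Nat.eq_zero_or_pos k with rfl | hk0
      · have : x.d 0 = 0 := by
          have hp : ∀ (D : Multiset Blk), (∀ b ∈ D, 0 < b.1) → pOf D 0 = 0 := fun D hD => by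
            simp [pOf, Multiset.count_eq_zero.2 fun h => (hD (0, false) h).ne' rfl]
          rw [SpData.d, natDegree_h, hp _ fun b hb => (x.hP.1 b hb).1, hp _ fun b hb => (x.hM.1 b hb).1,
            x.t_out 0 (Or.inl rfl)]
          simp
        omega
      · have := (weight_code x h2).2 k (by omega)
        omega
  have h11 : (-1 : F) ≠ 1 := fun h => h2 (by linear_combination -h)
  have hmul : ∀ (z : SpData F n) k, (z.h k).rootMultiplicity 1 = 2 * pOf z.P k ∧
      (z.h k).rootMultiplicity (-1) = 2 * pOf z.M k := fun z k => by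
    have ha : ((X - C (1 : F)) ^ (2 * pOf z.P k) * (X + C 1) ^ (2 * pOf z.M k)) ≠ 0 :=
      mul_ne_zero (pow_ne_zero _ (X_sub_C_ne_zero _)) (pow_ne_zero _ (X_add_C_ne_zero _))
    have hz : z.h k ≠ 0 := mul_ne_zero (z.t_monic k).ne_zero ha
    have e : (X + C (1 : F) : F[X]) = X - C (-1) := by rw [map_neg, sub_neg_eq_add]
    constructor
    · rw [SpData.h, rootMultiplicity_mul hz, rootMultiplicity_eq_zero (z.t_one k), rootMultiplicity_mul ha,
        rootMultiplicity_X_sub_C_pow, rootMultiplicity_eq_zero (fun h => ?_)]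
      · simp
      · rw [IsRoot, eval_pow, eval_add, eval_X, eval_C, one_add_one_eq_two] at h
        exact h2 (pow_eq_zero_iff'.1 h).1
    · rw [SpData.h, rootMultiplicity_mul hz, rootMultiplicity_eq_zero (z.t_neg k), rootMultiplicity_mul ha, e,
        rootMultiplicity_X_sub_C_pow, rootMultiplicity_eq_zero (fun h => ?_)]
      · simp
      · rw [IsRoot, eval_pow, eval_sub, eval_X, eval_C] at h
        exact h11 (sub_eq_zero.1 (pow_eq_zero_iff'.1 h).1)
  have hpP : ∀ k, pOf x.P k = pOf y.P k := fun k => by have := (hmul x k).1; have := (hmul y k).1; rw [hh] at *; omega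
  have hpM : ∀ k, pOf x.M k = pOf y.M k := fun k => by have := (hmul x k).2; have := (hmul y k).2; rw [hh] at *; omega
  have hbits : ∀ j ∈ Icc 1 n, ∀ i : Fin 4, x.bit (j, i) = y.bit (j, i) := fun j hj i => by
    have h1 := bit_le x (j, i)
    have h3 := bit_le y (j, i)
    have h4 : ((j, i) ∈ x.S) ↔ ((j, i) ∈ y.S) := by rw [hS]
    simp only [SpData.S, mem_filter, mem_product, hj, mem_univ, and_self, true_and] at h4
    omega
  have rec' : ∀ (D E : Multiset Blk), (∀ b ∈ D, 0 < b.1 ∧ (¬ Even b.1 → b.2 = false)) →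
      (∀ b ∈ E, 0 < b.1 ∧ (¬ Even b.1 → b.2 = false)) → (D.map size).sum ≤ 2 * n → (E.map size).sum ≤ 2 * n →
      (∀ k, pOf D k = pOf E k) → (∀ j ∈ Icc 1 n, ∀ b, bitOf D j b = bitOf E j b) → D = E := by
    intro D E hD hE hDn hEn hp hb
    refine Multiset.ext.2 fun ⟨k, δ⟩ => ?_
    by_cases hk : 1 ≤ k ∧ k ≤ 2 * n
    · by_cases he : Even k
      · obtain ⟨j, rfl⟩ := he
        have hj : j ∈ Icc 1 n := mem_Icc.2 ⟨by omega, by omega⟩
        have h1 := hb j hj true
        have h3 := hb j hj false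
        have h4 := hp (j + j)
        simp only [bitOf, pOf, two_mul, show Even (j + j) from ⟨j, rfl⟩, if_true] at h1 h3 h4
        cases δ
        · omega
        · exact h1
      · cases δ
        · have h4 := hp k
          simpa only [pOf, he, if_false] using h4
        · rw [Multiset.count_eq_zero.2 fun h => by simpa using (hD _ h).2 he,
            Multiset.count_eq_zero.2 fun h => by simpa using (hE _ h).2 he]
    · rw [Multiset.count_eq_zero.2 fun h => hk ⟨(hD (k, δ) h).1, (le_sum_size h).trans hDn⟩,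
        Multiset.count_eq_zero.2 fun h => hk ⟨(hE (k, δ) h).1, (le_sum_size h).trans hEn⟩]
  have hxw := x.weight
  have hyw := y.weight
  have hP : x.P = y.P := rec' _ _ x.hP.1 y.hP.1 (by omega) (by omega) hpP fun j hj b => by
    cases b
    · simpa [SpData.bit] using hbits j hj 1
    · simpa [SpData.bit] using hbits j hj 0
  have hM : x.M = y.M := rec' _ _ x.hM.1 y.hM.1 (by omega) (by omega) hpM fun j hj b => by
    cases b
    · simpa [SpData.bit] using hbits j hj 3
    · simpa [SpData.bit] using hbits j hj 2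
  refine ⟨hP, hM, funext fun k => ?_⟩
  have := hh k
  rw [SpData.h, SpData.h, hP, hM] at this
  exact mul_right_cancel₀ (mul_ne_zero (pow_ne_zero _ (X_sub_C_ne_zero _)) (pow_ne_zero _ (X_add_C_ne_zero _))) this

/-- The number of codes, as a sum. -/
theorem card_code [Fintype F] :
    Nat.card (Σ c : {c // c ∈ codeSet n}, ∀ i : Fin n, Fin (c.1.2 i) → F) =
      ∑ c ∈ codeSet n, Fintype.card F ^ ∑ i, c.2 i := by
  rw [Nat.card_sigma, ← Finset.sum_coe_sort (codeSet n)]
  refine Finset.sum_congr rfl fun c _ => ?_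
  rw [Nat.card_pi, ← Finset.prod_pow_eq_pow_sum]
  exact Finset.prod_congr rfl fun i _ => by rw [Nat.card_pi, Finset.prod_const, Finset.card_univ, Fintype.card_fin,
    Nat.card_eq_fintype_card]

/-- The Euler products at `1/3`. -/
theorem euler_bound (n : ℕ) :
    ∏ j ∈ range n, (1 + (1 / 3 : ℝ) ^ (j + 1)) ^ 4 / (1 - (1 / 3 : ℝ) ^ (j + 1)) ≤ 54 / 5 := by
  set f : ℕ → ℝ := fun j => (1 + (1 / 3 : ℝ) ^ (j + 1)) ^ 4 / (1 - (1 / 3 : ℝ) ^ (j + 1)) with hf
  have hlt : ∀ j : ℕ, (1 / 3 : ℝ) ^ (j + 1) < 1 := fun j => pow_lt_one₀ (by norm_num) (by norm_num) (by omega)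
  have hf1 : ∀ j, 1 ≤ f j := fun j => by
    have := hlt j
    have h0 : (0 : ℝ) ≤ (1 / 3 : ℝ) ^ (j + 1) := by positivity
    rw [hf, le_div_iff₀ (by linarith), one_mul]
    have : (1 : ℝ) ≤ (1 + (1 / 3 : ℝ) ^ (j + 1)) ^ 4 := one_le_pow₀ (by linarith)
    linarith
  have hmono : ∀ m k, ∏ j ∈ range m, f j ≤ ∏ j ∈ range (m + k), f j := by
    intro m k
    induction k with
    | zero => exact le_rfl
    | succ k ih =>
      rw [← add_assoc, Finset.prod_range_succ]
      exact ih.trans (le_mul_of_one_le_right (Finset.prod_nonneg fun j _ => le_trans zero_le_one (hf1 j)) (hf1 _))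
  have h6 : ∀ k, (∏ j ∈ range (6 + k), f j) * (1 - (1 / 3 : ℝ) ^ 6 / 2 + (1 / 3 : ℝ) ^ (6 + k) / 2) ^ 5 ≤
      ∏ j ∈ range 6, f j := by
    intro k
    induction k with
    | zero => simp
    | succ k ih =>
      refine le_trans ?_ ih
      rw [← add_assoc, Finset.prod_range_succ, mul_assoc]
      refine mul_le_mul_of_nonneg_left ?_ (Finset.prod_nonneg fun j _ => le_trans zero_le_one (hf1 j))
      set a := (1 / 3 : ℝ) ^ (6 + k + 1) with ha
      have ha0 : 0 ≤ a := by positivity
      have ha1 : a < 1 := hlt _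
      have hb : (1 / 3 : ℝ) ^ (6 + k) = 3 * a := by rw [ha, pow_succ]; ring
      have hb1 : (1 / 3 : ℝ) ^ (6 + k) ≤ (1 / 3 : ℝ) ^ 6 := pow_le_pow_of_le_one (by norm_num) (by norm_num) (by omega)
      rw [hb] at hb1 ⊢
      set L := 1 - (1 / 3 : ℝ) ^ 6 / 2 + 3 * a / 2 with hL
      have hL1 : L ≤ 1 := by linarith
      have hL0 : 0 ≤ 1 - (1 / 3 : ℝ) ^ 6 / 2 + a / 2 := by
        have : (1 / 3 : ℝ) ^ 6 ≤ 1 := pow_le_one₀ (by norm_num) (by norm_num)
        linarith
      have key : 1 - (1 / 3 : ℝ) ^ 6 / 2 + a / 2 ≤ L * (1 - a) := by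
        have : a * L ≤ a * 1 := mul_le_mul_of_nonneg_left hL1 ha0
        linarith
      have hfa : f (6 + k) * (1 - a) ^ 5 ≤ 1 := by
        show (1 + a) ^ 4 / (1 - a) * (1 - a) ^ 5 ≤ 1
        rw [div_mul_eq_mul_div, div_le_iff₀ (by linarith), one_mul,
          show (1 + a) ^ 4 * (1 - a) ^ 5 = ((1 + a) * (1 - a)) ^ 4 * (1 - a) by ring]
        refine mul_le_of_le_one_left (by linarith) (pow_le_one₀ (by positivity) ?_)
        nlinarith
      calc f (6 + k) * (1 - (1 / 3 : ℝ) ^ 6 / 2 + a / 2) ^ 5 ≤ f (6 + k) * (L * (1 - a)) ^ 5 :=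
            mul_le_mul_of_nonneg_left (pow_le_pow_left₀ hL0 key 5) (le_trans zero_le_one (hf1 _))
        _ = (f (6 + k) * (1 - a) ^ 5) * L ^ 5 := by ring
        _ ≤ 1 * L ^ 5 := mul_le_mul_of_nonneg_right hfa (pow_nonneg (by nlinarith) 5)
        _ = L ^ 5 := one_mul _
  have hc : (0 : ℝ) < (1 - (1 / 3 : ℝ) ^ 6 / 2) ^ 5 := by norm_num
  have h6b : (∏ j ∈ range 6, f j) ≤ 54 / 5 * (1 - (1 / 3 : ℝ) ^ 6 / 2) ^ 5 := by
    simp only [hf, Finset.prod_range_succ, Finset.prod_range_zero]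
    norm_num
  refine le_trans (hmono n 6) ?_
  rw [add_comm n 6]
  refine le_of_mul_le_mul_right (le_trans ?_ h6b) hc
  refine le_trans ?_ (h6 n)
  refine mul_le_mul_of_nonneg_left (pow_le_pow_left₀ (by norm_num) ?_ 5)
    (Finset.prod_nonneg fun j _ => le_trans zero_le_one (hf1 j))
  have : (0 : ℝ) ≤ (1 / 3 : ℝ) ^ (6 + n) := by positivity
  linarith

/-- The count of codes. -/
theorem five_mul_sum_code {q : ℕ} (hq : 3 ≤ q) (hn : 1 ≤ n) :
    5 * ∑ c ∈ codeSet n, q ^ ∑ i, c.2 i ≤ 54 * q ^ n := by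
  classical
  obtain ⟨m, rfl⟩ := Nat.exists_eq_add_of_le' hn
  set x : ℝ := 1 / (q : ℝ) with hx
  have hq0 : (0 : ℝ) < q := by exact_mod_cast (show 0 < q by omega)
  have hx0 : 0 ≤ x := by positivity
  have hx3 : x ≤ 1 / 3 := by rw [hx]; exact one_div_le_one_div_of_le (by norm_num) (by exact_mod_cast hq)
  let W : Finset (ℕ × Fin 4) × (Fin (m + 1) → ℕ) → ℝ := fun c =>
    (∏ p ∈ c.1, x ^ p.1) * ∏ i : Fin (m + 1), (x ^ (i : ℕ)) ^ c.2 i
  have hW : ∀ c ∈ codeSet (m + 1), (q : ℝ) ^ (∑ i, c.2 i) = (q : ℝ) ^ (m + 1) * W c := fun c hc => by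
    have h := (mem_filter.1 hc).2
    simp only [W, ← pow_mul, Finset.prod_pow_eq_pow_sum, ← pow_add]
    rw [hx, div_pow, one_pow]
    have e : ∑ i : Fin (m + 1), c.2 i + (∑ p ∈ c.1, p.1 + ∑ i : Fin (m + 1), (i : ℕ) * c.2 i) = m + 1 := by
      conv_rhs => rw [← h]
      rw [Finset.sum_congr rfl (fun (i : Fin (m + 1)) _ => add_one_mul (i : ℕ) (c.2 i)), Finset.sum_add_distrib]
      ring
    rw [eq_comm, mul_one_div, div_eq_iff (pow_ne_zero _ hq0.ne'), ← pow_add, e]
  let Φ : Finset (ℕ × Fin 4) × (Fin (m + 1) → ℕ) → Finset (ℕ × Fin 4) × (Fin (m + 1) → ℕ) :=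
    fun c => (c.1, Function.update c.2 0 0)
  have hΦ : Set.InjOn Φ ↑(codeSet (m + 1)) := by
    intro c hc c' hc' he
    simp only [Φ, Prod.mk.injEq] at he
    refine Prod.ext he.1 (funext fun i => ?_)
    by_cases hi : i = 0
    · subst hi
      have h := (mem_filter.1 hc).2
      have h' := (mem_filter.1 hc').2
      rw [Fin.sum_univ_succ] at h h'
      have e : ∀ i : Fin m, c.2 i.succ = c'.2 i.succ := fun i => by
        have := congrFun he.2 i.succ
        simpa [Function.update_of_ne (Fin.succ_ne_zero i)] using this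
      simp only [e, he.1, Fin.val_zero, zero_add, one_mul] at h
      simp only [Fin.val_zero, zero_add, one_mul] at h'
      omega
    · simpa [Function.update_of_ne hi] using congrFun he.2 i
  have hWΦ : ∀ c, W (Φ c) = W c := fun c => by
    simp only [W, Φ]
    congr 1
    refine Finset.prod_congr rfl fun i _ => ?_
    by_cases hi : i = 0
    · subst hi; simp
    · rw [Function.update_of_ne hi]
  have hW0 : ∀ c, 0 ≤ W c := fun c =>
    mul_nonneg (Finset.prod_nonneg fun _ _ => pow_nonneg hx0 _) (Finset.prod_nonneg fun _ _ => pow_nonneg (pow_nonneg hx0 _) _)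
  let R : Fin (m + 1) → Finset ℕ := fun i => if i = 0 then {0} else range (m + 2)
  have h1 : ∑ c ∈ codeSet (m + 1), W c ≤
      ∑ c ∈ (Icc 1 (m + 1) ×ˢ (univ : Finset (Fin 4))).powerset ×ˢ Fintype.piFinset R, W c := by
    rw [← Finset.sum_congr rfl (fun c _ => hWΦ c), ← Finset.sum_image hΦ]
    refine Finset.sum_le_sum_of_subset_of_nonneg (fun c hc => ?_) fun c _ _ => hW0 c
    obtain ⟨d, hd, rfl⟩ := mem_image.1 hc
    obtain ⟨hd1, hd2⟩ := mem_product.1 (mem_filter.1 hd).1
    refine mem_product.2 ⟨hd1, Fintype.mem_piFinset.2 fun i => ?_⟩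
    by_cases hi : i = 0
    · subst hi; simp [Φ, R]
    · simpa [Φ, R, hi, Function.update_of_ne hi, Nat.lt_succ_iff] using Fintype.mem_piFinset.1 hd2 i
  have h2 : ∑ c ∈ (Icc 1 (m + 1) ×ˢ (univ : Finset (Fin 4))).powerset ×ˢ Fintype.piFinset R, W c =
      (∏ p ∈ Icc 1 (m + 1) ×ˢ (univ : Finset (Fin 4)), (1 + x ^ p.1)) *
        ∏ i : Fin (m + 1), ∑ d ∈ R i, (x ^ (i : ℕ)) ^ d := by
    rw [Finset.prod_one_add, Finset.prod_univ_sum, Finset.sum_product, Finset.sum_mul_sum]
  set y : ℝ := 1 / 3 with hy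
  have hy1 : ∀ j : ℕ, y ^ (j + 1) < 1 := fun j => pow_lt_one₀ (by rw [hy]; norm_num) (by rw [hy]; norm_num) (by omega)
  have h3 : (∏ p ∈ Icc 1 (m + 1) ×ˢ (univ : Finset (Fin 4)), (1 + x ^ p.1)) ≤
      ∏ j ∈ range (m + 1), (1 + y ^ (j + 1)) ^ 4 := by
    rw [Finset.prod_product]
    simp only [Finset.prod_const, Finset.card_univ, Fintype.card_fin]
    rw [Finset.range_eq_Ico, Finset.prod_Ico_add' (fun j => (1 + y ^ j) ^ 4) 0 (m + 1) 1]
    refine Finset.prod_le_prod (fun j _ => by positivity) fun j _ => ?_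
    exact pow_le_pow_left₀ (by positivity) (by gcongr) 4
  have h4 : (∏ i : Fin (m + 1), ∑ d ∈ R i, (x ^ (i : ℕ)) ^ d) ≤ (∏ j ∈ range (m + 1), (1 - y ^ (j + 1)))⁻¹ := by
    rw [Fin.prod_univ_succ, ← Finset.prod_inv_distrib, Finset.prod_range_succ]
    simp only [R, if_pos, Finset.sum_singleton, pow_zero, one_mul, Fin.succ_ne_zero, if_false, Fin.val_succ]
    rw [Fin.prod_univ_eq_prod_range (fun i => ∑ d ∈ range (m + 2), (x ^ (i + 1)) ^ d) m]
    refine le_trans ?_ (le_mul_of_one_le_right (Finset.prod_nonneg fun j _ => ?_) ?_)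
    · refine Finset.prod_le_prod (fun j _ => Finset.sum_nonneg fun d _ => pow_nonneg (pow_nonneg hx0 _) _) fun j _ => ?_
      have hle : x ^ (j + 1) ≤ y ^ (j + 1) := pow_le_pow_left₀ hx0 hx3 _
      have hlt := hy1 j
      rw [inv_eq_one_div, le_div_iff₀ (by linarith)]
      have hg : (∑ d ∈ range (m + 2), (x ^ (j + 1)) ^ d) * (1 - x ^ (j + 1)) ≤ 1 := by
        rw [geom_sum_mul_neg]
        have : 0 ≤ (x ^ (j + 1)) ^ (m + 2) := pow_nonneg (pow_nonneg hx0 _) _
        linarith
      refine le_trans (mul_le_mul_of_nonneg_left (by linarith) ?_) hg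
      exact Finset.sum_nonneg fun d _ => pow_nonneg (pow_nonneg hx0 _) _
    · have := hy1 j; exact inv_nonneg.2 (by linarith)
    · have := hy1 m
      have h0 : (0 : ℝ) ≤ y ^ (m + 1) := by positivity
      rw [one_le_inv₀ (by linarith)]
      linarith
  have h5 : ∑ c ∈ codeSet (m + 1), W c ≤ 54 / 5 := by
    refine h1.trans (h2.le.trans ((mul_le_mul h3 h4 ?_ ?_).trans ?_))
    · exact Finset.prod_nonneg fun i _ => Finset.sum_nonneg fun d _ => pow_nonneg (pow_nonneg hx0 _) _
    · exact Finset.prod_nonneg fun i _ => by positivity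
    · rw [← div_eq_mul_inv, ← Finset.prod_div_distrib]
      exact euler_bound (m + 1)
  have h6 : (5 : ℝ) * ∑ c ∈ codeSet (m + 1), (q : ℝ) ^ (∑ i, c.2 i) ≤ 54 * (q : ℝ) ^ (m + 1) := by
    rw [Finset.sum_congr rfl hW, ← Finset.mul_sum]
    have := mul_le_mul_of_nonneg_left h5 (show 0 ≤ 5 * (q : ℝ) ^ (m + 1) by positivity)
    linarith
  exact_mod_cast h6

end CfsgLib.CharDegrees.ClassCount.Sp
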