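import Cfsg.Agent.Lib.CharDegrees.ClassCount.SpPairs

/-!
Isometries commuting with given isometries of nondegenerate alternating spaces over finite fields of odd
characteristic: the part without eigenvalue `±1`, the unipotent parts, and glueing.
-/

set_option autoImplicit false
set_option linter.unusedSectionVars false

namespace CfsgLib.CharDegrees.ClassCount.Sp

open Module Submodule

universe u v

/-- Norms from a quadratic extension of a finite ring reach every unit. -/
theorem exists_norm {R : Type*} [CommRing R] [Finite R] {p : ℕ} [Fact p.Prime] (hp2 : p ≠ 2) (hp : (p : R) = 0)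
    {A c : R} (hA : IsUnit A) (hc : IsUnit c) : ∃ a b : R, a * a - c * (b * b) = A := by
  classical
  rcases subsingleton_or_nontrivial R with h | h
  · exact ⟨0, 0, Subsingleton.elim _ _⟩
  have hchar : CharP R p := (CharP.charP_iff_prime_eq_zero Fact.out).2 hp
  let e := IsArtinianRing.quotNilradicalEquivPi R
  have hfield : ∀ I : MaximalSpectrum R, ∃ a b : R ⧸ I.asIdeal,
      a * a - (Ideal.Quotient.mk _ c) * (b * b) = Ideal.Quotient.mk _ A := by
    intro I
    have := I.isMaximal
    letI := Ideal.Quotient.field I.asIdeal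
    haveI : Finite (R ⧸ I.asIdeal) := Quotient.finite _
    letI := Fintype.ofFinite (R ⧸ I.asIdeal)
    have hpK : (p : R ⧸ I.asIdeal) = 0 := by
      rw [← map_natCast (Ideal.Quotient.mk I.asIdeal), hp, map_zero]
    have : CharP (R ⧸ I.asIdeal) p := (CharP.charP_iff_prime_eq_zero Fact.out).2 hpK
    have hodd : Fintype.card (R ⧸ I.asIdeal) % 2 = 1 :=
      FiniteField.odd_card_of_char_ne_two (by rw [ringChar.eq (R ⧸ I.asIdeal) p]; exact hp2)
    have hc0 : Ideal.Quotient.mk I.asIdeal c ≠ 0 := (hc.map _).ne_zero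
    obtain ⟨a, b, hab⟩ := FiniteField.exists_root_sum_quadratic
      (f := Polynomial.X ^ 2 - Polynomial.C (Ideal.Quotient.mk I.asIdeal A))
      (g := Polynomial.C (-Ideal.Quotient.mk I.asIdeal c) * Polynomial.X ^ 2)
      (by rw [Polynomial.degree_X_pow_sub_C (by norm_num)]; rfl)
      (by rw [Polynomial.degree_C_mul_X_pow 2 (neg_ne_zero.2 hc0)]; rfl) hodd
    refine ⟨a, b, ?_⟩
    simp at hab
    linear_combination hab
  choose fa fb hab using hfield
  obtain ⟨a, ha⟩ := Ideal.Quotient.mk_surjective (e.symm fa)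
  obtain ⟨b, hb⟩ := Ideal.Quotient.mk_surjective (e.symm fb)
  have hq : Ideal.Quotient.mk (nilradical R) (a * a - c * (b * b) - A) = 0 := by
    apply e.injective
    have hmk : ∀ (x : R) (I : MaximalSpectrum R), e (Ideal.Quotient.mk (nilradical R) x) I = Ideal.Quotient.mk I.asIdeal x :=
      fun x I => rfl
    funext I
    have haI : Ideal.Quotient.mk I.asIdeal a = fa I := by rw [← hmk, ha, e.apply_symm_apply]
    have hbI : Ideal.Quotient.mk I.asIdeal b = fb I := by rw [← hmk, hb, e.apply_symm_apply]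
    rw [hmk, map_sub, map_sub, map_mul, map_mul, map_mul, haI, hbI, hab, sub_self, map_zero, Pi.zero_apply]
  rw [Ideal.Quotient.eq_zero_iff_mem, mem_nilradical] at hq
  obtain ⟨d, hd⟩ := hA.exists_left_inv
  obtain ⟨n, hn⟩ : IsNilpotent (d * (a * a - c * (b * b) - A)) := (Commute.all _ _).isNilpotent_mul_left hq
  set w := d * (a * a - c * (b * b)) with hw
  have hw1 : w ^ (p ^ n) = 1 := by
    have e1 : w = 1 + d * (a * a - c * (b * b) - A) := by rw [hw]; linear_combination hd
    rw [e1, add_pow_char_pow, one_pow, pow_eq_zero_of_le ((Fact.out : p.Prime).one_lt.le |> fun _ =>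
      (Nat.lt_pow_self (Fact.out : p.Prime).one_lt).le) hn, add_zero]
  obtain ⟨m, hm⟩ : Odd (p ^ n) := ((Fact.out : p.Prime).odd_of_ne_two hp2).pow
  refine ⟨w ^ m * a, w ^ m * b, ?_⟩
  have hAw : a * a - c * (b * b) = A * w := by rw [hw]; linear_combination -(a * a - c * (b * b)) * hd
  calc w ^ m * a * (w ^ m * a) - c * (w ^ m * b * (w ^ m * b)) = w ^ (2 * m) * (a * a - c * (b * b)) := by ring
    _ = A * w ^ (2 * m + 1) := by rw [hAw]; ring
    _ = A := by rw [← hm, hw1, mul_one]

variable {F : Type u} [Field F] {V : Type v} [AddCommGroup V] [Module F V]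

/-- Two invariant forms of an isometry without eigenvalue `±1` are equivalent by a commuting map. -/
theorem exists_adjust [Finite F] [FiniteDimensional F V] {p : ℕ} [Fact p.Prime] [CharP F p] (hp2 : p ≠ 2)
    (B B₁ : LinearMap.BilinForm F V) (hB : B.Nondegenerate) (halt : B.IsAlt) (halt₁ : B₁.IsAlt)
    (hB₁ : ∀ x, (∀ y, B₁ x y = 0) → x = 0) (g : V ≃ₗ[F] V) (hg : ∀ x y, B (g x) (g y) = B x y)
    (hg₁ : ∀ x y, B₁ (g x) (g y) = B₁ x y) (hz : ∀ x, g x - g.symm x = 0 → x = 0) :
    ∃ X : V ≃ₗ[F] V, (∀ x y, B (X x) (X y) = B₁ x y) ∧ ∀ x, X (g x) = g (X x) := by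
  classical
  let A : Module.End F V := (B.toDual hB).symm.toLinearMap.comp B₁
  have hA : ∀ x y, B (A x) y = B₁ x y := fun x y => LinearMap.BilinForm.apply_toDual_symm_apply (hB := hB) _ y
  have hAs : ∀ x y, B (A x) y = B x (A y) := fun x y => by
    rw [hA, ← LinearMap.IsAlt.neg halt, hA, LinearMap.IsAlt.neg halt₁]
  have hAg : ∀ x, A (g x) = g (A x) := fun x => by
    rw [← sub_eq_zero]
    refine hB.1 _ fun y => ?_
    obtain ⟨w, rfl⟩ := g.surjective y
    rw [map_sub, LinearMap.sub_apply, hA, hg, hA, hg₁, sub_self]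
  let Z : Module.End F V := g.toLinearMap - g.symm.toLinearMap
  have hZ : ∀ x, Z x = g x - g.symm x := fun x => rfl
  have hgi : ∀ x y, B (g.symm x) y = B x (g y) := fun x y => by
    rw [← hg, g.apply_symm_apply]
  have hgj : ∀ x y, B (g x) y = B x (g.symm y) := fun x y => by
    conv_lhs => rw [← g.apply_symm_apply y]
    rw [hg]
  have hZs : ∀ x y, B (Z x) y = -B x (Z y) := fun x y => by
    rw [hZ, hZ, map_sub, LinearMap.sub_apply, hgi, hgj, map_sub]; ring
  have hZg : ∀ x, Z (g x) = g (Z x) := fun x => by simp [hZ]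
  have hAgs : ∀ x, A (g.symm x) = g.symm (A x) := fun x => g.injective (by rw [← hAg, g.apply_symm_apply, g.apply_symm_apply])
  have hAZ : A * Z = Z * A := LinearMap.ext fun x => by simp [hZ, hAg, hAgs]
  have hcomm : A * (Z * Z) = (Z * Z) * A := by rw [← mul_assoc, hAZ, mul_assoc, hAZ, mul_assoc]
  let S : Set (Module.End F V) := {A, Z * Z}
  let R0 := Algebra.adjoin F S
  letI : CommRing R0 := Algebra.adjoinCommRingOfComm F (s := S) (by
    rintro a (rfl | rfl) b (rfl | rfl) <;> first | rfl | exact hcomm | exact hcomm.symm)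
  have hfin : Finite (Module.End F V) := Module.finite_of_finite F
  haveI : Finite R0 := Subtype.finite
  have hA0 : A ∈ R0 := Algebra.subset_adjoin (Set.mem_insert _ _)
  have hC0 : Z * Z ∈ R0 := Algebra.subset_adjoin (Set.mem_insert_of_mem _ rfl)
  have hunit : ∀ a : R0, Function.Injective (a : Module.End F V) → IsUnit a := fun a ha => by
    have hinj : Function.Injective fun r : R0 => a * r := fun r s h => Subtype.ext (LinearMap.ext fun x =>
      ha (LinearMap.congr_fun (congrArg (fun t : R0 => (t : Module.End F V)) h) x))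
    obtain ⟨r, hr⟩ := (Finite.injective_iff_surjective.1 hinj) 1
    exact IsUnit.of_mul_eq_one r hr
  have hAinj : Function.Injective A := by
    refine (injective_iff_map_eq_zero A).2 fun x hx => hB₁ x fun y => ?_
    rw [← hA, hx, map_zero, LinearMap.zero_apply]
  have hZinj : Function.Injective Z := (injective_iff_map_eq_zero Z).2 fun x hx => hz x hx
  obtain ⟨a, b, hab⟩ := exists_norm (R := R0) (p := p) hp2
    (by rw [← map_natCast (algebraMap F R0), CharP.cast_eq_zero, map_zero])
    (hunit ⟨A, hA0⟩ hAinj) (hunit ⟨Z * Z, hC0⟩ (hZinj.comp hZinj))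
  have hadj : ∀ t ∈ R0, ∀ x y, B (t x) y = B x (t y) := by
    intro t ht
    have key : ∀ s ∈ R0, ∀ r ∈ R0, s * r = r * s := fun s hs r hr =>
      congrArg Subtype.val (mul_comm (⟨s, hs⟩ : R0) ⟨r, hr⟩)
    induction ht using Algebra.adjoin_induction with
    | mem s hs =>
      rcases hs with rfl | rfl
      · exact hAs
      · intro x y; rw [Module.End.mul_apply, hZs, hZs, neg_neg]; rfl
    | algebraMap r => intro x y; simp [Module.algebraMap_end_apply]
    | add s r _ _ hs hr => intro x y; simp [hs x y, hr x y]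
    | mul s r hs' hr' hs hr =>
      intro x y
      conv_rhs => rw [key s hs' r hr']
      rw [Module.End.mul_apply, Module.End.mul_apply, hs, hr]
  have hcz : ∀ t ∈ R0, t * Z = Z * t := by
    intro t ht
    induction ht using Algebra.adjoin_induction with
    | mem s hs =>
      rcases hs with rfl | rfl
      · exact hAZ
      · rw [mul_assoc]
    | algebraMap r => exact Algebra.commutes r Z
    | add s r _ _ hs hr => rw [add_mul, mul_add, hs, hr]
    | mul s r _ _ hs hr => rw [mul_assoc, hr, ← mul_assoc, hs, mul_assoc]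
  have hcg : ∀ t ∈ R0, t * g.toLinearMap = g.toLinearMap * t := by
    intro t ht
    induction ht using Algebra.adjoin_induction with
    | mem s hs =>
      rcases hs with rfl | rfl
      · exact LinearMap.ext fun x => hAg x
      · exact LinearMap.ext fun x => by simp only [Module.End.mul_apply, LinearEquiv.coe_coe]; rw [hZg, hZg]
    | algebraMap r => exact Algebra.commutes r _
    | add s r _ _ hs hr => rw [add_mul, mul_add, hs, hr]
    | mul s r _ _ hs hr => rw [mul_assoc, hr, ← mul_assoc, hs, mul_assoc]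
  let X : Module.End F V := (a : Module.End F V) + (b : Module.End F V) * Z
  have hX : ∀ x y, B (X x) (X y) = B₁ x y := fun x y => by
    have h0 : (a : Module.End F V) * (a : Module.End F V) - Z * Z * ((b : Module.End F V) * (b : Module.End F V)) = A :=
      congrArg Subtype.val hab
    have e1 : B x (A y) = B₁ x y := by rw [← hAs, hA]
    rw [← e1, ← h0]
    have hb1 : ∀ w, (b : Module.End F V) (Z w) = Z ((b : Module.End F V) w) := fun w =>
      LinearMap.congr_fun (hcz _ b.2) w
    have hab' : ∀ w, (a : Module.End F V) ((b : Module.End F V) w) = (b : Module.End F V) ((a : Module.End F V) w) :=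
      fun w => LinearMap.congr_fun (congrArg Subtype.val (mul_comm a b)) w
    simp only [X, LinearMap.add_apply, Module.End.mul_apply, LinearMap.sub_apply, map_add, map_sub]
    simp only [hadj _ a.2, hadj _ b.2, hZs, hb1, hab']
    have ha1 : ∀ w, (a : Module.End F V) (Z w) = Z ((a : Module.End F V) w) := fun w =>
      LinearMap.congr_fun (hcz _ a.2) w
    simp only [ha1, hb1, hab']
    ring
  have hXinj : Function.Injective X := (injective_iff_map_eq_zero X).2 fun x hx => hB₁ x fun y => by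
    rw [← hX, hx, map_zero, LinearMap.zero_apply]
  refine ⟨LinearEquiv.ofInjectiveEndo X hXinj, hX, fun x => ?_⟩
  show X (g x) = g (X x)
  have h1 := LinearMap.congr_fun (hcg _ a.2) x
  have h2 := LinearMap.congr_fun (hcg _ b.2) (Z x)
  simp only [Module.End.mul_apply, LinearEquiv.coe_coe] at h1 h2
  simp only [X, LinearMap.add_apply, Module.End.mul_apply, map_add, hZg, h1, h2]

/-- A unipotent element is determined by the difference with its inverse. -/
theorem eq_of_sub_inv {E : Type*} [Ring E] {p : ℕ} [Fact p.Prime] (hp2 : p ≠ 2) (hp : (p : E) = 0)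
    (U U' : Eˣ) {D : ℕ} (hU : ((U : E) - 1) ^ D = 0) (hU' : ((U' : E) - 1) ^ D = 0)
    (h : (U : E) - ↑U⁻¹ = (U' : E) - ↑U'⁻¹) : U = U' := by
  rcases subsingleton_or_nontrivial E with hs | hn
  · exact Units.ext (Subsingleton.elim _ _)
  have : CharP E p := (CharP.charP_iff_prime_eq_zero Fact.out).2 hp
  obtain ⟨m, hm⟩ : Odd p := (Fact.out : p.Prime).odd_of_ne_two hp2
  have h2 : ∀ x : E, x + x = 0 → x = 0 := fun x hx => by
    have : (p : E) * x = (m : E) * (x + x) + x := by rw [hm]; push_cast; noncomm_ring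
    rw [hp, zero_mul, hx, mul_zero, zero_add] at this
    exact this.symm
  have key : ∀ W : Eˣ, ((W : E) - 1) ^ D = 0 → ((W : E) + ↑W⁻¹) ^ (p ^ D) = 2 := fun W hW => by
    have e : (W : E) + ↑W⁻¹ = 2 + ↑W⁻¹ * (((W : E) - 1) * ((W : E) - 1)) := by
      rw [show ((W : E) - 1) * ((W : E) - 1) = (W : E) * W - (W + W) + 1 by noncomm_ring, mul_add, mul_sub, mul_one,
        ← mul_assoc, Units.inv_mul, one_mul, mul_add, Units.inv_mul, ← one_add_one_eq_two]
      abel
    have hc : Commute (↑W⁻¹ : E) ((W : E) - 1) :=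
      ((Commute.refl (W : E)).units_inv_left).sub_right (Commute.one_right _)
    rw [e, add_pow_char_pow_of_commute _ _ (Commute.ofNat_left _ _), (hc.mul_right hc).mul_pow,
      (Commute.refl ((W : E) - 1)).mul_pow, pow_eq_zero_of_le (Nat.lt_pow_self (Fact.out : p.Prime).one_lt).le hW,
      zero_mul, mul_zero, add_zero]
    rw [show (2 : E) = ((2 : ℕ) : E) by norm_num, ← map_natCast (ZMod.castHom dvd_rfl E), ← map_pow,
      ZMod.pow_card_pow]
  have hsq : ((U : E) + ↑U⁻¹) * ((U : E) + ↑U⁻¹) = ((U' : E) + ↑U'⁻¹) * ((U' : E) + ↑U'⁻¹) := by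
    have e : ∀ W : Eˣ, ((W : E) + ↑W⁻¹) * ((W : E) + ↑W⁻¹) = ((W : E) - ↑W⁻¹) * ((W : E) - ↑W⁻¹) + (1 + 1 + 1 + 1) := fun W => by
      simp only [add_mul, mul_add, sub_mul, mul_sub, Units.mul_inv, Units.inv_mul]
      abel
    rw [e, e, h]
  obtain ⟨r, hr⟩ : Odd (p ^ D) := ((Fact.out : p.Prime).odd_of_ne_two hp2).pow
  have hpw : ∀ M : E, M ^ (p ^ D) * M = (M * M) ^ (r + 1) := fun M => by
    rw [← pow_two, ← pow_mul, ← pow_succ, hr]; congr 1
  have hM : (U : E) + ↑U⁻¹ = (U' : E) + ↑U'⁻¹ := by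
    have := hpw ((U : E) + ↑U⁻¹)
    rw [hsq, ← hpw, key U hU, key U' hU', two_mul, two_mul] at this
    rw [← sub_eq_zero]
    refine h2 _ ?_
    rw [← sub_eq_zero.2 this]
    abel
  refine Units.ext (sub_eq_zero.1 (h2 _ ?_))
  rw [← sub_eq_zero.2 hM, ← add_zero ((U : E) + ↑U⁻¹ - ((U' : E) + ↑U'⁻¹)), ← sub_eq_zero.2 h]
  abel

/-- Coordinates of a direct sum inside a subspace. -/
theorem exists_sum_equiv (K R W : Submodule F V) (hd : Disjoint K R) (hs : K ⊔ R = W) :
    ∃ e : (↥K × ↥R) ≃ₗ[F] W, ∀ x, (e x : V) = (x.1 : V) + (x.2 : V) := by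
  let f : (↥K × ↥R) →ₗ[F] W :=
    (Submodule.inclusion (hs ▸ le_sup_left : K ≤ W)).coprod (Submodule.inclusion (hs ▸ le_sup_right : R ≤ W))
  have hf : ∀ x, (f x : V) = (x.1 : V) + (x.2 : V) := fun x => by simp [f]
  refine ⟨LinearEquiv.ofBijective f ⟨(injective_iff_map_eq_zero _).2 fun x hx => ?_, fun w => ?_⟩, hf⟩
  · have h0 : (x.1 : V) + (x.2 : V) = 0 := by rw [← hf, hx]; rfl
    have h1 : (x.1 : V) = 0 := Submodule.disjoint_def.1 hd _ x.1.2 (by
      rw [eq_neg_of_add_eq_zero_left h0]; exact neg_mem x.2.2)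
    rw [h1, zero_add] at h0
    exact Prod.ext (Subtype.ext h1) (Subtype.ext h0)
  · obtain ⟨a, ha, b, hb, hab⟩ := Submodule.mem_sup.1 (hs.symm ▸ w.2 : (w : V) ∈ K ⊔ R)
    exact ⟨(⟨a, ha⟩, ⟨b, hb⟩), Subtype.ext (by rw [hf]; exact hab)⟩

/-- The difference of an isometry with its inverse is skew. -/
theorem skew_sub_inv (C : LinearMap.BilinForm F V) (w : V ≃ₗ[F] V) (hw : ∀ x y, C (w x) (w y) = C x y) (x y : V) :
    C ((w.toLinearMap - w.symm.toLinearMap) x) y = -C x ((w.toLinearMap - w.symm.toLinearMap) y) := by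
  have h1 : C (w.symm x) y = C x (w y) := by rw [← hw, w.apply_symm_apply]
  have h2 : C (w x) y = C x (w.symm y) := by conv_lhs => rw [← w.apply_symm_apply y, hw]
  simp only [LinearMap.sub_apply, LinearEquiv.coe_coe, map_sub, h1, h2]
  ring

variable {V' : Type*} [AddCommGroup V'] [Module F V']

/-- Isometric pairs on subspaces. -/
def Iso (B : LinearMap.BilinForm F V) (B' : LinearMap.BilinForm F V') (g : Module.End F V) (g' : Module.End F V')
    (W : Submodule F V) (W' : Submodule F V') : Prop :=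
  ∃ T : W ≃ₗ[F] W', (∀ x y : W, B' (T x : V') (T y : V') = B (x : V) (y : V)) ∧
    ∀ x y : W, (y : V) = g (x : V) → (T y : V') = g' (T x : V')

/-- Glueing along orthogonal sums. -/
theorem Iso.glue {B : LinearMap.BilinForm F V} {B' : LinearMap.BilinForm F V'} {g : Module.End F V}
    {g' : Module.End F V'} {W K R : Submodule F V} {W' K' R' : Submodule F V'} (hK : Iso B B' g g' K K')
    (hR : Iso B B' g g' R R') (hd : Disjoint K R) (hd' : Disjoint K' R') (hs : K ⊔ R = W) (hs' : K' ⊔ R' = W')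
    (ho : ∀ x ∈ K, ∀ y ∈ R, B x y = 0 ∧ B y x = 0) (ho' : ∀ x ∈ K', ∀ y ∈ R', B' x y = 0 ∧ B' y x = 0)
    (hgK : ∀ x ∈ K, g x ∈ K) (hgR : ∀ x ∈ R, g x ∈ R) : Iso B B' g g' W W' := by
  obtain ⟨T, hT, hTg⟩ := hK
  obtain ⟨S, hS, hSg⟩ := hR
  obtain ⟨e, he⟩ := exists_sum_equiv K R W hd hs
  obtain ⟨e', he'⟩ := exists_sum_equiv K' R' W' hd' hs'
  refine ⟨e.symm ≪≫ₗ (T.prodCongr S) ≪≫ₗ e', fun x y => ?_, fun x y hxy => ?_⟩
  · obtain ⟨⟨a, b⟩, rfl⟩ := e.surjective x
    obtain ⟨⟨c, d⟩, rfl⟩ := e.surjective y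
    simp only [LinearEquiv.trans_apply, LinearEquiv.symm_apply_apply, LinearEquiv.prodCongr_apply, he, he', map_add,
      LinearMap.add_apply, hT, hS, (ho _ a.2 _ d.2).1, (ho _ c.2 _ b.2).2, (ho' _ (T a).2 _ (S d).2).1,
      (ho' _ (T c).2 _ (S b).2).2]
  · obtain ⟨⟨a, b⟩, rfl⟩ := e.surjective x
    obtain ⟨⟨c, d⟩, rfl⟩ := e.surjective y
    rw [he, he, map_add] at hxy
    have hc : (c : V) = g a := by
      refine sub_eq_zero.1 (Submodule.disjoint_def.1 hd _ (sub_mem c.2 (hgK _ a.2)) ?_)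
      have : (c : V) - g a = g b - d := by linear_combination (norm := abel) hxy
      rw [this]
      exact sub_mem (hgR _ b.2) d.2
    have hdd : (d : V) = g b := by rw [hc] at hxy; exact add_left_cancel hxy
    simp only [LinearEquiv.trans_apply, LinearEquiv.symm_apply_apply, LinearEquiv.prodCongr_apply, he', map_add]
    rw [hTg a c hc, hSg b d hdd]

/-- Equal data for the differences with the inverses give isometric unipotent pairs. -/
theorem Iso.of_data {p : ℕ} [Fact p.Prime] [CharP F p] (hp2 : p ≠ 2) {δ : F} (hδ : δ ≠ 0)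
    {B : LinearMap.BilinForm F V} {B' : LinearMap.BilinForm F V'} (u : V ≃ₗ[F] V) (u' : V' ≃ₗ[F] V')
    (hu : ∀ x y, B (u x) (u y) = B x y) (hu' : ∀ x y, B' (u' x) (u' y) = B' x y)
    {W : Submodule F V} {W' : Submodule F V'} (hW : ∀ x ∈ W, u x ∈ W) (hW' : ∀ x ∈ W', u' x ∈ W')
    (hWs : ∀ x ∈ W, u.symm x ∈ W) (hWs' : ∀ x ∈ W', u'.symm x ∈ W') {D : ℕ}
    (hk : ∀ x ∈ W, ((u.toLinearMap - 1) ^ D) x = 0) (hk' : ∀ x ∈ W', ((u'.toLinearMap - 1) ^ D) x = 0)
    {Dt : Multiset Blk} (h : HasData δ B (u.toLinearMap - u.symm.toLinearMap) W Dt)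
    (h' : HasData δ B' (u'.toLinearMap - u'.symm.toLinearMap) W' Dt) :
    Iso B B' u.toLinearMap u'.toLinearMap W W' := by
  obtain ⟨T, hT, hTN⟩ := h.exists_isometry hδ (skew_sub_inv B u hu) (skew_sub_inv B' u' hu') h'
  refine ⟨T, hT, ?_⟩
  let a : W →ₗ[F] W := u.toLinearMap.restrict hW
  let a' : W →ₗ[F] W := u.symm.toLinearMap.restrict hWs
  let c : W' →ₗ[F] W' := u'.toLinearMap.restrict hW'
  let c' : W' →ₗ[F] W' := u'.symm.toLinearMap.restrict hWs'
  let U : (Module.End F W')ˣ :=
    ⟨T.toLinearMap ∘ₗ a ∘ₗ T.symm.toLinearMap, T.toLinearMap ∘ₗ a' ∘ₗ T.symm.toLinearMap,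
      LinearMap.ext fun x => by
        simp only [Module.End.mul_apply, LinearMap.comp_apply, LinearEquiv.coe_coe, LinearEquiv.symm_apply_apply]
        rw [show a (a' (T.symm x)) = T.symm x from Subtype.ext (u.apply_symm_apply _)]
        simp,
      LinearMap.ext fun x => by
        simp only [Module.End.mul_apply, LinearMap.comp_apply, LinearEquiv.coe_coe, LinearEquiv.symm_apply_apply]
        rw [show a' (a (T.symm x)) = T.symm x from Subtype.ext (u.symm_apply_apply _)]
        simp⟩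
  let U' : (Module.End F W')ˣ :=
    ⟨c, c', LinearMap.ext fun x => Subtype.ext (u'.apply_symm_apply _),
      LinearMap.ext fun x => Subtype.ext (u'.symm_apply_apply _)⟩
  have hU' : ((U' : Module.End F W') - 1) ^ D = 0 := by
    have e : ∀ (n : ℕ) (x : W'), ((((U' : Module.End F W') - 1) ^ n) x : V') = ((u'.toLinearMap - 1) ^ n) (x : V') := by
      intro n
      induction n with
      | zero => intro x; rfl
      | succ n ih =>
        intro x
        rw [pow_succ, pow_succ, Module.End.mul_apply, Module.End.mul_apply, ih]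
        rfl
    exact LinearMap.ext fun x => Subtype.ext ((e D x).trans (hk' _ x.2))
  have hU : ((U : Module.End F W') - 1) ^ D = 0 := by
    have e : ∀ (n : ℕ) (x : W), ((((U : Module.End F W') - 1) ^ n) (T x)) = T (((a - 1) ^ n) x) := by
      intro n
      induction n with
      | zero => intro x; rfl
      | succ n ih =>
        intro x
        rw [pow_succ, pow_succ, Module.End.mul_apply, Module.End.mul_apply, ← ih]
        congr 1
        simp [U]
    have e2 : ∀ (n : ℕ) (x : W), ((((a : Module.End F W) - 1) ^ n) x : V) = ((u.toLinearMap - 1) ^ n) (x : V) := by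
      intro n
      induction n with
      | zero => intro x; rfl
      | succ n ih =>
        intro x
        rw [pow_succ, pow_succ, Module.End.mul_apply, Module.End.mul_apply, ih]
        rfl
    refine LinearMap.ext fun x => ?_
    obtain ⟨y, rfl⟩ := T.surjective x
    rw [e, show ((a - 1) ^ D) y = 0 from Subtype.ext ((e2 D y).trans (hk _ y.2)), map_zero]
    simp
  have hdiff : (U : Module.End F W') - ↑U⁻¹ = (U' : Module.End F W') - ↑U'⁻¹ := by
    refine LinearMap.ext fun x => ?_
    obtain ⟨y, rfl⟩ := T.surjective x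
    apply Subtype.ext
    have := hTN y ((a - a') y) rfl
    simp only [U, U', Units.inv_mk, LinearMap.sub_apply, LinearMap.comp_apply, LinearEquiv.coe_coe,
      LinearEquiv.symm_apply_apply, ← map_sub] at this ⊢
    exact this
  have := eq_of_sub_inv (p := p) hp2
    (by rw [← map_natCast (algebraMap F (Module.End F W')), CharP.cast_eq_zero, map_zero]) U U' hU hU' hdiff
  intro x y hxy
  have h1 := congrArg Subtype.val (LinearMap.congr_fun (congrArg Units.val this) (T x))
  simp only [U, U', LinearMap.comp_apply, LinearEquiv.coe_coe, LinearEquiv.symm_apply_apply] at h1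
  rw [show y = a x from Subtype.ext hxy]
  exact h1

/-- The properties of one splitting step. -/
structure Split (B : LinearMap.BilinForm F V) (g : V ≃ₗ[F] V) (ε : F) (W K R : Submodule F V) (D : ℕ) : Prop where
  le_K : K ≤ W
  le_R : R ≤ W
  inv_K : ∀ x ∈ K, g x ∈ K ∧ g.symm x ∈ K
  inv_R : ∀ x ∈ R, g x ∈ R ∧ g.symm x ∈ R
  nd_K : ∀ x ∈ K, (∀ y ∈ K, B x y = 0) → x = 0
  nd_R : ∀ x ∈ R, (∀ y ∈ R, B x y = 0) → x = 0
  disj : Disjoint K R
  sup : K ⊔ R = W
  orth : ∀ x ∈ K, ∀ y ∈ R, B x y = 0 ∧ B y x = 0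
  kill : ∀ x ∈ K, ((g.toLinearMap - ε • 1) ^ D) x = 0
  inj : ∀ x ∈ R, g x = ε • x → x = 0

/-- Splitting off a generalised eigenspace. -/
theorem exists_split [FiniteDimensional F V] {B : LinearMap.BilinForm F V} (halt : B.IsAlt) (g : V ≃ₗ[F] V)
    (hg : ∀ x y, B (g x) (g y) = B x y) {ε : F} (hε : ε * ε = 1) {W : Submodule F V}
    (hW : ∀ x ∈ W, g x ∈ W ∧ g.symm x ∈ W) (hnd : ∀ x ∈ W, (∀ y ∈ W, B x y = 0) → x = 0) :
    ∃ K R, Split B g ε W K R (finrank F V) := by
  set D := finrank F V with hD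
  set h : Module.End F V := g.toLinearMap - ε • 1 with hh
  have hha : ∀ x, h x = g x - ε • x := fun x => rfl
  have hh' : ∀ x y, B x (h y) = B (g.symm x - ε • x) y := fun x y => by
    rw [hha, map_sub, map_smul, map_sub, LinearMap.sub_apply, map_smul, LinearMap.smul_apply,
      show B (g.symm x) y = B x (g y) by rw [← hg, g.apply_symm_apply]]
  have hcs : ∀ x, h (g.symm x) = g.symm (h x) := fun x => by simp [hha]
  have hcg : ∀ x, h (g x) = g (h x) := fun x => by simp [hha]
  have hcpow : ∀ (n : ℕ) (x : V), (h ^ n) (g x) = g ((h ^ n) x) ∧ (h ^ n) (g.symm x) = g.symm ((h ^ n) x) := by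
    intro n
    induction n with
    | zero => intro x; simp
    | succ n ih =>
      intro x
      simp only [pow_succ, Module.End.mul_apply, hcg, hcs, ih, and_self]
  have hWh : ∀ (n : ℕ), ∀ x ∈ W, (h ^ n) x ∈ W := by
    intro n
    induction n with
    | zero => intro x hx; simpa using hx
    | succ n ih =>
      intro x hx
      rw [pow_succ', Module.End.mul_apply, hha]
      exact sub_mem (hW _ (ih x hx)).1 (W.smul_mem _ (ih x hx))
  have hstab : ∀ x, (h ^ D) ((h ^ D) x) = 0 → (h ^ D) x = 0 := fun x hx => by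
    have e := Module.End.ker_pow_eq_ker_pow_finrank_of_le (f := h) (show D ≤ D + D by omega)
    have : x ∈ LinearMap.ker (h ^ (D + D)) := by rw [LinearMap.mem_ker, pow_add, Module.End.mul_apply, hx]
    rw [e] at this
    exact LinearMap.mem_ker.1 this
  let K := W ⊓ LinearMap.ker (h ^ D)
  let R := W.map (h ^ D)
  have hKR : Disjoint K R := by
    refine Submodule.disjoint_def.2 fun x hx hx' => ?_
    obtain ⟨w, -, rfl⟩ := Submodule.mem_map.1 hx'
    exact hstab w (LinearMap.mem_ker.1 hx.2)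
  have horth : ∀ x ∈ K, ∀ y ∈ R, B x y = 0 ∧ B y x = 0 := by
    intro x hx y hy
    obtain ⟨w, -, rfl⟩ := Submodule.mem_map.1 hy
    have key : ∀ (n : ℕ) (x : V), (h ^ n) x = 0 → ∀ w, B x ((h ^ n) w) = 0 := by
      intro n
      induction n with
      | zero => intro x hx w; simp at hx; simp [hx]
      | succ n ih =>
        intro x hx w
        rw [pow_succ', Module.End.mul_apply, hh']
        refine ih _ ?_ w
        have e : g.symm x - ε • x = (-ε) • g.symm (h x) := by
          rw [hha, map_sub, map_smul, g.symm_apply_apply, smul_sub, smul_smul, neg_mul, hε, neg_smul, neg_smul, one_smul]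
          abel
        rw [e, map_smul, (hcpow n _).2, ← Module.End.mul_apply, ← pow_succ, hx, map_zero, smul_zero]
    have h1 := key D x (LinearMap.mem_ker.1 hx.2) w
    exact ⟨h1, by rw [← LinearMap.IsAlt.neg halt, h1, neg_zero]⟩
  have hRle : R ≤ W := Submodule.map_le_iff_le_comap.2 fun x hx => hWh D x hx
  have hsup : K ⊔ R = W := by
    refine le_antisymm (sup_le inf_le_left hRle) fun w hw => ?_
    have hRR : ∀ r ∈ R, (h ^ D) r ∈ R := fun r hr => Submodule.mem_map.2 ⟨r, hRle hr, rfl⟩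
    have hinj : Function.Injective ((h ^ D).restrict hRR) := (injective_iff_map_eq_zero _).2 fun r hr =>
      Subtype.ext (Submodule.disjoint_def.1 hKR _
        ⟨hRle r.2, LinearMap.mem_ker.2 (congrArg Subtype.val hr)⟩ r.2)
    obtain ⟨r, hr⟩ := LinearMap.surjective_of_injective hinj ⟨(h ^ D) w, Submodule.mem_map.2 ⟨w, hw, rfl⟩⟩
    refine Submodule.mem_sup.2 ⟨w - r, ⟨sub_mem hw (hRle r.2), LinearMap.mem_ker.2 ?_⟩, r, r.2, by abel⟩
    have := congrArg Subtype.val hr
    rw [LinearMap.coe_restrict_apply] at this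
    rw [map_sub, this, sub_self]
  refine ⟨K, R, inf_le_left, hRle, fun x hx => ⟨⟨(hW x hx.1).1, ?_⟩, ⟨(hW x hx.1).2, ?_⟩⟩, fun x hx => ?_, ?_, ?_,
    hKR, hsup, horth, fun x hx => LinearMap.mem_ker.1 hx.2, fun x hx hxe => ?_⟩
  · show g x ∈ LinearMap.ker (h ^ D)
    rw [LinearMap.mem_ker, (hcpow D x).1, LinearMap.mem_ker.1 hx.2, map_zero]
  · show g.symm x ∈ LinearMap.ker (h ^ D)
    rw [LinearMap.mem_ker, (hcpow D x).2, LinearMap.mem_ker.1 hx.2, map_zero]
  · obtain ⟨w, hw, rfl⟩ := Submodule.mem_map.1 hx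
    exact ⟨Submodule.mem_map.2 ⟨g w, (hW w hw).1, (hcpow D w).1⟩,
      Submodule.mem_map.2 ⟨g.symm w, (hW w hw).2, (hcpow D w).2⟩⟩
  · intro x hx hxy
    refine hnd x hx.1 fun y hy => ?_
    obtain ⟨a, ha, b, hb, rfl⟩ := Submodule.mem_sup.1 (hsup.symm ▸ hy : y ∈ K ⊔ R)
    rw [map_add, hxy a ha, (horth x hx b hb).1, add_zero]
  · intro x hx hxy
    refine hnd x (hRle hx) fun y hy => ?_
    obtain ⟨a, ha, b, hb, rfl⟩ := Submodule.mem_sup.1 (hsup.symm ▸ hy : y ∈ K ⊔ R)
    rw [map_add, (horth a ha x hx).2, hxy b hb, add_zero]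
  · refine Submodule.disjoint_def.1 hKR x ⟨hRle hx, LinearMap.mem_ker.2 ?_⟩ hx
    have h0 : h x = 0 := by rw [hha, hxe, sub_self]
    rcases Nat.eq_zero_or_pos D with h | h
    · have : Subsingleton V := Module.finrank_zero_iff.1 (hD ▸ h)
      exact Subsingleton.elim _ _
    · rw [← Nat.sub_add_cancel h, pow_succ, Module.End.mul_apply, h0, map_zero]

end CfsgLib.CharDegrees.ClassCount.Sp
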