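import Cfsg.Agent.Lib.CharDegrees.ClassCount.UNumeric
import Cfsg.Agent.Lib.CharDegrees.ClassCount.Classes
import Cfsg.Agent.Lib.SemisimpleClasses.Unitary

/-!
The number of classes of `SU n q`.
-/

set_option autoImplicit false
set_option linter.unusedSectionVars false

namespace CfsgLib.CharDegrees.ClassCount

open Polynomial Matrix Finset
open CfsgLib.Generators
open CfsgLib.SemisimpleClasses.Unitary (UPoly det_qAdjoint)
open CfsgLib.Classes.SympSemi (rev rev_mul rev_rev rev_irreducible rev_monic natDegree_rev coeff_zero_rev)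

universe u

variable {K : Type u} [Field K] [Fintype K] [DecidableEq K] {q n : ℕ}

/-- Carrying the family along a degree preserving multiplicative map of polynomials. -/
theorem tuple_transport {V : Type*} [AddCommGroup V] [Module K V] [FiniteDimensional K V] {g g' : Module.End K V}
    (hg : LinearMap.det g ≠ 0) (hg' : LinearMap.det g' ≠ 0) (σ τ : K[X] → K[X]) (h1 : σ 1 = 1)
    (hmul : ∀ a b, σ (a * b) = σ a * σ b)
    (hirr : ∀ P : K[X], Irreducible P → P.Monic → P.coeff 0 ≠ 0 →
      Irreducible (σ P) ∧ (σ P).Monic ∧ (σ P).natDegree = P.natDegree ∧ τ (σ P) = P ∧ (σ P).coeff 0 ≠ 0)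
    (hτ : ∀ P : K[X], Irreducible P → P.Monic → P.coeff 0 ≠ 0 →
      Irreducible (τ P) ∧ (τ P).Monic ∧ (τ P).coeff 0 ≠ 0 ∧ σ (τ P) = P)
    (hdim : ∀ P : K[X], Irreducible P → P.Monic → P.coeff 0 ≠ 0 → ∀ j : ℕ,
      Module.finrank K (LinearMap.ker (aeval g' (σ P ^ j))) = Module.finrank K (LinearMap.ker (aeval g (P ^ j))))
    (k : ℕ) : tuple g' k = σ (tuple g k) := by
  classical
  rcases Nat.eq_zero_or_pos k with rfl | hk
  · rw [tuple_zero, tuple_zero, h1]
  have hcoeff : ∀ (f : Module.End K V), LinearMap.det f ≠ 0 → ∀ i, ((blk f).P i).coeff 0 ≠ 0 := by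
    intro f hf i h0
    rw [(blk f).det_eq, Finset.prod_ne_zero_iff] at hf
    refine hf i (Finset.mem_univ _) ?_
    rw [zOf, h0, mul_zero, zero_pow ((blk f).pos i).ne']
  have hfib : ∀ Q : K[X], Irreducible Q → Q.Monic → Q.coeff 0 ≠ 0 →
      (Finset.univ.filter fun i => ((blk g').P i, (blk g').e i) = (σ Q, k)).card =
        (Finset.univ.filter fun i => ((blk g).P i, (blk g).e i) = (Q, k)).card := by
    intro Q hQ hQm hQ0
    obtain ⟨hQs, hQsm, hQd, -, -⟩ := hirr Q hQ hQm hQ0
    have a := (blk g').card_formula hQs hQsm hk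
    have b := (blk g).card_formula hQ hQm hk
    rw [hdim Q hQ hQm hQ0, hdim Q hQ hQm hQ0, hdim Q hQ hQm hQ0, hQd] at a
    exact Nat.eq_of_mul_eq_mul_left hQ.natDegree_pos (by omega)
  have hmon : (σ (tuple g k)).Monic ∧ σ (tuple g k) =
      (((Finset.univ.filter fun i => (blk g).e i = k).val.map (blk g).P).map σ).prod := by
    rw [tuple, Finset.prod_eq_multiset_prod]
    have hall : ∀ P ∈ (Finset.univ.filter fun i => (blk g).e i = k).val.map (blk g).P, (σ P).Monic := fun P hP => by
      obtain ⟨i, -, rfl⟩ := Multiset.mem_map.1 hP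
      exact (hirr _ ((blk g).irr i) ((blk g).monic i) (hcoeff g hg i)).2.1
    generalize (Finset.univ.filter fun i => (blk g).e i = k).val.map (blk g).P = S at hall ⊢
    induction S using Multiset.induction_on with
    | empty => simp [h1]
    | cons a t ih =>
      obtain ⟨hm, he⟩ := ih fun P hP => hall P (Multiset.mem_cons_of_mem hP)
      rw [Multiset.prod_cons, hmul, Multiset.map_cons, Multiset.prod_cons]
      exact ⟨(hall a (Multiset.mem_cons_self a t)).mul hm, by rw [he]⟩
  have hfac : UniqueFactorizationMonoid.normalizedFactors (σ (tuple g k)) =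
      UniqueFactorizationMonoid.normalizedFactors (tuple g' k) := by
    rw [hmon.2, Multiset.map_map, UniqueFactorizationMonoid.normalizedFactors_prod_eq _ fun p hp => by
      obtain ⟨i, -, rfl⟩ := Multiset.mem_map.1 hp
      exact (hirr _ ((blk g).irr i) ((blk g).monic i) (hcoeff g hg i)).1, Multiset.map_map]
    refine Multiset.ext.2 fun Q' => ?_
    rw [count_tuple, Multiset.count_map, ← Finset.filter_val, ← Finset.card_def, Finset.filter_filter]
    have hn : ∀ i, normalize (σ ((blk g).P i)) = σ ((blk g).P i) := fun i =>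
      (hirr _ ((blk g).irr i) ((blk g).monic i) (hcoeff g hg i)).2.1.normalize_eq_self
    simp only [Function.comp_apply, hn]
    by_cases h : Irreducible Q' ∧ Q'.Monic ∧ Q'.coeff 0 ≠ 0
    · obtain ⟨ht1, ht2, ht3, ht4⟩ := hτ Q' h.1 h.2.1 h.2.2
      have hf := hfib _ ht1 ht2 ht3
      rw [ht4] at hf
      rw [hf]
      congr 1
      ext i
      simp only [Finset.mem_filter, Finset.mem_univ, true_and, Prod.mk.injEq]
      exact ⟨fun hi => ⟨by rw [hi.2, (hirr _ ((blk g).irr i) ((blk g).monic i) (hcoeff g hg i)).2.2.2.1], hi.1⟩,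
        fun hi => ⟨hi.2, by rw [hi.1, ht4]⟩⟩
    · have h0 : ∀ i, (blk g').P i ≠ Q' := fun i hi => h ⟨hi ▸ (blk g').irr i, hi ▸ (blk g').monic i, hi ▸ hcoeff g' hg' i⟩
      rw [(Finset.card_eq_zero.2 (Finset.filter_eq_empty_iff.2 fun i _ hi => h0 i (Prod.mk.injEq .. ▸ hi).1) :
        (Finset.univ.filter fun i => ((blk g').P i, (blk g').e i) = (Q', k)).card = 0),
        Finset.card_eq_zero, Finset.filter_eq_empty_iff]
      intro i _ hi
      obtain ⟨a1, a2, -, -, a5⟩ := hirr _ ((blk g).irr i) ((blk g).monic i) (hcoeff g hg i)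
      exact h ⟨hi.2 ▸ a1, hi.2 ▸ a2, hi.2 ▸ a5⟩
  have hass := UniqueFactorizationMonoid.prod_normalizedFactors hmon.1.ne_zero
  rw [hfac] at hass
  exact eq_of_monic_of_associated (tuple_monic _ k) hmon.1
    ((UniqueFactorizationMonoid.prod_normalizedFactors (tuple_monic g' k).ne_zero).symm.trans hass)

section Unitary

variable (φ : K →+* K)

/-- The conjugate reciprocal. -/
noncomputable def usg (f : K[X]) : K[X] := rev (f.map φ)

theorem usg_one : usg φ 1 = 1 := by
  rw [usg, Polynomial.map_one, rev, coeff_one_zero, inv_one, C_1, one_mul, ← C_1, reverse_C]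

theorem usg_mul (f g : K[X]) : usg φ (f * g) = usg φ f * usg φ g := by
  rw [usg, Polynomial.map_mul, rev_mul, usg, usg]

theorem usg_pow (f : K[X]) (j : ℕ) : usg φ (f ^ j) = usg φ f ^ j := by
  induction j with
  | zero => rw [pow_zero, pow_zero, usg_one]
  | succ j ih => rw [pow_succ, pow_succ, usg_mul, ih]

theorem coeff_map_ne {f : K[X]} (h0 : f.coeff 0 ≠ 0) : (f.map φ).coeff 0 ≠ 0 := by
  rw [coeff_map]; exact fun h => h0 (φ.injective (by rw [h, map_zero]))

theorem usg_usg (hφ2 : ∀ x, φ (φ x) = x) {f : K[X]} (hf : f.Monic) (h0 : f.coeff 0 ≠ 0) : usg φ (usg φ f) = f := by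
  rw [usg, usg, SemisimpleClasses.Unitary.rev_map, Polynomial.map_map,
    show φ.comp φ = RingHom.id K from RingHom.ext hφ2, Polynomial.map_id, rev_rev hf h0]

theorem usg_props (hφ2 : ∀ x, φ (φ x) = x) {P : K[X]} (hi : Irreducible P) (hm : P.Monic) (h0 : P.coeff 0 ≠ 0) :
    Irreducible (usg φ P) ∧ (usg φ P).Monic ∧ (usg φ P).natDegree = P.natDegree ∧ usg φ (usg φ P) = P ∧
      (usg φ P).coeff 0 ≠ 0 := by
  let e : K ≃+* K := RingEquiv.ofBijective φ ⟨φ.injective, fun x => ⟨φ x, hφ2 x⟩⟩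
  have hPf : Irreducible (P.map φ) := (MulEquiv.irreducible_iff (Polynomial.mapEquiv e).toMulEquiv).2 hi
  have hf0 := coeff_map_ne φ h0
  exact ⟨rev_irreducible (hm.map φ) hf0 hPf, rev_monic hf0,
    (natDegree_rev hf0).trans (natDegree_map_eq_of_injective φ.injective P), usg_usg φ hφ2 hm h0,
    coeff_zero_rev (hm.map φ) hf0⟩

theorem qAdjoint_aeval' (hK : Fintype.card K = q ^ 2) (hφ : ∀ x, φ x = x ^ q) (A : Matrix (Fin n) (Fin n) K)
    (w : K[X]) : qAdjoint q (aeval A w) = aeval (qAdjoint q A) (w.map φ) := by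
  induction w using Polynomial.induction_on' with
  | add a b ha hb => simp [qAdjoint_add hK, ha, hb, Polynomial.map_add]
  | monomial k a =>
    rw [Polynomial.map_monomial, aeval_monomial, aeval_monomial, ← Algebra.smul_def, ← Algebra.smul_def,
      CharDegrees.qAdjoint_smul, hφ]
    congr 1
    induction k with
    | zero => rw [pow_zero, pow_zero, qAdjoint_one hK]
    | succ k ih => rw [pow_succ, qAdjoint_mul hK, ih, ← pow_succ']

theorem pow_mul_aeval_inv {A B : Matrix (Fin n) (Fin n) K} (hAB : A * B = 1) (h : K[X]) :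
    A ^ h.natDegree * aeval B h = aeval A h.reverse := by
  rw [aeval_eq_sum_range (p := h), aeval_eq_sum_range' (p := h.reverse) (n := h.natDegree + 1)
    (Nat.lt_succ_of_le (reverse_natDegree_le h)), Finset.mul_sum,
    ← Finset.sum_range_reflect (fun i => h.reverse.coeff i • A ^ i)]
  refine Finset.sum_congr rfl fun i hi => ?_
  rw [Finset.mem_range] at hi
  rw [show h.natDegree + 1 - 1 - i = h.natDegree - i by omega, coeff_reverse, revAt_le (Nat.sub_le _ _),
    Nat.sub_sub_self (by omega), Matrix.mul_smul]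
  congr 1
  conv_lhs => rw [show h.natDegree = (h.natDegree - i) + i by omega, pow_add, mul_assoc]
  have e : ∀ j : ℕ, A ^ j * B ^ j = 1 := by
    intro j
    induction j with
    | zero => simp
    | succ j ih => rw [pow_succ A, pow_succ' B, mul_assoc, ← mul_assoc A B, hAB, one_mul, ih]
  rw [e, mul_one]

theorem finrank_ker_toLin' (M : Matrix (Fin n) (Fin n) K) :
    Module.finrank K (LinearMap.ker (Matrix.toLin' M)) + M.rank = n := by
  have := LinearMap.finrank_range_add_finrank_ker (Matrix.toLin' M)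
  rw [Module.finrank_fin_fun] at this
  rw [Matrix.rank, ← Matrix.toLin'_apply']
  omega

theorem aeval_toLin' (A : Matrix (Fin n) (Fin n) K) (f : K[X]) :
    aeval (Matrix.toLin' A) f = Matrix.toLin' (aeval A f) :=
  Polynomial.aeval_algHom_apply (Matrix.toLinAlgEquiv' (R := K) (n := Fin n)).toAlgHom A f

theorem mt_unitary (hK : Fintype.card K = q ^ 2) (hφ : ∀ x, φ x = x ^ q) (hφ2 : ∀ x, φ (φ x) = x)
    {A : Matrix (Fin n) (Fin n) K} (hA : qAdjoint q A * A = 1) (k : ℕ) : UPoly φ (mt A k) := by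
  have hAu : IsUnit A.det := IsUnit.of_mul_eq_one (qAdjoint q A).det (by
    rw [← det_mul, mul_eq_one_comm.1 hA, det_one])
  have hd : LinearMap.det (Matrix.toLin' A) ≠ 0 := by rw [LinearMap.det_toLin']; exact hAu.ne_zero
  have hg := good_mt hAu.ne_zero
  refine ⟨hg.monic k, hg.coeff k, ?_⟩
  have key : mt A k = usg φ (mt A k) := by
    refine tuple_transport hd hd (usg φ) (usg φ) (usg_one φ) (usg_mul φ) (fun P a b c => usg_props φ hφ2 a b c)
      (fun P a b c => ?_) (fun P a b c j => ?_) k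
    · obtain ⟨r1, r2, -, r4, r5⟩ := usg_props φ hφ2 a b c
      exact ⟨r1, r2, r5, r4⟩
    · rw [← usg_pow, aeval_toLin', aeval_toLin']
      have h1 := finrank_ker_toLin' (aeval A (usg φ (P ^ j)))
      have h2 := finrank_ker_toLin' (aeval A (P ^ j))
      set w := P ^ j with hw
      have hw0 : w.coeff 0 ≠ 0 := by rw [hw, coeff_zero_eq_eval_zero, eval_pow, ← coeff_zero_eq_eval_zero]; exact pow_ne_zero j c
      have e : (aeval A (usg φ w)).rank = (aeval A w).rank := by
        rw [usg, rev, map_mul, aeval_C, ← pow_mul_aeval_inv (mul_eq_one_comm.1 hA), ← qAdjoint_aeval' φ hK hφ,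
          ← mul_assoc, rank_mul_eq_right_of_isUnit_det, CfsgLib.Classes.rank_qAdjoint hK]
        rw [det_mul, det_pow]
        refine IsUnit.mul ?_ (hAu.pow _)
        rw [Algebra.algebraMap_eq_smul_one, det_smul, det_one, mul_one]
        exact (inv_ne_zero (coeff_map_ne φ hw0)).isUnit.pow _
      omega
  have h := congrArg (fun f => f.map φ) key
  simp only [usg, SemisimpleClasses.Unitary.rev_map, Polynomial.map_map,
    show φ.comp φ = RingHom.id K from RingHom.ext hφ2, Polynomial.map_id] at h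
  exact h

/-- Unitary elements of the centraliser with determinant `d / d ^ q`. -/
theorem exists_unitary_det (hK : Fintype.card K = q ^ 2) (hφ : ∀ x, φ x = x ^ q)
    {G a : Matrix (Fin n) (Fin n) K} (hG : qAdjoint q G * G = 1) (ha : IsUnit a) (hc : Commute a G) :
    ∃ z, qAdjoint q z * z = 1 ∧ Commute z G ∧ z.det * a.det ^ q = a.det := by
  set h := qAdjoint q a * a with hh
  have hfix : qAdjoint q h = h := by rw [hh, qAdjoint_mul hK, qAdjoint_qAdjoint hK]
  have hau : IsUnit (qAdjoint q a) := by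
    rw [isUnit_iff_isUnit_det, det_qAdjoint φ hφ]; exact ((isUnit_iff_isUnit_det a).1 ha).pow q
  have hG' : G * qAdjoint q G = 1 := mul_eq_one_comm.1 hG
  have comm_adj : ∀ x, Commute x G → Commute (qAdjoint q x) G := by
    intro x hx
    have e := congrArg (qAdjoint q) hx.eq
    rw [qAdjoint_mul hK, qAdjoint_mul hK] at e
    show qAdjoint q x * G = G * qAdjoint q x
    calc qAdjoint q x * G = G * (qAdjoint q G * qAdjoint q x) * G := by rw [← mul_assoc G, hG', one_mul]
      _ = G * (qAdjoint q x * qAdjoint q G) * G := by rw [← e]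
      _ = G * qAdjoint q x := by rw [mul_assoc, mul_assoc, hG, mul_one]
  obtain ⟨Y, hYu, hYh, hYc⟩ := exists_qAdjoint_mul_eq hK (hau.mul ha) hfix
  have hYG : Commute Y G := (hYc G (Commute.mul_left (comm_adj a hc) hc).symm).symm
  have hYn : qAdjoint q Y * Y = Y * qAdjoint q Y := by
    have h1 : h * Y = Y * h := (hYc h (Commute.refl h)).eq
    rw [← hh] at hYh
    rw [← hYh, ← mul_assoc] at h1
    exact hYu.mul_right_cancel h1
  obtain ⟨y, rfl⟩ := hYu
  have hYsu : IsUnit (qAdjoint q (y : Matrix (Fin n) (Fin n) K)) := by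
    rw [isUnit_iff_isUnit_det, det_qAdjoint φ hφ]; exact ((isUnit_iff_isUnit_det _).1 y.isUnit).pow q
  obtain ⟨ys, hys⟩ := hYsu
  have hys_inv : qAdjoint q ((ys⁻¹ : GL (Fin n) K) : Matrix (Fin n) (Fin n) K) = ((y⁻¹ : GL (Fin n) K) : Matrix (Fin n) (Fin n) K) := by
    have e1 : qAdjoint q (ys : Matrix (Fin n) (Fin n) K) = y := by rw [hys, qAdjoint_qAdjoint hK]
    have e2 : qAdjoint q ((ys⁻¹ : GL (Fin n) K) : Matrix (Fin n) (Fin n) K) * y = 1 := by
      rw [← e1, ← qAdjoint_mul hK, Units.mul_inv, qAdjoint_one hK]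
    calc _ = qAdjoint q ((ys⁻¹ : GL (Fin n) K) : Matrix (Fin n) (Fin n) K) * (y * ((y⁻¹ : GL (Fin n) K) : Matrix (Fin n) (Fin n) K)) := by
          rw [Units.mul_inv, mul_one]
      _ = _ := by rw [← mul_assoc, e2, one_mul]
  set Z := a * ((y⁻¹ : GL (Fin n) K) : Matrix (Fin n) (Fin n) K) with hZ
  set W := (y : Matrix (Fin n) (Fin n) K) * ((ys⁻¹ : GL (Fin n) K) : Matrix (Fin n) (Fin n) K) with hW
  have hZu : qAdjoint q Z * Z = 1 := by
    rw [hZ, qAdjoint_mul hK, mul_assoc, ← mul_assoc (qAdjoint q a), ← hYh, mul_assoc, Units.mul_inv, mul_one,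
      ← qAdjoint_mul hK, Units.mul_inv, qAdjoint_one hK]
  have hWu : qAdjoint q W * W = 1 := by
    rw [hW, qAdjoint_mul hK, hys_inv, mul_assoc, ← mul_assoc (qAdjoint q (y : Matrix (Fin n) (Fin n) K)), hYn,
      mul_assoc (y : Matrix (Fin n) (Fin n) K), ← hys, Units.mul_inv, mul_one, Units.inv_mul]
  have hWc : Commute W G :=
    hYG.mul_left ((show Commute (ys : Matrix (Fin n) (Fin n) K) G by rw [hys]; exact comm_adj _ hYG).units_inv_left)
  have hZc : Commute Z G := hc.mul_left hYG.units_inv_left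
  refine ⟨Z * Z * W, ?_, (hZc.mul_left hZc).mul_left hWc, ?_⟩
  · calc qAdjoint q (Z * Z * W) * (Z * Z * W) = qAdjoint q W * (qAdjoint q Z * (qAdjoint q Z * Z) * Z) * W := by
          rw [qAdjoint_mul hK (Z * Z) W, qAdjoint_mul hK Z Z]; simp only [mul_assoc]
      _ = 1 := by rw [hZu, mul_one, hZu, mul_one, hWu]
  · have dh := congrArg Matrix.det hYh
    rw [← hh] at dh
    rw [hh, det_mul, det_mul, det_qAdjoint φ hφ, det_qAdjoint φ hφ] at dh
    have d1 : ((y⁻¹ : GL (Fin n) K) : Matrix (Fin n) (Fin n) K).det * (y : Matrix (Fin n) (Fin n) K).det = 1 := by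
      rw [← det_mul, Units.inv_mul, det_one]
    have d2 : ((ys⁻¹ : GL (Fin n) K) : Matrix (Fin n) (Fin n) K).det * (y : Matrix (Fin n) (Fin n) K).det ^ q = 1 := by
      rw [← det_qAdjoint φ hφ, ← hys, ← det_mul, Units.inv_mul, det_one]
    rw [det_mul, det_mul, hZ, hW, det_mul, det_mul]
    set da := a.det
    set dy := (y : Matrix (Fin n) (Fin n) K).det
    set dy' := ((y⁻¹ : GL (Fin n) K) : Matrix (Fin n) (Fin n) K).det
    set dys' := ((ys⁻¹ : GL (Fin n) K) : Matrix (Fin n) (Fin n) K).det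
    calc da * dy' * (da * dy') * (dy * dys') * da ^ q
        = da * (da ^ q * da) * dy' * (dy' * dy) * dys' := by ring
      _ = da * (dy ^ q * dy) * dy' * 1 * dys' := by rw [d1, dh]
      _ = da * (dys' * dy ^ q) * (dy' * dy) := by ring
      _ = da := by rw [d1, d2, mul_one, mul_one]

end Unitary

end CfsgLib.CharDegrees.ClassCount
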