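import Cfsg.Agent.Lib.CharDegrees.ClassCount.SpRest
import Cfsg.Agent.Lib.CharDegrees.ClassCount.UClasses

/-!
The family of polynomials of an isometry without eigenvalue `±1`, and conjugacy from it.
-/

set_option autoImplicit false
set_option linter.unusedSectionVars false

namespace CfsgLib.CharDegrees.ClassCount.Sp

open Polynomial Module
open CfsgLib.Classes.SympSemi (rev rev_mul rev_rev rev_irreducible rev_monic natDegree_rev coeff_zero_rev)

universe u v

variable {F : Type u} [Field F] [DecidableEq F] {V : Type v} [AddCommGroup V] [Module F V] [FiniteDimensional F V]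

/-- Evaluating the reversal. -/
theorem pow_mul_aeval_inv {E : Type*} [Ring E] [Algebra F E] {a b : E} (hab : a * b = 1) (h : F[X]) :
    a ^ h.natDegree * aeval b h = aeval a h.reverse := by
  rw [aeval_eq_sum_range (p := h), aeval_eq_sum_range' (p := h.reverse) (n := h.natDegree + 1)
    (Nat.lt_succ_of_le (reverse_natDegree_le h)), Finset.mul_sum,
    ← Finset.sum_range_reflect (fun i => h.reverse.coeff i • a ^ i)]
  refine Finset.sum_congr rfl fun i hi => ?_
  rw [Finset.mem_range] at hi
  rw [show h.natDegree + 1 - 1 - i = h.natDegree - i by omega, coeff_reverse, revAt_le (Nat.sub_le _ _),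
    Nat.sub_sub_self (by omega), mul_smul_comm]
  congr 1
  conv_lhs => rw [show h.natDegree = (h.natDegree - i) + i by omega, pow_add, mul_assoc]
  have e : ∀ j : ℕ, a ^ j * b ^ j = 1 := by
    intro j
    induction j with
    | zero => simp
    | succ j ih => rw [pow_succ a, pow_succ' b, mul_assoc, ← mul_assoc a b, hab, one_mul, ih]
  rw [e, mul_one]

theorem usg_id (f : F[X]) : usg (RingHom.id F) f = rev f := by rw [usg, Polynomial.map_id]

/-- The family of an isometry is self-reciprocal. -/
theorem tuple_rev [Fintype F] (B : LinearMap.BilinForm F V) (hB : B.Nondegenerate) (halt : B.IsAlt)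
    (g : V ≃ₗ[F] V) (hg : ∀ x y, B (g x) (g y) = B x y) (k : ℕ) :
    rev (tuple g.toLinearMap k) = tuple g.toLinearMap k := by
  have hd : LinearMap.det g.toLinearMap ≠ 0 := (LinearEquiv.isUnit_det' g).ne_zero
  have hid : ∀ x : F, RingHom.id F (RingHom.id F x) = x := fun x => rfl
  have key := tuple_transport hd hd (usg (RingHom.id F)) (usg (RingHom.id F)) (usg_one _) (usg_mul _)
    (fun P a b c => usg_props _ hid a b c) (fun P a b c => ?_) (fun P a b c j => ?_) k
  · rw [usg_id] at key; exact key.symm
  · obtain ⟨r1, r2, -, r4, r5⟩ := usg_props (RingHom.id F) hid a b c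
    exact ⟨r1, r2, r5, r4⟩
  rw [← usg_pow, usg_id]
  set w := P ^ j with hw
  have hw0 : w.coeff 0 ≠ 0 := by
    rw [hw, coeff_zero_eq_eval_zero, eval_pow, ← coeff_zero_eq_eval_zero]; exact pow_ne_zero j c
  set A : Module.End F V := g.toLinearMap
  set A' : Module.End F V := g.symm.toLinearMap
  have hAA : A * A' = 1 := LinearMap.ext fun x => g.apply_symm_apply x
  have hA' : ∀ x y, B (A' x) y = B x (A y) := fun x y => by
    show B (g.symm x) y = B x (g y)
    rw [← hg, g.apply_symm_apply]
  have hadj : ∀ (f : F[X]) x y, B (aeval A' f x) y = B x (aeval A f y) := by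
    intro f
    induction f using Polynomial.induction_on' with
    | add p q hp hq => intro x y; simp [hp, hq]
    | monomial i r =>
      intro x y
      simp only [aeval_monomial, Module.End.mul_apply, Module.algebraMap_end_apply, map_smul,
        LinearMap.smul_apply, smul_eq_mul]
      congr 1
      induction i generalizing x y with
      | zero => simp
      | succ i ih => rw [pow_succ, pow_succ', Module.End.mul_apply, Module.End.mul_apply, ih, hA']
  have e1 : LinearMap.ker (aeval A (rev w)) = LinearMap.ker (aeval A' w) := by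
    ext x
    simp only [LinearMap.mem_ker, rev, map_mul, aeval_C, Module.End.mul_apply, Module.algebraMap_end_apply,
      smul_eq_zero, inv_eq_zero, hw0, false_or, ← pow_mul_aeval_inv hAA]
    refine ⟨fun h => ?_, fun h => by rw [h, map_zero]⟩
    have hinj : Function.Injective ⇑(A ^ w.natDegree) := by
      rw [Module.End.coe_pow]; exact Function.Injective.iterate g.injective _
    exact hinj (h.trans (map_zero _).symm)
  have e2 : LinearMap.ker (aeval A' w) = B.orthogonal (LinearMap.range (aeval A w)) := by
    ext x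
    rw [LinearMap.mem_ker, LinearMap.BilinForm.mem_orthogonal_iff]
    constructor
    · rintro h _ ⟨y, rfl⟩
      show B (aeval A w y) x = 0
      rw [← LinearMap.IsAlt.neg halt, ← hadj, h, map_zero, LinearMap.zero_apply, neg_zero]
    · intro h
      refine hB.1 _ fun y => ?_
      rw [hadj, ← LinearMap.IsAlt.neg halt, neg_eq_zero]
      exact h _ ⟨y, rfl⟩
  rw [e1, e2, LinearMap.BilinForm.finrank_orthogonal hB]
  have := LinearMap.finrank_range_add_finrank_ker (aeval A w)
  omega

/-- A polynomial of the family has no root at which the endomorphism has no eigenvector. -/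
theorem tuple_eval_ne_zero (g : Module.End F V) {ε : F} (h : ∀ x, g x = ε • x → x = 0) (k : ℕ) :
    (tuple g k).eval ε ≠ 0 := by
  rw [tuple, eval_prod, Finset.prod_ne_zero_iff]
  intro i hi h0
  have hP : (blk g).P i = X - C ε :=
    (eq_of_monic_of_associated (monic_X_sub_C ε) ((blk g).monic i)
      ((irreducible_X_sub_C ε).associated_of_dvd ((blk g).irr i) (dvd_iff_isRoot.2 h0))).symm
  have hker : LinearMap.ker (aeval g ((X - C ε) ^ 1)) = ⊥ := by
    rw [LinearMap.ker_eq_bot']
    intro x hx
    refine h x (sub_eq_zero.1 ?_)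
    simpa using hx
  have := (blk g).finrank_ker (irreducible_X_sub_C ε) (monic_X_sub_C ε) 1
  rw [hker, finrank_bot] at this
  have h1 := (Finset.sum_eq_zero_iff.1 this.symm) i (Finset.mem_univ _)
  rw [if_pos hP, hP, natDegree_X_sub_C, one_mul] at h1
  have := (blk g).pos i
  omega

variable {V' : Type*} [AddCommGroup V'] [Module F V'] [FiniteDimensional F V']

/-- Equal families give isometries, in the absence of the eigenvalues `±1`. -/
theorem exists_isometry_of_tuple [Finite F] {p : ℕ} [Fact p.Prime] [CharP F p] (hp2 : p ≠ 2)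
    (B : LinearMap.BilinForm F V) (hB : B.Nondegenerate) (halt : B.IsAlt) (g : V ≃ₗ[F] V)
    (hg : ∀ x y, B (g x) (g y) = B x y) (h1 : ∀ x, g x = x → x = 0) (h2 : ∀ x, g x = -x → x = 0)
    (B' : LinearMap.BilinForm F V') (hB' : B'.Nondegenerate) (halt' : B'.IsAlt) (g' : V' ≃ₗ[F] V')
    (hg' : ∀ x y, B' (g' x) (g' y) = B' x y)
    (heq : ∀ k, tuple g.toLinearMap k = tuple g'.toLinearMap k) :
    ∃ T : V ≃ₗ[F] V', (∀ x y, B' (T x) (T y) = B x y) ∧ ∀ x, T (g x) = g' (T x) := by
  obtain ⟨T, hT⟩ := exists_similar_of_blocks (blk g.toLinearMap) (blk g'.toLinearMap)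
    fun c => by rw [← count_tuple, ← count_tuple, heq]
  replace hT : ∀ x, T (g x) = g' (T x) := hT
  let B₁ : LinearMap.BilinForm F V := B'.compl₁₂ T.toLinearMap T.toLinearMap
  have hB₁ : ∀ x y, B₁ x y = B' (T x) (T y) := fun x y => rfl
  obtain ⟨X, hX, hXg⟩ := exists_adjust hp2 B B₁ hB halt (fun x => halt' (T x))
    (fun x hx => T.map_eq_zero_iff.1 (hB'.1 _ fun y => by
      obtain ⟨z, rfl⟩ := T.surjective y
      exact hx z))
    g hg (fun x y => by rw [hB₁, hB₁, hT, hT, hg'])
    (fun x hx => by
      rw [sub_eq_zero] at hx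
      have e : g (g x) = x := by rw [hx, g.apply_symm_apply]
      have : g x = x := sub_eq_zero.1 (h2 (g x - x) (by rw [map_sub, e]; abel))
      exact h1 x this)
  refine ⟨X.symm ≪≫ₗ T, fun x y => ?_, fun x => ?_⟩
  · simp only [LinearEquiv.trans_apply]
    rw [← hB₁, ← hX, X.apply_symm_apply, X.apply_symm_apply]
  · simp only [LinearEquiv.trans_apply]
    rw [← hT]
    congr 1
    rw [LinearEquiv.symm_apply_eq, hXg, X.apply_symm_apply]

end CfsgLib.CharDegrees.ClassCount.Sp
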