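import Cfsg.Agent.Lib.CharDegrees.ClassCount.Numeric
import Cfsg.Agent.Lib.CharDegrees.ClassCount.Invariants
import Cfsg.Agent.Lib.SemisimpleClasses.Count

/-!
Counting the admissible families of polynomials.
-/

set_option autoImplicit false
set_option linter.unusedSectionVars false

namespace CfsgLib.CharDegrees.ClassCount

open Polynomial Finset

universe u

variable {F : Type u} [Field F] [Fintype F] [DecidableEq F]

theorem finite_monWith (s : ℕ) : {f : F[X] | f.Monic ∧ f.natDegree = s ∧ f.coeff 0 ≠ 0}.Finite := by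
  refine Set.Finite.of_finite_image (f := fun f : F[X] => fun i : Fin s => f.coeff i) (Set.toFinite _) ?_
  rintro f ⟨hf, hfd, -⟩ g ⟨hg, hgd, -⟩ h
  refine Polynomial.ext fun i => ?_
  rcases lt_trichotomy i s with hi | rfl | hi
  · exact congrFun h ⟨i, hi⟩
  · nth_rewrite 1 [← hfd]
    nth_rewrite 1 [← hgd]
    rw [hf.coeff_natDegree, hg.coeff_natDegree]
  · rw [coeff_eq_zero_of_natDegree_lt (hfd ▸ hi), coeff_eq_zero_of_natDegree_lt (hgd ▸ hi)]

/-- Monic polynomials of degree `s` with non-zero constant term. -/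
noncomputable def mon (F : Type u) [Field F] [Fintype F] [DecidableEq F] (s : ℕ) : Finset F[X] :=
  (finite_monWith (F := F) s).toFinset

theorem mem_mon {s : ℕ} {f : F[X]} : f ∈ mon F s ↔ f.Monic ∧ f.natDegree = s ∧ f.coeff 0 ≠ 0 := by
  simp [mon]

theorem mon_zero : mon F 0 = {1} := by
  ext f
  rw [mem_mon, mem_singleton]
  exact ⟨fun h => eq_one_of_monic_natDegree_zero h.1 h.2.1, fun h => by subst h; simp⟩

theorem card_mon_filter (s : ℕ) (P : F → Prop) [DecidablePred P] :
    ((mon F (s + 1)).filter fun f => P (f.coeff 0)).card =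
      (Finset.univ.filter fun a : F => a ≠ 0 ∧ P a).card * Fintype.card F ^ s := by
  have e : {f // f ∈ (mon F (s + 1)).filter fun f => P (f.coeff 0)} ≃
      SemisimpleClasses.MonicWith F (s + 1) (fun a => a ≠ 0 ∧ P a) :=
    Equiv.subtypeEquivRight fun f => by rw [mem_filter, mem_mon]; simp [and_assoc]
  have h2 := Nat.card_congr e
  rw [Nat.card_eq_fintype_card, Fintype.card_coe] at h2
  rw [h2, SemisimpleClasses.card_monicWith s (fun a => a ≠ 0 ∧ P a), Nat.card_eq_fintype_card,
    Nat.card_eq_fintype_card, Fintype.card_subtype]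

theorem card_mon : ∀ s, (mon F s).card = aC (Fintype.card F) s
  | 0 => by rw [mon_zero, card_singleton, aC_zero]
  | s + 1 => by
    have h := card_mon_filter (F := F) s (fun _ => True)
    simp only [filter_true, and_true] at h
    rw [h, aC_succ, filter_ne' univ (0 : F), card_erase_of_mem (mem_univ _), card_univ]

/-- Lists of polynomials in positions `k, k + 1, ..., k + l - 1` of weight `r`. -/
noncomputable def tup (F : Type u) [Field F] [Fintype F] [DecidableEq F] : ℕ → ℕ → ℕ → Finset (List F[X])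
  | 0, _, r => if r = 0 then {[]} else ∅
  | l + 1, k, r => (range (r + 1)).biUnion fun s =>
      if k * s ≤ r then (mon F s ×ˢ tup F l (k + 1) (r - k * s)).image fun p => p.1 :: p.2 else ∅

theorem tup_base (k r : ℕ) : tup F 0 k r = if r = 0 then {[]} else ∅ := by simp [tup]

theorem tup_succ (l k r : ℕ) : tup F (l + 1) k r = (range (r + 1)).biUnion fun s =>
    if k * s ≤ r then (mon F s ×ˢ tup F l (k + 1) (r - k * s)).image fun p => p.1 :: p.2 else ∅ := by simp [tup]

theorem card_tup : ∀ l k r, (tup F l k r).card ≤ M (Fintype.card F) l k r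
  | 0, k, r => by rw [tup_base, M_base]; split_ifs <;> simp
  | l + 1, k, r => by
    rw [tup_succ, M_succ]
    refine card_biUnion_le.trans (sum_le_sum fun s _ => ?_)
    split_ifs
    · refine card_image_le.trans ?_
      rw [card_product, card_mon]
      exact Nat.mul_le_mul_left _ (card_tup l (k + 1) _)
    · simp

/-- The list of values of `t` in positions `k, ..., k + l - 1`. -/
def toL (t : ℕ → F[X]) : ℕ → ℕ → List F[X]
  | 0, _ => []
  | l + 1, k => t k :: toL t l (k + 1)

theorem toL_zero (t : ℕ → F[X]) (k : ℕ) : toL t 0 k = [] := by simp [toL]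

theorem toL_succ (t : ℕ → F[X]) (l k : ℕ) : toL t (l + 1) k = t k :: toL t l (k + 1) := by simp [toL]

theorem toL_mem (t : ℕ → F[X]) (hm : ∀ j, (t j).Monic) (h0 : ∀ j, (t j).coeff 0 ≠ 0) :
    ∀ l k, 1 ≤ k → toL t l k ∈ tup F l k (∑ j ∈ Ico k (k + l), j * (t j).natDegree)
  | 0, k, _ => by simp [toL_zero, tup_base]
  | l + 1, k, hk => by
    rw [toL_succ, tup_succ, sum_eq_sum_Ico_succ_bot (by omega)]
    refine mem_biUnion.2 ⟨(t k).natDegree, mem_range.2 ?_, ?_⟩
    · have : 1 * (t k).natDegree ≤ k * (t k).natDegree := Nat.mul_le_mul_right _ hk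
      omega
    · rw [if_pos (Nat.le_add_right _ _), mem_image]
      refine ⟨(t k, toL t l (k + 1)), mem_product.2 ⟨mem_mon.2 ⟨hm k, rfl, h0 k⟩, ?_⟩, rfl⟩
      rw [Nat.add_sub_cancel_left]
      have := toL_mem t hm h0 l (k + 1) (by omega)
      rwa [show k + 1 + l = k + (l + 1) by omega] at this

/-- The determinant attached to a list in positions `k, k + 1, ...`. -/
noncomputable def lz : ℕ → List F[X] → F
  | _, [] => 1
  | k, f :: L => zOf f ^ k * lz (k + 1) L

theorem lz_nil (k : ℕ) : lz (F := F) k [] = 1 := by simp [lz]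

theorem lz_cons (k : ℕ) (f : F[X]) (L : List F[X]) : lz k (f :: L) = zOf f ^ k * lz (k + 1) L := by simp [lz]

theorem lz_toL (t : ℕ → F[X]) : ∀ l k, lz k (toL t l k) = ∏ j ∈ Ico k (k + l), zOf (t j) ^ j
  | 0, k => by simp [toL_zero, lz_nil]
  | l + 1, k => by
    rw [toL_succ, lz_cons, prod_eq_prod_Ico_succ_bot (by omega), lz_toL t l (k + 1),
      show k + 1 + l = k + (l + 1) by omega]

theorem U_eq_sum (q l k : ℕ) : ∀ n, U q l k n = ∑ s ∈ range (n + 1), q ^ s * M q l k (n - s)
  | 0 => by simp [U_zero]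
  | n + 1 => by
    rw [U_succ, U_eq_sum q l k n, sum_range_succ' _ (n + 1), mul_sum]
    simp only [Nat.sub_zero, pow_zero, one_mul, Nat.add_sub_add_right]
    congr 1
    exact sum_congr rfl fun s _ => by rw [pow_succ]; ring

theorem card_det_heads {d : ℕ} (hd : 0 < d) (s : ℕ) (z : F) :
    ((mon F (s + 1)).filter fun f => (zOf f * z) ^ d = 1).card ≤ d * Fintype.card F ^ s := by
  by_cases hz : z = 0
  · rw [filter_eq_empty_iff.2 fun f _ h => by rw [hz, mul_zero, zero_pow hd.ne'] at h; exact zero_ne_one h]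
    simp
  have e : ((mon F (s + 1)).filter fun f => (zOf f * z) ^ d = 1) =
      (mon F (s + 1)).filter fun f => ((-1) ^ (s + 1) * f.coeff 0 * z) ^ d = 1 :=
    filter_congr fun f hf => by rw [zOf, (mem_mon.1 hf).2.1]
  rw [e, card_mon_filter s (fun a => ((-1) ^ (s + 1) * a * z) ^ d = 1)]
  refine Nat.mul_le_mul_right _ (le_trans ?_ ((Multiset.toFinset_card_le _).trans (card_nthRoots d (1 : F))))
  refine card_le_card_of_injOn (fun a => (-1 : F) ^ (s + 1) * a * z) (fun a ha => ?_) ?_
  · rw [mem_coe, mem_filter] at ha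
    rw [mem_coe, Multiset.mem_toFinset, mem_nthRoots hd]
    exact ha.2.2
  · intro a _ b _ h
    exact mul_left_cancel₀ (pow_ne_zero _ (neg_ne_zero.2 one_ne_zero)) (mul_right_cancel₀ hz h)

/-- Families whose determinant is a `d`-th root of unity. -/
theorem card_det_tup {d : ℕ} (hd : 0 < d) (l : ℕ) {r : ℕ} (hr : 0 < r) :
    ((tup F (l + 1) 1 r).filter fun L => lz 1 L ^ d = 1).card ≤
      M (Fintype.card F) l 2 r + d * U (Fintype.card F) l 2 (r - 1) := by
  rw [tup_succ, filter_biUnion]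
  refine card_biUnion_le.trans ?_
  rw [sum_range_succ', Nat.add_comm]
  refine Nat.add_le_add ?_ ?_
  · simp only [Nat.mul_zero, Nat.zero_le, if_true, Nat.sub_zero, mon_zero]
    refine (card_filter_le _ _).trans (card_image_le.trans ?_)
    rw [card_product, card_singleton, one_mul]
    exact card_tup l (1 + 1) r
  · obtain ⟨r', rfl⟩ : ∃ r', r = r' + 1 := ⟨r - 1, by omega⟩
    rw [Nat.add_sub_cancel, U_eq_sum, mul_sum]
    refine sum_le_sum fun s hs => ?_
    rw [mem_range] at hs
    rw [one_mul, if_pos (by omega)]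
    have hsub : ((mon F (s + 1) ×ˢ tup F l (1 + 1) (r' + 1 - (s + 1))).image fun p => p.1 :: p.2).filter
        (fun L => lz 1 L ^ d = 1) ⊆ (tup F l (1 + 1) (r' - s)).biUnion
          (fun L => ((mon F (s + 1)).filter fun f => (zOf f * lz (1 + 1) L) ^ d = 1).image fun f => f :: L) := by
      intro L hL
      rw [mem_filter, mem_image] at hL
      obtain ⟨⟨⟨f, L'⟩, hp, rfl⟩, hlz⟩ := hL
      rw [mem_product] at hp
      refine mem_biUnion.2 ⟨L', by simpa using hp.2, mem_image.2 ⟨f, mem_filter.2 ⟨hp.1, ?_⟩, rfl⟩⟩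
      rwa [lz_cons, pow_one] at hlz
    refine (card_le_card hsub).trans (card_biUnion_le.trans ?_)
    refine (sum_le_sum fun L _ => card_image_le.trans (card_det_heads hd s _)).trans ?_
    rw [sum_const, smul_eq_mul, mul_comm, mul_assoc]
    exact Nat.mul_le_mul_left _ (Nat.mul_le_mul_left _ (card_tup l (1 + 1) _))

/-- An admissible family of weight `n`. -/
structure Good (n : ℕ) (t : ℕ → F[X]) : Prop where
  monic : ∀ j, (t j).Monic
  coeff : ∀ j, (t j).coeff 0 ≠ 0
  out : ∀ j, j = 0 ∨ n < j → t j = 1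
  weight : ∑ j ∈ Icc 1 n, j * (t j).natDegree = n

/-- Its determinant. -/
noncomputable def zT (n : ℕ) (t : ℕ → F[X]) : F := ∏ j ∈ Icc 1 n, zOf (t j) ^ j

theorem Good.toL_mem {n : ℕ} {t : ℕ → F[X]} (h : Good n t) : toL t n 1 ∈ tup F n 1 n := by
  have := ClassCount.toL_mem t h.monic h.coeff n 1 le_rfl
  rwa [show Ico 1 (1 + n) = Icc 1 n by ext x; simp; omega, h.weight] at this

theorem lz_good (n : ℕ) (t : ℕ → F[X]) : lz 1 (toL t n 1) = zT n t := by
  rw [lz_toL, zT, show Ico 1 (1 + n) = Icc 1 n by ext x; simp; omega]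

theorem toL_inj {t t' : ℕ → F[X]} : ∀ l k, toL t l k = toL t' l k → ∀ j, k ≤ j → j < k + l → t j = t' j
  | 0, k, _, j, h1, h2 => by omega
  | l + 1, k, h, j, h1, h2 => by
    rw [toL_succ, toL_succ, List.cons.injEq] at h
    rcases Nat.eq_or_lt_of_le h1 with rfl | h1
    · exact h.1
    · exact toL_inj l (k + 1) h.2 j (by omega) (by omega)

theorem Good.injOn_toL (n : ℕ) : Set.InjOn (fun t : ℕ → F[X] => toL t n 1) {t | Good n t} := by
  intro t ht t' ht' h
  funext j
  by_cases hj : j = 0 ∨ n < j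
  · rw [Good.out ht j hj, Good.out ht' j hj]
  · exact toL_inj n 1 h j (by omega) (by omega)

theorem finite_good (n : ℕ) : {t : ℕ → F[X] | Good n t}.Finite :=
  Set.Finite.of_finite_image ((tup F n 1 n).finite_toSet.subset (by rintro _ ⟨t, ht, rfl⟩; exact ht.toL_mem))
    (Good.injOn_toL n)

/-- All admissible families of weight `n`. -/
noncomputable def goods (F : Type u) [Field F] [Fintype F] [DecidableEq F] (n : ℕ) : Finset (ℕ → F[X]) :=
  (finite_good (F := F) n).toFinset

theorem mem_goods {n : ℕ} {t : ℕ → F[X]} : t ∈ goods F n ↔ Good n t := by simp [goods]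

theorem card_goods (n : ℕ) : (goods F n).card ≤ M (Fintype.card F) n 1 n :=
  (card_le_card_of_injOn (fun t => toL t n 1) (fun _ ht => (mem_goods.1 ht).toL_mem)
    (fun a ha b hb h => Good.injOn_toL n (mem_goods.1 ha) (mem_goods.1 hb) h)).trans (card_tup n 1 n)

open scoped Classical in
theorem card_goods_det {d : ℕ} (hd : 0 < d) {l : ℕ} :
    ((goods F (l + 1)).filter fun t => zT (l + 1) t ^ d = 1).card ≤
      M (Fintype.card F) l 2 (l + 1) + d * U (Fintype.card F) l 2 l := by
  refine le_trans ?_ (card_det_tup (F := F) hd l (r := l + 1) (by omega))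
  refine card_le_card_of_injOn (fun t => toL t (l + 1) 1) (fun t ht => ?_)
    (fun a ha b hb h => Good.injOn_toL _ (mem_goods.1 (mem_filter.1 ha).1) (mem_goods.1 (mem_filter.1 hb).1) h)
  rw [mem_coe, mem_filter] at ht
  rw [mem_coe, mem_filter, lz_good]
  exact ⟨(mem_goods.1 ht.1).toL_mem, ht.2⟩

/-- Families supported on the multiples of `d`. -/
def SuppDvd (d : ℕ) (t : ℕ → F[X]) : Prop := ∀ j, t j ≠ 1 → d ∣ j

theorem Good.dvd_of_supp {n d : ℕ} {t : ℕ → F[X]} (h : Good n t) (hs : SuppDvd d t) : d ∣ n := by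
  rw [← h.weight]
  refine dvd_sum fun j _ => ?_
  by_cases hj : t j = 1
  · simp [hj]
  · exact (hs j hj).mul_right _

theorem sum_mul_of_supp {d m : ℕ} (hd : 0 < d) (f : ℕ → ℕ) (hf : ∀ j, ¬ d ∣ j → f j = 0) :
    ∑ j ∈ Icc 1 (d * m), f j = ∑ i ∈ Icc 1 m, f (d * i) := by
  rw [← sum_image (g := fun i => d * i) fun a _ b _ h => Nat.eq_of_mul_eq_mul_left hd h]
  refine (sum_subset (fun j hj => ?_) fun j hj hj' => hf j fun ⟨i, hi⟩ => hj' ?_).symm
  · obtain ⟨i, hi, rfl⟩ := mem_image.1 hj
    rw [mem_Icc] at hi ⊢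
    exact ⟨Nat.mul_pos hd (by omega), Nat.mul_le_mul_left d hi.2⟩
  · subst hi
    rw [mem_Icc] at hj
    exact mem_image.2 ⟨i, mem_Icc.2 ⟨Nat.pos_of_mul_pos_left (a := d) hj.1, Nat.le_of_mul_le_mul_left hj.2 hd⟩, rfl⟩

/-- Restricting the positions to the multiples of `d`. -/
theorem Good.contract {n m d : ℕ} {t : ℕ → F[X]} (h : Good n t) (hd : 0 < d) (hn : n = d * m)
    (hs : SuppDvd d t) : Good m (fun j => t (d * j)) ∧ zT m (fun j => t (d * j)) ^ d = zT n t := by
  have hz : ∀ j, ¬ d ∣ j → t j = 1 := fun j hj => not_not.1 fun h1 => hj (hs j h1)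
  refine ⟨⟨fun j => h.monic _, fun j => h.coeff _, fun j hj => h.out _ ?_, ?_⟩, ?_⟩
  · rcases hj with rfl | hj
    · exact Or.inl (Nat.mul_zero d)
    · exact Or.inr (hn ▸ Nat.mul_lt_mul_of_pos_left hj hd)
  · have h1 := h.weight
    rw [hn, sum_mul_of_supp hd _ fun j hj => by rw [hz j hj]; simp] at h1
    refine Nat.eq_of_mul_eq_mul_left hd ?_
    rw [mul_sum, ← h1]
    exact sum_congr rfl fun i _ => (mul_assoc _ _ _).symm
  · rw [zT, zT, ← prod_pow, hn]
    rw [← prod_subset (s₁ := (Icc 1 m).image fun i => d * i) (s₂ := Icc 1 (d * m)), prod_image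
      fun a _ b _ h => Nat.eq_of_mul_eq_mul_left hd h]
    · exact prod_congr rfl fun i _ => by rw [← pow_mul, mul_comm i d]
    · intro j hj
      obtain ⟨i, hi, rfl⟩ := mem_image.1 hj
      rw [mem_Icc] at hi ⊢
      exact ⟨Nat.mul_pos hd (by omega), Nat.mul_le_mul_left d hi.2⟩
    · intro j hj hj'
      by_cases hdj : d ∣ j
      · obtain ⟨i, rfl⟩ := hdj
        rw [mem_Icc] at hj
        exact absurd (mem_image.2 ⟨i, mem_Icc.2 ⟨Nat.pos_of_mul_pos_left (a := d) hj.1, Nat.le_of_mul_le_mul_left hj.2 hd⟩, rfl⟩) hj'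
      · rw [hz j hdj, zOf_one, one_pow]

open scoped Classical in
/-- Determinant one and support in `d ℕ`. -/
theorem card_supp_det {n d l : ℕ} (hd : 0 < d) (hn : n = d * (l + 1)) :
    ((goods F n).filter fun t => SuppDvd d t ∧ zT n t = 1).card ≤
      M (Fintype.card F) l 2 (l + 1) + d * U (Fintype.card F) l 2 l := by
  refine le_trans (card_le_card_of_injOn (fun t j => t (d * j)) (fun t ht => ?_) (fun a ha b hb h => ?_))
    (card_goods_det (F := F) hd (l := l))
  · rw [mem_coe, mem_filter] at ht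
    obtain ⟨h1, h2⟩ := (mem_goods.1 ht.1).contract hd hn ht.2.1
    rw [mem_coe, mem_filter, h2]
    exact ⟨mem_goods.2 h1, ht.2.2⟩
  · rw [mem_coe, mem_filter] at ha hb
    funext j
    by_cases hdj : d ∣ j
    · obtain ⟨i, rfl⟩ := hdj; exact congrFun h i
    · rw [not_not.1 fun h1 => hdj (ha.2.1 j h1), not_not.1 fun h1 => hdj (hb.2.1 j h1)]

/-- A polynomial fixed by scaling is a polynomial in `X ^ e`. -/
theorem exists_expand_of_scaleRoots {P : F[X]} {s : F} {e : ℕ} (he : 0 < e)
    (hord : ∀ i : ℕ, s ^ i = 1 → e ∣ i) (hP : P.Monic) (h0 : P.coeff 0 ≠ 0) (h : P.scaleRoots s = P) :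
    ∃ Q : F[X], P = Polynomial.expand F e Q ∧ Q.Monic ∧ Q.coeff 0 ≠ 0 ∧ P.natDegree = e * Q.natDegree := by
  have key : ∀ i, P.coeff i ≠ 0 → e ∣ P.natDegree - i := by
    intro i hi
    have := congrArg (fun q : F[X] => q.coeff i) h
    simp only [coeff_scaleRoots] at this
    exact hord _ (mul_left_cancel₀ hi (this.trans (mul_one _).symm))
  have hdeg : e ∣ P.natDegree := by simpa using key 0 h0
  have hP' : P = Polynomial.expand F e (Polynomial.contract e P) := by
    refine Polynomial.ext fun i => ?_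
    rw [coeff_expand he]
    split_ifs with hi
    · rw [coeff_contract he.ne', Nat.div_mul_cancel hi]
    · by_contra hc
      have hle := le_natDegree_of_ne_zero hc
      exact hi (by simpa [Nat.sub_sub_self hle] using Nat.dvd_sub hdeg (key i hc))
  refine ⟨_, hP', ?_, ?_, ?_⟩
  · rw [hP'] at hP
    exact (monic_expand_iff he).1 hP
  · rwa [coeff_contract he.ne', Nat.zero_mul]
  · conv_lhs => rw [hP']
    rw [natDegree_expand, mul_comm]

open scoped Classical in
/-- Families fixed by a scaling of order `e`, with support in `d ℕ`. -/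
theorem card_supp_scaled {n d m : ℕ} (hd : 0 < d) {s : F} {e : ℕ} (he : 0 < e) (hord : ∀ i : ℕ, s ^ i = 1 → e ∣ i)
    (hn : n = d * (e * m)) :
    ((goods F n).filter fun t => SuppDvd d t ∧ ∀ j, (t j).scaleRoots s = t j).card ≤ (goods F m).card := by
  let Φ : (ℕ → F[X]) → ℕ → F[X] := fun t j => Polynomial.contract e (t (d * j))
  refine card_le_card_of_injOn Φ (fun t ht => ?_) (fun a ha b hb h => ?_)
  · rw [mem_coe, mem_filter] at ht
    obtain ⟨h1, -⟩ := (mem_goods.1 ht.1).contract hd hn ht.2.1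
    have hj : ∀ j, t (d * j) = Polynomial.expand F e (Φ t j) ∧ (Φ t j).Monic ∧ (Φ t j).coeff 0 ≠ 0 ∧
        (t (d * j)).natDegree = e * (Φ t j).natDegree := fun j => by
      obtain ⟨Q, hQ, a, b, c⟩ := exists_expand_of_scaleRoots he hord (h1.monic j) (h1.coeff j) (ht.2.2 _)
      have hQ' : Φ t j = Q := by simp only [Φ]; rw [hQ, contract_expand e he.ne']
      rw [hQ']; exact ⟨hQ, a, b, c⟩
    have w := h1.weight
    simp only [(hj _).2.2.2, mul_left_comm _ e, ← mul_sum] at w
    have hw : ∑ i ∈ Icc 1 (e * m), i * (Φ t i).natDegree = m := Nat.eq_of_mul_eq_mul_left he w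
    have hsmall : ∀ i ∈ Icc 1 (e * m), m < i → (Φ t i).natDegree = 0 := by
      intro i hi hmi
      by_contra hc
      have := single_le_sum (f := fun i => i * (Φ t i).natDegree) (fun _ _ => Nat.zero_le _) hi
      rw [hw] at this
      have : i * 1 ≤ i * (Φ t i).natDegree := Nat.mul_le_mul_left i (Nat.pos_of_ne_zero hc)
      omega
    refine mem_goods.2 ⟨fun j => (hj j).2.1, fun j => (hj j).2.2.1, fun j hj' => ?_, ?_⟩
    · refine eq_one_of_monic_natDegree_zero (hj j).2.1 ?_
      by_cases hb : 1 ≤ j ∧ j ≤ e * m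
      · exact hsmall j (mem_Icc.2 hb) (by omega)
      · have h2 := (hj j).2.2.2
        rw [h1.out j (by omega), natDegree_one] at h2
        exact (Nat.mul_eq_zero.1 h2.symm).resolve_left he.ne'
    · conv_rhs => rw [← hw]
      refine sum_subset (Icc_subset_Icc_right (Nat.le_mul_of_pos_left m he)) fun i hi hi' => ?_
      rw [hsmall i hi (by rw [mem_Icc] at hi hi'; omega), mul_zero]
  · rw [mem_coe, mem_filter] at ha hb
    funext j
    by_cases hdj : d ∣ j
    · obtain ⟨i, rfl⟩ := hdj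
      obtain ⟨Qa, hQa, -⟩ := exists_expand_of_scaleRoots he hord ((mem_goods.1 ha.1).monic _) ((mem_goods.1 ha.1).coeff _) (ha.2.2 (d * i))
      obtain ⟨Qb, hQb, -⟩ := exists_expand_of_scaleRoots he hord ((mem_goods.1 hb.1).monic _) ((mem_goods.1 hb.1).coeff _) (hb.2.2 (d * i))
      have hi := congrFun h i
      simp only [Φ] at hi
      rw [hQa, hQb, contract_expand e he.ne', contract_expand e he.ne'] at hi
      rw [hQa, hQb, hi]
    · rw [not_not.1 fun h1 => hdj (ha.2.1 j h1), not_not.1 fun h1 => hdj (hb.2.1 j h1)]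

end CfsgLib.CharDegrees.ClassCount
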