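import Cfsg.Agent.Lib.CharDegrees.ClassCount.UClasses

/-!
Counting self-conjugate families and the classes of `SU n q`.
-/

set_option autoImplicit false
set_option linter.unusedSectionVars false

namespace CfsgLib.CharDegrees.ClassCount

open Polynomial Matrix Finset
open CfsgLib.Generators
open CfsgLib.SemisimpleClasses.Unitary (UPoly mat toGU exists_div_pow_eq det_qAdjoint)
open CfsgLib.Classes.SympSemi (rev)

universe u

variable {K : Type u} [Field K] [Fintype K] [DecidableEq K] {q n : ℕ} (φ : K →+* K)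

open scoped Classical

/-- Self-conjugate monic polynomials of degree `s`. -/
noncomputable def umon (s : ℕ) : Finset K[X] := (mon K s).filter (UPoly φ)

theorem upoly_one : UPoly φ (1 : K[X]) :=
  ⟨monic_one, by simp, by rw [Polynomial.map_one, rev, coeff_one_zero, inv_one, C_1, one_mul, ← C_1, reverse_C]⟩

theorem upoly_coeff {f : K[X]} (hf : UPoly φ f) (k : ℕ) (hk : k ≤ f.natDegree) :
    φ (f.coeff k) = (f.coeff 0)⁻¹ * f.coeff (f.natDegree - k) := by
  have := congrArg (fun g : K[X] => g.coeff k) hf.2.2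
  simp only [coeff_map, rev, coeff_C_mul, coeff_reverse, revAt_le hk] at this
  exact this

theorem upoly_norm (hφ : ∀ x, φ x = x ^ q) {f : K[X]} (hf : UPoly φ f) : f.coeff 0 ^ (q + 1) = 1 := by
  have := upoly_coeff φ hf 0 (Nat.zero_le _)
  rw [Nat.sub_zero, hf.1.coeff_natDegree, mul_one, hφ] at this
  rw [pow_succ, this, inv_mul_cancel₀ hf.2.1]

theorem card_umon_coeff (hK : Fintype.card K = q ^ 2) (hφ : ∀ x, φ x = x ^ q) (hφ2 : ∀ x, φ (φ x) = x)
    (s : ℕ) {c : K} (hc : c ≠ 0) :
    ((umon φ (s + 1)).filter fun f => f.coeff 0 = c).card ≤ q ^ s := by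
  have hq : 1 < q := one_lt_of_card_eq_sq hK
  rcases Nat.even_or_odd' s with ⟨r, hr | hr⟩
  · subst hr
    refine le_trans (card_le_card_of_injOn (t := (Finset.univ : Finset (Fin r → K)))
      (fun f => fun i : Fin r => f.coeff (i + 1)) (fun _ _ => by simp) (fun f hf g hg h => ?_)) ?_
    · simp only [mem_coe, umon, mem_filter, mem_mon] at hf hg
      refine Polynomial.ext fun k => ?_
      have low : ∀ j, j ≤ r → f.coeff j = g.coeff j := by
        intro j hj
        rcases j with _ | j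
        · rw [hf.2, hg.2]
        · exact congrFun h ⟨j, by omega⟩
      rcases Nat.lt_or_ge k (r + 1) with hk | hk
      · exact low k (by omega)
      rcases Nat.lt_or_ge (2 * r + 1) k with hk' | hk'
      · rw [coeff_eq_zero_of_natDegree_lt (by omega), coeff_eq_zero_of_natDegree_lt (by omega)]
      · have e1 := upoly_coeff φ hf.1.2 (2 * r + 1 - k) (by omega)
        have e2 := upoly_coeff φ hg.1.2 (2 * r + 1 - k) (by omega)
        rw [hf.1.1.2.1, Nat.sub_sub_self hk', hf.2] at e1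
        rw [hg.1.1.2.1, Nat.sub_sub_self hk', hg.2, ← low _ (by omega), e1] at e2
        exact mul_left_cancel₀ (inv_ne_zero hc) e2
    · rw [card_univ, Fintype.card_fun, Fintype.card_fin, hK, ← pow_mul]
  · subst hr
    set R : Finset K := Finset.univ.filter fun x => φ x = c⁻¹ * x with hR
    have hRc : R.card ≤ q := by
      let P : K[X] := Polynomial.X ^ q - Polynomial.C c⁻¹ * Polynomial.X
      have hdeg : P.natDegree = q := by
        refine (natDegree_sub_eq_left_of_natDegree_lt ?_).trans (natDegree_X_pow q)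
        rw [natDegree_X_pow]
        exact (natDegree_C_mul_le _ _).trans_lt (by simpa using hq)
      have hP0 : P ≠ 0 := fun h => by rw [h, natDegree_zero] at hdeg; omega
      calc R.card ≤ P.roots.toFinset.card := card_le_card fun x hx => by
            rw [mem_filter] at hx
            rw [Multiset.mem_toFinset, mem_roots hP0]
            simp [P, ← hφ, hx.2]
        _ ≤ Multiset.card P.roots := Multiset.toFinset_card_le _
        _ ≤ q := (card_roots' P).trans hdeg.le
    refine le_trans (card_le_card_of_injOn (t := (Finset.univ : Finset (Fin r → K)) ×ˢ R)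
      (fun f => (fun i : Fin r => f.coeff (i + 1), f.coeff (r + 1))) (fun f hf => ?_) (fun f hf g hg h => ?_)) ?_
    · simp only [mem_coe, umon, mem_filter, mem_mon] at hf
      have e := upoly_coeff φ hf.1.2 (r + 1) (by omega)
      rw [hf.1.1.2.1, show 2 * r + 1 + 1 - (r + 1) = r + 1 by omega, hf.2] at e
      exact mem_coe.2 (mem_product.2 ⟨mem_univ _, mem_filter.2 ⟨mem_univ _, e⟩⟩)
    · simp only [mem_coe, umon, mem_filter, mem_mon] at hf hg
      rw [Prod.mk.injEq] at h
      refine Polynomial.ext fun k => ?_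
      have low : ∀ j, j ≤ r + 1 → f.coeff j = g.coeff j := by
        intro j hj
        rcases j with _ | j
        · rw [hf.2, hg.2]
        · rcases Nat.lt_or_ge j r with hj' | hj'
          · exact congrFun h.1 ⟨j, hj'⟩
          · rw [show j = r by omega]; exact h.2
      rcases Nat.lt_or_ge k (r + 2) with hk | hk
      · exact low k (by omega)
      rcases Nat.lt_or_ge (2 * r + 1 + 1) k with hk' | hk'
      · rw [coeff_eq_zero_of_natDegree_lt (by omega), coeff_eq_zero_of_natDegree_lt (by omega)]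
      · have e1 := upoly_coeff φ hf.1.2 (2 * r + 1 + 1 - k) (by omega)
        have e2 := upoly_coeff φ hg.1.2 (2 * r + 1 + 1 - k) (by omega)
        rw [hf.1.1.2.1, Nat.sub_sub_self hk', hf.2] at e1
        rw [hg.1.1.2.1, Nat.sub_sub_self hk', hg.2, ← low _ (by omega), e1] at e2
        exact mul_left_cancel₀ (inv_ne_zero hc) e2
    · rw [card_product, card_univ, Fintype.card_fun, Fintype.card_fin, hK, ← pow_mul, pow_succ]
      exact Nat.mul_le_mul_left _ hRc

/-- Roots of `x ^ d = 1`. -/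
theorem card_roots_unity {d : ℕ} (hd : 0 < d) (S : Finset K) (h : ∀ x ∈ S, x ^ d = 1) : S.card ≤ d :=
  calc S.card ≤ (nthRoots d (1 : K)).toFinset.card :=
        card_le_card fun x hx => by rw [Multiset.mem_toFinset, mem_nthRoots hd]; exact h x hx
    _ ≤ Multiset.card (nthRoots d (1 : K)) := Multiset.toFinset_card_le _
    _ ≤ d := card_nthRoots d 1

theorem card_umon (hK : Fintype.card K = q ^ 2) (hφ : ∀ x, φ x = x ^ q) (hφ2 : ∀ x, φ (φ x) = x) :
    ∀ s, (umon φ s).card ≤ aU q s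
  | 0 => by
    rw [umon, mon_zero, aU_zero]
    exact (card_filter_le _ _).trans (card_singleton _).le
  | s + 1 => by
    rw [aU_succ, card_eq_sum_card_image (fun f : K[X] => f.coeff 0) (umon φ (s + 1))]
    refine (sum_le_sum (g := fun _ => q ^ s) fun c hc => ?_).trans ?_
    · obtain ⟨f, hf, rfl⟩ := mem_image.1 hc
      exact card_umon_coeff φ hK hφ hφ2 s (mem_filter.1 hf).2.2.1
    · rw [sum_const, smul_eq_mul]
      refine Nat.mul_le_mul_right _ (card_roots_unity (Nat.succ_pos q) _ fun x hx => ?_)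
      obtain ⟨f, hf, rfl⟩ := mem_image.1 hx
      exact upoly_norm φ hφ (mem_filter.1 hf).2

/-- Lists of self-conjugate polynomials. -/
noncomputable def tupU (l k r : ℕ) : Finset (List K[X]) := (tup K l k r).filter fun L => ∀ f ∈ L, UPoly φ f

theorem card_tupU (hK : Fintype.card K = q ^ 2) (hφ : ∀ x, φ x = x ^ q) (hφ2 : ∀ x, φ (φ x) = x) :
    ∀ l k r, (tupU φ l k r).card ≤ MU q l k r
  | 0, k, r => by rw [tupU, tup_base, MU_base]; refine (card_filter_le _ _).trans ?_; split_ifs <;> simp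
  | l + 1, k, r => by
    rw [tupU, tup_succ, filter_biUnion, MU_succ]
    refine card_biUnion_le.trans (sum_le_sum fun s _ => ?_)
    split_ifs with h
    · refine le_trans (card_le_card (t := (umon φ s ×ˢ tupU φ l (k + 1) (r - k * s)).image fun p => p.1 :: p.2) fun L hL => ?_) ?_
      · rw [mem_filter, mem_image] at hL
        obtain ⟨⟨⟨f, L'⟩, hp, rfl⟩, hall⟩ := hL
        rw [mem_product] at hp
        exact mem_image.2 ⟨(f, L'), mem_product.2 ⟨mem_filter.2 ⟨hp.1, hall f (List.mem_cons_self ..)⟩,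
          mem_filter.2 ⟨hp.2, fun g hg => hall g (List.mem_cons_of_mem _ hg)⟩⟩, rfl⟩
      · refine card_image_le.trans ?_
        rw [card_product]
        exact Nat.mul_le_mul (card_umon φ hK hφ hφ2 s) (card_tupU hK hφ hφ2 l (k + 1) _)
    · simp

theorem card_tupU_det (hK : Fintype.card K = q ^ 2) (hφ : ∀ x, φ x = x ^ q) (hφ2 : ∀ x, φ (φ x) = x)
    {d : ℕ} (hd : 0 < d) (l : ℕ) {r : ℕ} (hr : 0 < r) :
    ((tupU φ (l + 1) 1 r).filter fun L => lz 1 L ^ d = 1).card ≤ MU q l 2 r + d * UU q l 2 (r - 1) := by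
  rw [tupU, tup_succ, filter_filter, filter_biUnion]
  refine card_biUnion_le.trans ?_
  rw [sum_range_succ', Nat.add_comm]
  refine Nat.add_le_add ?_ ?_
  · simp only [Nat.mul_zero, Nat.zero_le, if_true, Nat.sub_zero, mon_zero]
    refine le_trans (card_le_card (t := (tupU φ l (1 + 1) r).image fun L => (1 : K[X]) :: L) fun L hL => ?_)
      (card_image_le.trans (card_tupU φ hK hφ hφ2 l (1 + 1) r))
    rw [mem_filter, mem_image] at hL
    obtain ⟨⟨⟨f, L'⟩, hp, rfl⟩, hall, -⟩ := hL
    rw [mem_product, mem_singleton] at hp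
    obtain ⟨rfl, hp2⟩ := hp
    exact mem_image.2 ⟨L', mem_filter.2 ⟨hp2, fun g hg => hall g (List.mem_cons_of_mem _ hg)⟩, rfl⟩
  · obtain ⟨r', rfl⟩ : ∃ r', r = r' + 1 := ⟨r - 1, by omega⟩
    have hsum : UU q l 2 r' = ∑ s ∈ range (r' + 1), q ^ s * MU q l 2 (r' - s) := by
      clear hr
      induction r' with
      | zero => simp [UU_zero]
      | succ n ih =>
        rw [UU_succ, ih, sum_range_succ' _ (n + 1), mul_sum]
        simp only [Nat.sub_zero, pow_zero, one_mul, Nat.add_sub_add_right]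
        congr 1
        exact sum_congr rfl fun s _ => by rw [pow_succ]; ring
    rw [Nat.add_sub_cancel, hsum, mul_sum]
    refine sum_le_sum fun s hs => ?_
    rw [mem_range] at hs
    rw [one_mul, if_pos (by omega)]
    let H : List K[X] → Finset K[X] := fun L =>
      (umon φ (s + 1)).filter fun f => (zOf f * lz (1 + 1) L) ^ d = 1
    refine le_trans (card_le_card (t := (tupU φ l (1 + 1) (r' - s)).biUnion fun L => (H L).image fun f => f :: L)
      fun L hL => ?_) (card_biUnion_le.trans ?_)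
    · rw [mem_filter, mem_image] at hL
      obtain ⟨⟨⟨f, L'⟩, hp, rfl⟩, hall, hlz⟩ := hL
      rw [mem_product] at hp
      rw [lz_cons, pow_one] at hlz
      exact mem_biUnion.2 ⟨L', mem_filter.2 ⟨by simpa using hp.2, fun g hg => hall g (List.mem_cons_of_mem _ hg)⟩,
        mem_image.2 ⟨f, mem_filter.2 ⟨mem_filter.2 ⟨hp.1, hall f (List.mem_cons_self ..)⟩, hlz⟩, rfl⟩⟩
    · have hH : ∀ L, (H L).card ≤ d * q ^ s := by
        intro L
        set z := lz (1 + 1) L with hz
        by_cases hz0 : z = 0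
        · simp only [H, ← hz]
          rw [filter_eq_empty_iff.2 fun f _ h => by rw [hz0, mul_zero, zero_pow hd.ne'] at h; exact zero_ne_one h]
          simp
        rw [card_eq_sum_card_image (fun f : K[X] => f.coeff 0) (H L)]
        refine (sum_le_sum (g := fun _ => q ^ s) fun c hc => ?_).trans ?_
        · obtain ⟨f, hf, rfl⟩ := mem_image.1 hc
          refine le_trans (card_le_card (filter_subset_filter _ (filter_subset _ _))) ?_
          exact card_umon_coeff φ hK hφ hφ2 s (mem_filter.1 (mem_filter.1 hf).1).2.2.1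
        · rw [sum_const, smul_eq_mul]
          refine Nat.mul_le_mul_right _ ?_
          rw [← card_image_of_injective ((H L).image fun f : K[X] => f.coeff 0)
            (f := fun x : K => (-1) ^ (s + 1) * x * z) fun a b h =>
              mul_left_cancel₀ (pow_ne_zero _ (neg_ne_zero.2 one_ne_zero)) (mul_right_cancel₀ hz0 h)]
          refine card_roots_unity hd _ fun x hx => ?_
          simp only [mem_image] at hx
          obtain ⟨_, ⟨f, hf, rfl⟩, rfl⟩ := hx
          simp only [H, umon, mem_filter, mem_mon] at hf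
          have := hf.2
          rwa [zOf, hf.1.1.2.1] at this
      refine (sum_le_sum fun L _ => card_image_le.trans (hH L)).trans ?_
      rw [sum_const, smul_eq_mul, mul_comm, mul_assoc]
      exact Nat.mul_le_mul_left _ (Nat.mul_le_mul_left _ (card_tupU φ hK hφ hφ2 l (1 + 1) _))

/-- The self-conjugate families. -/
noncomputable def ugoods (n : ℕ) : Finset (ℕ → K[X]) := (goods K n).filter fun t => ∀ j, UPoly φ (t j)

theorem toL_all {t : ℕ → K[X]} (h : ∀ j, UPoly φ (t j)) : ∀ l k, ∀ f ∈ toL t l k, UPoly φ f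
  | 0, k => by simp [toL_zero]
  | l + 1, k => fun f hf => by
    rw [toL_succ, List.mem_cons] at hf
    rcases hf with rfl | hf
    · exact h k
    · exact toL_all h l (k + 1) f hf

theorem card_usupp_det (hK : Fintype.card K = q ^ 2) (hφ : ∀ x, φ x = x ^ q) (hφ2 : ∀ x, φ (φ x) = x)
    {d l : ℕ} (hd : 0 < d) (hn : n = d * (l + 1)) :
    ((ugoods φ n).filter fun t => zT n t = 1 ∧ SuppDvd d t).card ≤
      MU q l 2 (l + 1) + d * UU q l 2 l := by
  refine le_trans (card_le_card_of_injOn (fun t => toL (fun j => t (d * j)) (l + 1) 1) (fun t ht => ?_)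
    (fun a ha b hb h => ?_)) (card_tupU_det φ hK hφ hφ2 hd l (r := l + 1) (by omega))
  · simp only [mem_coe, ugoods, mem_filter, mem_goods] at ht
    obtain ⟨h1, h2⟩ := ht.1.1.contract hd hn ht.2.2
    rw [mem_coe, mem_filter, tupU, mem_filter, lz_good, h2]
    exact ⟨⟨h1.toL_mem, toL_all φ (fun j => ht.1.2 _) _ _⟩, ht.2.1⟩
  · simp only [mem_coe, ugoods, mem_filter, mem_goods] at ha hb
    have e := Good.injOn_toL (l + 1) (ha.1.1.contract hd hn ha.2.2).1 (hb.1.1.contract hd hn hb.2.2).1 h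
    funext j
    by_cases hdj : d ∣ j
    · obtain ⟨i, rfl⟩ := hdj; exact congrFun e i
    · rw [not_not.1 fun h1 => hdj (ha.2.2 j h1), not_not.1 fun h1 => hdj (hb.2.2 j h1)]

/-- The weight of a family in the unitary case. -/
noncomputable def wtU (n q : ℕ) (t : ℕ → K[X]) : ℕ := Nat.gcd (((Icc 1 n).filter fun j => t j ≠ 1).gcd id) (q + 1)

theorem dvd_wtU_iff {t : ℕ → K[X]} (h : Good n t) (d : ℕ) : d ∣ wtU n q t ↔ d ∣ q + 1 ∧ SuppDvd d t := by
  rw [wtU, Nat.dvd_gcd_iff, Finset.dvd_gcd_iff, and_comm]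
  refine and_congr_right fun _ => ?_
  simp only [mem_filter, mem_Icc, id, SuppDvd]
  refine ⟨fun h1 j hj => h1 j ⟨?_, hj⟩, fun h1 j hj => h1 j hj.2⟩
  have : ¬ (j = 0 ∨ n < j) := fun hc => hj (h.out j hc)
  omega

theorem wtU_pow_mem (hK : Fintype.card K = q ^ 2) (hφ : ∀ x, φ x = x ^ q) (hφ2 : ∀ x, φ (φ x) = x)
    {G : Matrix (Fin n) (Fin n) K} (hG : qAdjoint q G * G = 1) (hGt : Good n (mt G)) (x : Kˣ) (hx : x ^ (q + 1) = 1) :
    ∃ z, qAdjoint q z * z = 1 ∧ Commute z G ∧ z.det = ((x ^ wtU n q (mt G) : Kˣ) : K) := by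
  set E := expGcd (Matrix.toLin' G) with hE
  have key : ∀ y : Kˣ, y ^ (q + 1) = 1 →
      ∃ z, qAdjoint q z * z = 1 ∧ Commute z G ∧ z.det = ((y ^ E : Kˣ) : K) := by
    intro y hy
    obtain ⟨c, hc⟩ := exists_div_pow_eq φ hK hφ hφ2 (y : K) (by rw [← Units.val_pow_eq_pow_val, hy, Units.val_one])
    obtain ⟨a, ha, had⟩ := expGcd_pow_mem (Matrix.toLin' G) c
    set A := LinearMap.toMatrix' a with hA
    have hAG : Commute A G := by
      have := congrArg LinearMap.toMatrix' ha
      rwa [LinearMap.toMatrix'_mul, LinearMap.toMatrix'_mul, LinearMap.toMatrix'_toLin'] at this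
    have hAd : A.det = ((c ^ E : Kˣ) : K) := by rw [hA, LinearMap.det_toMatrix', had]
    obtain ⟨z, hz1, hz2, hz3⟩ := exists_unitary_det φ hK hφ hG
      ((isUnit_iff_isUnit_det A).2 (hAd ▸ Units.isUnit _)) hAG
    refine ⟨z, hz1, hz2, ?_⟩
    rw [hAd, Units.val_pow_eq_pow_val] at hz3
    rw [Units.val_pow_eq_pow_val]
    have hcE : ((c : K) ^ E) ^ q ≠ 0 := pow_ne_zero _ (pow_ne_zero _ c.ne_zero)
    refine mul_right_cancel₀ hcE (hz3.trans ?_)
    conv_lhs => rw [hc]
    rw [mul_pow, ← pow_mul, ← pow_mul, mul_comm q E]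
  let S : Subgroup Kˣ :=
    { carrier := {d | ∃ z, qAdjoint q z * z = 1 ∧ Commute z G ∧ z.det = (d : K)}
      one_mem' := ⟨1, by rw [qAdjoint_one hK, one_mul], Commute.one_left _, by rw [det_one, Units.val_one]⟩
      mul_mem' := by
        rintro d d' ⟨z, a, b, c⟩ ⟨z', a', b', c'⟩
        refine ⟨z * z', ?_, b.mul_left b', by rw [det_mul, c, c', Units.val_mul]⟩
        rw [qAdjoint_mul hK, mul_assoc, ← mul_assoc (qAdjoint q z), a, one_mul, a']
      inv_mem' := by
        rintro d ⟨z, a, b, c⟩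
        have hzz : z * qAdjoint q z = 1 := mul_eq_one_comm.1 a
        refine ⟨qAdjoint q z, by rw [qAdjoint_qAdjoint hK, hzz], ?_, ?_⟩
        · show qAdjoint q z * G = G * qAdjoint q z
          calc qAdjoint q z * G = qAdjoint q z * G * (z * qAdjoint q z) := by rw [hzz, mul_one]
            _ = qAdjoint q z * (G * z) * qAdjoint q z := by simp only [mul_assoc]
            _ = qAdjoint q z * (z * G) * qAdjoint q z := by rw [b.eq]
            _ = G * qAdjoint q z := by rw [← mul_assoc (qAdjoint q z) z, a, one_mul]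
        · have h1 := congrArg Matrix.det a
          rw [det_mul, det_one, c] at h1
          rw [Units.val_inv_eq_inv_val]
          exact eq_inv_of_mul_eq_one_left h1 }
  have h1 : x ^ E ∈ S := key x hx
  have h2 : x ^ Nat.gcd E (q + 1) ∈ S := by
    rw [← zpow_natCast, Nat.gcd_eq_gcd_ab, _root_.zpow_add, _root_.zpow_mul, _root_.zpow_mul, zpow_natCast, zpow_natCast, hx, _root_.one_zpow,
      mul_one]
    exact S.zpow_mem h1 _
  obtain ⟨j, hj⟩ : Nat.gcd E (q + 1) ∣ wtU n q (mt G) := by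
    rw [dvd_wtU_iff hGt]
    exact ⟨Nat.gcd_dvd_right _ _, fun j hj => (Nat.gcd_dvd_left _ _).trans
      (((dvd_expGcd_iff (Matrix.toLin' G) E).1 dvd_rfl).2 j hj)⟩
  have h3 := S.pow_mem h2 j
  rw [← pow_mul, ← hj] at h3
  exact h3

theorem card_fiber_SU_le (hK : Fintype.card K = q ^ 2) (hφ : ∀ x, φ x = x ^ q) (hφ2 : ∀ x, φ (φ x) = x)
    (t : ℕ → K[X]) :
    Nat.card {C : ConjClasses ↥(Cfsg.SU n K q) // mt (mat (Quotient.out C)) = t} ≤ wtU n q t := by
  have hw : 0 < wtU n q t := Nat.gcd_pos_of_pos_right _ (Nat.succ_pos q)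
  by_cases hne : Nonempty {C : ConjClasses ↥(Cfsg.SU n K q) // mt (mat (Quotient.out C)) = t}
  swap
  · haveI := not_nonempty_iff.1 hne
    rw [Nat.card_of_isEmpty]; exact Nat.zero_le _
  obtain ⟨⟨C0, hC0⟩⟩ := hne
  set g0 := (Quotient.out C0 : ↥(Cfsg.SU n K q)) with hg0
  have hsu : ∀ g : ↥(Cfsg.SU n K q), qAdjoint q (mat g) * mat g = 1 := fun g =>
    (CfsgLib.CharDegrees.mem_SU_iff hK g.1).1 g.2
  have hex : ∀ C : {C : ConjClasses ↥(Cfsg.SU n K q) // mt (mat (Quotient.out C)) = t},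
      ∃ z : ↥(Cfsg.GU n K q), z * toGU hK g0 * z⁻¹ = toGU hK (Quotient.out C.1) := fun C => by
    obtain ⟨u, hu⟩ := exists_conj_of_mt (hC0.trans C.2.symm)
    obtain ⟨z, hz⟩ := isConj_iff.1 ((CfsgLib.Classes.isConj_gu_iff hK (toGU hK g0) (toGU hK (Quotient.out C.1))).2
      (isConj_iff.2 ⟨u, mul_inv_eq_iff_eq_mul.2 (Units.ext hu)⟩))
    exact ⟨z, hz⟩
  choose z hz using hex
  have hdz : ∀ z : ↥(Cfsg.GU n K q), Matrix.GeneralLinearGroup.det (z : GL (Fin n) K) ∈ rootsOfUnity (q + 1) K := fun z => by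
    have h := congrArg Matrix.det ((mem_GU_iff_qAdjoint hK _).1 z.2)
    rw [det_mul, det_qAdjoint φ hφ, det_one] at h
    rw [mem_rootsOfUnity]
    refine Units.ext ?_
    rw [Units.val_pow_eq_pow_val, Matrix.GeneralLinearGroup.val_det_apply, pow_succ, Units.val_one, h]
  let P : Subgroup (rootsOfUnity (q + 1) K) := (powMonoidHom (wtU n q t)).range
  let Ψ : {C : ConjClasses ↥(Cfsg.SU n K q) // mt (mat (Quotient.out C)) = t} → rootsOfUnity (q + 1) K ⧸ P :=
    fun C => QuotientGroup.mk ⟨_, hdz (z C)⟩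
  have hΨ : Function.Injective Ψ := by
    intro C D h
    obtain ⟨x, hx⟩ := QuotientGroup.eq.1 h
    rw [powMonoidHom_apply] at hx
    have hx' := congrArg (fun y : rootsOfUnity (q + 1) K => (y : Kˣ)) hx
    simp only [SubmonoidClass.coe_pow, Subgroup.coe_mul, Subgroup.coe_inv] at hx'
    obtain ⟨c, hc1, hc2, hc3⟩ := wtU_pow_mem φ hK hφ hφ2 (hsu g0)
      (good_mt (by rw [show (mat g0).det = 1 from g0.1.2]; exact one_ne_zero)) ((x : Kˣ)⁻¹)
      (by rw [inv_pow, (mem_rootsOfUnity (q + 1) (x : Kˣ)).1 x.2, inv_one])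
    rw [hC0] at hc3
    let cg : ↥(Cfsg.GU n K q) := ⟨⟨c, qAdjoint q c, mul_eq_one_comm.1 hc1, hc1⟩, (mem_GU_iff_qAdjoint hK _).2 hc1⟩
    have hcomm : cg * toGU hK g0 = toGU hK g0 * cg := Subtype.ext (Units.ext hc2.eq)
    set w := z D * cg * (z C)⁻¹ with hw'
    have hconj : w * toGU hK (Quotient.out C.1) * w⁻¹ = toGU hK (Quotient.out D.1) := by
      rw [← hz C, ← hz D, hw']
      calc z D * cg * (z C)⁻¹ * (z C * toGU hK g0 * (z C)⁻¹) * (z D * cg * (z C)⁻¹)⁻¹
          = z D * (cg * toGU hK g0 * cg⁻¹) * (z D)⁻¹ := by group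
        _ = _ := by rw [hcomm, mul_inv_cancel_right]
    have hcd : Matrix.GeneralLinearGroup.det (cg : GL (Fin n) K) = ((x : Kˣ) ^ wtU n q t)⁻¹ :=
      Units.ext (by rw [Matrix.GeneralLinearGroup.val_det_apply, ← inv_pow]; exact hc3)
    have hwd : Matrix.GeneralLinearGroup.det (w : GL (Fin n) K) = 1 := by
      rw [hw', Subgroup.coe_mul, Subgroup.coe_mul, Subgroup.coe_inv, map_mul, map_mul, map_inv, hcd, hx',
        _root_.mul_inv_rev, inv_inv]
      rw [mul_comm ((Matrix.GeneralLinearGroup.det (z D : GL (Fin n) K))⁻¹), ← mul_assoc,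
        mul_comm (Matrix.GeneralLinearGroup.det (z D : GL (Fin n) K)), mul_inv_cancel_right, mul_inv_cancel]
    have hdet : ((w : GL (Fin n) K) : Matrix (Fin n) (Fin n) K).det = 1 := by
      rw [← Matrix.GeneralLinearGroup.val_det_apply, hwd, Units.val_one]
    let k : ↥(Cfsg.SU n K q) := ⟨⟨((w : GL (Fin n) K) : Matrix (Fin n) (Fin n) K), hdet⟩,
      (CfsgLib.CharDegrees.mem_SU_iff hK _).2 ((mem_GU_iff_qAdjoint hK _).1 w.2)⟩
    refine Subtype.ext ?_
    rw [← Quotient.out_eq C.1, ← Quotient.out_eq D.1]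
    refine Quotient.sound (isConj_iff.2 ⟨k, mul_inv_eq_iff_eq_mul.2 (Subtype.ext (Subtype.ext ?_))⟩)
    exact congrArg (fun t : ↥(Cfsg.GU n K q) => ((t : GL (Fin n) K) : Matrix (Fin n) (Fin n) K))
      (mul_inv_eq_iff_eq_mul.1 hconj)
  refine (Nat.card_le_card_of_injective Ψ hΨ).trans (le_of_eq_of_le (rfl : _ = P.index) ?_)
  rw [IsCyclic.index_powMonoidHom_range]
  exact Nat.le_of_dvd hw (Nat.gcd_dvd_right _ _)

/-- `k (SU n q)`. -/
theorem card_classes_SU_le (hK : Fintype.card K = q ^ 2) (hn : 0 < n) :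
    Nat.card (ConjClasses ↥(Cfsg.SU n K q)) ≤ suSum q n := by
  obtain ⟨φ, hφ, hφ2⟩ := exists_frobenius_half hK
  haveI : Fintype (ConjClasses ↥(Cfsg.SU n K q)) := Fintype.ofFinite _
  set S := (ugoods φ n).filter fun t => zT n t = 1 with hS
  have hmaps : ∀ C ∈ (Finset.univ : Finset (ConjClasses ↥(Cfsg.SU n K q))), mt (mat (Quotient.out C)) ∈ S := by
    intro C _
    have hd : (mat (Quotient.out C)).det = 1 := (Quotient.out C).1.2
    simp only [hS, ugoods, mem_filter, mem_goods, zT_mt]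
    exact ⟨⟨good_mt (hd ▸ one_ne_zero), fun j =>
      mt_unitary φ hK hφ hφ2 ((CfsgLib.CharDegrees.mem_SU_iff hK _).1 (Quotient.out C).2) j⟩, hd⟩
  rw [Nat.card_eq_fintype_card, ← card_univ, card_eq_sum_card_fiberwise hmaps]
  refine le_trans (sum_le_sum (g := fun t => wtU n q t) fun t _ => ?_) ?_
  · refine le_trans (le_of_eq ?_) (card_fiber_SU_le φ hK hφ hφ2 t)
    rw [Nat.card_eq_fintype_card, Fintype.card_subtype]
  have hgood : ∀ t ∈ S, Good n t := fun t ht => mem_goods.1 (mem_filter.1 (mem_filter.1 ht).1).1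
  have h0 : Nat.gcd n (q + 1) ≠ 0 := (Nat.gcd_pos_of_pos_right _ (Nat.succ_pos q)).ne'
  calc ∑ t ∈ S, wtU n q t
      = ∑ t ∈ S, ∑ d ∈ (Nat.gcd n (q + 1)).divisors, if SuppDvd d t then Nat.totient d else 0 := by
        refine sum_congr rfl fun t ht => ?_
        rw [← sum_filter]
        conv_lhs => rw [← Nat.sum_totient (wtU n q t)]
        refine sum_congr ?_ fun _ _ => rfl
        ext d
        rw [Nat.mem_divisors, mem_filter, Nat.mem_divisors, dvd_wtU_iff (hgood t ht), Nat.dvd_gcd_iff]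
        exact ⟨fun h => ⟨⟨⟨(hgood t ht).dvd_of_supp h.1.2, h.1.1⟩, h0⟩, h.1.2⟩,
          fun h => ⟨⟨h.1.1.2, h.2⟩, (Nat.gcd_pos_of_pos_right _ (Nat.succ_pos q)).ne'⟩⟩
    _ = ∑ d ∈ (Nat.gcd n (q + 1)).divisors, Nat.totient d * (S.filter fun t => SuppDvd d t).card := by
        rw [sum_comm]
        refine sum_congr rfl fun d _ => ?_
        rw [← sum_filter, sum_const, smul_eq_mul, mul_comm]
    _ ≤ suSum q n := by
        rw [suSum]
        refine sum_le_sum fun d hd => Nat.mul_le_mul_left _ ?_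
        have hdn : d ∣ n := (Nat.dvd_of_mem_divisors hd).trans (Nat.gcd_dvd_left _ _)
        have hm : 0 < n / d := Nat.div_pos (Nat.le_of_dvd hn hdn) (Nat.pos_of_mem_divisors hd)
        have h := card_usupp_det φ hK hφ hφ2 (n := n) (Nat.pos_of_mem_divisors hd) (l := n / d - 1)
          (by rw [Nat.sub_add_cancel hm, Nat.mul_div_cancel' hdn])
        rw [Nat.sub_add_cancel hm] at h
        rw [suTerm]
        refine le_trans (le_of_eq ?_) h
        congr 1
        rw [hS, filter_filter]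

theorem pow_le_card_classes_SU (hK : Fintype.card K = q ^ 2) (hn : 1 ≤ n) :
    q ^ (n - 1) ≤ Nat.card (ConjClasses ↥(Cfsg.SU n K q)) := by
  haveI : Fact (ringChar K).Prime := ⟨CharP.char_is_prime K _⟩
  rw [← SemisimpleClasses.Unitary.card_classes (p := ringChar K) hK hn]
  exact Nat.card_le_card_of_injective Subtype.val Subtype.val_injective

end CfsgLib.CharDegrees.ClassCount
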