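import Cfsg.Agent.Lib.CharDegrees.ClassCount.Numeric

/-!
The numbers of class types of `GU n q`: coefficients of `∏ (1 + t^i) / (1 - q t^i)`.
-/

set_option autoImplicit false

namespace CfsgLib.CharDegrees.ClassCount

open Finset

/-- The number of self-conjugate-reciprocal monic polynomials of degree `s`. -/
def aU (q : ℕ) : ℕ → ℕ
  | 0 => 1
  | s + 1 => (q + 1) * q ^ s

/-- The number of self-conjugate families of weight `n` with indices in `[k, k + l)`. -/
def MU (q : ℕ) : ℕ → ℕ → ℕ → ℕ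
  | 0, _, n => if n = 0 then 1 else 0
  | l + 1, k, n => ∑ s ∈ range (n + 1), if k * s ≤ n then aU q s * MU q l (k + 1) (n - k * s) else 0

/-- Weighted partial sums. -/
def UU (q l k : ℕ) : ℕ → ℕ
  | 0 => MU q l k 0
  | n + 1 => q * UU q l k n + MU q l k (n + 1)

theorem aU_zero (q : ℕ) : aU q 0 = 1 := by simp [aU]

theorem aU_succ (q s : ℕ) : aU q (s + 1) = (q + 1) * q ^ s := by simp [aU]

theorem MU_base (q k n : ℕ) : MU q 0 k n = if n = 0 then 1 else 0 := by simp [MU]

theorem MU_succ (q l k n : ℕ) : MU q (l + 1) k n =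
    ∑ s ∈ range (n + 1), if k * s ≤ n then aU q s * MU q l (k + 1) (n - k * s) else 0 := by simp [MU]

theorem UU_zero (q l k : ℕ) : UU q l k 0 = MU q l k 0 := by simp [UU]

theorem UU_succ (q l k n : ℕ) : UU q l k (n + 1) = q * UU q l k n + MU q l k (n + 1) := by simp [UU]

theorem MU_zero (q l k : ℕ) : MU q l k 0 = 1 := by
  induction l generalizing k with
  | zero => simp [MU_base]
  | succ l ih => simp [MU_succ, ih, aU_zero]

theorem MU_lt (q l : ℕ) {k n : ℕ} (h : n < k) : MU q (l + 1) k n = MU q l (k + 1) n := by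
  rw [MU_succ, Finset.sum_eq_single 0]
  · simp [aU_zero]
  · intro s _ hs
    have : k * 1 ≤ k * s := Nat.mul_le_mul_left k (by omega)
    rw [if_neg (by omega)]
  · simp

theorem MU_eq_zero (q l : ℕ) {k n : ℕ} (hn : 0 < n) (h : n < k) : MU q l k n = 0 := by
  induction l generalizing k with
  | zero => simp [MU_base]; omega
  | succ l ih => rw [MU_lt q l h]; exact ih (by omega)

theorem MU_stable (q : ℕ) : ∀ l k n, 1 ≤ k → n < k + l → MU q (l + 1) k n = MU q l k n := by
  intro l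
  induction l with
  | zero =>
    intro k n hk h
    rcases Nat.eq_zero_or_pos n with rfl | hn
    · simp [MU_zero]
    · rw [MU_eq_zero q _ hn (by omega), MU_eq_zero q _ hn (by omega)]
  | succ l ih =>
    intro k n hk h
    rw [MU_succ q (l + 1), MU_succ q l]
    refine sum_congr rfl fun s _ => ?_
    split_ifs
    · rw [ih (k + 1) _ (by omega) (by omega)]
    · rfl

theorem MU_mono (q : ℕ) : ∀ l k n, MU q l k n ≤ MU q (l + 1) k n := by
  intro l
  induction l with
  | zero =>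
    intro k n
    rcases Nat.eq_zero_or_pos n with rfl | hn
    · simp [MU_zero]
    · simp [MU_base, hn.ne']
  | succ l ih =>
    intro k n
    rw [MU_succ q (l + 1), MU_succ q l]
    refine sum_le_sum fun s _ => ?_
    split_ifs
    · exact Nat.mul_le_mul_left _ (ih _ _)
    · rfl

/-- Only `n` positions matter. -/
theorem MU_le_self (q : ℕ) {k : ℕ} (hk : 1 ≤ k) (l n : ℕ) : MU q l k n ≤ MU q n k n := by
  rcases Nat.le_total n l with h | h
  · obtain ⟨j, rfl⟩ : ∃ j, l = n + j := ⟨l - n, by omega⟩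
    refine le_of_eq ?_
    induction j with
    | zero => rfl
    | succ j ih => rw [← Nat.add_assoc, MU_stable q _ k n hk (by omega), ih (by omega)]
  · exact monotone_nat_of_le_succ (fun l => MU_mono q l k n) h

theorem MU_rec (q l : ℕ) {k : ℕ} (hk : 1 ≤ k) (m : ℕ) :
    MU q (l + 1) k (m + k) = q * MU q (l + 1) k m + MU q l (k + 1) m + MU q l (k + 1) (m + k) := by
  rw [MU_succ, MU_succ, Finset.sum_range_succ' _ (m + k), Finset.mul_sum]
  simp only [Nat.mul_zero, Nat.zero_le, if_true, Nat.sub_zero, aU_zero, one_mul]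
  have e1 : ∀ s : ℕ, (if k * (s + 1) ≤ m + k then aU q (s + 1) * MU q l (k + 1) (m + k - k * (s + 1)) else 0)
      = if k * s ≤ m then aU q (s + 1) * MU q l (k + 1) (m - k * s) else 0 := fun s => by
    rw [Nat.mul_succ]
    by_cases h : k * s ≤ m
    · rw [if_pos h, if_pos (by omega), show m + k - (k * s + k) = m - k * s by omega]
    · rw [if_neg h, if_neg (by omega)]
  simp only [e1]
  rw [← Finset.sum_subset (s₁ := range (m + 1)) (s₂ := range (m + k))
    (fun x hx => by simp only [mem_range] at hx ⊢; omega)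
    (fun x _ hx => by
      simp only [mem_range, not_lt] at hx
      have : 1 * x ≤ k * x := Nat.mul_le_mul_right x hk
      rw [if_neg (by omega)])]
  rw [Finset.sum_range_succ' (fun s => if k * s ≤ m then aU q (s + 1) * MU q l (k + 1) (m - k * s) else 0),
    Finset.sum_range_succ' (fun s => q * (if k * s ≤ m then aU q s * MU q l (k + 1) (m - k * s) else 0))]
  simp only [Nat.mul_zero, Nat.zero_le, if_true, Nat.sub_zero, aU_zero, one_mul, aU_succ, pow_succ, pow_zero,
    mul_one]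
  have e2 : ∀ s : ℕ, (if k * (s + 1) ≤ m then (q + 1) * (q ^ s * q) * MU q l (k + 1) (m - k * (s + 1)) else 0)
      = q * (if k * (s + 1) ≤ m then (q + 1) * q ^ s * MU q l (k + 1) (m - k * (s + 1)) else 0) := fun s => by
    split_ifs <;> ring
  simp only [e2]
  ring

theorem MU_self (q l : ℕ) {k : ℕ} (hk : 1 ≤ k) : MU q (l + 1) k k = q + 1 + MU q l (k + 1) k := by
  simpa [MU_zero] using MU_rec q l hk 0

theorem UU_lt (q l : ℕ) {k n : ℕ} (h : n < k) : UU q (l + 1) k n = UU q l (k + 1) n := by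
  induction n with
  | zero => simp [UU_zero, MU_zero]
  | succ n ih => rw [UU_succ, UU_succ, ih (by omega), MU_lt q l h]

theorem UU_rec (q l : ℕ) {k : ℕ} (hk : 1 ≤ k) (m : ℕ) :
    UU q (l + 1) k (m + k) = q * UU q (l + 1) k m + UU q l (k + 1) m + UU q l (k + 1) (m + k) := by
  induction m with
  | zero =>
    obtain ⟨j, rfl⟩ : ∃ j, k = j + 1 := ⟨k - 1, by omega⟩
    rw [Nat.zero_add, UU_succ, UU_succ, UU_zero, UU_zero, MU_zero, MU_zero, UU_lt q l (Nat.lt_succ_self j),
      MU_self q l hk]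
    ring
  | succ m ih =>
    rw [show m + 1 + k = m + k + 1 by omega, UU_succ, UU_succ, UU_succ, UU_succ, ih,
      ← show m + 1 + k = m + k + 1 by omega, MU_rec q l hk (m + 1)]
    ring

theorem mul_UU_le (q l k n d : ℕ) : q ^ d * UU q l k n ≤ UU q l k (n + d) := by
  induction d with
  | zero => simp
  | succ d ih =>
    rw [← Nat.add_assoc, UU_succ, pow_succ']
    calc q * q ^ d * UU q l k n = q * (q ^ d * UU q l k n) := by ring
      _ ≤ q * UU q l k (n + d) := Nat.mul_le_mul_left q ih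
      _ ≤ _ := Nat.le_add_right _ _

theorem UU_ratio {q : ℕ} (hq : 1 ≤ q) (l : ℕ) {k : ℕ} (hk : 1 ≤ k) :
    ∀ n, (q ^ k - q) * UU q (l + 1) k n ≤ (q ^ k + 1) * UU q l (k + 1) n := by
  intro n
  induction n using Nat.strong_induction_on with
  | _ n ih =>
    rcases Nat.lt_or_ge n k with h | h
    · rw [UU_lt q l h]; exact Nat.mul_le_mul_right _ (by omega)
    · obtain ⟨m, rfl⟩ : ∃ m, n = m + k := ⟨n - k, by omega⟩
      rw [UU_rec q l hk m]
      have h1 := Nat.mul_le_mul_left q (ih m (by omega))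
      have h2 := mul_UU_le q l (k + 1) m k
      obtain ⟨d, hd⟩ : ∃ d, q ^ k = q + d := ⟨q ^ k - q, by
        have : q ^ 1 ≤ q ^ k := Nat.pow_le_pow_right hq hk
        rw [pow_one] at this; omega⟩
      rw [hd, Nat.add_sub_cancel_left] at h1 ⊢
      rw [hd] at h2
      nlinarith [Nat.mul_le_mul_left (q + 1) h2]

theorem UU_high_key {q B d : ℕ} (hq : 2 ≤ q) (hB : 8 ≤ B) (hd : q * B = q + d) :
    (q * B + 1) * (2 * (q * B) + 9) ≤ d * q * (2 * B + 9) := by
  obtain ⟨b, rfl⟩ : ∃ b, B = b + 8 := ⟨B - 8, by omega⟩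
  obtain ⟨r, rfl⟩ : ∃ r, q = r + 2 := ⟨q - 2, by omega⟩
  have : d = (r + 2) * (b + 7) := by nlinarith
  subst this
  nlinarith [mul_nonneg (Nat.zero_le r) (Nat.zero_le b), mul_nonneg (Nat.zero_le r) (Nat.zero_le r)]

theorem UU_high {q : ℕ} (hq : 2 ≤ q) (l : ℕ) :
    ∀ k, 4 ≤ k → ∀ n, 2 * q ^ (k - 1) * UU q l k n ≤ (2 * q ^ (k - 1) + 9) * q ^ n := by
  induction l with
  | zero =>
    intro k _ n
    have hU : ∀ m, UU q 0 k m = q ^ m := fun m => by
      induction m with
      | zero => simp [UU_zero, MU_zero]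
      | succ m ih => rw [UU_succ, ih, MU_base, if_neg (by omega)]; ring
    rw [hU]
    exact Nat.mul_le_mul_right _ (Nat.le_add_right _ _)
  | succ l ih =>
    intro k hk n
    obtain ⟨j, rfl⟩ : ∃ j, k = j + 1 := ⟨k - 1, by omega⟩
    have h2 := ih (j + 1 + 1) (by omega) n
    simp only [Nat.add_sub_cancel] at h2 ⊢
    have hr := UU_ratio (show 1 ≤ q by omega) l (k := j + 1) (by omega) n
    have hQ : q ^ (j + 1) = q * q ^ j := pow_succ' q j
    have h8 : q ^ 3 ≤ q ^ j := Nat.pow_le_pow_right (by omega) (by omega)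
    set B := q ^ j with hB
    have hB8 : 8 ≤ B := le_trans (by
      calc (8 : ℕ) = 2 ^ 3 := by norm_num
        _ ≤ q ^ 3 := Nat.pow_le_pow_left hq 3) h8
    rw [hQ] at h2 hr
    obtain ⟨d, hd⟩ : ∃ d, q * B = q + d := ⟨q * B - q, by
      have : q * 1 ≤ q * B := Nat.mul_le_mul_left q (by omega)
      omega⟩
    have hd' : d = q * B - q := by omega
    rw [← hd'] at hr
    set A := UU q (l + 1) (j + 1) n
    set A' := UU q l (j + 1 + 1) n
    set P := q ^ n
    have key : (q * B + 1) * (2 * (q * B) + 9) ≤ d * q * (2 * B + 9) :=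
      UU_high_key hq hB8 hd
    have hd0 : 0 < d * q := Nat.mul_pos (by
      have : q * 8 ≤ q * B := Nat.mul_le_mul_left q hB8
      omega) (by omega)
    refine Nat.le_of_mul_le_mul_left ?_ hd0
    calc d * q * (2 * B * A) = (2 * (q * B)) * (d * A) := by ring
      _ ≤ (2 * (q * B)) * ((q * B + 1) * A') := Nat.mul_le_mul_left _ hr
      _ = (q * B + 1) * (2 * (q * B) * A') := by ring
      _ ≤ (q * B + 1) * ((2 * (q * B) + 9) * P) := Nat.mul_le_mul_left _ h2
      _ = (q * B + 1) * (2 * (q * B) + 9) * P := by ring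
      _ ≤ d * q * (2 * B + 9) * P := Nat.mul_le_mul_right _ key
      _ = _ := by ring

/-- The weighted sum over families without index one. -/
theorem UU_two {q : ℕ} (hq : 2 ≤ q) (l n : ℕ) :
    (q ^ 2 - q) * (q ^ 3 - q) * (2 * q ^ 3) * UU q l 2 n ≤
      (q ^ 2 + 1) * (q ^ 3 + 1) * (2 * q ^ 3 + 9) * q ^ n := by
  rcases l with _ | _ | l
  rotate_left 2
  · have a := UU_ratio (show 1 ≤ q by omega) (l + 1) (k := 2) (by norm_num) n
    have b := UU_ratio (show 1 ≤ q by omega) l (k := 3) (by norm_num) n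
    have c := UU_high hq l 4 le_rfl n
    calc _ = (q ^ 3 - q) * (2 * q ^ 3) * ((q ^ 2 - q) * UU q (l + 1 + 1) 2 n) := by ring
      _ ≤ (q ^ 3 - q) * (2 * q ^ 3) * ((q ^ 2 + 1) * UU q (l + 1) 3 n) := Nat.mul_le_mul_left _ a
      _ = (q ^ 2 + 1) * (2 * q ^ 3) * ((q ^ 3 - q) * UU q (l + 1) 3 n) := by ring
      _ ≤ (q ^ 2 + 1) * (2 * q ^ 3) * ((q ^ 3 + 1) * UU q l 4 n) := Nat.mul_le_mul_left _ b
      _ = (q ^ 2 + 1) * (q ^ 3 + 1) * (2 * q ^ (4 - 1) * UU q l 4 n) := by norm_num; ring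
      _ ≤ (q ^ 2 + 1) * (q ^ 3 + 1) * ((2 * q ^ (4 - 1) + 9) * q ^ n) := Nat.mul_le_mul_left _ c
      _ = _ := by norm_num; ring
  all_goals
    have hU0 : ∀ k m, UU q 0 k m = q ^ m := fun k m => by
      induction m with
      | zero => simp [UU_zero, MU_zero]
      | succ m ih => rw [UU_succ, ih, MU_base, if_neg (by omega)]; ring
  · rw [hU0]
    exact Nat.mul_le_mul_right _ (Nat.mul_le_mul (Nat.mul_le_mul (by omega) (by omega)) (Nat.le_add_right _ _))
  · have a := UU_ratio (show 1 ≤ q by omega) 0 (k := 2) (by norm_num) n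
    rw [hU0] at a
    calc _ = (q ^ 3 - q) * (2 * q ^ 3) * ((q ^ 2 - q) * UU q 1 2 n) := by ring
      _ ≤ (q ^ 3 - q) * (2 * q ^ 3) * ((q ^ 2 + 1) * q ^ n) := Nat.mul_le_mul_left _ a
      _ ≤ (q ^ 3 + 1) * (2 * q ^ 3 + 9) * ((q ^ 2 + 1) * q ^ n) :=
          Nat.mul_le_mul_right _ (Nat.mul_le_mul (by omega) (Nat.le_add_right _ _))
      _ = _ := by ring

theorem UU_two_bot (l n : ℕ) : 192 * UU 2 l 2 n ≤ 1125 * 2 ^ n := by
  have := UU_two (q := 2) le_rfl l n
  norm_num at this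
  omega

/-- Families with indices at least three, `q = 2`. -/
theorem MU_two_F : ∀ n, 1 ≤ n → ∀ l k, 3 ≤ k → 2 ^ k * MU 2 l k n ≤ 3 * 2 ^ n := by
  intro n
  induction n using Nat.strong_induction_on with
  | _ n ih =>
    intro hn l
    induction l with
    | zero => intro k _; rw [MU_base, if_neg (by omega)]; simp
    | succ l ihl =>
      intro k hk
      rcases lt_trichotomy n k with h | rfl | h
      · rw [MU_eq_zero 2 _ (by omega) h]; simp
      · rw [MU_self 2 l (by omega), MU_eq_zero 2 l (by omega) (Nat.lt_succ_self n), Nat.mul_comm]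
      · obtain ⟨m, rfl⟩ : ∃ m, n = m + k := ⟨n - k, by omega⟩
        rw [MU_rec 2 l (by omega) m]
        have a := ih m (by omega) (by omega) (l + 1) k hk
        have b := ih m (by omega) (by omega) l (k + 1) (by omega)
        have c := ihl (k + 1) (by omega)
        rw [pow_succ] at b c
        have h8 : 2 ^ 3 ≤ 2 ^ k := Nat.pow_le_pow_right (by norm_num) hk
        simp only [pow_add] at c ⊢
        have h9 := Nat.mul_le_mul_left (2 ^ m) h8
        nlinarith

theorem MU_two_high : ∀ n, 8 ≤ n → ∀ l k, 4 ≤ k → 8 * MU 2 l k n ≤ 2 ^ n := by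
  intro n hn l
  induction l with
  | zero => intro k _; rw [MU_base, if_neg (by omega)]; simp
  | succ l ihl =>
    intro k hk
    have hF := MU_two_F n (by omega) (l + 1) k (by omega)
    rcases Nat.lt_or_ge k 5 with h | h
    · obtain rfl : k = 4 := by omega
      obtain ⟨m, rfl⟩ : ∃ m, n = m + 4 := ⟨n - 4, by omega⟩
      rw [MU_rec 2 l (by norm_num) m]
      have a := MU_two_F m (by omega) (l + 1) 4 (by norm_num)
      have b := MU_two_F m (by omega) l (4 + 1) (by norm_num)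
      have c := MU_two_F (m + 4) (by omega) l (4 + 1) (by norm_num)
      simp only [pow_add] at c ⊢
      norm_num at a b c ⊢
      omega
    · have : 2 ^ 5 ≤ 2 ^ k := Nat.pow_le_pow_right (by norm_num) h
      have := Nat.mul_le_mul_right (MU 2 (l + 1) k n) this
      norm_num at this
      omega

theorem MU_two_three (l : ℕ) : ∀ n, 8 ≤ n → 4 * MU 2 l 3 n ≤ 2 ^ n := by
  intro n hn
  rcases Nat.lt_or_ge n 11 with h | h
  · refine le_trans (Nat.mul_le_mul_left 4 (MU_le_self 2 (by norm_num) l n)) ?_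
    interval_cases n <;> decide +kernel
  rcases l with _ | l
  · rw [MU_base, if_neg (by omega)]; simp
  obtain ⟨m, rfl⟩ : ∃ m, n = m + 3 := ⟨n - 3, by omega⟩
  rw [MU_rec 2 l (by norm_num) m]
  have a := MU_two_F m (by omega) (l + 1) 3 le_rfl
  have b := MU_two_F m (by omega) l (3 + 1) (by norm_num)
  have c := MU_two_high (m + 3) (by omega) l (3 + 1) (by norm_num)
  simp only [pow_add] at c ⊢
  norm_num at a b c ⊢
  omega

theorem MU_two_two : ∀ n, 3 ≤ n → ∀ l, 25 * MU 2 l 2 n ≤ 16 * 2 ^ n := by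
  intro n
  induction n using Nat.strong_induction_on with
  | _ n ih =>
    intro hn l
    rcases Nat.lt_or_ge n 11 with h | h
    · refine le_trans (Nat.mul_le_mul_left 25 (MU_le_self 2 (by norm_num) l n)) ?_
      interval_cases n <;> decide +kernel
    rcases l with _ | l
    · rw [MU_base, if_neg (by omega)]; simp
    obtain ⟨m, rfl⟩ : ∃ m, n = m + 2 := ⟨n - 2, by omega⟩
    rw [MU_rec 2 l (by norm_num) m]
    have a := ih m (by omega) (by omega) (l + 1)
    have b := MU_two_three l m (by omega)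
    have c := MU_two_three l (m + 2) (by omega)
    simp only [pow_add] at c ⊢
    norm_num at a b c ⊢
    omega

theorem sum_totient_erase_one' {g : ℕ} (hg : 0 < g) : ∑ d ∈ g.divisors.erase 1, Nat.totient d = g - 1 := by
  have := add_sum_erase g.divisors Nat.totient (Nat.one_mem_divisors.2 hg.ne')
  rw [Nat.totient_one, Nat.sum_totient] at this
  omega

/-- The term of the bound for `SU`: determinant a `d`-th root of unity, weight `n / d`. -/
def suTerm (q n d : ℕ) : ℕ := MU q (n / d - 1) 2 (n / d) + d * UU q (n / d - 1) 2 (n / d - 1)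

/-- The bound for `k (SU n q)`. -/
def suSum (q n : ℕ) : ℕ := ∑ d ∈ (Nat.gcd n (q + 1)).divisors, Nat.totient d * suTerm q n d

theorem suSum_two {n : ℕ} (hn : 2 ≤ n) : 100 * suSum 2 n ≤ 826 * 2 ^ (n - 1) := by
  rcases Nat.lt_or_ge n 9 with h | h
  · interval_cases n <;> decide +kernel
  obtain ⟨m, rfl⟩ : ∃ m, n = m + 1 := ⟨n - 1, by omega⟩
  rw [Nat.add_sub_cancel]
  have h1 : 100 * suTerm 2 (m + 1) 1 ≤ 714 * 2 ^ m := by
    rw [suTerm, Nat.div_one, Nat.add_sub_cancel, one_mul]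
    have a := UU_two_bot m m
    have b := MU_two_two (m + 1) (by omega) m
    rw [pow_succ] at b
    omega
  rcases (Nat.dvd_prime Nat.prime_three).1 (show Nat.gcd (m + 1) (2 + 1) ∣ 3 from Nat.gcd_dvd_right _ _) with hg | hg
  · rw [suSum, hg, Nat.divisors_one, sum_singleton, Nat.totient_one, one_mul]; omega
  · obtain ⟨j, hj⟩ : 3 ∣ m + 1 := hg ▸ Nat.gcd_dvd_left _ _
    obtain ⟨i, rfl⟩ : ∃ i, j = i + 3 := ⟨j - 3, by omega⟩
    rw [suSum, hg, Nat.prime_three.divisors, sum_pair (by norm_num), Nat.totient_one, one_mul,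
      Nat.totient_prime Nat.prime_three]
    have h3 : suTerm 2 (m + 1) 3 = MU 2 (i + 2) 2 (i + 3) + 3 * UU 2 (i + 2) 2 (i + 2) := by
      rw [suTerm, hj, Nat.mul_div_cancel_left _ (by norm_num : 0 < 3)]
      rfl
    have a := UU_two_bot (i + 2) (i + 2)
    have a' := UU_two_bot (i + 2) (i + 3)
    have e : UU 2 (i + 2) 2 (i + 3) = 2 * UU 2 (i + 2) 2 (i + 2) + MU 2 (i + 2) 2 (i + 3) :=
      UU_succ 2 (i + 2) 2 (i + 2)
    have hp : 2 ^ m = 2 ^ i * 2 ^ (2 * i + 8) := by rw [← pow_add]; congr 1; omega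
    have h8 : 2 ^ 8 ≤ 2 ^ (2 * i + 8) := Nat.pow_le_pow_right (by norm_num) (by omega)
    have h9 := Nat.mul_le_mul_left (2 ^ i) h8
    rw [← hp] at h9
    simp only [pow_add] at a a'
    norm_num at a a' h9
    omega

theorem suTerm_le_UU {q : ℕ} (hq : 1 ≤ q) {n d : ℕ} (hd : d ≤ q) (hm : 0 < n / d) :
    suTerm q n d + (q - d) * UU q (n / d - 1) 2 (n / d - 1) = UU q (n / d - 1) 2 (n / d) := by
  obtain ⟨m, hm'⟩ : ∃ m, n / d = m + 1 := ⟨n / d - 1, by omega⟩
  rw [suTerm, hm', Nat.add_sub_cancel, UU_succ]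
  obtain ⟨r, rfl⟩ : ∃ r, q = d + r := ⟨q - d, by omega⟩
  rw [Nat.add_sub_cancel_left]
  ring

theorem UU_two_crude {q : ℕ} (hq : 3 ≤ q) (l n : ℕ) : 2 * q * UU q l 2 n ≤ (2 * q + 8) * q ^ n := by
  have h := UU_two (show 2 ≤ q by omega) l n
  have hpos : 0 < (q ^ 2 - q) * (q ^ 3 - q) * (2 * q ^ 3) := by
    have h2 : q ^ 1 < q ^ 2 := Nat.pow_lt_pow_right (by omega) (by norm_num)
    have h3 : q ^ 1 < q ^ 3 := Nat.pow_lt_pow_right (by omega) (by norm_num)
    rw [pow_one] at h2 h3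
    exact Nat.mul_pos (Nat.mul_pos (by omega) (by omega)) (Nat.mul_pos (by norm_num) (pow_pos (by omega) 3))
  have key : 2 * q * ((q ^ 2 + 1) * (q ^ 3 + 1) * (2 * q ^ 3 + 9)) ≤
      (2 * q + 8) * ((q ^ 2 - q) * (q ^ 3 - q) * (2 * q ^ 3)) := by
    obtain ⟨r, rfl⟩ : ∃ r, q = r + 3 := ⟨q - 3, by omega⟩
    rw [show (r + 3) ^ 2 - (r + 3) = (r + 3) * (r + 2) from Nat.sub_eq_of_eq_add (by ring),
      show (r + 3) ^ 3 - (r + 3) = (r + 3) * (r + 4) * (r + 2) from Nat.sub_eq_of_eq_add (by ring)]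
    ring_nf
    linarith [Nat.zero_le r, Nat.zero_le (r ^ 2), Nat.zero_le (r ^ 3), Nat.zero_le (r ^ 4), Nat.zero_le (r ^ 5),
      Nat.zero_le (r ^ 6), Nat.zero_le (r ^ 7), Nat.zero_le (r ^ 8), Nat.zero_le (r ^ 9), Nat.zero_le (r ^ 10)]
  refine Nat.le_of_mul_le_mul_left ?_ hpos
  calc _ = 2 * q * ((q ^ 2 - q) * (q ^ 3 - q) * (2 * q ^ 3) * UU q l 2 n) := by ring
    _ ≤ 2 * q * ((q ^ 2 + 1) * (q ^ 3 + 1) * (2 * q ^ 3 + 9) * q ^ n) := Nat.mul_le_mul_left _ h
    _ = 2 * q * ((q ^ 2 + 1) * (q ^ 3 + 1) * (2 * q ^ 3 + 9)) * q ^ n := by ring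
    _ ≤ (2 * q + 8) * ((q ^ 2 - q) * (q ^ 3 - q) * (2 * q ^ 3)) * q ^ n := Nat.mul_le_mul_right _ key
    _ = _ := by ring

theorem suTerm_two (q : ℕ) : suTerm q 2 1 = (q + 1) + q := by
  simp [suTerm, MU_succ, MU_base, UU_succ, UU_zero, MU_zero, Finset.sum_range_succ, aU_zero, aU_succ]

theorem suTerm_three (q : ℕ) : suTerm q 3 1 = (q + 1) + (q * q + (q + 1)) := by
  simp [suTerm, MU_succ, MU_base, UU_succ, UU_zero, MU_zero, Finset.sum_range_succ, aU_zero, aU_succ]

theorem suTerm_self (q : ℕ) {n : ℕ} (hn : 0 < n) : suTerm q n n = n := by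
  simp [suTerm, Nat.div_self hn, MU_base, UU_zero, MU_zero]

theorem suSum_large {q : ℕ} (hq : 3 ≤ q) {n : ℕ} (hn : 4 ≤ n) : 100 * suSum q n ≤ 826 * q ^ (n - 1) := by
  set g := Nat.gcd n (q + 1) with hg
  have hgpos : 0 < g := Nat.gcd_pos_of_pos_right _ (by omega)
  have hgle : g ≤ q + 1 := Nat.le_of_dvd (by omega) (Nat.gcd_dvd_right _ _)
  obtain ⟨m, rfl⟩ : ∃ m, n = m + 1 := ⟨n - 1, by omega⟩
  rw [Nat.add_sub_cancel, suSum, ← hg, ← add_sum_erase _ _ (Nat.one_mem_divisors.2 hgpos.ne'), Nat.totient_one, one_mul]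
  set P := q ^ m with hP
  have hmain : suTerm q (m + 1) 1 ≤ 5 * P := by
    have e := suTerm_le_UU (q := q) (n := m + 1) (d := 1) (by omega) (by omega) (by simp)
    rw [Nat.div_one, Nat.add_sub_cancel] at e
    have a := UU_two_crude hq m (m + 1)
    have b := mul_UU_le q m 2 0 m
    rw [UU_zero, MU_zero, mul_one, Nat.zero_add, ← hP] at b
    rw [pow_succ, ← hP] at a
    have a' : UU q m 2 (m + 1) ≤ (q + 4) * P := by
      refine Nat.le_of_mul_le_mul_left ?_ (show 0 < 2 * q by omega)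
      calc _ ≤ (2 * q + 8) * (P * q) := a
        _ = _ := by ring
    have b' := Nat.mul_le_mul_left (q - 1) b
    obtain ⟨r, rfl⟩ : ∃ r, q = r + 1 := ⟨q - 1, by omega⟩
    rw [Nat.add_sub_cancel] at e b'
    nlinarith
  have hterm : ∀ d ∈ g.divisors.erase 1, Nat.totient d * suTerm q (m + 1) d ≤
      (if d = 2 then 3 * q ^ ((m + 1) / 2) else 0) + Nat.totient d * (4 * q ^ ((m + 1) / 3)) := by
    intro d hd
    rw [mem_erase] at hd
    have hd2 : 2 ≤ d := by have := Nat.pos_of_mem_divisors hd.2; omega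
    have hdn : d ∣ m + 1 := (Nat.dvd_of_mem_divisors hd.2).trans (Nat.gcd_dvd_left _ _)
    have hk : 0 < (m + 1) / d := Nat.div_pos (Nat.le_of_dvd (by omega) hdn) (by omega)
    have hdq : d ≤ q + 1 := (Nat.divisor_le hd.2).trans hgle
    obtain ⟨j, hj⟩ : ∃ j, (m + 1) / d = j + 1 := ⟨(m + 1) / d - 1, by omega⟩
    have a := UU_two_crude hq j (j + 1)
    have b := UU_two_crude hq j j
    rw [pow_succ] at a
    by_cases h2 : d = 2
    · subst h2
      rw [if_pos rfl, Nat.totient_two, one_mul, suTerm, hj, Nat.add_sub_cancel]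
      have h' : MU q j 2 (j + 1) + 2 * UU q j 2 j ≤ UU q j 2 (j + 1) := by
        rw [UU_succ]
        have := Nat.mul_le_mul_right (UU q j 2 j) (show 2 ≤ q by omega)
        omega
      have h3 : UU q j 2 (j + 1) ≤ 3 * q ^ (j + 1) := by
        refine Nat.le_of_mul_le_mul_left ?_ (show 0 < 2 * q by omega)
        refine a.trans ?_
        rw [pow_succ]
        calc (2 * q + 8) * (q ^ j * q) ≤ (6 * q) * (q ^ j * q) := Nat.mul_le_mul_right _ (by omega)
          _ = _ := by ring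
      exact ((h'.trans h3)).trans (Nat.le_add_right _ _)
    · rw [if_neg h2, Nat.zero_add]
      refine Nat.mul_le_mul_left _ (le_trans ?_ (Nat.mul_le_mul_left 4 (Nat.pow_le_pow_right (show 0 < q by omega)
        (hj ▸ Nat.div_le_div_left (show 3 ≤ d by omega) (by norm_num) : j + 1 ≤ (m + 1) / 3))))
      rw [suTerm, hj, Nat.add_sub_cancel]
      have h' : MU q j 2 (j + 1) + d * UU q j 2 j ≤ UU q j 2 (j + 1) + UU q j 2 j := by
        rw [UU_succ]
        have := Nat.mul_le_mul_right (UU q j 2 j) hdq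
        rw [add_mul, one_mul] at this
        omega
      refine h'.trans (Nat.le_of_mul_le_mul_left ?_ (show 0 < 2 * q by omega))
      rw [pow_succ, mul_add]
      refine (Nat.add_le_add a b).trans ?_
      calc (2 * q + 8) * (q ^ j * q) + (2 * q + 8) * q ^ j = ((2 * q + 8) * (q + 1)) * q ^ j := by ring
        _ ≤ (8 * q * q) * q ^ j := Nat.mul_le_mul_right _ (by nlinarith)
        _ = _ := by ring
  have hrest : ∑ d ∈ g.divisors.erase 1, Nat.totient d * suTerm q (m + 1) d ≤ 3 * P := by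
    refine (sum_le_sum hterm).trans ?_
    rw [sum_add_distrib, ← sum_mul, sum_totient_erase_one' hgpos, sum_ite_eq' (g.divisors.erase 1) 2]
    have x : (if 2 ∈ g.divisors.erase 1 then 3 * q ^ ((m + 1) / 2) else 0) ≤ 3 * q ^ ((m + 1) / 2) := by
      split_ifs <;> omega
    have y : (g - 1) * (4 * q ^ ((m + 1) / 3)) ≤ q * (4 * q ^ ((m + 1) / 3)) := Nat.mul_le_mul_right _ (by omega)
    have x2 : q * q ^ ((m + 1) / 2) ≤ P := by
      rw [hP, ← pow_succ']; exact Nat.pow_le_pow_right (by omega) (by omega)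
    have y2 : q * (q * q ^ ((m + 1) / 3)) ≤ P := by
      rw [hP, ← pow_succ', ← pow_succ']; exact Nat.pow_le_pow_right (by omega) (by omega)
    have x3 := Nat.mul_le_mul_right (q ^ ((m + 1) / 2)) hq
    have y3 := Nat.mul_le_mul_right (q * q ^ ((m + 1) / 3)) hq
    have y4 : q * (4 * q ^ ((m + 1) / 3)) = 4 * (q * q ^ ((m + 1) / 3)) := by ring
    omega
  omega

theorem suSum_le {q : ℕ} (hq : 2 ≤ q) {n : ℕ} (hn : 2 ≤ n) : 100 * suSum q n ≤ 826 * q ^ (n - 1) := by
  rcases (show q = 2 ∨ 3 ≤ q by omega) with rfl | hq3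
  · exact suSum_two hn
  rcases (show n = 2 ∨ n = 3 ∨ 4 ≤ n by omega) with rfl | rfl | h4
  · rcases (Nat.dvd_prime Nat.prime_two).1 (Nat.gcd_dvd_left 2 (q + 1)) with h | h
    · rw [suSum, h, Nat.divisors_one, sum_singleton, Nat.totient_one, one_mul, suTerm_two]; norm_num; omega
    · rw [suSum, h, Nat.prime_two.divisors, sum_pair (by norm_num), suTerm_two, suTerm_self _ (by norm_num),
        Nat.totient_one, Nat.totient_two]
      norm_num; omega
  · rcases (Nat.dvd_prime Nat.prime_three).1 (Nat.gcd_dvd_left 3 (q + 1)) with h | h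
    · rw [suSum, h, Nat.divisors_one, sum_singleton, Nat.totient_one, one_mul, suTerm_three]; norm_num; nlinarith
    · rw [suSum, h, Nat.prime_three.divisors, sum_pair (by norm_num), suTerm_three, suTerm_self _ (by norm_num),
        Nat.totient_one, Nat.totient_prime Nat.prime_three]
      norm_num; nlinarith
  · exact suSum_large hq3 h4

end CfsgLib.CharDegrees.ClassCount
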